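import Cfsg.Agent.PERM.F4.Hy

/-!
S3404, Case II: the blocks `Fx (Sy Q)`.
-/

set_option autoImplicit false

namespace CL.F4

open scoped Pointwise

variable {G Ω : Type*} [Group G] [Finite G] [MulAction G Ω] [Fintype Ω] [DecidableEq Ω]

namespace BK

theorem T4' (hy : Hyp2 G Ω) {Q : Finset Ω} (hQ : Q.card = 4) :
    (((Fx Ω (Sy G Q)).card = 4 ∨ (Fx Ω (Sy G Q)).card = 5) ∧
        (act (inv_Fx (Ω := Ω) (Sy G Q))).range = ⊤) ∨
      (((Fx Ω (Sy G Q)).card = 6 ∨ (Fx Ω (Sy G Q)).card = 7) ∧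
        (act (inv_Fx (Ω := Ω) (Sy G Q))).range = alternatingGroup (Fx Ω (Sy G Q))) ∨
      (Fx Ω (Sy G Q)).card = 11 :=
  (T4 (inv_Fx _) (hy.tr_Sy hQ) (sub_Fx_Sy Q) hQ fun _ _ hg h2 =>
    le_St_iff.2 subset_rfl (mem_Sy_of hg h2)).imp_right fun h => h.imp_right fun h => h.1

theorem T (hy : Hyp2 G Ω) {Q : Finset Ω} (hQ : Q.card = 4) :
    (Fx Ω (Sy G Q)).card = 4 ∨ (Fx Ω (Sy G Q)).card = 5 ∨ (Fx Ω (Sy G Q)).card = 6 ∨
      (Fx Ω (Sy G Q)).card = 7 ∨ (Fx Ω (Sy G Q)).card = 11 := by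
  rcases T4' hy hQ with h | h | h
  · have := h.1; omega
  · have := h.1; omega
  · omega

theorem alt (hy : Hyp2 G Ω) {Q : Finset Ω} (hQ : Q.card = 4)
    (h : (Fx Ω (Sy G Q)).card = 6 ∨ (Fx Ω (Sy G Q)).card = 7) :
    (act (inv_Fx (Ω := Ω) (Sy G Q))).range = alternatingGroup (Fx Ω (Sy G Q)) := by
  rcases T4' hy hQ with h' | h' | h'
  · have := h'.1; omega
  · exact h'.2
  · omega

theorem eq (hy : Hyp2 G Ω) {Q Q' : Finset Ω} (hQ : Q.card = 4) (hQ' : Q'.card = 4)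
    (h : Q' ⊆ Fx Ω (Sy G Q)) : Fx Ω (Sy G Q') = Fx Ω (Sy G Q) := by
  rw [hy.Sy_eq hQ hQ' h]

theorem main (hy : Hyp2 G Ω) {f : ℕ}
    (hf : ∀ Q : Finset Ω, Q.card = 4 → (Fx Ω (Sy G Q)).card = f)
    (hc : f = 5 ∨ f = 6 ∨ f = 7 ∨ f = 11) {P : Subgroup G} (hP : PMax Ω f P) :
    f = 7 ∧ (Fx Ω P).card = 23 := by
  have hbig := hP.big
  obtain ⟨Q, hQF, hQ⟩ := Finset.exists_subset_card_eq (show 4 ≤ (Fx Ω P).card by omega)
  have hsub : ∀ Q' : Finset Ω, Q' ⊆ Fx Ω P → Q'.card = 4 → Fx Ω (Sy G Q') ⊆ Fx Ω P :=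
    fun Q' h h4 => Fx_anti (hP.lt_Sy (hf Q' h4) h).1
  obtain ⟨x, hxS, hxP, hxn, hxx⟩ := exists_norm_two (hy.pg hQ) (hP.lt_Sy (hf Q hQ) hQF).1
    (hP.lt_Sy (hf Q hQ) hQF).2
  have hfix := hP.fix hy hQ (hf Q hQ) hQF hxS hxP
  have hB := hf Q hQ
  have hBF := hsub Q hQF hQ
  have hQB := sub_Fx_Sy (G := G) Q
  have hBeq : ∀ Q' : Finset Ω, Q'.card = 4 → Q' ⊆ Fx Ω (Sy G Q) → Fx Ω (Sy G Q') = Fx Ω (Sy G Q) :=
    fun Q' h4 h => eq hy hQ h4 h
  generalize Fx Ω (Sy G Q) = B at hfix hB hBF hQB hBeq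
  have hxF : ∀ ω ∈ Fx Ω P, x • ω ∈ Fx Ω P := inv_Fx P x hxn
  have hx2 : x * x ∈ St G (Fx Ω P) := le_St_iff.2 subset_rfl hxx
  have xx : ∀ ω ∈ Fx Ω P, x • x • ω = ω := fun ω h => by rw [← mul_smul]; exact hx2 ω h
  have hmB : ∀ ω ∈ Fx Ω P, ω ∈ B ↔ x • ω = ω := fun ω h => by
    rw [← hfix, Finset.mem_inter, mem_fx]; exact and_iff_right h
  obtain ⟨α, hαF, hαB⟩ : ∃ α ∈ Fx Ω P, α ∉ B := Finset.exists_mem_notMem_of_card_lt_card (by omega)
  have hoff : ∀ ω ∈ Fx Ω P, ω ∉ B → x • ω ∉ B := fun ω h h1 h2 =>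
    h1 ((hmB ω h).2 (by rw [← (hmB _ (hxF ω h)).1 h2, xx ω h]))
  have hβB := hoff α hαF hαB
  have hαβ : α ≠ x • α := fun e => hαB ((hmB α hαF).2 e.symm)
  -- blocks of `x`-invariant 4-sets through `α`
  have key : ∀ Q' : Finset Ω, Q' ⊆ Fx Ω P → Q'.card = 4 → (∀ ω ∈ Q', x • ω ∈ Q') → α ∈ Q' →
      (∀ ω ∈ Fx Ω (Sy G Q'), x • ω ∈ Fx Ω (Sy G Q')) ∧ (Fx Ω (Sy G Q') ∩ B).card ≤ 3 ∧
        (Fx Ω (Sy G Q') ∩ B).card % 2 = f % 2 ∧
        (f = 6 ∨ f = 7 → (Fx Ω (Sy G Q') ∩ B).card + 4 = f) := by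
    intro Q' h h4 hx hα
    have hn := norm_Sy (smul_eq_of_maps hx)
    have hs := hsub Q' h h4
    have e : Fx Ω (Sy G Q') ∩ fx Ω x = Fx Ω (Sy G Q') ∩ B := by
      ext ω
      rw [Finset.mem_inter, Finset.mem_inter, mem_fx]
      exact and_congr_right fun hω => (hmB ω (hs hω)).symm
    have h3 : (Fx Ω (Sy G Q') ∩ B).card ≤ 3 := by
      by_contra hn
      obtain ⟨R, hR, hR4⟩ := Finset.exists_subset_card_eq
        (show 4 ≤ (Fx Ω (Sy G Q') ∩ B).card by omega)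
      have e1 := eq hy h4 hR4 (hR.trans Finset.inter_subset_left)
      have e2 := hBeq R hR4 (hR.trans Finset.inter_subset_right)
      exact hαB (e2 ▸ e1 ▸ sub_Fx_Sy Q' hα)
    refine ⟨inv_Fx _ x hn, h3, ?_, fun h67 => ?_⟩
    · have := card_fx_mod Nat.prime_two (k := 1) (g := x) (F := Fx Ω (Sy G Q'))
        (by rw [pow_one, sq]; exact St_mono hs hx2) (inv_Fx _ x hn)
      rwa [e, hf Q' h4] at this
    · have h1 := four_dvd (inv_Fx _) (alt hy h4 (by rw [hf Q' h4]; exact h67)).le hn (St_mono hs hx2)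
      have h2 := Finset.card_sdiff_add_card_inter (Fx Ω (Sy G Q')) (fx Ω x)
      rw [e, hf Q' h4] at h2
      omega
  -- the blocks through `α`, `β` and two points of `B`
  let q : Ω × Ω → Finset Ω := fun p => {α, x • α, p.1, p.2}
  have qsub : ∀ (p : Ω × Ω) (A : Finset Ω), q p ⊆ A ↔ α ∈ A ∧ x • α ∈ A ∧ p.1 ∈ A ∧ p.2 ∈ A :=
    fun p A => by simp only [q, Finset.insert_subset_iff, Finset.singleton_subset_iff]
  have q4 : ∀ p ∈ B.offDiag, (q p).card = 4 := fun p hp => by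
    obtain ⟨h1, h2, h3⟩ := Finset.mem_offDiag.1 hp
    exact D4.card ⟨hαβ, fun e => hαB (e ▸ h1), fun e => hαB (e ▸ h2), fun e => hβB (e ▸ h1),
      fun e => hβB (e ▸ h2), h3⟩
  have qF : ∀ p ∈ B.offDiag, q p ⊆ Fx Ω P := fun p hp => by
    obtain ⟨h1, h2, -⟩ := Finset.mem_offDiag.1 hp
    exact (qsub _ _).2 ⟨hαF, hxF α hαF, hBF h1, hBF h2⟩
  have qk := fun p (hp : p ∈ B.offDiag) => key (q p) (qF p hp) (q4 p hp) (fun ω hω => by
    obtain ⟨h1, h2, -⟩ := Finset.mem_offDiag.1 hp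
    simp only [q, Finset.mem_insert, Finset.mem_singleton] at hω ⊢
    rcases hω with rfl | rfl | rfl | rfl
    · simp
    · simp [xx α hαF]
    · simp [(hmB _ (hBF h1)).1 h1]
    · simp [(hmB _ (hBF h2)).1 h2]) (by simp [q])
  have qm := fun p => (qsub p _).1 (sub_Fx_Sy (G := G) (q p))
  have hodd : f % 2 = 1 → 6 ∣ f * f - f := by
    intro ho
    rw [← hB, ← Finset.offDiag_card]
    refine part_dvd (fun p => (Fx Ω (Sy G (q p)) ∩ B).offDiag) (fun p hp => ?_)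
      (fun p _ => Finset.offDiag_mono Finset.inter_subset_right) (fun p hp => ?_)
      (fun p hp p' hp' => ?_)
    · obtain ⟨h1, h2, h3⟩ := Finset.mem_offDiag.1 hp
      exact Finset.mem_offDiag.2 ⟨Finset.mem_inter.2 ⟨(qm p).2.2.1, h1⟩,
        Finset.mem_inter.2 ⟨(qm p).2.2.2, h2⟩, h3⟩
    · obtain ⟨h1, h2, h3⟩ := Finset.mem_offDiag.1 hp
      have h4 : ({p.1, p.2} : Finset Ω) ⊆ Fx Ω (Sy G (q p)) ∩ B :=
        Finset.insert_subset (Finset.mem_inter.2 ⟨(qm p).2.2.1, h1⟩)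
          (Finset.singleton_subset_iff.2 (Finset.mem_inter.2 ⟨(qm p).2.2.2, h2⟩))
      have h5 := Finset.card_le_card h4
      rw [Finset.card_pair h3] at h5
      obtain ⟨-, k1, k2, -⟩ := qk p hp
      rw [Finset.offDiag_card, show (Fx Ω (Sy G (q p)) ∩ B).card = 3 by omega]
    · obtain ⟨h1, h2, -⟩ := Finset.mem_offDiag.1 hp'
      have := eq hy (q4 p hp) (q4 p' (Finset.offDiag_mono Finset.inter_subset_right hp'))
        ((qsub _ _).2 ⟨(qm p).1, (qm p).2.1, (Finset.mem_inter.1 h1).1, (Finset.mem_inter.1 h2).1⟩)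
      simp only [this]
  have h67 : f = 6 ∨ f = 7 := by
    rcases hc with rfl | h | h | rfl
    · exact absurd (hodd rfl) (by norm_num)
    · exact Or.inl h
    · exact Or.inr h
    · exact absurd (hodd rfl) (by norm_num)
  have hab : ∀ A : Finset Ω, α ∈ A → x • α ∈ A →
      ((A \ B) \ {α, x • α}).card + 2 + (A ∩ B).card = A.card := by
    intro A h1 h2
    have h3 : ({α, x • α} : Finset Ω) ⊆ A \ B := Finset.insert_subset (Finset.mem_sdiff.2 ⟨h1, hαB⟩)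
      (Finset.singleton_subset_iff.2 (Finset.mem_sdiff.2 ⟨h2, hβB⟩))
    have h4 := Finset.card_sdiff_add_card_eq_card h3
    rw [Finset.card_pair hαβ] at h4
    rw [h4, Finset.card_sdiff_add_card_inter]
  have hdc := Finset.card_mul_eq_card_mul (s := B.offDiag) (t := (Fx Ω P \ B) \ {α, x • α})
    (fun p l => l ∈ Fx Ω (Sy G (q p))) (m := 2) (n := (f - 4) * (f - 4) - (f - 4))
    (fun p hp => by
      have e : Finset.bipartiteAbove (fun p l => l ∈ Fx Ω (Sy G (q p)))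
          ((Fx Ω P \ B) \ {α, x • α}) p = (Fx Ω (Sy G (q p)) \ B) \ {α, x • α} := by
        ext l
        simp only [Finset.mem_bipartiteAbove, Finset.mem_sdiff]
        exact ⟨fun h => ⟨⟨h.2, h.1.1.2⟩, h.1.2⟩,
          fun h => ⟨⟨⟨hsub _ (qF p hp) (q4 p hp) h.1.1, h.1.2⟩, h.2⟩, h.1.1⟩⟩
      have h1 := hab _ (qm p).1 (qm p).2.1
      have h2 := (qk p hp).2.2.2 h67
      rw [hf _ (q4 p hp)] at h1
      rw [e]
      omega)
    (fun l hl => by
      simp only [Finset.mem_sdiff, Finset.mem_insert, Finset.mem_singleton, not_or] at hl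
      obtain ⟨⟨hlF, hlB⟩, n1, n2⟩ := hl
      have r4 : (q (l, x • l)).card = 4 := D4.card ⟨hαβ, Ne.symm n1,
        fun e => n2 (by rw [show α = x • l from e, xx l hlF]), Ne.symm n2,
        fun e => n1 (smul_left_cancel x e).symm, fun e => hlB ((hmB l hlF).2 (Eq.symm e))⟩
      have rk := key (q (l, x • l)) ((qsub _ _).2 ⟨hαF, hxF α hαF, hlF, hxF l hlF⟩) r4
        (fun ω hω => by
          simp only [q, Finset.mem_insert, Finset.mem_singleton] at hω ⊢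
          rcases hω with rfl | rfl | rfl | rfl
          · simp
          · simp [xx α hαF]
          · simp
          · simp [xx l hlF]) (by simp [q])
      have e : Finset.bipartiteBelow (fun p l => l ∈ Fx Ω (Sy G (q p))) B.offDiag l =
          (Fx Ω (Sy G (q (l, x • l))) ∩ B).offDiag := by
        ext p
        rw [Finset.mem_bipartiteBelow]
        constructor
        · rintro ⟨hp, h⟩
          obtain ⟨h1, h2, h3⟩ := Finset.mem_offDiag.1 hp
          rw [eq hy (q4 p hp) r4 ((qsub _ _).2 ⟨(qm p).1, (qm p).2.1, h, (qk p hp).1 l h⟩)]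
          exact Finset.mem_offDiag.2 ⟨Finset.mem_inter.2 ⟨(qm p).2.2.1, h1⟩,
            Finset.mem_inter.2 ⟨(qm p).2.2.2, h2⟩, h3⟩
        · intro hp
          have hp' := Finset.offDiag_mono Finset.inter_subset_right hp
          obtain ⟨h1, h2, -⟩ := Finset.mem_offDiag.1 hp
          refine ⟨hp', ?_⟩
          rw [eq hy r4 (q4 p hp') ((qsub _ _).2 ⟨(qm _).1, (qm _).2.1, (Finset.mem_inter.1 h1).1,
            (Finset.mem_inter.1 h2).1⟩)]
          exact (qm (l, x • l)).2.2.1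
      have h2 := rk.2.2.2 h67
      rw [e, Finset.offDiag_card, show (Fx Ω (Sy G (q (l, x • l))) ∩ B).card = f - 4 by omega])
  have h1 := hab _ hαF (hxF α hαF)
  rw [Finset.inter_eq_right.2 hBF, hB] at h1
  rw [Finset.offDiag_card, hB] at hdc
  rcases h67 with rfl | rfl
  · exfalso
    obtain ⟨t, htF, ht⟩ := Finset.exists_subset_card_eq (show 3 ≤ (Fx Ω P).card by omega)
    have hins : ∀ l, l ∉ t → (insert l t).card = 4 :=
      fun l hl => by rw [Finset.card_insert_of_notMem hl, ht]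
    have hd := part_dvd (D := Fx Ω P \ t) (r := 3) (fun l => Fx Ω (Sy G (insert l t)) \ t)
      (fun l hl => Finset.mem_sdiff.2 ⟨sub_Fx_Sy _ (Finset.mem_insert_self _ _),
        (Finset.mem_sdiff.1 hl).2⟩)
      (fun l hl => Finset.sdiff_subset_sdiff (hsub _
        (Finset.insert_subset (Finset.mem_sdiff.1 hl).1 htF) (hins l (Finset.mem_sdiff.1 hl).2))
        subset_rfl)
      (fun l hl => by
        rw [Finset.card_sdiff_of_subset ((Finset.subset_insert l _).trans (sub_Fx_Sy _)),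
          hf _ (hins l (Finset.mem_sdiff.1 hl).2), ht])
      (fun l hl m hm => by
        obtain ⟨h1, h2⟩ := Finset.mem_sdiff.1 hm
        have e := eq hy (hins l (Finset.mem_sdiff.1 hl).2) (hins m h2)
          (Finset.insert_subset h1 ((Finset.subset_insert l _).trans (sub_Fx_Sy _)))
        simp only [e])
    rw [Finset.card_sdiff_of_subset htF, ht] at hd
    omega
  · exact ⟨rfl, by omega⟩

end BK

/-- `S = Sy Q`, `B = Fx S`; `T4` for `N(S)` on `B` (`tr_Sy`; a 2-element of `St Q` lies in `S`):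
`f = |B| ∈ {4,5,6,7,11}` (the same for all `Q`), with the alternating group for `f = 6, 7`.
Every 4-set `Q'` lies in exactly one block `B(Q') = Fx (Sy Q')` (`Sy_eq`).  `S ≠ ⊥` acts faithfully,
so `f < |Ω|` and a `PMax Ω f P` exists (`exists_pmax` from `⊥`).  Let `f ≥ 5`, `P` any such, `F = Fx P`,
`Q ⊆ F`; blocks of 4-subsets of `F` lie in `F` (`lt_Sy`).  Take `x ∈ S \ P` normalising `P` with
`x² ∈ P` (`exists_norm_two`): an involution on `F` fixing exactly `B` (`PMax.fix`).  Take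
`α ∈ F \ B`, `β = xα`.  If `x` stabilises a 4-set `Q' ⊆ F` containing `α`, then `x ∈ N(Sy Q')` acts on
`B(Q') ≠ B` as an involution with fixed set `B(Q') ∩ B` of size `≤ 3` and `≡ f (mod 2)`.
* `f` odd: for `γ ≠ δ ∈ B`, `B(α,β,γ,δ) ∩ B` is a triple `τ(γ,δ) ∋ γ, δ`, and `τ` is constant on the six
ordered pairs of a triple (the block is determined by `α, β` and two points): `6 ∣ f (f - 1)`
(`part_dvd` on `B.offDiag`), false for `f = 5, 11`.
* `f = 6, 7`: every `λ ∈ F \ B \ {α, β}` lies in the block `B(α,β,λ,xλ)`, on which `x` is even, so it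
moves four points (`four_dvd`) and fixes `f - 4` points of `B`.  So the blocks containing `α, β` and
meeting `B` in `f - 4` points partition `F \ B \ {α,β}` into pairs `{λ, xλ}`; such blocks correspond to
their intersections with `B`: all `15` pairs for `f = 6`, the `7 = 42 / 6` triples `τ` for `f = 7`.
`|F| = 6 + 2 + 30 = 38`, resp. `7 + 2 + 14 = 23`.  For `f = 6` the blocks through three points `t` of
`F` partition `F \ t` into triples, but `3 ∤ 35`.  (Double count the pairs `(λ, (γ, δ))` with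
`λ ∈ B(α,β,γ,δ) \ B \ {α,β}`: each `(γ, δ)` has 2 partners, each `λ` has `(f-4)(f-5)`.) -/
theorem blk [FaithfulSMul G Ω] (hy : Hyp2 G Ω) :
    (∀ Q : Finset Ω, Q.card = 4 → Fx Ω (Sy G Q) = Q) ∨
      ((∀ Q : Finset Ω, Q.card = 4 → (Fx Ω (Sy G Q)).card = 7 ∧
          (act (inv_Fx (Ω := Ω) (Sy G Q))).range = alternatingGroup (Fx Ω (Sy G Q))) ∧
        ∀ P : Subgroup G, PMax Ω 7 P → (Fx Ω P).card = 23) := by
  obtain ⟨Q₀, -, hQ₀⟩ := Finset.exists_subset_card_eq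
    (show 4 ≤ (Finset.univ : Finset Ω).card by rw [Finset.card_univ]; exact hy.four)
  obtain ⟨f, hf0⟩ : ∃ f, (Fx Ω (Sy G Q₀)).card = f := ⟨_, rfl⟩
  have hf : ∀ Q : Finset Ω, Q.card = 4 → (Fx Ω (Sy G Q)).card = f :=
    fun Q hQ => (hy.toHyp.card_Fx_Sy hQ hQ₀).trans hf0
  by_cases h4 : f = 4
  · exact Or.inl fun Q hQ =>
      (Finset.eq_of_subset_of_card_le (sub_Fx_Sy Q) (by rw [hf Q hQ, h4, hQ])).symm
  right
  have hlt : f < (Fx Ω (⊥ : Subgroup G)).card := by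
    rw [← hf0]
    refine Finset.card_lt_card ⟨Fx_anti bot_le, fun h => hy.Sy_ne_bot hQ₀ ?_⟩
    refine eq_bot_iff.2 fun g hg => Subgroup.mem_bot.2 (eq_of_smul_eq_smul (α := Ω) fun ω => ?_)
    rw [one_smul]
    exact mem_Fx.1 (h (mem_Fx.2 fun k hk => by rw [Subgroup.mem_bot.1 hk, one_smul])) g hg
  obtain ⟨P, hP, -⟩ := exists_pmax IsPGroup.of_bot hlt
  have h7 : f = 7 := by
    have := BK.T hy hQ₀
    rw [hf0] at this
    exact (BK.main hy hf (by omega) hP).1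
  subst h7
  refine ⟨fun Q hQ => ⟨hf Q hQ, BK.alt hy hQ (Or.inr (hf Q hQ))⟩, fun R hR => ?_⟩
  exact (BK.main hy hf (by omega) hR).2

end CL.F4
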