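import Mathlib
import Cfsg.Prelude.Def_Solvable
import Cfsg.Prelude.Def_Spor_Mathieu

/-!
S3404 (4-transitive groups whose four-point stabiliser is a Frobenius group): definitions.

Notation of all files `PERM/F4/*`: `Q` a 4-subset, `St G Q` its pointwise stabiliser `H`,
`Kn G Q` the Frobenius kernel `K` of `H`, `Sy G Q` the subgroup generated by the 2-elements of `H`,
`Fx Ω U`, `fx Ω g` the fixed points, `cj g U = g U g⁻¹`, `act h` the action of `N` on an
`N`-invariant finset.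
-/

set_option autoImplicit false

namespace CL.F4

open scoped Pointwise

universe u

section defs

variable {G Ω : Type*} [Group G] [MulAction G Ω]

/-- four distinct points -/
def D4 (a b c d : Ω) : Prop := a ≠ b ∧ a ≠ c ∧ a ≠ d ∧ b ≠ c ∧ b ≠ d ∧ c ≠ d

/-- `N` is 4-transitive on the points of `F` -/
def Tr4 (N : Subgroup G) (F : Finset Ω) : Prop :=
  ∀ a b c d a' b' c' d' : Ω, a ∈ F → b ∈ F → c ∈ F → d ∈ F → a' ∈ F → b' ∈ F → c' ∈ F → d' ∈ F →
    D4 a b c d → D4 a' b' c' d' → ∃ g ∈ N, g • a = a' ∧ g • b = b' ∧ g • c = c' ∧ g • d = d'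

variable (G) in
/-- pointwise stabiliser of a finset -/
def St (Q : Finset Ω) : Subgroup G where
  carrier := {g | ∀ ω ∈ Q, g • ω = ω}
  one_mem' := fun ω _ => one_smul G ω
  mul_mem' := fun {a b} ha hb ω h => by rw [mul_smul, hb ω h, ha ω h]
  inv_mem' := fun {a} ha ω h => by rw [inv_smul_eq_iff, ha ω h]

theorem mem_St {Q : Finset Ω} {g : G} : g ∈ St G Q ↔ ∀ ω ∈ Q, g • ω = ω := Iff.rfl

theorem St_mono {Q Q' : Finset Ω} (h : Q ⊆ Q') : St G Q' ≤ St G Q :=
  fun _ hg ω hω => hg ω (h hω)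

variable (Ω) in
open Classical in
/-- fixed points of a subgroup -/
noncomputable def Fx [Fintype Ω] (U : Subgroup G) : Finset Ω :=
  Finset.univ.filter fun ω => ∀ g ∈ U, g • ω = ω

variable (Ω) in
open Classical in
/-- fixed points of an element -/
noncomputable def fx [Fintype Ω] (g : G) : Finset Ω := Finset.univ.filter fun ω => g • ω = ω

@[simp] theorem mem_Fx [Fintype Ω] {U : Subgroup G} {ω : Ω} :
    ω ∈ Fx Ω U ↔ ∀ g ∈ U, g • ω = ω := by simp [Fx]

@[simp] theorem mem_fx [Fintype Ω] {g : G} {ω : Ω} : ω ∈ fx Ω g ↔ g • ω = ω := by simp [fx]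

theorem le_St_iff [Fintype Ω] {U : Subgroup G} {Q : Finset Ω} : U ≤ St G Q ↔ Q ⊆ Fx Ω U :=
  ⟨fun h ω hω => mem_Fx.2 fun _ hg => h hg ω hω, fun h _ hg _ hω => mem_Fx.1 (h hω) _ hg⟩

theorem mem_St_iff [Fintype Ω] {g : G} {Q : Finset Ω} : g ∈ St G Q ↔ Q ⊆ fx Ω g :=
  ⟨fun h ω hω => mem_fx.2 (h ω hω), fun h _ hω => mem_fx.1 (h hω)⟩

theorem Fx_anti [Fintype Ω] {U V : Subgroup G} (h : U ≤ V) : Fx Ω V ⊆ Fx Ω U :=
  fun _ hω => mem_Fx.2 fun g hg => mem_Fx.1 hω g (h hg)

theorem Fx_sub_fx [Fintype Ω] {U : Subgroup G} {g : G} (h : g ∈ U) : Fx Ω U ⊆ fx Ω g :=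
  fun _ hω => mem_fx.2 (mem_Fx.1 hω g h)

theorem Fx_zpowers [Fintype Ω] (g : G) : Fx Ω (Subgroup.zpowers g) = fx Ω g := by
  ext ω
  rw [mem_Fx, mem_fx]
  refine ⟨fun h => h g (Subgroup.mem_zpowers g), fun h x hx => ?_⟩
  have : Subgroup.zpowers g ≤ MulAction.stabilizer G ω := by
    rw [Subgroup.zpowers_le]; exact h
  exact this hx

/-- `g U g⁻¹` -/
def cj (g : G) (U : Subgroup G) : Subgroup G := U.map (MulAut.conj g).toMonoidHom

theorem mem_cj {g x : G} {U : Subgroup G} : x ∈ cj g U ↔ g⁻¹ * x * g ∈ U := by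
  constructor
  · rintro ⟨y, hy, rfl⟩
    simpa [mul_assoc] using hy
  · intro h
    exact ⟨_, h, by simp [mul_assoc]⟩

theorem conj_mem_cj {g x : G} {U : Subgroup G} : g * x * g⁻¹ ∈ cj g U ↔ x ∈ U := by
  rw [mem_cj]; simp [mul_assoc]

theorem card_cj (g : G) (U : Subgroup G) : Nat.card (cj g U) = Nat.card U :=
  Subgroup.card_map_of_injective (MulAut.conj g).injective

theorem cj_mono {g : G} {U V : Subgroup G} (h : U ≤ V) : cj g U ≤ cj g V := Subgroup.map_mono h

theorem cj_mul (g h : G) (U : Subgroup G) : cj (g * h) U = cj g (cj h U) := by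
  ext x; simp [mem_cj, mul_assoc]

@[simp] theorem cj_one (U : Subgroup G) : cj 1 U = U := by ext x; simp [mem_cj]

theorem cj_inv_cj (g : G) (U : Subgroup G) : cj g⁻¹ (cj g U) = U := by
  rw [← cj_mul, inv_mul_cancel, cj_one]

theorem cj_cj_inv (g : G) (U : Subgroup G) : cj g (cj g⁻¹ U) = U := by
  rw [← cj_mul, mul_inv_cancel, cj_one]

theorem cj_inf (g : G) (U V : Subgroup G) : cj g (U ⊓ V) = cj g U ⊓ cj g V := by
  ext x; simp [mem_cj]

theorem cj_eq_iff {g : G} {U : Subgroup G} :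
    cj g U = U ↔ g ∈ Subgroup.normalizer (U : Set G) := by
  rw [Subgroup.mem_normalizer_iff]
  constructor
  · intro h x
    conv_rhs => rw [← h]
    exact conj_mem_cj.symm
  · intro h
    ext x
    rw [mem_cj, h]
    simp [mul_assoc]

theorem isPGroup_cj {p : ℕ} {g : G} {U : Subgroup G} (h : IsPGroup p U) : IsPGroup p (cj g U) :=
  h.map _

theorem St_smul [DecidableEq Ω] (g : G) (Q : Finset Ω) : St G (g • Q) = cj g (St G Q) := by
  ext x
  rw [mem_cj, mem_St, mem_St]
  constructor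
  · intro h ω hω
    rw [mul_smul, mul_smul, h _ (Finset.smul_mem_smul_finset hω), inv_smul_smul]
  · intro h ω hω
    obtain ⟨y, hy, rfl⟩ := Finset.mem_smul_finset.1 hω
    have := h y hy
    rwa [mul_smul, mul_smul, inv_smul_eq_iff] at this

theorem Fx_cj [Fintype Ω] [DecidableEq Ω] (g : G) (U : Subgroup G) :
    Fx Ω (cj g U) = g • Fx Ω U := by
  ext ω
  rw [mem_Fx, ← Finset.inv_smul_mem_iff, mem_Fx]
  constructor
  · intro h x hx
    have := h _ (conj_mem_cj.2 hx)
    rwa [mul_smul, mul_smul, smul_eq_iff_eq_inv_smul] at this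
  · intro h x hx
    have := h _ (mem_cj.1 hx)
    rwa [mul_smul, mul_smul, smul_inv_smul, smul_left_cancel_iff] at this

theorem fx_conj [Fintype Ω] [DecidableEq Ω] (g x : G) :
    fx Ω (g * x * g⁻¹) = g • fx Ω x := by
  ext ω
  rw [mem_fx, ← Finset.inv_smul_mem_iff, mem_fx, mul_smul, mul_smul, smul_eq_iff_eq_inv_smul]

/-- `g` is a 2-element -/
def Two (g : G) : Prop := ∃ k : ℕ, g ^ 2 ^ k = 1

/-- `F` is `N`-invariant -/
def Inv (N : Subgroup G) (F : Finset Ω) : Prop := ∀ g ∈ N, ∀ ω ∈ F, g • ω ∈ F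

theorem Inv.mono {N M : Subgroup G} {F : Finset Ω} (h : Inv N F) (hM : M ≤ N) : Inv M F :=
  fun g hg => h g (hM hg)

theorem inv_Fx [Fintype Ω] (U : Subgroup G) :
    Inv (Subgroup.normalizer (U : Set G)) (Fx Ω U) := by
  intro g hg ω hω
  rw [mem_Fx] at hω ⊢
  intro x hx
  have h1 : g⁻¹ * x * g ∈ U := by
    rw [Subgroup.mem_normalizer_iff.1 hg]; simpa [mul_assoc] using hx
  have := hω _ h1
  rwa [mul_smul, mul_smul, inv_smul_eq_iff] at this

theorem smul_mem_fx [Fintype Ω] {g x : G} (h : Commute g x) {ω : Ω} (hω : ω ∈ fx Ω x) :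
    g • ω ∈ fx Ω x := by
  rw [mem_fx] at hω ⊢
  rw [← mul_smul, ← h.eq, mul_smul, hω]

theorem inv_fx [Fintype Ω] (x : G) : Inv (Subgroup.centralizer ({x} : Set G)) (fx Ω x) :=
  fun _ hg _ hω => smul_mem_fx (Subgroup.mem_centralizer_singleton_iff.1 hg) hω

/-- the action of `N` on an invariant finset -/
abbrev Inv.mulAction {N : Subgroup G} {F : Finset Ω} (h : Inv N F) : MulAction N F where
  smul g x := ⟨(g : G) • (x : Ω), h g g.2 x x.2⟩
  one_smul x := Subtype.ext (one_smul G (x : Ω))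
  mul_smul a b x := Subtype.ext (mul_smul (a : G) (b : G) (x : Ω))

/-- the permutation representation of `N` on an invariant finset -/
def act {N : Subgroup G} {F : Finset Ω} (h : Inv N F) : N →* Equiv.Perm F :=
  @MulAction.toPermHom N F _ h.mulAction

@[simp] theorem act_apply {N : Subgroup G} {F : Finset Ω} (h : Inv N F) (g : N) (x : F) :
    ((act h g x : F) : Ω) = (g : G) • (x : Ω) := rfl

theorem act_eq_one {N : Subgroup G} {F : Finset Ω} (h : Inv N F) (g : N) :
    act h g = 1 ↔ (g : G) ∈ St G F := by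
  constructor
  · intro e ω hω
    have := congrArg (fun σ : Equiv.Perm F => ((σ ⟨ω, hω⟩ : F) : Ω)) e
    simpa using this
  · intro e
    ext x
    simpa using e x x.2

/-- `K` is a (nilpotent) Frobenius kernel of `H` -/
structure Frob (H K : Subgroup G) : Prop where
  le : K ≤ H
  norm : ∀ h ∈ H, ∀ k ∈ K, h * k * h⁻¹ ∈ K
  ne_bot : K ≠ ⊥
  ne : K ≠ H
  nil : Group.IsNilpotent K
  fpf : ∀ g ∈ H, g ∉ K → ∀ k ∈ K, Commute g k → k = 1

variable (G) in
open Classical in
/-- the Frobenius kernel of the pointwise stabiliser of `Q` -/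
noncomputable def Kn (Q : Finset Ω) : Subgroup G :=
  if h : ∃ K, Frob (St G Q) K then h.choose else ⊥

variable (G) in
/-- the subgroup generated by the 2-elements of the pointwise stabiliser of `Q` -/
def Sy (Q : Finset Ω) : Subgroup G := Subgroup.closure {g | g ∈ St G Q ∧ Two g}

theorem Sy_le (Q : Finset Ω) : Sy G Q ≤ St G Q := (Subgroup.closure_le _).2 fun _ h => h.1

theorem mem_Sy_of {Q : Finset Ω} {g : G} (h : g ∈ St G Q) (h2 : Two g) : g ∈ Sy G Q :=
  Subgroup.subset_closure ⟨h, h2⟩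

variable (G Ω) in
/-- the hypothesis: 4-transitive, four-point stabilisers Frobenius -/
structure Hyp [Fintype Ω] : Prop where
  four : 4 ≤ Fintype.card Ω
  tr : Tr4 (⊤ : Subgroup G) (Finset.univ : Finset Ω)
  frob : ∀ Q : Finset Ω, Q.card = 4 → Frob (St G Q) (Kn G Q)

variable (G Ω) in
/-- Case I: odd kernel, even complement -/
structure Hyp1 [Fintype Ω] : Prop extends Hyp G Ω where
  od : ∀ Q : Finset Ω, Q.card = 4 → Odd (Nat.card (Kn G Q))
  ev : ∀ Q : Finset Ω, Q.card = 4 → Even (Nat.card (St G Q))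

variable (G Ω) in
/-- Case II: even kernel -/
structure Hyp2 [Fintype Ω] : Prop extends Hyp G Ω where
  ev : ∀ Q : Finset Ω, Q.card = 4 → Even (Nat.card (Kn G Q))

variable (Ω) in
/-- `P` is maximal (under inclusion) among the 2-subgroups fixing more than `f` points -/
structure PMax [Fintype Ω] (f : ℕ) (P : Subgroup G) : Prop where
  two : IsPGroup 2 P
  big : f < (Fx Ω P).card
  max : ∀ R : Subgroup G, IsPGroup 2 R → P ≤ R → f < (Fx Ω R).card → R = P

variable (G Ω) in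
/-- the conclusion -/
def Concl [Fintype Ω] : Prop :=
  (Fintype.card Ω = 7 ∧ Nonempty (G ≃* Equiv.Perm (Fin 7))) ∨
    (Fintype.card Ω = 8 ∧ Nonempty (G ≃* alternatingGroup (Fin 8))) ∨
      (Fintype.card Ω = 23 ∧ Cfsg.Spor.IsoM23 G)

end defs

/-- the possible degrees (induction hypothesis for one degree) -/
def Deg (n : ℕ) : Prop :=
  ∀ (G Ω : Type u) [Group G] [Finite G] [Fintype Ω] [DecidableEq Ω] [MulAction G Ω]
    [FaithfulSMul G Ω], Hyp G Ω → Fintype.card Ω = n → n = 7 ∨ n = 8 ∨ n = 23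

/-- the induction hypothesis -/
def IH (Ω : Type u) [Fintype Ω] : Prop := ∀ m < Fintype.card Ω, Deg.{u} m

end CL.F4
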