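import Cfsg.Agent.PERM.F4.LemE

/-!
S3404, Case II: arithmetic of fixed points.
-/

set_option autoImplicit false

namespace CL.F4

open scoped Pointwise

variable {G Ω : Type*} [Group G] [Finite G] [MulAction G Ω] [Fintype Ω] [DecidableEq Ω]

namespace DB

omit [Finite G] in
theorem e_mod {p k : ℕ} (hp : p.Prime) {g : G} (hg : g ^ p ^ k = 1) :
    (fx Ω g).card ≡ Fintype.card Ω [MOD p] := by
  have := card_fx_mod (Ω := Ω) hp (g := g) (k := k) (F := Finset.univ)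
    (by rw [hg]; exact one_mem _) (fun _ _ => Finset.mem_univ _)
  rwa [Finset.univ_inter, Finset.card_univ] at this

omit [Finite G] in
theorem pow_of_ord {p : ℕ} {g : G} (hg : orderOf g = p) : g ^ p ^ 1 = 1 := by
  rw [pow_one, ← hg, pow_orderOf_eq_one]

omit [Finite G] in
theorem e_comm {p k : ℕ} (hp : p.Prime) {c y : G} (hc : c ^ p ^ k = 1) (h : Commute c y) :
    (fx Ω y ∩ fx Ω c).card ≡ (fx Ω y).card [MOD p] :=
  card_fx_mod hp (k := k) (by rw [hc]; exact one_mem _) fun _ hω => smul_mem_fx h hω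

omit [Finite G] [DecidableEq Ω] in
theorem fx_sub_pow (g : G) (j : ℕ) : fx Ω g ⊆ fx Ω (g ^ j) := by
  intro ω hω
  rw [mem_fx] at hω ⊢
  exact (MulAction.stabilizer G ω).pow_mem hω j

omit [Finite G] in
theorem notMem_two {K : Subgroup G} (hK : IsPGroup 2 K) {c : G} {p : ℕ} (hp : p.Prime)
    (h2 : p ≠ 2) (hc : orderOf c = p) : c ∉ K := by
  intro h
  obtain ⟨k, hk⟩ := hK ⟨c, h⟩
  have h1 : c ^ 2 ^ k = 1 := by simpa using congrArg Subtype.val hk
  have h3 : p ∣ 2 ^ k := hc ▸ orderOf_dvd_of_pow_eq_one h1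
  exact h2 ((Nat.prime_dvd_prime_iff_eq hp Nat.prime_two).1 (hp.dvd_of_dvd_pow h3))

theorem lemE' (hy : Hyp2 G Ω) (hK : ∀ Q : Finset Ω, Q.card = 4 → IsPGroup 2 (Kn G Q)) {c : G}
    {p : ℕ} (hp : p.Prime) (h2 : p ≠ 2) (hc : orderOf c = p) (h4 : 4 ≤ (fx Ω c).card) :
    ((fx Ω c).card = 4 ∨ (fx Ω c).card = 5 ∨ (fx Ω c).card = 6 ∨ (fx Ω c).card = 7 ∨
        (fx Ω c).card = 11) ∧
      ((∃ t : G, t * c * t⁻¹ = c⁻¹) → (fx Ω c).card ≤ 5) ∧
      ((fx Ω c).card ≤ 7 → alternatingGroup (fx Ω c) ≤ (act (inv_fx (Ω := Ω) c)).range) ∧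
      ((fx Ω c).card = 11 → Tr4 (Subgroup.centralizer ({c} : Set G)) (fx Ω c) ∧
        ∀ g : G, Commute g c → 4 ≤ (fx Ω c ∩ fx Ω g).card → g ∈ St G (fx Ω c)) := by
  obtain ⟨Q, hQ, hQ4⟩ := Finset.exists_subset_card_eq h4
  exact lemE hy hp hc hQ4 (mem_St_iff.2 hQ) (notMem_two (hK Q hQ4) hp h2 hc)

omit [Finite G] [Fintype Ω] [DecidableEq Ω] in
theorem norm_ker {N : Subgroup G} {F : Finset Ω} (h : Inv N F) :
    ∀ g ∈ N, ∀ y ∈ N ⊓ St G F, g * y * g⁻¹ ∈ N ⊓ St G F := by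
  intro g hg y hy
  rw [Subgroup.mem_inf] at hy ⊢
  refine ⟨N.mul_mem (N.mul_mem hg hy.1) (N.inv_mem hg), fun ω hω => ?_⟩
  rw [mul_smul, mul_smul, hy.2 _ (h _ (N.inv_mem hg) ω hω), smul_inv_smul]

omit [Finite G] [Fintype Ω] [DecidableEq Ω] in
/-- the reversal of a five-cycle -/
theorem rev5 {y t : G} {a b c d e : Ω} (ya : y • a = b) (yb : y • b = c) (yc : y • c = d)
    (yd : y • d = e) (ye : y • e = a) (ta : t • a = a) (tb : t • b = e) (te : t • e = b)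
    (tc : t • c = d) (td : t • d = c) :
    (t * y * t⁻¹ * y) • a = a ∧ (t * y * t⁻¹ * y) • b = b ∧ (t * y * t⁻¹ * y) • c = c ∧
      (t * y * t⁻¹ * y) • d = d ∧ (t * y * t⁻¹ * y) • e = e := by
  have ia : t⁻¹ • a = a := inv_smul_eq_iff.2 ta.symm
  have ib : t⁻¹ • b = e := inv_smul_eq_iff.2 te.symm
  have ic : t⁻¹ • c = d := inv_smul_eq_iff.2 td.symm
  have id' : t⁻¹ • d = c := inv_smul_eq_iff.2 tc.symm
  have ie : t⁻¹ • e = b := inv_smul_eq_iff.2 tb.symm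
  refine ⟨?_, ?_, ?_, ?_, ?_⟩ <;> rw [mul_smul, mul_smul, mul_smul]
  · rw [ya, ib, ye, ta]
  · rw [yb, ic, yd, te]
  · rw [yc, id', yc, td]
  · rw [yd, ie, yb, tc]
  · rw [ye, ia, ya, tb]

omit [Finite G] [Fintype Ω] [DecidableEq Ω] in
theorem pow5 {y : G} {a b c d e : Ω} (ya : y • a = b) (yb : y • b = c) (yc : y • c = d)
    (yd : y • d = e) (ye : y • e = a) :
    y ^ 5 • a = a ∧ y ^ 5 • b = b ∧ y ^ 5 • c = c ∧ y ^ 5 • d = d ∧ y ^ 5 • e = e := by
  have h : y ^ 5 = y * (y * (y * (y * y))) := by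
    rw [show (5 : ℕ) = 1 + (1 + (1 + (1 + 1))) from rfl]
    simp only [pow_add, pow_one]
  rw [h]
  simp only [mul_smul, ya, yb, yc, yd, ye, and_self]

/-- a `p`-element of a `p'`-subgroup is trivial -/
theorem eq_one_of_not_dvd {p k : ℕ} (hp : p.Prime) {Y : Subgroup G} (hY : ¬ p ∣ Nat.card Y)
    {g : G} (hg : g ∈ Y) (hk : g ^ p ^ k = 1) : g = 1 := by
  by_contra h1
  obtain ⟨j, hj⟩ := exists_pow_prime hp hk h1
  exact hY (hj ▸ Subgroup.orderOf_dvd_natCard Y (Y.pow_mem hg j))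

theorem exists_ord {p : ℕ} (hp : p.Prime) {Y : Subgroup G} (hY : p ∣ Nat.card Y) :
    ∃ g ∈ Y, orderOf g = p := by
  have := Fact.mk hp
  obtain ⟨g, hg⟩ := exists_prime_orderOf_dvd_card' p hY
  exact ⟨g, g.2, by rw [← hg, Subgroup.orderOf_coe]⟩

omit [Finite G] [Fintype Ω] in
theorem exists_five {F : Finset Ω} (h : 5 ≤ F.card) :
    ∃ a b c d e : Ω, a ∈ F ∧ b ∈ F ∧ c ∈ F ∧ d ∈ F ∧ e ∈ F ∧ D4 a b c d ∧ e ≠ a ∧ e ≠ b ∧ e ≠ c ∧
      e ≠ d := by
  obtain ⟨Q, hQ, hQ4⟩ := Finset.exists_subset_card_eq (show 4 ≤ F.card by omega)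
  obtain ⟨e, heF, heQ⟩ := Finset.exists_mem_notMem_of_card_lt_card (show Q.card < F.card by omega)
  obtain ⟨a, b, c, d, hD, rfl⟩ := exists_D4 hQ4
  simp only [Finset.mem_insert, Finset.mem_singleton, not_or] at heQ
  exact ⟨a, b, c, d, e, hQ (by simp), hQ (by simp), hQ (by simp), hQ (by simp), heF, hD, heQ.1,
    heQ.2.1, heQ.2.2.1, heQ.2.2.2⟩

theorem step1 (hy : Hyp2 G Ω) (hK : ∀ Q : Finset Ω, Q.card = 4 → IsPGroup 2 (Kn G Q))
    (h3 : 3 ∣ Fintype.card Ω) :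
    ∃ (c : G) (p : ℕ), p.Prime ∧ p ≠ 2 ∧ orderOf c = p ∧ (fx Ω c).card = 6 := by
  by_cases h : ∃ c : G, orderOf c = 3 ∧ 4 ≤ (fx Ω c).card
  · obtain ⟨c, hc, h4⟩ := h
    refine ⟨c, 3, Nat.prime_three, by norm_num, hc, ?_⟩
    have h1 := (lemE' hy hK Nat.prime_three (by norm_num) hc h4).1
    have h2 := e_mod (Ω := Ω) Nat.prime_three (pow_of_ord hc)
    unfold Nat.ModEq at h2
    omega
  push Not at h
  obtain ⟨Q, -, hQ⟩ := Finset.exists_subset_card_eq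
    (show 4 ≤ (Finset.univ : Finset Ω).card from hy.four)
  obtain ⟨c, hcQ, -, p, hp, hp2, hc⟩ := hy.exists_c hQ
  have h4 : 4 ≤ (fx Ω c).card := hQ ▸ Finset.card_le_card (mem_St_iff.1 hcQ)
  refine ⟨c, p, hp, hp2, hc, ?_⟩
  have hp3 : p ≠ 3 := by
    rintro rfl
    exact absurd (h c hc) (by omega)
  have hp5 : 5 ≤ p := by
    have := hp.two_le
    have h4 : p ≠ 4 := by rintro rfl; norm_num at hp
    omega
  obtain ⟨h1, -, h7, h11⟩ := lemE' hy hK hp hp2 hc h4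
  -- an element of order three of the centraliser
  have hex : ∃ y ∈ Subgroup.centralizer ({c} : Set G), orderOf y = 3 := by
    by_cases he : (fx Ω c).card ≤ 7
    · obtain ⟨t, ht, ht4⟩ := Finset.exists_subset_card_eq h4
      obtain ⟨a, b, d, e, hD, rfl⟩ := exists_D4 ht4
      obtain ⟨g, hg, ⟨j, hj⟩, ga, -⟩ := lift3 (inv_fx (Ω := Ω) c) (h7 he) (a := a) (b := b) (c := d)
        (ht (by simp)) (ht (by simp)) (ht (by simp)) hD.1 hD.2.1 hD.2.2.2.1
      have g1 : g ≠ 1 := by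
        rintro rfl
        exact hD.1 (by simpa using ga)
      obtain ⟨i, hi⟩ := exists_pow_prime Nat.prime_three hj g1
      exact ⟨_, Subgroup.pow_mem _ hg i, hi⟩
    · have e11 : (fx Ω c).card = 11 := by omega
      have := (h11 e11).1.card (inv_fx c) (mem_St_iff.1 hcQ) hQ
      apply exists_ord Nat.prime_three
      rw [this, e11]
      exact Dvd.dvd.mul_right (by norm_num) _
  obtain ⟨y, hyc, hy3⟩ := hex
  have hcm : Commute y c := Subgroup.mem_centralizer_singleton_iff.1 hyc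
  have a1 := h y hy3
  have a2 := e_mod (Ω := Ω) Nat.prime_three (pow_of_ord hy3)
  have a3 := e_comm (Ω := Ω) hp (pow_of_ord hc) hcm.symm
  have a4 := e_comm (Ω := Ω) Nat.prime_three (pow_of_ord hy3) hcm
  have a5 : (fx Ω y ∩ fx Ω c).card ≤ (fx Ω y).card :=
    Finset.card_le_card Finset.inter_subset_left
  have a6 := Nat.ModEq.eq_of_lt_of_lt a3 (by omega) (by omega)
  rw [Finset.inter_comm, a6] at a4
  unfold Nat.ModEq at a2 a4
  omega

theorem step2 (hy : Hyp2 G Ω) (hK : ∀ Q : Finset Ω, Q.card = 4 → IsPGroup 2 (Kn G Q))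
    (h5 : Fintype.card Ω % 5 ≠ 1) {c : G} {p : ℕ} (hp : p.Prime) (hp2 : p ≠ 2)
    (hc : orderOf c = p) (h6 : (fx Ω c).card = 6) :
    p = 3 ∧ ∃ y : G, orderOf y = 5 ∧ (fx Ω y).card = 4 := by
  have hA := (lemE' hy hK hp hp2 hc (by omega)).2.2.1 (by omega)
  set C := Subgroup.centralizer ({c} : Set G) with hC
  have hY : ¬ 5 ∣ Nat.card ↥(C ⊓ St G (fx Ω c)) := by
    intro hd
    obtain ⟨v, hv, hv5⟩ := exists_ord Nat.prime_five hd
    rw [Subgroup.mem_inf] at hv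
    have hs : fx Ω c ⊆ fx Ω v := mem_St_iff.1 hv.2
    have b1 := Finset.card_le_card hs
    have b2 := (lemE' hy hK Nat.prime_five (by norm_num) hv5 (by omega)).1
    have b3 := e_mod (Ω := Ω) Nat.prime_five (pow_of_ord hv5)
    have hcm : Commute v c := Subgroup.mem_centralizer_singleton_iff.1 hv.1
    have b4 := e_comm (Ω := Ω) hp (pow_of_ord hc) hcm.symm
    rw [Finset.inter_eq_right.2 hs, h6] at b4
    have b5 : (fx Ω v).card = 7 := by
      unfold Nat.ModEq at b3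
      omega
    rw [b5] at b4
    have := (Nat.modEq_iff_dvd' (by norm_num)).1 b4
    exact hp.one_lt.ne' (Nat.dvd_one.1 this)
  obtain ⟨a, b, d, e, f, ha, hb, hd, he, hf, hD, fa, fb, fd, fe⟩ :=
    exists_five (F := fx Ω c) (by omega)
  obtain ⟨y, hyC, ⟨j, hj⟩, ya, yb, yd, ye, yf, yo⟩ :=
    lift5 (inv_fx (Ω := Ω) c) hA ha hb hd he hf hD fa fb fd fe
  obtain ⟨t, htC, -, tb, tf, td, te, tot⟩ :=
    liftV (inv_fx (Ω := Ω) c) hA hb hf hd he
      ⟨fb.symm, hD.2.2.2.1, hD.2.2.2.2.1, fd, fe, hD.2.2.2.2.2⟩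
  have ta : t • a = a := tot a ha hD.1 fa.symm hD.2.1 hD.2.2.1
  have y1 : y ≠ 1 := by
    rintro rfl
    exact hD.1 (by simpa using ya)
  have y5 : y ^ 5 = 1 := by
    refine eq_one_of_not_dvd (k := j) Nat.prime_five hY ?_ ?_
    · refine Subgroup.mem_inf.2 ⟨C.pow_mem hyC 5, fun ω hω => ?_⟩
      obtain ⟨p1, p2, p3, p4, p5⟩ := pow5 ya yb yd ye yf
      by_cases h1 : ω = a; · rw [h1, p1]
      by_cases h2 : ω = b; · rw [h2, p2]
      by_cases h3 : ω = d; · rw [h3, p3]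
      by_cases h4 : ω = e; · rw [h4, p4]
      by_cases h5 : ω = f; · rw [h5, p5]
      exact (MulAction.stabilizer G ω).pow_mem (yo ω hω h1 h2 h3 h4 h5) 5
    · rw [← pow_mul, mul_comm, pow_mul, hj, one_pow]
  have := Fact.mk Nat.prime_five
  have yo5 : orderOf y = 5 := orderOf_eq_prime y5 y1
  have hreal : ∃ s : G, s * y * s⁻¹ = y⁻¹ := by
    obtain ⟨s, -, hs⟩ := real_lift (N := C) (Y := C ⊓ St G (fx Ω c)) inf_le_left
      (norm_ker (inv_fx c)) Nat.prime_five hY hyC yo5 htC (by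
        refine Subgroup.mem_inf.2 ⟨C.mul_mem (C.mul_mem (C.mul_mem htC hyC) (C.inv_mem htC)) hyC,
          fun ω hω => ?_⟩
        obtain ⟨p1, p2, p3, p4, p5⟩ := rev5 ya yb yd ye yf ta tb tf td te
        by_cases h1 : ω = a; · rw [h1, p1]
        by_cases h2 : ω = b; · rw [h2, p2]
        by_cases h3 : ω = d; · rw [h3, p3]
        by_cases h4 : ω = e; · rw [h4, p4]
        by_cases h5 : ω = f; · rw [h5, p5]
        have q1 := yo ω hω h1 h2 h3 h4 h5
        have q2 := tot ω hω h2 h5 h3 h4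
        rw [mul_smul, mul_smul, mul_smul, q1, inv_smul_eq_iff.2 q2.symm, q1, q2])
    exact ⟨s, hs⟩
  have hcm : Commute y c := Subgroup.mem_centralizer_singleton_iff.1 hyC
  have c1 := e_comm (Ω := Ω) Nat.prime_five (pow_of_ord yo5) hcm
  have c2 : (fx Ω c ∩ fx Ω y).card < (fx Ω c).card := by
    refine Finset.card_lt_card ⟨Finset.inter_subset_left, fun h => ?_⟩
    have := mem_fx.1 (Finset.mem_inter.1 (h ha)).2
    exact hD.1 (this.symm.trans ya)
  have c3 : (fx Ω y ∩ fx Ω c).card = 1 := by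
    rw [Finset.inter_comm]
    unfold Nat.ModEq at c1
    omega
  have c4 := e_comm (Ω := Ω) hp (pow_of_ord hc) hcm.symm
  have c5 := e_mod (Ω := Ω) Nat.prime_five (pow_of_ord yo5)
  have c6 : 1 ≤ (fx Ω y).card := c3 ▸ Finset.card_le_card Finset.inter_subset_left
  rw [c3] at c4
  have c7 := (Nat.modEq_iff_dvd' c6).1 c4
  have c8 : (fx Ω y).card ≠ 1 := by
    intro h
    unfold Nat.ModEq at c5
    omega
  have c9 := Nat.le_of_dvd (by omega) c7
  have hp3 : 3 ≤ p := by have := hp.two_le; omega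
  have c10 := (lemE' hy hK Nat.prime_five (by norm_num) yo5 (by omega)).2.1 hreal
  have hp4 : p ≠ 4 := by rintro rfl; norm_num at hp
  have p3 : p = 3 := by omega
  subst p3
  exact ⟨rfl, y, yo5, by omega⟩

end DB

open DB in
/-- `n = |Ω|`.  The kernels are 2-groups, so `lemE` applies to every element of odd prime order
fixing `≥ 4` points.  Step 1: there is `c` of odd prime order `p` with six fixed points.
Step 2: `p = 3` and some element of order five has four fixed points.  Step 3: `Frob.comm35`. -/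
theorem dodB (hy : Hyp2 G Ω) (hK : ∀ Q : Finset Ω, Q.card = 4 → IsPGroup 2 (Kn G Q))
    (h3 : 3 ∣ Fintype.card Ω) (h5 : Fintype.card Ω % 5 ≠ 1) : False := by
  obtain ⟨c, p, hp, hp2, hc, h6⟩ := step1 hy hK h3
  obtain ⟨rfl, y, hy5, h4⟩ := step2 hy hK h5 hp hp2 hc h6
  obtain ⟨Q, hQc, hQ⟩ := Finset.exists_subset_card_eq (show 4 ≤ (fx Ω c).card by omega)
  obtain ⟨g, hg⟩ := hy.toHyp.exists_smul h4 hQ
  have hy' : g * y * g⁻¹ ∈ St G Q := by rw [mem_St_iff, fx_conj, hg]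
  have ho : orderOf (g * y * g⁻¹) = 5 := by
    rw [← hy5]
    exact (MulAut.conj g).orderOf_eq y
  obtain ⟨c', hc', y', hy', oc, oy, hcm⟩ :=
    (hy.frob Q hQ).comm35 (hK Q hQ) (mem_St_iff.2 hQc) hy' hc ho
  have s1 : Q ⊆ fx Ω c' := mem_St_iff.1 hc'
  have s2 : Q ⊆ fx Ω y' := mem_St_iff.1 hy'
  have a1 := Finset.card_le_card s1
  have a2 := Finset.card_le_card s2
  have a3 := Finset.card_le_card (Finset.subset_inter s1 s2)
  have a4 := (lemE' hy hK Nat.prime_three (by norm_num) oc (by omega)).1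
  have a5 := (lemE' hy hK Nat.prime_five (by norm_num) oy (by omega)).1
  have a6 := e_mod (Ω := Ω) Nat.prime_three (pow_of_ord oc)
  have a7 := e_mod (Ω := Ω) Nat.prime_five (pow_of_ord oy)
  have a8 := e_mod (Ω := Ω) Nat.prime_five (pow_of_ord hy5)
  have a9 := e_comm (Ω := Ω) Nat.prime_five (pow_of_ord oy) hcm.symm
  have a10 : (fx Ω c' ∩ fx Ω y').card ≤ (fx Ω y').card :=
    Finset.card_le_card Finset.inter_subset_right
  unfold Nat.ModEq at a6 a7 a8 a9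
  omega

end CL.F4
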