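import Cfsg.Agent.PERM.F4.Four0
import Cfsg.Agent.PERM.F4.DodB

/-!
S3404, Case II, `Fx (Sy Q) = Q`: no dodecads.
-/

set_option autoImplicit false

namespace CL.F4

open scoped Pointwise

universe u

namespace DD

open DB

section
variable {G Ω : Type*} [Group G] [Finite G] [MulAction G Ω] [Fintype Ω] [DecidableEq Ω]

omit [Fintype Ω] in
theorem lift_el {p k : ℕ} (hp : p.Prime) {N : Subgroup G} {F : Finset Ω} (h : Inv N F) {g : G}
    (hg : g ∈ N) (hk : g ^ p ^ k ∈ St G F) :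
    ∃ w ∈ N, (∀ ω ∈ F, w • ω = g • ω) ∧ ∃ j : ℕ, w ^ p ^ j = 1 := by
  obtain ⟨w, hw, j, hj⟩ := lift_p (k := k) hp h (σ := act h ⟨g, hg⟩) ⟨_, rfl⟩ (by
    rw [← map_pow, act_eq_one]; exact hk)
  refine ⟨w, w.2, fun ω hω => ?_, j, hj⟩
  have := congrArg (fun σ : Equiv.Perm F => ((σ ⟨ω, hω⟩ : F) : Ω)) hw
  simpa using this

omit [Finite G] [Fintype Ω] in
/-- sharply 2-transitive action: the elements without fixed points are determined by one value -/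
theorem uniq_fpf {X : Subgroup G} {D : Finset Ω} (hI : Inv X D)
    (T2 : ∀ μ ∈ D, ∀ ν ∈ D, ∀ μ' ∈ D, ∀ ν' ∈ D, μ ≠ ν → μ' ≠ ν' →
      ∃ g ∈ X, g • μ = μ' ∧ g • ν = ν')
    (S2 : ∀ g ∈ X, ∀ μ ∈ D, ∀ ν ∈ D, μ ≠ ν → g • μ = μ → g • ν = ν → g ∈ St G D)
    {g g' : G} (hg : g ∈ X) (hg' : g' ∈ X) (f : ∀ ω ∈ D, g • ω ≠ ω) (f' : ∀ ω ∈ D, g' • ω ≠ ω)
    {μ : Ω} (hμ : μ ∈ D) (e : g • μ = g' • μ) : ∀ ω ∈ D, g • ω = g' • ω := by
  intro ρ hρ
  by_cases hρμ : ρ = μ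
  · rw [hρμ, e]
  have agree : ∀ x ∈ X, ∀ y ∈ X, x • μ = y • μ → x • ρ = y • ρ → ∀ ω ∈ D, x • ω = y • ω := by
    intro x hx y hy h1 h2 ω hω
    have := S2 (y⁻¹ * x) (X.mul_mem (X.inv_mem hy) hx) μ hμ ρ hρ (Ne.symm hρμ)
      (by rw [mul_smul, h1, inv_smul_smul]) (by rw [mul_smul, h2, inv_smul_smul]) ω hω
    rwa [mul_smul, inv_smul_eq_iff] at this
  have hν : g • μ ∈ D := hI g hg μ hμ
  have hνμ : g • μ ≠ μ := f μ hμ
  have hk : ∀ κ ∈ (D.erase μ).erase (g • μ), ∃ k ∈ X, k • μ = g • μ ∧ k • κ = κ := by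
    intro κ hκ
    simp only [Finset.mem_erase] at hκ
    exact T2 μ hμ κ hκ.2.2 _ hν κ hκ.2.2 (Ne.symm hκ.2.1) (Ne.symm hκ.1)
  choose! k hkX hkμ hkκ using hk
  by_contra hne
  have m1 : g • ρ ∈ D.erase (g • μ) :=
    Finset.mem_erase.2 ⟨fun h => hρμ (smul_left_cancel g h), hI g hg ρ hρ⟩
  have m2 : g' • ρ ∈ (D.erase (g • μ)).erase (g • ρ) :=
    Finset.mem_erase.2 ⟨Ne.symm hne, Finset.mem_erase.2
      ⟨fun h => hρμ (smul_left_cancel g' (h.trans e)), hI g' hg' ρ hρ⟩⟩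
  have c1 := Finset.card_erase_add_one hμ
  have c2 := Finset.card_erase_add_one (Finset.mem_erase.2 ⟨hνμ, hν⟩ : g • μ ∈ D.erase μ)
  have c3 := Finset.card_erase_add_one hν
  have c4 := Finset.card_erase_add_one m1
  have c5 := Finset.card_erase_add_one m2
  have hle : ((D.erase μ).erase (g • μ)).card ≤
      (((D.erase (g • μ)).erase (g • ρ)).erase (g' • ρ)).card := by
    refine Finset.card_le_card_of_injOn (fun κ => k κ • ρ) (fun κ hκ => ?_) (fun κ hκ κ' hκ' h => ?_)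
    · have hκ' : κ ∈ (D.erase μ).erase (g • μ) := hκ
      have hκD : κ ∈ D := Finset.mem_of_mem_erase (Finset.mem_of_mem_erase hκ')
      simp only [Finset.coe_erase, Set.mem_sdiff, Finset.mem_coe, Set.mem_singleton_iff]
      refine ⟨⟨⟨hI _ (hkX κ hκ') ρ hρ, fun h => ?_⟩, fun h => ?_⟩, fun h => ?_⟩
      · exact hρμ (smul_left_cancel (k κ) (h.trans (hkμ κ hκ').symm))
      · exact f κ hκD ((agree _ (hkX κ hκ') g hg (hkμ κ hκ') h κ hκD).symm.trans (hkκ κ hκ'))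
      · exact f' κ hκD ((agree _ (hkX κ hκ') g' hg' ((hkμ κ hκ').trans e) h κ hκD).symm.trans
          (hkκ κ hκ'))
    · have h1 : κ ∈ (D.erase μ).erase (g • μ) := hκ
      have h2 : κ' ∈ (D.erase μ).erase (g • μ) := hκ'
      have hκD : κ ∈ D := Finset.mem_of_mem_erase (Finset.mem_of_mem_erase h1)
      have hκD' : κ' ∈ D := Finset.mem_of_mem_erase (Finset.mem_of_mem_erase h2)
      by_contra hh
      have a1 := agree _ (hkX κ h1) _ (hkX κ' h2) ((hkμ κ h1).trans (hkμ κ' h2).symm) h κ' hκD'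
      have a2 := S2 _ (hkX κ h1) κ hκD κ' hκD' hh (hkκ κ h1) (a1.trans (hkκ κ' h2)) μ hμ
      exact hνμ ((hkμ κ h1).symm.trans a2)
  omega

omit [Finite G] [Fintype Ω] in
theorem tr5 {N : Subgroup G} {F : Finset Ω} (hI : Inv N F) (tr : Tr4 N F)
    (h5 : ∀ Q : Finset Ω, Q ⊆ F → Q.card = 4 → ∀ α ∈ F, ∀ β ∈ F, α ∉ Q → β ∉ Q →
      ∃ x ∈ Sy G Q, x ∈ N ∧ x • α = β) {a b c d e a' b' c' d' e' : Ω} (ha : a ∈ F) (hb : b ∈ F)
    (hc : c ∈ F) (hd : d ∈ F) (he : e ∈ F) (ha' : a' ∈ F) (hb' : b' ∈ F) (hc' : c' ∈ F)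
    (hd' : d' ∈ F) (he' : e' ∈ F) (hD : D4 a b c d) (ea : e ≠ a) (eb : e ≠ b) (ec : e ≠ c)
    (ed : e ≠ d) (hD' : D4 a' b' c' d') (ea' : e' ≠ a') (eb' : e' ≠ b') (ec' : e' ≠ c')
    (ed' : e' ≠ d') :
    ∃ g ∈ N, g • a = a' ∧ g • b = b' ∧ g • c = c' ∧ g • d = d' ∧ g • e = e' := by
  obtain ⟨g, hg, ga, gb, gc, gd⟩ := tr a b c d a' b' c' d' ha hb hc hd ha' hb' hc' hd' hD hD'
  obtain ⟨x, hx, hxN, xe⟩ := h5 {a', b', c', d'} (by
      intro ω hω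
      simp only [Finset.mem_insert, Finset.mem_singleton] at hω
      rcases hω with rfl | rfl | rfl | rfl <;> assumption) hD'.card (g • e) (hI g hg e he) e' he'
    (by
      simp only [Finset.mem_insert, Finset.mem_singleton, not_or]
      exact ⟨fun h => ea (smul_left_cancel g (h.trans ga.symm)),
        fun h => eb (smul_left_cancel g (h.trans gb.symm)),
        fun h => ec (smul_left_cancel g (h.trans gc.symm)),
        fun h => ed (smul_left_cancel g (h.trans gd.symm))⟩)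
    (by simp [ea', eb', ec', ed'])
  have hs := Sy_le _ hx
  refine ⟨x * g, N.mul_mem hxN hg, ?_, ?_, ?_, ?_, ?_⟩ <;> rw [mul_smul]
  · rw [ga, hs _ (by simp)]
  · rw [gb, hs _ (by simp)]
  · rw [gc, hs _ (by simp)]
  · rw [gd, hs _ (by simp)]
  · exact xe

omit [Finite G] in
theorem five_le {F : Finset Ω} {g : G} {a b c d e : Ω} (ha : a ∈ F) (hb : b ∈ F)
    (hc : c ∈ F) (hd : d ∈ F) (he : e ∈ F) (hD : D4 a b c d) (ea : e ≠ a) (eb : e ≠ b) (ec : e ≠ c)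
    (ed : e ≠ d) (h : g • a = a ∧ g • b = b ∧ g • c = c ∧ g • d = d ∧ g • e = e) :
    5 ≤ (F ∩ fx Ω g).card := by
  have h1 : (insert e ({a, b, c, d} : Finset Ω)).card = 5 := by
    rw [Finset.card_insert_of_notMem (by simp [ea, eb, ec, ed]), hD.card]
  rw [← h1]
  refine Finset.card_le_card fun ω hω => ?_
  simp only [Finset.mem_insert, Finset.mem_singleton] at hω
  rw [Finset.mem_inter, mem_fx]
  rcases hω with rfl | rfl | rfl | rfl | rfl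
  exacts [⟨he, h.2.2.2.2⟩, ⟨ha, h.1⟩, ⟨hb, h.2.1⟩, ⟨hc, h.2.2.1⟩, ⟨hd, h.2.2.2.1⟩]

theorem partB (hy : Hyp2 G Ω) (hK : ∀ Q : Finset Ω, Q.card = 4 → IsPGroup 2 (Kn G Q))
    {N : Subgroup G} {F : Finset Ω} (h12 : F.card = 12) {r : ℕ} (hr : r.Prime) (h2 : r ≠ 2) :
    ¬ r ∣ Nat.card ↥(N ⊓ St G F) := by
  intro hd
  obtain ⟨v, hv, hvr⟩ := exists_ord hr hd
  have b1 := Finset.card_le_card (mem_St_iff.1 (Subgroup.mem_inf.1 hv).2)
  have b2 := (lemE' hy hK hr h2 hvr (by omega)).1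
  omega

theorem partC (hy : Hyp2 G Ω) (hK : ∀ Q : Finset Ω, Q.card = 4 → IsPGroup 2 (Kn G Q))
    {N : Subgroup G} {F : Finset Ω} (h12 : F.card = 12) (hI : Inv N F) (tr : Tr4 N F)
    (h5 : ∀ Q : Finset Ω, Q ⊆ F → Q.card = 4 → ∀ α ∈ F, ∀ β ∈ F, α ∉ Q → β ∉ Q →
      ∃ x ∈ Sy G Q, x ∈ N ∧ x • α = β)
    (sh : ∀ g ∈ N, 5 ≤ (F ∩ fx Ω g).card → g ∈ St G F) : Fintype.card Ω % 5 ≠ 1 := by
  have hY := partB hy hK (N := N) h12 Nat.prime_five (by norm_num)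
  obtain ⟨a, b, c, d, e, ha, hb, hc, hd, he, hD, ea, eb, ec, ed⟩ := exists_five (F := F) (by omega)
  obtain ⟨hab, hac, had, hbc, hbd, hcd⟩ := id hD
  obtain ⟨g, hg, ga, gb, gc, gd, ge⟩ := tr5 hI tr h5 ha hb hc hd he hb hc hd he ha hD ea eb ec ed
    ⟨hbc, hbd, eb.symm, hcd, ec.symm, ed.symm⟩ hab hac had ea.symm
  obtain ⟨t, ht, ta, tb, tc, td, te⟩ := tr5 hI tr h5 ha hb hc hd he ha he hd hc hb hD ea eb ec ed
    ⟨ea.symm, had, hac, ed, ec, hcd.symm⟩ hab.symm eb.symm hbd hbc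
  have g5 : g ^ 5 ^ 1 ∈ St G F := by
    rw [pow_one]
    exact sh _ (N.pow_mem hg 5) (five_le ha hb hc hd he hD ea eb ec ed (pow5 ga gb gc gd ge))
  obtain ⟨w, hw, hwg, j, hj⟩ := lift_el Nat.prime_five hI hg g5
  rw [← hwg a ha] at ga
  rw [← hwg b hb] at gb
  rw [← hwg c hc] at gc
  rw [← hwg d hd] at gd
  rw [← hwg e he] at ge
  have w5 : w ^ 5 = 1 := by
    refine eq_one_of_not_dvd (k := j) Nat.prime_five hY (Subgroup.mem_inf.2 ⟨N.pow_mem hw 5,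
      sh _ (N.pow_mem hw 5) (five_le ha hb hc hd he hD ea eb ec ed (pow5 ga gb gc gd ge))⟩) ?_
    rw [← pow_mul, mul_comm, pow_mul, hj, one_pow]
  have w1 : w ≠ 1 := by
    rintro rfl
    exact hab (by simpa using ga)
  have := Fact.mk Nat.prime_five
  have wo : orderOf w = 5 := orderOf_eq_prime w5 w1
  have hm : t * w * t⁻¹ * w ∈ N := N.mul_mem (N.mul_mem (N.mul_mem ht hw) (N.inv_mem ht)) hw
  obtain ⟨s, -, hs⟩ := real_lift (N := N) (Y := N ⊓ St G F) inf_le_left (norm_ker hI)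
    Nat.prime_five hY hw wo ht (Subgroup.mem_inf.2 ⟨hm,
      sh _ hm (five_le ha hb hc hd he hD ea eb ec ed (rev5 ga gb gc gd ge ta tb te tc td))⟩)
  have c1 := card_fx_mod (k := 1) Nat.prime_five (g := w) (F := F)
    (by rw [pow_one, w5]; exact one_mem _) (hI w hw)
  have c2 : (F ∩ fx Ω w).card < 5 := by
    by_contra h
    exact hab ((sh w hw (by omega) a ha).symm.trans ga)
  have c3 : (F ∩ fx Ω w).card ≤ (fx Ω w).card := Finset.card_le_card Finset.inter_subset_right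
  have c4 := e_mod (Ω := Ω) Nat.prime_five (pow_of_ord wo)
  have c5 : (fx Ω w).card ≤ 5 := by
    by_contra h
    have := (lemE' hy hK Nat.prime_five (by norm_num) wo (by omega)).2.1 ⟨s, hs⟩
    omega
  unfold Nat.ModEq at c1 c4
  omega

theorem partD (hy : Hyp2 G Ω) (hK : ∀ Q : Finset Ω, Q.card = 4 → IsPGroup 2 (Kn G Q))
    {N : Subgroup G} {F : Finset Ω} (h12 : F.card = 12) (hI : Inv N F) (tr : Tr4 N F)
    (h5 : ∀ Q : Finset Ω, Q ⊆ F → Q.card = 4 → ∀ α ∈ F, ∀ β ∈ F, α ∉ Q → β ∉ Q →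
      ∃ x ∈ Sy G Q, x ∈ N ∧ x • α = β)
    (sh : ∀ g ∈ N, 5 ≤ (F ∩ fx Ω g).card → g ∈ St G F) : 3 ∣ Fintype.card Ω := by
  by_contra h3
  have hY := partB hy hK (N := N) h12 Nat.prime_three (by norm_num)
  obtain ⟨t, htF, ht⟩ := Finset.exists_subset_card_eq (show 3 ≤ F.card by omega)
  obtain ⟨a, b, c, hab, hac, hbc, rfl⟩ := Finset.card_eq_three.1 ht
  have ha : a ∈ F := htF (by simp)
  have hb : b ∈ F := htF (by simp)
  have hc : c ∈ F := htF (by simp)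
  set X := N ⊓ St G ({a, b, c} : Finset Ω) with hX
  set D := F \ {a, b, c} with hDdef
  have mX : ∀ {g : G}, g ∈ X ↔ g ∈ N ∧ g • a = a ∧ g • b = b ∧ g • c = c := by
    intro g
    simp [hX, mem_St]
  have mD : ∀ {ω : Ω}, ω ∈ D ↔ ω ∈ F ∧ ω ≠ a ∧ ω ≠ b ∧ ω ≠ c := by
    intro ω
    simp [hDdef]
  have h9 : D.card = 9 := by
    rw [hDdef, Finset.card_sdiff_of_subset htF, h12, ht]
  have hID : Inv X D := by
    intro g hg ω hω
    rw [mX] at hg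
    rw [mD] at hω ⊢
    exact ⟨hI g hg.1 ω hω.1, fun h => hω.2.1 (smul_left_cancel g (h.trans hg.2.1.symm)),
      fun h => hω.2.2.1 (smul_left_cancel g (h.trans hg.2.2.1.symm)),
      fun h => hω.2.2.2 (smul_left_cancel g (h.trans hg.2.2.2.symm))⟩
  have T2 : ∀ μ ∈ D, ∀ ν ∈ D, ∀ μ' ∈ D, ∀ ν' ∈ D, μ ≠ ν → μ' ≠ ν' →
      ∃ g ∈ X, g • μ = μ' ∧ g • ν = ν' := by
    intro μ hμ ν hν μ' hμ' ν' hν' h h'
    rw [mD] at hμ hν hμ' hν'
    obtain ⟨g, hg, ga, gb, gc, gd, ge⟩ := tr5 hI tr h5 ha hb hc hμ.1 hν.1 ha hb hc hμ'.1 hν'.1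
      ⟨hab, hac, hμ.2.1.symm, hbc, hμ.2.2.1.symm, hμ.2.2.2.symm⟩ hν.2.1 hν.2.2.1 hν.2.2.2 h.symm
      ⟨hab, hac, hμ'.2.1.symm, hbc, hμ'.2.2.1.symm, hμ'.2.2.2.symm⟩ hν'.2.1 hν'.2.2.1 hν'.2.2.2
      h'.symm
    exact ⟨g, mX.2 ⟨hg, ga, gb, gc⟩, gd, ge⟩
  have S2 : ∀ g ∈ X, ∀ μ ∈ D, ∀ ν ∈ D, μ ≠ ν → g • μ = μ → g • ν = ν → g ∈ St G F := by
    intro g hg μ hμ ν hν h gμ gν
    rw [mX] at hg
    rw [mD] at hμ hν
    exact sh g hg.1 (five_le ha hb hc hμ.1 hν.1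
      ⟨hab, hac, hμ.2.1.symm, hbc, hμ.2.2.1.symm, hμ.2.2.2.symm⟩ hν.2.1 hν.2.2.1 hν.2.2.2 h.symm
      ⟨hg.2.1, hg.2.2.1, hg.2.2.2, gμ, gν⟩)
  obtain ⟨μ, hμ⟩ : D.Nonempty := Finset.card_pos.1 (by omega)
  obtain ⟨T, -, hTX, hT, -, hidx⟩ := exists_max_pgroup Nat.prime_three (X := X) (R := ⊥) bot_le
    IsPGroup.of_bot
  have hXc : Nat.card X = D.card * Nat.card ↥(X ⊓ St G ({μ} : Finset Ω)) := by
    refine card_eq_of_trans hID hμ fun y hy => ?_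
    obtain ⟨ν, hν, hνμ⟩ := Finset.exists_mem_ne (show 1 < D.card by omega) μ
    obtain ⟨ν', hν', hνy⟩ := Finset.exists_mem_ne (show 1 < D.card by omega) y
    obtain ⟨g, hg, h1, -⟩ := T2 μ hμ ν hν y hy ν' hν' hνμ.symm hνy.symm
    exact ⟨g, hg, h1⟩
  have h9T : 9 ∣ Nat.card T := by
    have e1 : Nat.card T * T.relIndex X = Nat.card X := by
      rw [← Subgroup.relIndex_bot_left, Subgroup.relIndex_mul_relIndex ⊥ T X bot_le hTX,
        Subgroup.relIndex_bot_left]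
    have e2 : 9 ∣ Nat.card T * T.relIndex X := by
      rw [e1, hXc, h9]; exact Dvd.intro _ rfl
    have e3 : Nat.Coprime 9 (T.relIndex X) :=
      Nat.Coprime.pow_left 2 ((Nat.Prime.coprime_iff_not_dvd Nat.prime_three).2 hidx)
    exact e3.dvd_of_dvd_mul_right e2
  -- `T` is cyclic
  have hcyc : IsCyclic T := by
    have c1 := card_Fx_mod (Ω := Ω) Nat.prime_three hT (F := Finset.univ)
      (fun _ _ _ _ => Finset.mem_univ _)
    rw [Finset.univ_inter, Finset.card_univ] at c1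
    have c2 : ({a, b, c} : Finset Ω) ⊆ Fx Ω T := le_St_iff.1 (hTX.trans inf_le_right)
    have c3 := Finset.card_le_card c2
    have c4 : 4 ≤ (Fx Ω T).card := by
      unfold Nat.ModEq at c1
      omega
    obtain ⟨Q, hQT, hQ⟩ := Finset.exists_subset_card_eq c4
    refine (hy.frob Q hQ).cyclic Nat.prime_three (by norm_num) (fun hd => ?_) (le_St_iff.2 hQT) hT
    obtain ⟨v, hv, hv3⟩ := exists_ord Nat.prime_three hd
    exact notMem_two (hK Q hQ) Nat.prime_three (by norm_num) hv3 hv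
  have hpow : ∀ σ ∈ T, ∃ k : ℕ, σ ^ 3 ^ k = 1 := by
    intro σ hσ
    obtain ⟨k, hk⟩ := hT ⟨σ, hσ⟩
    exact ⟨k, by simpa using congrArg Subtype.val hk⟩
  have triv : ∀ σ ∈ T, σ ∈ St G F → σ = 1 := by
    intro σ hσ h
    obtain ⟨k, hk⟩ := hpow σ hσ
    exact eq_one_of_not_dvd Nat.prime_three hY (Subgroup.mem_inf.2 ⟨(mX.1 (hTX hσ)).1, h⟩) hk
  have semi : ∀ σ ∈ T, ∀ ω ∈ D, σ • ω = ω → σ = 1 := by
    intro σ hσ ω hω h
    obtain ⟨k, hk⟩ := hpow σ hσ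
    have c1 := card_fx_mod (k := k) Nat.prime_three (g := σ) (F := D)
      (by rw [hk]; exact one_mem _) (hID σ (hTX hσ))
    have m : ω ∈ D ∩ fx Ω σ := Finset.mem_inter.2 ⟨hω, mem_fx.2 h⟩
    have c2 := Finset.card_pos.2 ⟨ω, m⟩
    obtain ⟨ν, hν, hνω⟩ := Finset.exists_mem_ne (show 1 < (D ∩ fx Ω σ).card by
      unfold Nat.ModEq at c1; omega) ω
    rw [Finset.mem_inter, mem_fx] at hν
    exact triv σ hσ (S2 σ (hTX hσ) ω hω ν hν.1 hνω.symm h hν.2)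
  have hT9 : Nat.card T ∣ 9 := by
    have := dvd_of_semireg (T := T) (P := ⊥) (hID.mono hTX) bot_le bot_le
      (fun σ hσ ω hω h => Subgroup.mem_bot.2 (semi σ hσ ω hω h))
    rwa [Subgroup.relIndex_bot_left, h9] at this
  obtain ⟨τ', hτ'⟩ := IsCyclic.exists_ofOrder_eq_natCard (α := T)
  obtain ⟨τ, hτ, ho⟩ : ∃ τ ∈ T, orderOf τ = 9 :=
    ⟨τ', τ'.2, by rw [Subgroup.orderOf_coe, hτ']; exact Nat.dvd_antisymm hT9 h9T⟩
  have t9 : τ ^ 9 = 1 := by rw [← ho, pow_orderOf_eq_one]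
  have t3 : τ ^ 3 ≠ 1 := fun h => by
    have := orderOf_dvd_of_pow_eq_one h
    rw [ho] at this
    omega
  have t1 : τ ≠ 1 := fun h => t3 (by rw [h, one_pow])
  have f1 : ∀ ω ∈ D, τ • ω ≠ ω := fun ω hω h => t1 (semi τ hτ ω hω h)
  have f3 : ∀ ω ∈ D, τ ^ 3 • ω ≠ ω := fun ω hω h => t3 (semi _ (T.pow_mem hτ 3) ω hω h)
  have x1 : τ ∈ X := hTX hτ
  have x3 : τ ^ 3 ∈ X := X.pow_mem x1 3
  obtain ⟨h, hh, h1, h2⟩ := T2 μ hμ _ (hID _ x3 μ hμ) μ hμ _ (hID _ x1 μ hμ) (f3 μ hμ).symm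
    (f1 μ hμ).symm
  have x' : h * τ ^ 3 * h⁻¹ ∈ X := X.mul_mem (X.mul_mem hh x3) (X.inv_mem hh)
  have H := uniq_fpf hID T2 (fun g hg μ hμ ν hν h a b => St_mono Finset.sdiff_subset
    (S2 g hg μ hμ ν hν h a b)) x1 x' f1 (fun ω hω e => by
      rw [mul_smul, mul_smul, smul_eq_iff_eq_inv_smul] at e
      exact f3 _ (hID _ (X.inv_mem hh) ω hω) e) hμ (by
      rw [mul_smul, mul_smul, inv_smul_eq_iff.2 h1.symm, h2])
  apply f3 μ hμ
  have e3 : ∀ x : G, x ^ 3 • μ = x • x • x • μ := fun x => by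
    rw [pow_three, mul_smul, mul_smul]
  have e4 : (h * τ ^ 3 * h⁻¹) ^ 3 = 1 := by
    rw [conj_pow, ← pow_mul, t9, mul_one, mul_inv_cancel]
  have m1 := hID _ x1 μ hμ
  have m2 := hID _ x1 _ m1
  rw [e3, H _ m2, H _ m1, H _ hμ, ← e3, e4, one_smul]

end

section
variable {G Ω : Type u} [Group G] [Finite G] [MulAction G Ω] [Fintype Ω] [DecidableEq Ω]

theorem partA [FaithfulSMul G Ω] (hy : Hyp2 G Ω) (ih : IH Ω)
    (hf : ∀ Q : Finset Ω, Q.card = 4 → Fx Ω (Sy G Q) = Q) {P : Subgroup G} (hP : IsPGroup 2 P)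
    (h12 : (Fx Ω P).card = 12)
    (sh : ∀ g ∈ Subgroup.normalizer (P : Set G), 5 ≤ (Fx Ω P ∩ fx Ω g).card → g ∈ St G (Fx Ω P)) :
    ∀ Q : Finset Ω, Q.card = 4 → IsPGroup 2 (Kn G Q) := by
  obtain ⟨Q, hQF, hQ⟩ := Finset.exists_subset_card_eq (show 4 ≤ (Fx Ω P).card by omega)
  suffices h : ∀ {r : ℕ}, r.Prime → r ∣ Nat.card (Kn G Q) → r = 2 by
    intro Q' hQ'
    refine IsPGroup.of_card (n := (Nat.card (Kn G Q)).primeFactorsList.length) ?_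
    rw [hy.toHyp.card_Kn hQ' hQ]
    exact Nat.eq_prime_pow_of_unique_prime_dvd Nat.card_pos.ne' h
  intro r hr hd
  by_contra h2
  obtain ⟨R, hRK, hR, hR1, hRall⟩ := (hy.frob Q hQ).exists_R hr hd
  have hRS : R ≤ St G Q := hRK.trans (hy.frob Q hQ).le
  have hPS : P ≤ Sy G Q := le_Sy hP (le_St_iff.2 hQF)
  have hpow : ∀ σ ∈ R, ∃ k : ℕ, σ ^ r ^ k = 1 := by
    intro σ hσ
    obtain ⟨k, hk⟩ := hR ⟨σ, hσ⟩
    exact ⟨k, by simpa using congrArg Subtype.val hk⟩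
  have hRF : R ≤ St G (Fx Ω P) := by
    intro ρ hρ
    obtain ⟨k, hk⟩ := hpow ρ hρ
    have ho : Odd (orderOf ρ) :=
      Odd.of_dvd_nat (hr.odd_of_ne_two h2).pow (orderOf_dvd_of_pow_eq_one hk)
    have hN : ρ ∈ Subgroup.normalizer (P : Set G) := by
      refine Subgroup.centralizer_le_normalizer _ ?_
      rw [Subgroup.mem_centralizer_iff]
      intro s hs
      exact (hy.commute_of_odd hQ (hRK hρ) ho (hPS hs)).symm.eq
    refine sh ρ hN ?_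
    have c1 := card_fx_mod (k := k) hr (g := ρ) (F := Fx Ω P) (by rw [hk]; exact one_mem _)
      (inv_Fx P ρ hN)
    have c2 := Finset.card_le_card (Finset.subset_inter hQF (mem_St_iff.1 (hRS hρ)))
    by_contra h5
    have c3 : (Fx Ω P ∩ fx Ω ρ).card = 4 := by omega
    rw [c3, h12] at c1
    have c4 : r ∣ 2 ^ 3 := (Nat.modEq_iff_dvd' (by norm_num)).1 c1
    exact h2 ((Nat.prime_dvd_prime_iff_eq hr Nat.prime_two).1 (hr.dvd_of_dvd_pow c4))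
  have hFR : Fx Ω P ⊆ Fx Ω R := le_St_iff.1 hRF
  have hc := Finset.card_le_card hFR
  have hne : Fx Ω R ≠ Finset.univ := by
    intro h
    apply hR1
    rw [eq_bot_iff]
    intro ρ hρ
    rw [Subgroup.mem_bot]
    refine FaithfulSMul.eq_of_smul_eq_smul (α := Ω) fun ω => ?_
    rw [one_smul]
    exact mem_Fx.1 (h ▸ Finset.mem_univ ω) ρ hρ
  have hcj : ∀ g : G, cj g R ≤ St G Q → cj g R = R := by
    intro g hg
    refine Subgroup.eq_of_le_of_card_ge (fun x hx => hRall x (hg hx) ?_) (card_cj g R).ge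
    obtain ⟨k, hk⟩ := isPGroup_cj (g := g) hR ⟨x, hx⟩
    exact ⟨k, by simpa using congrArg Subtype.val hk⟩
  have tr := witt hy.tr hQ hRS fun g hg => ⟨1, one_mem _, by rw [cj_one, hcj g hg]⟩
  have hSN : St G Q ≤ Subgroup.normalizer (R : Set G) := by
    intro g hg
    refine cj_eq_iff.1 (hcj g fun x hx => ?_)
    have := (St G Q).mul_mem ((St G Q).mul_mem hg (hRS (mem_cj.1 hx))) ((St G Q).inv_mem hg)
    simpa [mul_assoc] using this
  have hQR : Q ⊆ Fx Ω R := hQF.trans hFR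
  have h23 := IH.app ih hy.toHyp (inv_Fx R) tr hQR hQ hSN (fun h => by
    have := Finset.card_le_card (le_St_iff.1 ((hy.Sy_le_Kn hQ).trans h))
    rw [hf Q hQ] at this
    omega) hne
  have c1 := card_Fx_mod Nat.prime_two (hy.pg hQ) ((inv_Fx (Ω := Ω) R).mono ((Sy_le Q).trans hSN))
  rw [hf Q hQ, Finset.inter_eq_right.2 hQR, hQ] at c1
  unfold Nat.ModEq at c1
  omega

end

end DD

variable {G Ω : Type u} [Group G] [Finite G] [MulAction G Ω] [Fintype Ω] [DecidableEq Ω]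

/-- `F = Fx P` (12 points), `N = N(P)`; with the data of `four0` the hypotheses of `dodB` hold. -/
theorem dod [FaithfulSMul G Ω] (hy : Hyp2 G Ω) (ih : IH Ω)
    (hf : ∀ Q : Finset Ω, Q.card = 4 → Fx Ω (Sy G Q) = Q) {P : Subgroup G} (hP : PMax Ω 4 P) :
    (Fx Ω P).card ≠ 12 := by
  intro h12
  obtain ⟨tr, h | h | ⟨-, h5, sh⟩⟩ := four0 hy hf hP
  · omega
  · omega
  have hK := DD.partA hy ih hf hP.two h12 sh
  exact dodB hy hK (DD.partD hy hK h12 (inv_Fx P) tr h5 sh) (DD.partC hy hK h12 (inv_Fx P) tr h5 sh)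

end CL.F4
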