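import Cfsg.Agent.PERM.F4.Semi

/-!
S3404, Case II with `Fx (Sy Q) = Q`: the action of `N(P)` on `Fx P`.
-/

set_option autoImplicit false

namespace CL.F4

open scoped Pointwise

variable {G Ω : Type*} [Group G] [Finite G] [MulAction G Ω] [Fintype Ω] [DecidableEq Ω]

/-- `F = Fx P`, `N = N(P)`, `E_Q = Sy Q ⊓ N` for `Q ⊆ F`.  `E_Q` contains `x ∉ P` (`exists_norm_two`)
and every such `x` has `F ∩ fx x = Q` (`PMax.fix`), so `tr4_of_pgroup` applies.  Apply `semi` to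
`Γ = (act h).range` on `↥F` (`Tr4.range`): for `Q' : Finset F` with image `Q`, `Sy Γ Q'` is the image of
`E_Q` (2-elements lift, `lift_p`).  An element of odd prime order `p` of `St Γ Q'` lifts to a
`p`-element `g ∈ N ⊓ St Q`; if `g ∈ Kn Q` it centralises `Sy Q` (`commute_of_odd`); otherwise, if its
image commutes with the image of `e ∈ E_Q`, then `g e g⁻¹ e⁻¹ ∈ E_Q` fixes `F`, so lies in `P`
(`PMax.fix`), and `Frob.sec` (`A = E_Q`, `B = P`) gives `e ∈ P`.  Degree 8: a subgroup of order 20160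
of `Perm F` has index two (`Equiv.Perm.eq_alternatingGroup_of_index_eq_two`). -/
theorem four0 (hy : Hyp2 G Ω) (hf : ∀ Q : Finset Ω, Q.card = 4 → Fx Ω (Sy G Q) = Q)
    {P : Subgroup G} (hP : PMax Ω 4 P) :
    Tr4 (Subgroup.normalizer (P : Set G)) (Fx Ω P) ∧
      ((Fx Ω P).card = 6 ∨
        ((Fx Ω P).card = 8 ∧ (act (inv_Fx (Ω := Ω) P)).range = alternatingGroup (Fx Ω P)) ∨
        ((Fx Ω P).card = 12 ∧
          (∀ Q : Finset Ω, Q ⊆ Fx Ω P → Q.card = 4 → ∀ α ∈ Fx Ω P, ∀ β ∈ Fx Ω P, α ∉ Q → β ∉ Q →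
            ∃ x ∈ Sy G Q, x ∈ Subgroup.normalizer (P : Set G) ∧ x • α = β) ∧
          ∀ g ∈ Subgroup.normalizer (P : Set G), 5 ≤ (Fx Ω P ∩ fx Ω g).card →
            g ∈ St G (Fx Ω P))) := by
  have : Fact (Nat.Prime 2) := ⟨Nat.prime_two⟩
  have hinv := inv_Fx (Ω := Ω) P
  have hf4 : ∀ Q : Finset Ω, Q.card = 4 → (Fx Ω (Sy G Q)).card = 4 := fun Q hQ => by
    rw [hf Q hQ, hQ]
  have hfix : ∀ Q : Finset Ω, Q ⊆ Fx Ω P → Q.card = 4 → ∀ x ∈ Sy G Q, x ∉ P →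
      Fx Ω P ∩ fx Ω x = Q :=
    fun Q h hQ x hx hxP => (hP.fix hy hQ (hf4 Q hQ) h hx hxP).trans (hf Q hQ)
  have hex : ∀ Q : Finset Ω, Q ⊆ Fx Ω P → Q.card = 4 →
      ∃ x ∈ Sy G Q, x ∉ P ∧ x ∈ Subgroup.normalizer (P : Set G) := fun Q h hQ => by
    obtain ⟨x, h1, h2, h3, -⟩ := exists_norm_two (hy.pg hQ) (hP.lt_Sy (hf4 Q hQ) h).1
      (hP.lt_Sy (hf4 Q hQ) h).2
    exact ⟨x, h1, h2, h3⟩
  have hPF : P ≤ St G (Fx Ω P) := le_St_iff.2 subset_rfl
  have hker : ∀ Q : Finset Ω, Q ⊆ Fx Ω P → Q.card = 4 → ∀ x ∈ Sy G Q, x ∈ St G (Fx Ω P) →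
      x ∈ P := fun Q h hQ x hx hs => by
    by_contra hxP
    have := hfix Q h hQ x hx hxP
    rw [Finset.inter_eq_left.2 (mem_St_iff.1 hs)] at this
    have hb := hP.big
    rw [this] at hb
    omega
  have tr : Tr4 (Subgroup.normalizer (P : Set G)) (Fx Ω P) := by
    refine tr4_of_pgroup Nat.prime_two hinv hP.big fun Q h hQ => ?_
    obtain ⟨x, h1, h2, h3⟩ := hex Q h hQ
    refine ⟨Subgroup.zpowers x, Subgroup.zpowers_le.2 h3,
      (hy.pg hQ).to_le (Subgroup.zpowers_le.2 h1), ?_⟩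
    rw [Fx_zpowers, hfix Q h hQ x h1 h2]
  refine ⟨tr, ?_⟩
  let π := (act hinv).rangeRestrict
  have hπ : Function.Surjective π := (act hinv).rangeRestrict_surjective
  have π1 : ∀ g, π g = 1 ↔ (g : G) ∈ St G (Fx Ω P) := fun g => by
    rw [← act_eq_one hinv, Subtype.ext_iff]; rfl
  have πs : ∀ g (ω : Fx Ω P), ((π g • ω : Fx Ω P) : Ω) = (g : G) • (ω : Ω) := fun _ _ => rfl
  let im : Finset (Fx Ω P) → Finset Ω := fun Q => Q.map (Function.Embedding.subtype _)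
  have im4 : ∀ Q : Finset (Fx Ω P), Q.card = 4 → (im Q).card = 4 := fun Q hQ => by
    rw [Finset.card_map, hQ]
  have imm : ∀ (Q : Finset (Fx Ω P)) (ω : Fx Ω P), (ω : Ω) ∈ im Q ↔ ω ∈ Q := fun Q ω =>
    Finset.mem_map' (Function.Embedding.subtype _)
  have imF : ∀ Q : Finset (Fx Ω P), im Q ⊆ Fx Ω P := fun Q ω hω => by
    obtain ⟨a, -, rfl⟩ := Finset.mem_map.1 hω
    exact a.2
  have hSt : ∀ (Q : Finset (Fx Ω P)) g, π g ∈ St (act hinv).range Q ↔ (g : G) ∈ St G (im Q) := by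
    intro Q g
    constructor
    · intro h ω hω
      obtain ⟨a, ha, rfl⟩ := Finset.mem_map.1 hω
      exact congrArg Subtype.val (h a ha)
    · exact fun h ω hω => Subtype.ext (h ω ((imm Q ω).2 hω))
  have lift : ∀ (p k : ℕ), p.Prime → ∀ τ : (act hinv).range, τ ^ p ^ k = 1 →
      ∃ g, π g = τ ∧ ∃ j : ℕ, (g : G) ^ p ^ j = 1 := fun p k hp τ h => by
    obtain ⟨g, h1, h2⟩ := lift_p hp hinv τ.2 (k := k) (congrArg Subtype.val h)
    exact ⟨g, Subtype.ext h1, h2⟩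
  have hSy : ∀ Q : Finset (Fx Ω P), Q.card = 4 → Sy (act hinv).range Q =
      ((Sy G (im Q)).subgroupOf (Subgroup.normalizer (P : Set G))).map π := by
    intro Q hQ
    refine le_antisymm ((Subgroup.closure_le _).2 ?_) ?_
    · rintro τ ⟨h1, k, hk⟩
      obtain ⟨g, rfl, hg⟩ := lift 2 k Nat.prime_two τ hk
      exact ⟨g, mem_Sy_of ((hSt Q g).1 h1) hg, rfl⟩
    · rintro _ ⟨g, hg, rfl⟩
      obtain ⟨h1, k, hk⟩ := (hy.mem_Sy (im4 Q hQ)).1 hg
      exact mem_Sy_of ((hSt Q g).2 h1) ⟨k, by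
        rw [← map_pow, show g ^ 2 ^ k = 1 from Subtype.ext hk, map_one]⟩
  have hc : Fintype.card (Fx Ω P) = (Fx Ω P).card := Fintype.card_coe _
  have hs := semi (G := (act hinv).range) (Ω := Fx Ω P) (tr.range hinv) (by rw [hc]; exact hP.big)
    (fun Q hQ => by
      rw [hSy Q hQ]
      exact ((hy.pg (im4 Q hQ)).comap_subtype.to_le le_rfl).map π)
    (fun Q hQ e => by
      obtain ⟨x, h1, h2, h3⟩ := hex _ (imF Q) (im4 Q hQ)
      have : π ⟨x, h3⟩ ∈ Sy (act hinv).range Q := by rw [hSy Q hQ]; exact ⟨_, h1, rfl⟩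
      rw [e, Subgroup.mem_bot, π1] at this
      exact h2 (hker _ (imF Q) (im4 Q hQ) x h1 this))
    (fun Q hQ τ hτ h1 => by
      rw [hSy Q hQ] at hτ
      obtain ⟨g, hg, rfl⟩ := hτ
      have := hfix _ (imF Q) (im4 Q hQ) g hg fun h => h1 ((π1 g).2 (hPF h))
      ext ω
      rw [← imm Q, ← this, Finset.mem_inter, mem_fx, mem_fx, Subtype.ext_iff, πs]
      exact (and_iff_right ω.2).symm)
    (fun Q hQ τ hτ p hp hp2 ho => by
      obtain ⟨g, rfl, j, hj⟩ := lift p 1 hp τ (by rw [pow_one, ← ho, pow_orderOf_eq_one])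
      have hg := (hSt Q g).1 hτ
      rw [hSy Q hQ]
      by_cases hK : (g : G) ∈ Kn G (im Q)
      · left
        rintro _ ⟨s, hs, rfl⟩
        have h1 := hy.commute_of_odd (im4 Q hQ) hK
          (((hp.odd_of_ne_two hp2).pow (n := j)).of_dvd_nat (orderOf_dvd_of_pow_eq_one hj)) hs
        exact Commute.map (show Commute g s from Subtype.ext h1.eq) π
      · right
        rintro _ ⟨s, hs, rfl⟩ hcm
        rw [π1]
        refine hPF ((hy.frob _ (im4 Q hQ)).sec hg hK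
          (A := Sy G (im Q) ⊓ Subgroup.normalizer (P : Set G)) (B := P)
          (inf_le_left.trans (hy.Sy_le_Kn (im4 Q hQ)))
          (le_inf (hP.lt_Sy (hf4 _ (im4 Q hQ)) (imF Q)).1 Subgroup.le_normalizer)
          (fun a ha b hb => (Subgroup.mem_normalizer_iff.1 ha.2 b).1 hb)
          (fun b hb => (Subgroup.mem_normalizer_iff.1 g.2 b).1 hb) ⟨hs, s.2⟩ ?_)
        refine hker _ (imF Q) (im4 Q hQ) _ (Subgroup.mul_mem _
          ((Subgroup.mem_normalizer_iff.1 (norm_Sy (smul_eq_of_mem_St hg)) _).1 hs)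
          (Subgroup.inv_mem _ hs)) ((π1 (g * s * g⁻¹ * s⁻¹)).1 ?_)
        rw [map_mul, map_mul, map_mul, map_inv, map_inv, hcm.eq]
        group)
  rw [hc] at hs
  rcases hs with h | ⟨h8, h⟩ | ⟨h12, h1, h2⟩
  · exact Or.inl h
  · refine Or.inr (Or.inl ⟨h8, Equiv.Perm.eq_alternatingGroup_of_index_eq_two ?_⟩)
    have := (act hinv).range.index_mul_card
    rw [h, Nat.card_perm, Nat.card_eq_fintype_card, hc, h8] at this
    norm_num [Nat.factorial] at this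
    omega
  · refine Or.inr (Or.inr ⟨h12, fun Q hQF hQ α hα β hβ hαQ hβQ => ?_, fun g hg h5 => ?_⟩)
    · have e : im (Q.subtype (· ∈ Fx Ω P)) = Q := Finset.subtype_map_of_mem hQF
      have h4 : (Q.subtype (· ∈ Fx Ω P)).card = 4 := by
        rw [← hQ, ← Finset.card_map (Function.Embedding.subtype _)]
        exact congrArg Finset.card e
      obtain ⟨τ, hτ, eτ⟩ := h1 _ h4 ⟨α, hα⟩ ⟨β, hβ⟩ (fun h => hαQ (Finset.mem_subtype.1 h))
        (fun h => hβQ (Finset.mem_subtype.1 h))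
      rw [hSy _ h4, e] at hτ
      obtain ⟨g, hg, rfl⟩ := hτ
      exact ⟨g, hg, g.2, congrArg Subtype.val eτ⟩
    · refine (π1 ⟨g, hg⟩).1 (h2 _ (h5.trans (le_of_eq ?_)))
      rw [← Finset.card_map (Function.Embedding.subtype _) (s := fx (Fx Ω P) (π ⟨g, hg⟩))]
      congr 1
      ext ω
      rw [Finset.mem_inter, mem_fx, Finset.mem_map]
      constructor
      · exact fun h => ⟨⟨ω, h.1⟩, mem_fx.2 (Subtype.ext h.2), rfl⟩
      · rintro ⟨a, ha, rfl⟩
        exact ⟨a.2, congrArg Subtype.val (mem_fx.1 ha)⟩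

end CL.F4
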