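import Cfsg.Agent.PERM.F4.Lift
import Cfsg.Agent.S0042
import Cfsg.Agent.SOLV.CoprimeGen
import Cfsg.Agent.SOLV.PGroupCyclicSCN
import Cfsg.Agent.SOLV.Fitting
import Cfsg.Agent.SOLV.MinNormal

/-!
S3404: the predicate `Frob H K`.  
-/

set_option autoImplicit false

namespace CL.F4

variable {G : Type*} [Group G] [Finite G] {H K : Subgroup G}

/-- `g` commutes with its powers -/
theorem Frob.pow_notMem (hF : Frob H K) {g : G} (hg : g ∈ H) (hK : g ∉ K) {j : ℕ}
    (h1 : g ^ j ≠ 1) : g ^ j ∉ K := by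
  exact fun h => h1 (hF.fpf g hg hK _ h (Commute.self_pow g j))

/-- `b ↦ g b g⁻¹ b⁻¹`... is injective on `A` (up to the side: use `b ↦ b⁻¹ * (g b g⁻¹)` and invert),
hence onto -/
theorem Frob.surj (hF : Frob H K) {g : G} (hg : g ∈ H) (hK : g ∉ K) {A : Subgroup G} (hA : A ≤ K)
    (hn : ∀ a ∈ A, g * a * g⁻¹ ∈ A) : ∀ a ∈ A, ∃ b ∈ A, a = g * b * g⁻¹ * b⁻¹ := by
  let f : A → A := fun b => ⟨b.1⁻¹ * (g * b.1 * g⁻¹), A.mul_mem (A.inv_mem b.2) (hn _ b.2)⟩
  have hinj : Function.Injective f := by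
    intro b c e
    have e' : b.1⁻¹ * (g * b.1 * g⁻¹) = c.1⁻¹ * (g * c.1 * g⁻¹) := congrArg Subtype.val e
    have h1 : c.1 * b.1⁻¹ = 1 := by
      refine hF.fpf g hg hK _ (hA (A.mul_mem c.2 (A.inv_mem b.2))) ?_
      show g * (c.1 * b.1⁻¹) = c.1 * b.1⁻¹ * g
      calc g * (c.1 * b.1⁻¹) = c.1 * (c.1⁻¹ * (g * c.1 * g⁻¹)) * (g * b.1⁻¹) := by group
        _ = c.1 * (b.1⁻¹ * (g * b.1 * g⁻¹)) * (g * b.1⁻¹) := by rw [e']
        _ = c.1 * b.1⁻¹ * g := by group
    exact Subtype.ext (mul_inv_eq_one.1 h1).symm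
  intro a ha
  obtain ⟨b, hb⟩ := Finite.surjective_of_injective hinj ⟨a⁻¹, A.inv_mem ha⟩
  have e : b.1⁻¹ * (g * b.1 * g⁻¹) = a⁻¹ := congrArg Subtype.val hb
  refine ⟨b.1⁻¹, A.inv_mem b.2, ?_⟩
  rw [← inv_inv a, ← e]; group

/-- fixed-point-freeness on sections: `g a g⁻¹ a⁻¹ = β ∈ B`; conjugating, `a⁻¹ (g a g⁻¹) ∈ B` has the
form `b⁻¹ (g b g⁻¹)` with `b ∈ B`, and then `a b⁻¹` is centralised by `g` -/
theorem Frob.sec (hF : Frob H K) {g : G} (hg : g ∈ H) (hK : g ∉ K) {A B : Subgroup G} (hA : A ≤ K)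
    (hBA : B ≤ A) (hB : ∀ a ∈ A, ∀ b ∈ B, a * b * a⁻¹ ∈ B) (hgB : ∀ b ∈ B, g * b * g⁻¹ ∈ B)
    {a : G} (ha : a ∈ A) (h : g * a * g⁻¹ * a⁻¹ ∈ B) : a ∈ B := by
  have h1 : a⁻¹ * (g * a * g⁻¹) ∈ B := by
    have := hB a⁻¹ (A.inv_mem ha) _ h
    rwa [show a⁻¹ * (g * a * g⁻¹ * a⁻¹) * a⁻¹⁻¹ = a⁻¹ * (g * a * g⁻¹) by group] at this
  obtain ⟨b, hb, e⟩ := hF.surj hg hK (hBA.trans hA) hgB _ (B.inv_mem h1)
  have h2 : a * b = 1 := by
    refine hF.fpf g hg hK _ (hA (A.mul_mem ha (hBA hb))) ?_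
    show g * (a * b) = a * b * g
    calc g * (a * b) = a * (a⁻¹ * (g * a * g⁻¹)) * (g * b * g⁻¹ * b⁻¹) * (b * g) := by group
      _ = a * b * g := by rw [← e]; group
  rw [mul_eq_one_iff_eq_inv.1 h2]
  exact B.inv_mem hb

/-- if `m ∈ M \ K` then `K = [m, K] ≤ M` -/
theorem Frob.le_or_le (hF : Frob H K) {M : Subgroup G} (hM : M ≤ H)
    (hn : ∀ h ∈ H, ∀ m ∈ M, h * m * h⁻¹ ∈ M) : M ≤ K ∨ K ≤ M := by
  by_cases h : M ≤ K
  · exact Or.inl h
  · right
    obtain ⟨m, hm, hmK⟩ := SetLike.not_le_iff_exists.1 h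
    intro k hk
    obtain ⟨b, hb, rfl⟩ := hF.surj (hM hm) hmK le_rfl (hF.norm m (hM hm)) k hk
    have := M.mul_mem hm (hn b (hF.le hb) _ (M.inv_mem hm))
    rwa [show m * (b * m⁻¹ * b⁻¹) = m * b * m⁻¹ * b⁻¹ by group] at this

private theorem unique_aux {K' : Subgroup G} (hF : Frob H K) (hF' : Frob H K') (h : K ≤ K') :
    K = K' := by
  by_contra hne
  obtain ⟨g, hg, hgK⟩ := SetLike.exists_of_lt (lt_of_le_of_ne h hne)
  have := hF'.nil
  have hN : (K.subgroupOf K').Normal :=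
    ⟨fun k hk x => hF.norm x (hF'.le x.2) k hk⟩
  have hb : K.subgroupOf K' ≠ ⊥ := by
    rw [Ne, Subgroup.subgroupOf_eq_bot, disjoint_iff, inf_eq_left.2 h]
    exact hF.ne_bot
  obtain ⟨⟨z, hz1, hz2⟩, hz⟩ := Subgroup.ne_bot_iff_exists_ne_one.1
    (CL.inf_center_ne_bot_of_isNilpotent _ hb)
  refine hz (Subtype.ext (Subtype.ext (hF.fpf g (hF'.le hg) hgK _ hz1 ?_)))
  exact congrArg Subtype.val (Subgroup.mem_center_iff.1 hz2 ⟨g, hg⟩)

/-- if `K < K'`, a nontrivial element of `K` central in the nilpotent group `K'` is centralised by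
`g ∈ K' \ K` -/
theorem Frob.unique {K' : Subgroup G} (hF : Frob H K) (hF' : Frob H K') : K = K' := by
  rcases hF.le_or_le hF'.le hF'.norm with h | h
  · exact (unique_aux hF' hF h).symm
  · exact unique_aux hF hF' h

theorem Frob.cj (hF : Frob H K) (g : G) : Frob (cj g H) (cj g K) := by
  refine ⟨cj_mono hF.le, fun h hh k hk => ?_, fun e => hF.ne_bot ?_, fun e => hF.ne ?_, ?_,
    fun x hx hxK k hk hc => ?_⟩
  · rw [mem_cj] at hh hk ⊢
    have := hF.norm _ hh _ hk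
    rwa [show g⁻¹ * h * g * (g⁻¹ * k * g) * (g⁻¹ * h * g)⁻¹ = g⁻¹ * (h * k * h⁻¹) * g by group]
      at this
  · rw [← cj_inv_cj g K, e]; exact Subgroup.map_bot _
  · rw [← cj_inv_cj g K, e, cj_inv_cj]
  · have := hF.nil
    exact Group.nilpotent_of_mulEquiv (K.equivMapOfInjective _ (MulAut.conj g).injective)
  · rw [mem_cj] at hx hxK hk
    have := hF.fpf _ hx hxK _ hk (by
      show g⁻¹ * x * g * (g⁻¹ * k * g) = g⁻¹ * k * g * (g⁻¹ * x * g)
      calc g⁻¹ * x * g * (g⁻¹ * k * g) = g⁻¹ * (x * k) * g := by group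
        _ = g⁻¹ * k * g * (g⁻¹ * x * g) := by rw [hc.eq]; group)
    calc k = g * (g⁻¹ * k * g) * g⁻¹ := by group
      _ = 1 := by rw [this]; group

/-- `⟨g⟩` acts on `A` by conjugation with the only fixed point `1` -/
theorem Frob.card_mod (hF : Frob H K) {p k : ℕ} (hp : p.Prime) {g : G} (hg : g ∈ H) (hK : g ∉ K)
    (hk : g ^ p ^ k = 1) {A : Subgroup G} (hA : A ≤ K) (hn : ∀ a ∈ A, g * a * g⁻¹ ∈ A) :
    Nat.card A ≡ 1 [MOD p] := by
  classical
  have := Fact.mk hp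
  have := Fintype.ofFinite A
  let f : Function.End A := fun x => ⟨g * x.1 * g⁻¹, hn x.1 x.2⟩
  have hf : ∀ (m : ℕ) (x : A), (((f ^ m) x : A) : G) = g ^ m * (x : G) * (g ^ m)⁻¹ := by
    intro m
    induction m with
    | zero => intro x; rw [pow_zero, pow_zero, inv_one, one_mul, mul_one]; rfl
    | succ m ih =>
      intro x
      rw [pow_succ, pow_succ]
      refine (ih (f x)).trans ?_
      show g ^ m * (g * x.1 * g⁻¹) * (g ^ m)⁻¹ = _
      group
  have h1 : f ^ p ^ k = 1 := by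
    funext x
    refine Subtype.ext ((hf _ x).trans ?_)
    rw [hk, inv_one, one_mul, mul_one]; rfl
  have h2 := Equiv.Perm.card_fixedPoints_modEq h1
  have e : Fintype.card (Function.fixedPoints f) = 1 := by
    refine Fintype.card_eq_one_iff.2 ⟨⟨1, Subtype.ext (by simp [f])⟩, fun y => ?_⟩
    refine Subtype.ext (Subtype.ext (hF.fpf g hg hK _ (hA y.1.2) ?_))
    have : g * y.1.1 * g⁻¹ = y.1.1 := congrArg Subtype.val y.2
    exact mul_inv_eq_iff_eq_mul.1 this
  rwa [e, ← Nat.card_eq_fintype_card] at h2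

theorem Frob.mem_of_dvd (hF : Frob H K) {p k : ℕ} (hp : p.Prime) (hd : p ∣ Nat.card K) {g : G}
    (hg : g ∈ H) (hk : g ^ p ^ k = 1) : g ∈ K := by
  by_contra hK
  have h1 := hF.card_mod hp hg hK hk le_rfl (hF.norm g hg)
  have h2 : 1 ≡ 0 [MOD p] := h1.symm.trans (Nat.modEq_zero_iff_dvd.2 hd)
  exact hp.one_lt.ne' (Nat.dvd_one.1 (Nat.modEq_zero_iff_dvd.1 h2))

/-- for `p ∣ |K|` the `p`-elements of `H` form a subgroup (normal Sylow subgroup of the nilpotent
group `K`) -/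
theorem Frob.exists_R (hF : Frob H K) {p : ℕ} (hp : p.Prime) (hd : p ∣ Nat.card K) :
    ∃ R : Subgroup G, R ≤ K ∧ IsPGroup p R ∧ R ≠ ⊥ ∧
      ∀ g ∈ H, (∃ k : ℕ, g ^ p ^ k = 1) → g ∈ R := by
  have := Fact.mk hp
  have := hF.nil
  obtain ⟨P⟩ : Nonempty (Sylow p K) := inferInstance
  have hPn : (P : Subgroup K).Normal := inferInstance
  refine ⟨(P : Subgroup K).map K.subtype, Subgroup.map_subtype_le _, P.isPGroup'.map _, ?_, ?_⟩
  · rw [Ne, Subgroup.map_eq_bot_iff_of_injective _ K.subtype_injective]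
    exact P.ne_bot_of_dvd_card hd
  · rintro g hg ⟨k, hk⟩
    have hgK := hF.mem_of_dvd hp hd hg hk
    have hz : IsPGroup p (Subgroup.zpowers (⟨g, hgK⟩ : K)) := by
      rintro ⟨x, m, rfl⟩
      refine ⟨k, Subtype.ext (Subtype.ext ?_)⟩
      show (g ^ m) ^ p ^ k = 1
      rw [← zpow_natCast, ← zpow_mul, mul_comm, zpow_mul, zpow_natCast, hk, one_zpow]
    obtain ⟨Q, hQ⟩ := hz.exists_le_sylow
    have := P.unique_of_normal hPn
    rw [Subsingleton.elim Q P] at hQ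
    exact ⟨⟨g, hgK⟩, hQ (Subgroup.mem_zpowers _), rfl⟩

/-- elements of coprime orders of the nilpotent group `K` commute -/
theorem Frob.commute_of_coprime (hF : Frob H K) {a b : G} (ha : a ∈ K) (hb : b ∈ K)
    (h : (orderOf a).Coprime (orderOf b)) : Commute a b := by
  have := hF.nil
  have h1 : Commute (⟨a, ha⟩ : K) ⟨b, hb⟩ := CL.commute_of_coprime_of_isNilpotent (by
    rwa [Subgroup.orderOf_mk, Subgroup.orderOf_mk])
  exact congrArg Subtype.val h1.eq

/-- abelian subgroups of order prime to `|K|` are cyclic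
(`CL.coprime_iSup_centralizer_noncyclic`), then `CL.PCyc.isCyclic_or_quaternion_of_abelian_cyclic` -/
theorem Frob.cyclic_or (hF : Frob H K) {p : ℕ} (hp : p.Prime) (hd : ¬ p ∣ Nat.card K)
    {T : Subgroup G} (hT : T ≤ H) (hpT : IsPGroup p T) :
    IsCyclic T ∨ (p = 2 ∧ ∃ n : ℕ, Nonempty (T ≃* QuaternionGroup (2 ^ (n + 1)))) := by
  have := Fact.mk hp
  refine CL.PCyc.isCyclic_or_quaternion_of_abelian_cyclic hpT fun A hA => ?_
  by_contra hnc
  have e := A.equivMapOfInjective T.subtype T.subtype_injective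
  have hAH : A.map T.subtype ≤ H := (Subgroup.map_subtype_le _).trans hT
  have hpA : IsPGroup p (A.map T.subtype) := hpT.to_le (Subgroup.map_subtype_le _)
  obtain ⟨n, hn⟩ := hpA.exists_card_eq
  have hcop : (Nat.card (A.map T.subtype)).Coprime (Nat.card K) := by
    rw [hn]; exact ((Nat.Prime.coprime_iff_not_dvd hp).2 hd).pow_left _
  obtain ⟨a, ha, ha1, hne⟩ := CL.coprime_exists_centralizer_ne_bot (A.map T.subtype) K
    (fun h => hnc (isCyclic_of_surjective e.symm e.symm.surjective))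
    (fun x hx => Subgroup.mem_normalizer_fintype fun k hk => hF.norm x (hAH hx) k hk) hcop hF.ne_bot
  have haK : a ∉ K := by
    intro h
    have h1 : orderOf a ∣ Nat.card K := K.orderOf_dvd_natCard h
    have h2 : orderOf a ∣ Nat.card (A.map T.subtype) := Subgroup.orderOf_dvd_natCard _ ha
    exact ha1 (orderOf_eq_one_iff.1 (Nat.eq_one_of_dvd_coprimes hcop h2 h1))
  refine hne (eq_bot_iff.2 fun k hk => ?_)
  exact hF.fpf a (hAH ha) haK k hk.1
    (Subgroup.mem_centralizer_singleton_iff.1 hk.2).symm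

theorem Frob.cyclic (hF : Frob H K) {p : ℕ} (hp : p.Prime) (h2 : p ≠ 2) (hd : ¬ p ∣ Nat.card K)
    {T : Subgroup G} (hT : T ≤ H) (hpT : IsPGroup p T) : IsCyclic T := by
  exact (hF.cyclic_or hp hd hT hpT).resolve_right fun h => h2 h.1

/-- elements of the same order of a cyclic group generate the same subgroup -/
theorem zpowers_eq_of_cyclic {A : Subgroup G} (hA : IsCyclic A) {x y : G} (hx : x ∈ A)
    (hy : y ∈ A) (h : orderOf x = orderOf y) : Subgroup.zpowers x = Subgroup.zpowers y := by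
  classical
  have := Fintype.ofFinite A
  have key : ∀ z : A, orderOf (z : G) = orderOf y → ∀ w : A, (w : G) ^ orderOf y = 1 →
      w ∈ Subgroup.zpowers z := by
    intro z hz w hw
    have hpos : 0 < orderOf y := orderOf_pos y
    have h1 := IsCyclic.card_pow_eq_one_le (α := A) hpos
    have h2 : (Finset.univ.filter fun a : A => a ∈ Subgroup.zpowers z) ⊆
        Finset.univ.filter fun a : A => a ^ orderOf y = 1 := by
      intro a ha
      rw [Finset.mem_filter] at ha ⊢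
      refine ⟨ha.1, orderOf_dvd_iff_pow_eq_one.1 ?_⟩
      rw [← hz, Subgroup.orderOf_coe]
      exact orderOf_dvd_of_mem_zpowers ha.2
    have h3 : (Finset.univ.filter fun a : A => a ∈ Subgroup.zpowers z).card = orderOf y := by
      rw [← hz, Subgroup.orderOf_coe, ← Nat.card_zpowers, Nat.card_eq_fintype_card,
        Fintype.card_subtype]
    have h4 := Finset.eq_of_subset_of_card_le h2 (by omega)
    have : w ∈ Finset.univ.filter fun a : A => a ∈ Subgroup.zpowers z := by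
      rw [h4, Finset.mem_filter]
      exact ⟨Finset.mem_univ _, Subtype.ext hw⟩
    exact (Finset.mem_filter.1 this).2
  refine le_antisymm (Subgroup.zpowers_le.2 ?_) (Subgroup.zpowers_le.2 ?_)
  · obtain ⟨m, hm⟩ := key ⟨y, hy⟩ rfl ⟨x, hx⟩ (by rw [← h]; exact pow_orderOf_eq_one x)
    exact ⟨m, congrArg Subtype.val hm⟩
  · obtain ⟨m, hm⟩ := key ⟨x, hx⟩ h ⟨y, hy⟩ (pow_orderOf_eq_one y)
    exact ⟨m, congrArg Subtype.val hm⟩

/-- both are conjugate into a maximal `p`-subgroup of `H`, which is cyclic -/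
theorem Frob.conj_zpowers (hF : Frob H K) {p : ℕ} (hp : p.Prime) (h2 : p ≠ 2)
    (hd : ¬ p ∣ Nat.card K) {x y : G} (hx : x ∈ H) (hy : y ∈ H) (hxo : orderOf x = p)
    (hyo : orderOf y = p) :
    ∃ h ∈ H, F4.cj h (Subgroup.zpowers x) = Subgroup.zpowers y := by
  have := Fact.mk hp
  have hz : ∀ z : G, orderOf z = p → IsPGroup p (Subgroup.zpowers z) := fun z hz =>
    IsPGroup.of_card (n := 1) (by rw [Nat.card_zpowers, hz, pow_one])
  obtain ⟨A, hyA, hAH, hpA, hmax, -⟩ := exists_max_pgroup hp (Subgroup.zpowers_le.2 hy) (hz y hyo)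
  obtain ⟨g, hg, hle⟩ := conj_into_max hp hAH hpA hmax (Subgroup.zpowers_le.2 hx) (hz x hxo)
  refine ⟨g, hg, ?_⟩
  have hc := hF.cyclic hp h2 hd hAH hpA
  have e : F4.cj g (Subgroup.zpowers x) = Subgroup.zpowers (g * x * g⁻¹) :=
    MonoidHom.map_zpowers _ _
  rw [e] at hle ⊢
  refine zpowers_eq_of_cyclic hc (hle (Subgroup.mem_zpowers _)) (hyA (Subgroup.mem_zpowers _)) ?_
  rw [hyo, ← hxo]
  exact (MulAut.conj g).orderOf_eq x

/-- images: `M = ker ⊓ H` is normal in `H` and does not contain `K`, so `M ≤ K`; use `sec` -/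
theorem Frob.map (hF : Frob H K) {X : Type*} [Group X] [Finite X] {N : Subgroup G} (hN : H ≤ N)
    (φ : N →* X) (hK : ¬ K.subgroupOf N ≤ φ.ker) :
    Frob ((H.subgroupOf N).map φ) ((K.subgroupOf N).map φ) := by
  let M : Subgroup G := φ.ker.map N.subtype ⊓ H
  have hM : ∀ x : N, (x : G) ∈ H → φ x = 1 → (x : G) ∈ M := fun x hx h => ⟨⟨x, h, rfl⟩, hx⟩
  have hM' : ∀ x : N, (x : G) ∈ M → φ x = 1 := by
    rintro x ⟨⟨y, hy, e⟩, -⟩
    have : y = x := Subtype.ext e
    exact this ▸ hy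
  have hMn : ∀ h ∈ H, ∀ m ∈ M, h * m * h⁻¹ ∈ M := by
    intro h hh m hm
    have hmH : m ∈ H := hm.2
    refine hM (⟨h, hN hh⟩ * ⟨m, hN hmH⟩ * ⟨h, hN hh⟩⁻¹)
      (H.mul_mem (H.mul_mem hh hmH) (H.inv_mem hh)) ?_
    rw [map_mul, map_mul, hM' ⟨m, hN hmH⟩ hm, mul_one, map_inv, mul_inv_cancel]
  have hMK : M ≤ K := (hF.le_or_le inf_le_right hMn).resolve_right fun h =>
    hK fun x hx => hM' x (h hx)
  have hmem : ∀ x : N, (x : G) ∈ H → φ x ∈ (K.subgroupOf N).map φ → (x : G) ∈ K := by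
    rintro x hx ⟨k, hk, e⟩
    have h1 := hMK (hM (k⁻¹ * x) (H.mul_mem (H.inv_mem (hF.le hk)) hx)
      (by rw [map_mul, map_inv, e, inv_mul_cancel]))
    have := K.mul_mem hk h1
    simpa using this
  refine ⟨Subgroup.map_mono fun x hx => hF.le hx, ?_, fun e => hK ((Subgroup.map_eq_bot_iff _).1 e),
    fun e => hF.ne (le_antisymm hF.le fun x hx => hmem ⟨x, hN hx⟩ hx ?_), ?_, ?_⟩
  · rintro _ ⟨h, hh, rfl⟩ _ ⟨k, hk, rfl⟩
    exact ⟨h * k * h⁻¹, hF.norm _ hh _ hk, by simp⟩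
  · rw [e]; exact ⟨⟨x, hN hx⟩, hx, rfl⟩
  · have := hF.nil
    have : Group.IsNilpotent (K.subgroupOf N) :=
      Group.nilpotent_of_mulEquiv (Subgroup.subgroupOfEquivOfLe (hF.le.trans hN)).symm
    exact Group.nilpotent_of_surjective _ (φ.subgroupMap_surjective (K.subgroupOf N))
  · rintro _ ⟨h, hh, rfl⟩ hhK _ ⟨k, hk, rfl⟩ hc
    have hhK' : (h : G) ∉ K := fun e => hhK ⟨h, e, rfl⟩
    refine hM' k (hF.sec hh hhK' le_rfl hMK (fun a ha => hMn a (hF.le ha)) (hMn _ hh) hk ?_)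
    refine hM (h * k * h⁻¹ * k⁻¹) (H.mul_mem (H.mul_mem (H.mul_mem hh (hF.le hk)) (H.inv_mem hh))
      (H.inv_mem (hF.le hk))) ?_
    rw [map_mul, map_mul, map_mul, map_inv, map_inv, hc.eq]; group

/-- from the definition of the statement: `K` is the kernel of S0042.  `K ≠ H` as `C ≠ ⊥`;
`K ≠ ⊥` as the conjugates of the proper subgroup `C` do not cover `H`; `g ∉ K` lies in a conjugate
`C'` of `C`, and `k` commuting with `g` has `g ∈ C' ⊓ k C' k⁻¹`, so `k ∈ C' ∩ K = 1`. -/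
theorem frob_of_complement {C : Subgroup H} (hC : Cfsg.IsFrobeniusComplement C) :
    ∃ K : Subgroup G, Frob H K := by
  obtain ⟨K, h1, h2, -, h4, h5, h6⟩ := CL.Frob.exists_nilpotent_kernel hC
  have hmem : ∀ x : H, x ∈ K ↔ x = 1 ∨ ∀ g : H, g⁻¹ * x * g ∉ C := by
    intro x
    rw [← SetLike.mem_coe, h1, Cfsg.frobeniusKernel, Set.mem_setOf_eq]
    refine or_congr_right (forall_congr' fun g => not_congr ?_)
    rw [Subgroup.mem_pointwise_smul_iff_inv_smul_mem]
    simp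
  refine ⟨K.map H.subtype, Subgroup.map_subtype_le _, ?_, ?_, ?_, ?_, ?_⟩
  · rintro h hh _ ⟨k, hk, rfl⟩
    exact ⟨_, h2.conj_mem k hk ⟨h, hh⟩, rfl⟩
  · rwa [Ne, Subgroup.map_eq_bot_iff_of_injective _ H.subtype_injective]
  · intro e
    obtain ⟨⟨c, hc⟩, hc1⟩ := Subgroup.ne_bot_iff_exists_ne_one.1 hC.1
    have : (c : G) ∈ K.map H.subtype := by rw [e]; exact c.2
    obtain ⟨k, hk, ek⟩ := this
    have ekc : k = c := Subtype.ext ek
    subst ekc
    rcases (hmem k).1 hk with h | h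
    · exact hc1 (Subtype.ext h)
    · exact h 1 (by simpa using hc)
  · exact Group.nilpotent_of_mulEquiv (K.equivMapOfInjective _ H.subtype_injective)
  · rintro g hg hgK _ ⟨k, hk, rfl⟩ hc
    have h7 : (⟨g, hg⟩ : H) ∉ K := fun e => hgK ⟨_, e, rfl⟩
    rw [hmem, not_or, not_forall] at h7
    obtain ⟨hg1, u, hu⟩ := h7
    rw [not_not] at hu
    have hc' : (⟨g, hg⟩ : H) * k = k * ⟨g, hg⟩ := Subtype.ext hc.eq
    have h8 : u⁻¹ * k * u ∈ K ⊓ Subgroup.centralizer {u⁻¹ * ⟨g, hg⟩ * u} := by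
      refine ⟨by simpa using h2.conj_mem k hk u⁻¹, Subgroup.mem_centralizer_singleton_iff.2 ?_⟩
      calc u⁻¹ * k * u * (u⁻¹ * ⟨g, hg⟩ * u) = u⁻¹ * (k * ⟨g, hg⟩) * u := by group
        _ = _ := by rw [← hc']; group
    rw [h5 _ hu (fun e => hg1 (by
      calc (⟨g, hg⟩ : H) = u * (u⁻¹ * ⟨g, hg⟩ * u) * u⁻¹ := by group
        _ = 1 := by rw [e]; group)), Subgroup.mem_bot] at h8
    have : k = 1 := by
      calc k = u * (u⁻¹ * k * u) * u⁻¹ := by group
        _ = 1 := by rw [h8]; group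
    rw [this]; rfl

/-- `b` normalises `⟨a⟩` of prime order `p` and has order prime to `p - 1` -/
theorem commute_of_conj_mem_zpowers {a b : G} {p : ℕ} (hp : p.Prime) (ha : orderOf a = p)
    (hb : (orderOf b).Coprime (p - 1)) (h : b * a * b⁻¹ ∈ Subgroup.zpowers a) : Commute b a := by
  obtain ⟨k, hk⟩ := (mem_powers_iff_mem_zpowers.2 h)
  have hk : a ^ k = b * a * b⁻¹ := hk
  have h1 : ∀ n : ℕ, b ^ n * a * (b ^ n)⁻¹ = a ^ k ^ n := by
    intro n
    induction n with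
    | zero => simp
    | succ n ih =>
      calc b ^ (n + 1) * a * (b ^ (n + 1))⁻¹ = b ^ n * (b * a * b⁻¹) * (b ^ n)⁻¹ := by
            rw [pow_succ]; group
        _ = (b ^ n * a * (b ^ n)⁻¹) ^ k := by rw [← hk, conj_pow]
        _ = a ^ k ^ (n + 1) := by rw [ih, ← pow_mul, ← pow_succ]
  have hkp : k.Coprime p := by
    refine ((Nat.Prime.coprime_iff_not_dvd hp).2 fun hd => ?_).symm
    have h2 : a ^ k = 1 := orderOf_dvd_iff_pow_eq_one.1 (ha ▸ hd)
    rw [hk, conj_eq_one_iff] at h2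
    rw [h2, orderOf_one] at ha
    exact hp.one_lt.ne ha
  have h2 : k ^ (p - 1) ≡ 1 [MOD p] := by
    have := Nat.ModEq.pow_totient hkp
    rwa [Nat.totient_prime hp] at this
  have h3 : Commute (b ^ (p - 1)) a := by
    have := h1 (p - 1)
    rw [(pow_eq_pow_iff_modEq.2 (ha ▸ h2) : a ^ k ^ (p - 1) = a ^ 1), pow_one] at this
    exact mul_inv_eq_iff_eq_mul.1 this
  obtain ⟨m, hm⟩ := exists_pow_eq_self_of_coprime (x := b) hb.symm
  rw [← hm]
  exact h3.pow_left m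

/-- a Z-group with elements of orders 3 and 5 has an element of order divisible by 15 -/
theorem zgroup15 [IsZGroup G] {a b : G} (ha : orderOf a = 3) (hb : orderOf b = 5) :
    ∃ g : G, 15 ∣ orderOf g := by
  have hc : IsCyclic (commutator G) := IsZGroup.isCyclic_commutator G
  have hcomm : Commute a b → ∃ g : G, 15 ∣ orderOf g := fun h =>
    ⟨a * b, by rw [h.orderOf_mul_eq_mul_orderOf_of_coprime (by rw [ha, hb]; norm_num), ha, hb]⟩
  have hconj : ∀ u v : G, u ∈ commutator G → v * u * v⁻¹ ∈ Subgroup.zpowers u := by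
    intro u v hu
    rw [← zpowers_eq_of_cyclic hc (Subgroup.Normal.conj_mem inferInstance u hu v) hu
      ((MulAut.conj v).orderOf_eq u)]
    exact Subgroup.mem_zpowers _
  by_cases h1 : a ∈ commutator G
  · exact hcomm (commute_of_conj_mem_zpowers Nat.prime_three ha (by rw [hb]; norm_num)
      (hconj a b h1)).symm
  by_cases h2 : b ∈ commutator G
  · exact hcomm (commute_of_conj_mem_zpowers Nat.prime_five hb (by rw [ha]; norm_num)
      (hconj b a h2))
  have hord : ∀ (p : ℕ) (z : G), p.Prime → orderOf z = p → z ∉ commutator G →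
      orderOf (Abelianization.of z) = p := by
    intro p z hp ho hz
    have h3 : orderOf (Abelianization.of z) ∣ p := ho ▸ orderOf_map_dvd _ _
    refine ((Nat.dvd_prime hp).1 h3).resolve_left fun e => hz ?_
    rw [← Abelianization.ker_of]
    exact orderOf_eq_one_iff.1 e
  refine ⟨a * b, Dvd.dvd.trans ?_ (orderOf_map_dvd Abelianization.of (a * b))⟩
  have e3 := hord 3 a Nat.prime_three ha h1
  have e5 := hord 5 b Nat.prime_five hb h2
  rw [map_mul, (Commute.all _ _).orderOf_mul_eq_mul_orderOf_of_coprime (by rw [e3, e5]; norm_num),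
    e3, e5]

/-- `K` a 2-group containing all 2-elements of `H`, elements of orders 3 and 5 in `H`: then two such
commute.  A Sylow 3-subgroup `T` of `H` is cyclic; `N_H(T)` has odd order (a 2-element `s` of it has
`[s, τ] ∈ K ⊓ T = 1`), so `N_H(T)` centralises `T` (`|Aut T| = 2 · 3^k`); Burnside
(`MonoidHom.ker_transferSylow_isComplement'`) gives a normal 3-complement `M`; `c ∈ T` of order 3
fixes a Sylow 5-subgroup `R` of `M` (their number is prime to 3), `R` is cyclic, `c` normalises its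
subgroup of order 5 and centralises it (`|Aut Z₅| = 4`).  (Or work in the odd Z-group `H / K`.) -/
theorem Frob.comm35 (hF : Frob H K) (h2 : IsPGroup 2 K) {x y : G} (hx : x ∈ H) (hy : y ∈ H)
    (hxo : orderOf x = 3) (hyo : orderOf y = 5) :
    ∃ x' ∈ H, ∃ y' ∈ H, orderOf x' = 3 ∧ orderOf y' = 5 ∧ Commute x' y' := by
  obtain ⟨n, hn⟩ := h2.exists_card_eq
  have hodd : ∀ p : ℕ, p.Prime → p ≠ 2 → ¬ p ∣ Nat.card K := fun p hp hp2 hd =>
    hp2 ((Nat.prime_dvd_prime_iff_eq hp Nat.prime_two).1 (hp.dvd_of_dvd_pow (hn ▸ hd)))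
  have hev : 2 ∣ Nat.card K := by
    rw [hn]
    refine dvd_pow_self 2 fun e => hF.ne_bot ?_
    rw [e, pow_zero] at hn
    exact Subgroup.eq_bot_of_card_eq _ hn
  have hN : (K.subgroupOf H).Normal := ⟨fun k hk x => hF.norm x x.2 k hk⟩
  let π := QuotientGroup.mk' (K.subgroupOf H)
  have hπ : Function.Surjective π := QuotientGroup.mk'_surjective _
  have hZ : IsZGroup (H ⧸ K.subgroupOf H) := by
    refine ⟨fun p hp P => ?_⟩
    have := Fact.mk hp
    obtain ⟨Q, rfl⟩ := Sylow.mapSurjective_surjective hπ p P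
    show IsCyclic ((Q : Subgroup H).map π)
    by_cases hp2 : p = 2
    · subst hp2
      have : (Q : Subgroup H).map π = ⊥ := by
        rw [Subgroup.map_eq_bot_iff, QuotientGroup.ker_mk']
        intro q hq
        obtain ⟨k, hk⟩ := Q.isPGroup' ⟨q, hq⟩
        exact hF.mem_of_dvd hp hev q.2 (k := k)
          (congrArg (fun z : (Q : Subgroup H) => ((z : H) : G)) hk)
      rw [this]; infer_instance
    · have h1 := hF.cyclic hp hp2 (hodd p hp hp2) (Subgroup.map_subtype_le (Q : Subgroup H))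
        (Q.isPGroup'.map _)
      have e := (Q : Subgroup H).equivMapOfInjective _ H.subtype_injective
      have h3 : IsCyclic (Q : Subgroup H) := isCyclic_of_surjective e.symm e.symm.surjective
      exact isCyclic_of_surjective _ (π.subgroupMap_surjective (Q : Subgroup H))
  have hord : ∀ (p : ℕ) (z : G) (hz : z ∈ H), p.Prime → p ≠ 2 → orderOf z = p →
      orderOf (π ⟨z, hz⟩) = p := by
    intro p z hz hp hp2 ho
    have h1 : orderOf (π ⟨z, hz⟩) ∣ p := by
      rw [← ho, ← Subgroup.orderOf_mk z hz]; exact orderOf_map_dvd _ _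
    refine ((Nat.dvd_prime hp).1 h1).resolve_left fun e => hodd p hp hp2 ?_
    have : z ∈ K := (QuotientGroup.eq_one_iff (N := K.subgroupOf H) ⟨z, hz⟩).1
      (orderOf_eq_one_iff.1 e)
    rw [← ho]; exact K.orderOf_dvd_natCard this
  obtain ⟨w, hw⟩ := zgroup15 (hord 3 x hx Nat.prime_three (by norm_num) hxo)
    (hord 5 y hy Nat.prime_five (by norm_num) hyo)
  obtain ⟨g, rfl⟩ := hπ w
  have h15 : 15 ∣ orderOf (g : G) := by
    rw [Subgroup.orderOf_coe]; exact hw.trans (orderOf_map_dvd _ _)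
  have hpos : orderOf (g : G) ≠ 0 := (orderOf_pos _).ne'
  exact ⟨_, H.pow_mem g.2 (orderOf (g : G) / 3), _, H.pow_mem g.2 (orderOf (g : G) / 5),
    orderOf_pow_orderOf_div hpos (Dvd.dvd.trans (by norm_num) h15),
    orderOf_pow_orderOf_div hpos (Dvd.dvd.trans (by norm_num) h15), Commute.pow_pow_self _ _ _⟩

end CL.F4
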