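import Cfsg.Agent.PERM.F4.Hex

/-!
S3404, Case II, `Fx (Sy Q) = Q`: not only hexads.
-/

set_option autoImplicit false
set_option linter.unusedSectionVars false
set_option maxHeartbeats 400000

namespace CL.F4

open scoped Pointwise
open Subgroup

variable {G Ω : Type*} [Group G] [Finite G] [MulAction G Ω] [Fintype Ω] [DecidableEq Ω]

namespace H2

theorem card_sub {Φ : Finset Ω} (A : Finset Φ) (D : Finset Ω)
    (h : ∀ ω, ω ∈ D ↔ ∃ h : ω ∈ Φ, (⟨ω, h⟩ : Φ) ∈ A) : A.card = D.card := by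
  rw [← Finset.card_map (Function.Embedding.subtype _)]
  congr 1
  ext ω
  rw [h, Finset.mem_map]
  exact ⟨fun ⟨a, b, e⟩ => e ▸ ⟨a.2, b⟩, fun ⟨a, b⟩ => ⟨_, b, rfl⟩⟩

theorem card_rel {A B : Subgroup G} (h : A ≤ B) : Nat.card A * A.relIndex B = Nat.card B := by
  rw [← (A.subgroupOf B).card_mul_index, Nat.card_congr (subgroupOfEquivOfLe h).toEquiv]
  rfl

theorem mul_two {A B : Subgroup G} (h : A.relIndex B = 2) {x y : G} (hx : x ∈ B) (hy : y ∈ B)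
    (x1 : x ∉ A) (y1 : y ∉ A) : x * y ∈ A :=
  (mul_mem_iff_of_index_two (H := A.subgroupOf B) h (a := ⟨x, hx⟩) (b := ⟨y, hy⟩)).2
    (iff_of_false x1 y1)

theorem two_of {P : Subgroup G} (hP : IsPGroup 2 P) {x : G} {k : ℕ} (h : x ^ 2 ^ k ∈ P) : Two x := by
  obtain ⟨l, hl⟩ := hP ⟨_, h⟩
  exact ⟨k + l, by rw [pow_add, pow_mul]; exact congrArg Subtype.val hl⟩

/-- the index of `P` in `Sy Q ⊓ N(P)` divides the number of the other fixed points -/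
theorem rel_dvd (hy : Hyp2 G Ω) (hf : ∀ Q : Finset Ω, Q.card = 4 → Fx Ω (Sy G Q) = Q)
    {P : Subgroup G} (hP : PMax Ω 4 P) {Q : Finset Ω} (hQF : Q ⊆ Fx Ω P) (hQ : Q.card = 4) :
    P.relIndex (Sy G Q ⊓ normalizer (P : Set G)) ∣ (Fx Ω P \ Q).card := by
  have h4 : (Fx Ω (Sy G Q)).card = 4 := by rw [hf Q hQ, hQ]
  refine dvd_of_semireg (fun g hg ω hω => ?_) (le_inf (hP.lt_Sy h4 hQF).1 le_normalizer)
    (le_St_iff.2 Finset.sdiff_subset) fun t ht ω hω e => ?_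
  · rw [Finset.mem_sdiff] at hω ⊢
    refine ⟨inv_Fx P g hg.2 ω hω.1, fun e => hω.2 ?_⟩
    have := Sy_le Q (inv_mem (mem_inf.1 hg).1) _ e
    rw [inv_smul_smul] at this
    rwa [this]
  · by_contra c
    rw [Finset.mem_sdiff] at hω
    have := hP.fix hy hQ h4 hQF ht.1 c
    rw [hf Q hQ] at this
    exact hω.2 (this ▸ Finset.mem_inter.2 ⟨hω.1, mem_fx.2 e⟩)

theorem core (hy : Hyp2 G Ω) (hf : ∀ Q : Finset Ω, Q.card = 4 → Fx Ω (Sy G Q) = Q)
    {B : Subgroup G} (hB : IsPGroup 2 B) (h8 : 4 < (Fx Ω B).card)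
    (hT : ∀ T : Subgroup G, IsPGroup 2 T → 4 < (Fx Ω T).card → Nat.card T ≤ Nat.card B * 2 ∧
      (Nat.card T = Nat.card B * 2 → (Fx Ω T).card = 6))
    {x y : G} (xN : x ∈ normalizer (B : Set G)) (yN : y ∈ normalizer (B : Set G)) (x1 : x ∉ B) (y1 : y ∉ B)
    (xx : x * x ∈ B) (yy : y * y ∈ B) (xy : x * y * x⁻¹ * y⁻¹ ∈ B)
    (fx6 : (Fx Ω B ∩ fx Ω x).card = 6) (fy6 : (Fx Ω B ∩ fx Ω y).card = 6)
    (h4 : (Fx Ω B ∩ fx Ω x ∩ fx Ω y).card = 4) : False := by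
  set N := normalizer (B : Set G) with hN
  have BN : B ≤ N := le_normalizer
  let ψ : N ⧸ B.subgroupOf N →* Equiv.Perm (Fx Ω B) :=
    QuotientGroup.lift _ (act (inv_Fx B)) fun n hn => (act_eq_one _ _).2 (le_St_iff.2 le_rfl hn)
  letI : MulAction (N ⧸ B.subgroupOf N) (Fx Ω B) := MulAction.compHom _ ψ
  let φ := QuotientGroup.mk' (B.subgroupOf N)
  have sm : ∀ (n : N) (ω : Fx Ω B), φ n • ω = ω ↔ n.1 • ω.1 = ω.1 := fun n ω => Subtype.ext_iff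
  have e1 : ∀ n : N, φ n = 1 ↔ n.1 ∈ B := fun n => QuotientGroup.eq_one_iff n
  have sj := QuotientGroup.mk'_surjective (B.subgroupOf N)
  let im : Finset (Fx Ω B) → Finset Ω := fun Q => Q.map (Function.Embedding.subtype _)
  have st : ∀ (n : N) Q, φ n ∈ St _ Q ↔ n.1 ∈ St G (im Q) := fun n Q =>
    ⟨fun h ω hω => by obtain ⟨a, b, rfl⟩ := Finset.mem_map.1 hω; exact (sm n a).1 (h a b),
      fun h ω hω => (sm n ω).2 (h _ (Finset.mem_map_of_mem _ hω))⟩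
  have cfx : ∀ n : N, ∀ ω, ω ∈ Fx Ω B ∩ fx Ω n.1 ↔ ∃ h : ω ∈ Fx Ω B, (⟨ω, h⟩ : Fx Ω B) ∈ fx _ (φ n) :=
    fun n ω => by
      rw [Finset.mem_inter, mem_fx]
      exact ⟨fun ⟨a, b⟩ => ⟨a, mem_fx.2 ((sm n _).2 b)⟩, fun ⟨a, b⟩ => ⟨a, (sm n _).1 (mem_fx.1 b)⟩⟩
  refine hex (G := N ⧸ B.subgroupOf N) (Ω := Fx Ω B) (fun Q hQ => ?_) (fun Q hQ => ?_) (fun T pT T1 T5 => ?_)
    (x := φ ⟨x, xN⟩) (y := φ ⟨y, yN⟩) (mt (e1 _).1 x1) (by rw [← map_mul, e1]; exact xx)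
    (mt (e1 _).1 y1) (by rw [← map_mul, e1]; exact yy) ?_ ((card_sub _ _ (cfx _)).trans fx6)
    ((card_sub _ _ (cfx _)).trans fy6) ((card_sub _ _ fun ω => ?_).trans h4)
  · have c : (im Q).card = 4 := (Finset.card_map _).trans hQ
    refine (((hy.pg c).comap_subtype (K := N)).map φ).to_le ((closure_le _).2 ?_)
    rintro ξ ⟨a, k, b⟩
    obtain ⟨n, rfl⟩ := sj ξ
    rw [← map_pow] at b
    exact ⟨n, mem_Sy_of ((st n Q).1 a) (two_of hB ((e1 _).1 b)), rfl⟩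
  · have c : (im Q).card = 4 := (Finset.card_map _).trans hQ
    obtain ⟨z, z1, z2, z3, -⟩ := exists_norm_two (hy.pg c) (le_Sy hB (le_St_iff.2 fun ω hω => by
      obtain ⟨a, -, rfl⟩ := Finset.mem_map.1 hω; exact a.2)) fun e => by
        rw [e, hf _ c] at h8; omega
    obtain ⟨k, hk⟩ := ((hy.mem_Sy c).1 z1).2
    intro e
    have := mem_Sy_of ((st ⟨z, z3⟩ Q).2 (Sy_le _ z1)) ⟨k, by
      rw [← map_pow, ← map_one φ]; exact congrArg φ (Subtype.ext hk)⟩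
    rw [e, mem_bot, e1] at this
    exact z2 this
  · set T' := (T.comap φ).map N.subtype with hT'
    have pT' : IsPGroup 2 T' := (pT.comap_of_ker_isPGroup φ (by
      rw [QuotientGroup.ker_mk']; exact hB.comap_subtype)).map _
    have cT : Nat.card T' = Nat.card B * Nat.card T := by
      have h2 : B.subgroupOf N ≤ T.comap φ := fun z hz => by
        rw [mem_comap, (e1 z).2 hz]; exact one_mem _
      have h1 := card_rel h2
      have h3 := relIndex_ker (K := T.comap φ) φ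
      rw [QuotientGroup.ker_mk', map_comap_eq_self_of_surjective sj] at h3
      rw [hT', card_map_of_injective N.subtype_injective, ← h1, h3,
        Nat.card_congr (subgroupOfEquivOfLe BN).toEquiv]
    have cF : (Fx (Fx Ω B) T).card = (Fx Ω T').card := card_sub _ _ fun ω => by
      refine ⟨fun h => ⟨mem_Fx.2 fun b hb => mem_Fx.1 h b ⟨⟨b, BN hb⟩, by
          show φ _ ∈ T; rw [(e1 _).2 hb]; exact one_mem _, rfl⟩, mem_Fx.2 fun ξ hξ => ?_⟩,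
        fun ⟨a, b⟩ => mem_Fx.2 ?_⟩
      · obtain ⟨n, rfl⟩ := sj ξ
        exact (sm n _).2 (mem_Fx.1 h _ ⟨n, hξ, rfl⟩)
      · rintro _ ⟨n, hn, rfl⟩
        exact (sm n ⟨ω, a⟩).1 (mem_Fx.1 b _ hn)
    obtain ⟨k1, k2⟩ := hT T' pT' (by omega)
    have := (one_lt_card_iff_ne_bot T).2 T1
    have := Nat.le_of_mul_le_mul_left (cT ▸ k1) Nat.card_pos
    have e : Nat.card T = 2 := by omega
    exact ⟨e, cF.trans (k2 (by rw [cT, e]))⟩
  · rw [← commutatorElement_eq_one_iff_commute, ← map_commutatorElement, e1]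
    exact xy
  · rw [Finset.mem_inter, cfx ⟨x, xN⟩]
    simp only [Finset.mem_inter, mem_fx, sm]
    exact ⟨fun ⟨⟨a, b⟩, c⟩ => ⟨a, b, c⟩, fun ⟨a, b, c⟩ => ⟨⟨a, b⟩, c⟩⟩

end H2

open H2

/-- Take `P` of largest order among the 2-subgroups fixing more than four points, a conjugate `P' ≠ P` in
`E = Sy Q ⊓ N(P)`, and apply `hex` to `N(B) ⧸ B`, `B = P ⊓ P'`. -/
theorem hex2 [FaithfulSMul G Ω] (hy : Hyp2 G Ω)
    (hf : ∀ Q : Finset Ω, Q.card = 4 → Fx Ω (Sy G Q) = Q)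
    (h6 : ∀ P : Subgroup G, PMax Ω 4 P → (Fx Ω P).card = 6) : False := by
  have h0 : 4 < (Fx Ω (⊥ : Subgroup G)).card := by
    have e : Fx Ω (⊥ : Subgroup G) = Finset.univ :=
      Finset.eq_univ_of_forall fun ω => mem_Fx.2 fun g hg => by rw [mem_bot.1 hg, one_smul]
    rw [e, Finset.card_univ]
    refine lt_of_le_of_ne hy.four fun e => hy.Sy_ne_bot (Q := Finset.univ) e.symm (eq_bot_iff.2 fun g hg => ?_)
    exact mem_bot.2 (eq_of_smul_eq_smul (α := Ω) fun ω => by rw [one_smul, Sy_le _ hg ω (Finset.mem_univ ω)])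
  obtain ⟨P, ⟨pP, P4⟩, hmax⟩ := Set.exists_max_image {R : Subgroup G | IsPGroup 2 R ∧ 4 < (Fx Ω R).card}
    (fun R => Nat.card R) (Set.toFinite _) ⟨⊥, IsPGroup.of_bot, h0⟩
  have pm : ∀ T : Subgroup G, IsPGroup 2 T → 4 < (Fx Ω T).card → Nat.card T = Nat.card P → PMax Ω 4 T :=
    fun T a b c => ⟨a, b, fun R r1 r2 r3 => (eq_of_le_of_card_ge r2 (c ▸ hmax R ⟨r1, r3⟩)).symm⟩
  have hP := pm P pP P4 rfl
  obtain ⟨Q, hQF, hQ⟩ := Finset.exists_subset_card_eq P4.le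
  have h4 : (Fx Ω (Sy G Q)).card = 4 := by rw [hf Q hQ, hQ]
  obtain ⟨PS, PS'⟩ := hP.lt_Sy h4 hQF
  set E := Sy G Q ⊓ normalizer (P : Set G) with hE
  have PE : P ≤ E := le_inf PS le_normalizer
  obtain ⟨x₀, x1, x2, x3, -⟩ := exists_norm_two (hy.pg hQ) PS PS'
  have i2 : P.relIndex E = 2 := by
    have d := rel_dvd hy hf hP hQF hQ
    rw [Finset.card_sdiff_of_subset hQF, h6 P hP, hQ] at d
    exact ((Nat.dvd_prime Nat.prime_two).1 d).resolve_left fun e => x2 (relIndex_eq_one.1 e ⟨x1, x3⟩)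
  obtain ⟨g, gE, gQ, gP⟩ : ∃ g ∈ normalizer (E : Set G), g • Q = Q ∧ g ∉ normalizer (P : Set G) := by
    by_cases e : E = Sy G Q
    · obtain ⟨c, c1, c2, -⟩ := hy.exists_c hQ
      have cQ := smul_eq_of_mem_St c1
      have cS := norm_Sy cQ
      refine ⟨c, e ▸ cS, cQ, fun cP => x2 ((hy.frob Q hQ).sec c1 c2 (hy.Sy_le_Kn hQ) PS
        (fun a ha b hb => (mem_normalizer_iff.1 (e.ge ha).2 b).1 hb)
        (fun b hb => (mem_normalizer_iff.1 cP b).1 hb) x1 ?_)⟩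
      exact mul_two i2 (e.ge ((mem_normalizer_iff.1 cS _).1 x1)) (inv_mem ⟨x1, x3⟩)
        (fun k => x2 ((mem_normalizer_iff.1 cP _).2 k)) fun k => x2 (inv_mem_iff.1 k)
    · obtain ⟨g, g1, g2, g3, -⟩ := exists_norm_two (hy.pg hQ) inf_le_left e
      exact ⟨g, g3, smul_eq_of_mem_St (Sy_le _ g1), fun k => g2 ⟨g1, k⟩⟩
  set P' := cj g P with hP'
  have P'E : P' ≤ E := (cj_mono PE).trans (cj_eq_iff.2 gE).le
  have cP : Nat.card P' = Nat.card P := card_cj g P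
  have hP2 := hP.cj g
  have i2' : P'.relIndex E = 2 := by
    have a := card_rel PE
    have b := card_rel P'E
    rw [i2, ← b, cP] at a
    exact (Nat.eq_of_mul_eq_mul_left Nat.card_pos a).symm
  have n1 : ∀ e ∈ E, ∀ a ∈ P, e * a * e⁻¹ ∈ P := fun e he a ha => (mem_normalizer_iff.1 he.2 a).1 ha
  have n2 : ∀ e ∈ E, ∀ a ∈ P', e * a * e⁻¹ ∈ P' := fun e he a ha => mem_cj.2 (by
    have := n1 _ ((mem_normalizer_iff''.1 gE e).1 he) _ (mem_cj.1 ha)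
    convert this using 1; group)
  have nB : E ≤ normalizer ((P ⊓ P' : Subgroup G) : Set G) := fun e he =>
    mem_normalizer_fintype fun a ha => mem_inf.2 ⟨n1 e he a ha.1, n2 e he a ha.2⟩
  have ne1 : ¬ P' ≤ P := fun l => gP (cj_eq_iff.1 (eq_of_le_of_card_ge l cP.ge))
  have ne2 : ¬ P ≤ P' := fun l => ne1 (eq_of_le_of_card_ge l cP.le).ge
  obtain ⟨x, xP, xP'⟩ := SetLike.not_le_iff_exists.1 ne2
  obtain ⟨y, yP', yP⟩ := SetLike.not_le_iff_exists.1 ne1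
  have cB : Nat.card P = Nat.card (P ⊓ P' : Subgroup G) * 2 := by
    have a := card_rel (inf_le_left : P ⊓ P' ≤ P)
    have b : P'.relIndex P ≤ P'.relIndex E := relIndex_le_of_le_right PE (by omega)
    have c : P'.relIndex P ≠ 1 := fun e => ne2 (relIndex_eq_one.1 e)
    have d : P'.relIndex P ≠ 0 := index_ne_zero_of_finite
    rw [inf_relIndex_left] at a
    rw [← a, show P'.relIndex P = 2 by omega]
  have fxe : ∀ {U V : Subgroup G} {x : G}, U ≤ E → V.relIndex E = 2 → x ∈ U → x ∉ V →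
      Fx Ω (U ⊓ V) ∩ fx Ω x = Fx Ω U := fun {U V x} hU hV a b => by
    ext ω
    rw [Finset.mem_inter, mem_fx]
    refine ⟨fun ⟨c, d⟩ => mem_Fx.2 fun u hu => ?_, fun c => ⟨Fx_anti inf_le_left c, mem_Fx.1 c x a⟩⟩
    by_cases e : u ∈ V
    · exact mem_Fx.1 c u ⟨hu, e⟩
    · have := mem_Fx.1 c _ (mem_inf.2 ⟨mul_mem hu a, mul_two hV (hU hu) (hU a) e b⟩)
      rwa [mul_smul, d] at this
  have f1 := fxe PE i2' xP xP'
  have f2 := fxe P'E i2 yP' yP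
  rw [inf_comm] at f2
  refine core hy hf (pP.to_inf_left (K := P'))
    (P4.trans_le (Finset.card_le_card (Fx_anti inf_le_left)))
    (fun T a b => ⟨cB ▸ hmax T ⟨a, b⟩, fun e => h6 T (pm T a b (e.trans cB.symm))⟩)
    (nB (PE xP)) (nB (P'E yP')) (fun e => xP' e.2) (fun e => yP e.1)
    ⟨mul_mem xP xP, mul_two i2' (PE xP) (PE xP) xP' xP'⟩ ⟨mul_two i2 (P'E yP') (P'E yP') yP yP, mul_mem yP' yP'⟩
    (mem_inf.2 ⟨?_, mul_mem (n2 _ (PE xP) _ yP') (inv_mem yP')⟩) (by rw [f1, h6 P hP]) (by rw [f2, h6 _ hP2]) ?_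
  · have := mul_mem xP (n1 _ (P'E yP') _ (inv_mem xP))
    simpa only [mul_assoc] using this
  · have e : Fx Ω (P ⊓ P') ∩ fx Ω x ∩ fx Ω y = Fx Ω P ∩ Fx Ω P' := by
      rw [← f1, ← f2]; ext ω; simp only [Finset.mem_inter]; tauto
    rw [e]
    refine le_antisymm (not_lt.1 fun l => ne1 (hP.eq hy le_rfl hP2.two l)) (hQ ▸ Finset.card_le_card
      (Finset.subset_inter hQF ?_))
    rw [hP', Fx_cj, ← gQ]
    exact Finset.smul_finset_subset_smul_finset hQF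

end CL.F4
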