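import Cfsg.Agent.PERM.F4.Frob

/-!
S3404: `Kn`, `Sy`, `Hyp`, `Hyp2`, `PMax`, the induction hypothesis.
-/

set_option autoImplicit false
set_option linter.unusedSectionVars false

namespace CL.F4

open scoped Pointwise

universe u

section

variable {G Ω : Type*} [Group G] [Finite G] [MulAction G Ω] [Fintype Ω] [DecidableEq Ω]

omit [Finite G] in
theorem Fx_sup (U V : Subgroup G) : Fx Ω (U ⊔ V) = Fx Ω U ∩ Fx Ω V := by
  refine le_antisymm (Finset.subset_inter (Fx_anti le_sup_left) (Fx_anti le_sup_right)) ?_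
  exact le_St_iff.1 (sup_le (le_St_iff.2 Finset.inter_subset_left)
    (le_St_iff.2 Finset.inter_subset_right))

theorem Kn_eq {Q : Finset Ω} {K : Subgroup G} (hF : Frob (St G Q) K) : Kn G Q = K := by
  have h : ∃ K, Frob (St G Q) K := ⟨K, hF⟩
  unfold Kn
  rw [dif_pos h]
  exact h.choose_spec.unique hF

/-- (also when there is no kernel: both sides are `⊥`) -/
theorem Kn_smul (g : G) (Q : Finset Ω) : Kn G (g • Q) = cj g (Kn G Q) := by
  by_cases h : ∃ K, Frob (St G Q) K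
  · obtain ⟨K, hK⟩ := h
    rw [Kn_eq hK]
    apply Kn_eq
    rw [St_smul]
    exact hK.cj g
  · have h' : ¬ ∃ K, Frob (St G (g • Q)) K := by
      rintro ⟨K, hK⟩
      have := hK.cj g⁻¹
      rw [St_smul, cj_inv_cj] at this
      exact h ⟨_, this⟩
    unfold Kn
    rw [dif_neg h, dif_neg h']
    exact (Subgroup.map_bot _).symm

theorem Sy_smul (g : G) (Q : Finset Ω) : Sy G (g • Q) = cj g (Sy G Q) := by
  have key : ∀ (g : G) (Q : Finset Ω), cj g (Sy G Q) ≤ Sy G (g • Q) := by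
    intro g Q
    unfold cj
    rw [Subgroup.map_le_iff_le_comap]
    refine (Subgroup.closure_le _).2 ?_
    rintro x ⟨hx, k, hk⟩
    refine mem_Sy_of (g := g * x * g⁻¹) ?_ ⟨k, ?_⟩
    · rw [St_smul]
      exact conj_mem_cj.2 hx
    · rw [conj_pow, hk]
      simp
  refine le_antisymm ?_ (key g Q)
  have := cj_mono (g := g) (key g⁻¹ (g • Q))
  rwa [cj_cj_inv, inv_smul_smul] at this

theorem norm_St {g : G} {Q : Finset Ω} (h : g • Q = Q) :
    g ∈ Subgroup.normalizer (St G Q : Set G) :=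
  cj_eq_iff.1 (by rw [← St_smul, h])

theorem norm_Kn {g : G} {Q : Finset Ω} (h : g • Q = Q) :
    g ∈ Subgroup.normalizer (Kn G Q : Set G) :=
  cj_eq_iff.1 (by rw [← Kn_smul, h])

theorem norm_Sy {g : G} {Q : Finset Ω} (h : g • Q = Q) :
    g ∈ Subgroup.normalizer (Sy G Q : Set G) :=
  cj_eq_iff.1 (by rw [← Sy_smul, h])

theorem smul_eq_of_mem_St {g : G} {Q : Finset Ω} (h : g ∈ St G Q) : g • Q = Q := by
  refine Finset.eq_of_subset_of_card_le (fun ω hω => ?_) (Finset.card_smul_finset g Q).ge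
  obtain ⟨y, hy, rfl⟩ := Finset.mem_smul_finset.1 hω
  rwa [h y hy]

/-- an element mapping a finset into itself stabilises it -/
theorem smul_eq_of_maps {g : G} {Q : Finset Ω} (h : ∀ ω ∈ Q, g • ω ∈ Q) : g • Q = Q := by
  refine Finset.eq_of_subset_of_card_le (fun ω hω => ?_) (Finset.card_smul_finset g Q).ge
  obtain ⟨y, hy, rfl⟩ := Finset.mem_smul_finset.1 hω
  exact h y hy

theorem hyp_of_one (tr : Tr4 (⊤ : Subgroup G) (Finset.univ : Finset Ω)) {Q : Finset Ω}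
    (hQ : Q.card = 4) {K : Subgroup G} (hF : Frob (St G Q) K) : Hyp G Ω := by
  refine ⟨hQ ▸ Finset.card_le_univ Q, tr, fun Q' hQ' => ?_⟩
  obtain ⟨g, -, rfl⟩ := tr.set (Finset.subset_univ Q) (Finset.subset_univ Q') hQ hQ'
  rw [St_smul, Kn_smul, Kn_eq hF]
  exact hF.cj g

theorem Hyp.exists_smul (hy : Hyp G Ω) {Q Q' : Finset Ω} (hQ : Q.card = 4) (hQ' : Q'.card = 4) :
    ∃ g : G, g • Q = Q' := by
  obtain ⟨g, -, h⟩ := hy.tr.set (Finset.subset_univ Q) (Finset.subset_univ Q') hQ hQ'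
  exact ⟨g, h⟩

theorem Hyp.card_St (hy : Hyp G Ω) {Q Q' : Finset Ω} (hQ : Q.card = 4) (hQ' : Q'.card = 4) :
    Nat.card (St G Q) = Nat.card (St G Q') := by
  obtain ⟨g, rfl⟩ := hy.exists_smul hQ hQ'
  rw [St_smul, card_cj]

theorem Hyp.card_Kn (hy : Hyp G Ω) {Q Q' : Finset Ω} (hQ : Q.card = 4) (hQ' : Q'.card = 4) :
    Nat.card (Kn G Q) = Nat.card (Kn G Q') := by
  obtain ⟨g, rfl⟩ := hy.exists_smul hQ hQ'
  rw [Kn_smul, card_cj]

theorem Hyp.card_Sy (hy : Hyp G Ω) {Q Q' : Finset Ω} (hQ : Q.card = 4) (hQ' : Q'.card = 4) :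
    Nat.card (Sy G Q) = Nat.card (Sy G Q') := by
  obtain ⟨g, rfl⟩ := hy.exists_smul hQ hQ'
  rw [Sy_smul, card_cj]

theorem Hyp.card_Fx_Sy (hy : Hyp G Ω) {Q Q' : Finset Ω} (hQ : Q.card = 4) (hQ' : Q'.card = 4) :
    (Fx Ω (Sy G Q)).card = (Fx Ω (Sy G Q')).card := by
  obtain ⟨g, rfl⟩ := hy.exists_smul hQ hQ'
  rw [Sy_smul, Fx_cj, Finset.card_smul_finset]

theorem Hyp.cases (hy : Hyp G Ω) :
    Hyp1 G Ω ∨ Hyp2 G Ω ∨ ∀ Q : Finset Ω, Q.card = 4 → Odd (Nat.card (St G Q)) := by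
  by_cases h : ∀ Q : Finset Ω, Q.card = 4 → Odd (Nat.card (St G Q))
  · exact Or.inr (Or.inr h)
  push Not at h
  obtain ⟨Q₀, hQ₀, h⟩ := h
  rcases Nat.even_or_odd (Nat.card (Kn G Q₀)) with hK | hK
  · exact Or.inr (Or.inl ⟨hy, fun Q hQ => hy.card_Kn hQ₀ hQ ▸ hK⟩)
  · exact Or.inl ⟨hy, fun Q hQ => hy.card_Kn hQ₀ hQ ▸ hK,
      fun Q hQ => hy.card_St hQ₀ hQ ▸ Nat.not_odd_iff_even.1 h⟩

/-- an element with a cycle of length three is outside a kernel of order prime to 3 -/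
theorem notMem_of_cyc3 {K : Subgroup G} (h3 : ¬ 3 ∣ Nat.card K) {g : G} {a b c : Ω} (hab : a ≠ b)
    (ha : g • a = b) (hb : g • b = c) (hc : g • c = a) : g ∉ K := by
  intro hg
  have h1 : g ^ Nat.card K = 1 := orderOf_dvd_iff_pow_eq_one.1 (K.orderOf_dvd_natCard hg)
  have h2 : ∀ m : ℕ, g ^ (3 * m) • a = a := by
    intro m
    induction m with
    | zero => simp
    | succ m ih =>
      rw [mul_add, add_comm, pow_add, mul_smul, ih]
      simp [pow_succ, mul_smul, ha, hb, hc]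
  have h4 : g ^ (Nat.card K % 3) • a = a := by
    have := h2 (Nat.card K / 3)
    conv_lhs => rw [← this, ← mul_smul, ← pow_add, Nat.mod_add_div, h1, one_smul]
  have h5 : Nat.card K % 3 = 1 ∨ Nat.card K % 3 = 2 := by omega
  rcases h5 with e | e
  · rw [e, pow_one, ha] at h4
    exact hab h4.symm
  · rw [e, pow_two, mul_smul, ha, hb] at h4
    rw [h4, ha] at hc
    exact hab hc.symm

theorem Hyp2.mem_Kn (hy : Hyp2 G Ω) {Q : Finset Ω} (hQ : Q.card = 4) {g : G} (hg : g ∈ St G Q)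
    (h2 : Two g) : g ∈ Kn G Q := by
  obtain ⟨k, hk⟩ := h2
  exact (hy.frob Q hQ).mem_of_dvd Nat.prime_two (even_iff_two_dvd.1 (hy.ev Q hQ)) hg hk

/-- `Frob.exists_R` for `p = 2` -/
theorem Hyp2.pg (hy : Hyp2 G Ω) {Q : Finset Ω} (hQ : Q.card = 4) : IsPGroup 2 (Sy G Q) := by
  obtain ⟨R, -, hR, -, h⟩ := (hy.frob Q hQ).exists_R Nat.prime_two (even_iff_two_dvd.1 (hy.ev Q hQ))
  exact hR.to_le ((Subgroup.closure_le _).2 fun g hg => h g hg.1 hg.2)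

theorem Hyp2.mem_Sy (hy : Hyp2 G Ω) {Q : Finset Ω} (hQ : Q.card = 4) {g : G} :
    g ∈ Sy G Q ↔ g ∈ St G Q ∧ Two g := by
  refine ⟨fun h => ⟨Sy_le Q h, ?_⟩, fun h => mem_Sy_of h.1 h.2⟩
  obtain ⟨k, hk⟩ := hy.pg hQ ⟨g, h⟩
  exact ⟨k, congrArg Subtype.val hk⟩

theorem Hyp2.Sy_ne_bot (hy : Hyp2 G Ω) {Q : Finset Ω} (hQ : Q.card = 4) : Sy G Q ≠ ⊥ := by
  obtain ⟨R, hRK, hR, h1, -⟩ :=
    (hy.frob Q hQ).exists_R Nat.prime_two (even_iff_two_dvd.1 (hy.ev Q hQ))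
  intro e
  refine h1 (eq_bot_iff.2 fun g hg => ?_)
  obtain ⟨k, hk⟩ := hR ⟨g, hg⟩
  rw [← e]
  exact mem_Sy_of ((hy.frob Q hQ).le (hRK hg)) ⟨k, congrArg Subtype.val hk⟩

theorem Hyp2.Sy_le_Kn (hy : Hyp2 G Ω) {Q : Finset Ω} (hQ : Q.card = 4) : Sy G Q ≤ Kn G Q :=
  fun _ hg => hy.mem_Kn hQ ((hy.mem_Sy hQ).1 hg).1 ((hy.mem_Sy hQ).1 hg).2

theorem le_Sy {Q : Finset Ω} {P : Subgroup G} (hP : IsPGroup 2 P) (h : P ≤ St G Q) :
    P ≤ Sy G Q := by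
  intro g hg
  obtain ⟨k, hk⟩ := hP ⟨g, hg⟩
  exact mem_Sy_of (h hg) ⟨k, congrArg Subtype.val hk⟩

theorem sub_Fx_Sy (Q : Finset Ω) : Q ⊆ Fx Ω (Sy G Q) :=
  le_St_iff.1 (Sy_le Q)

theorem Hyp2.commute_of_odd (hy : Hyp2 G Ω) {Q : Finset Ω} (hQ : Q.card = 4) {g s : G}
    (hg : g ∈ Kn G Q) (ho : Odd (orderOf g)) (hs : s ∈ Sy G Q) : Commute g s := by
  obtain ⟨-, k, hk⟩ := (hy.mem_Sy hQ).1 hs
  refine (hy.frob Q hQ).commute_of_coprime hg (hy.Sy_le_Kn hQ hs) ?_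
  exact ((Nat.coprime_two_right.2 ho).pow_right k).coprime_dvd_right
    (orderOf_dvd_of_pow_eq_one hk)

/-- an element of odd prime order outside the kernel -/
theorem Hyp2.exists_c (hy : Hyp2 G Ω) {Q : Finset Ω} (hQ : Q.card = 4) :
    ∃ c ∈ St G Q, c ∉ Kn G Q ∧ ∃ p : ℕ, p.Prime ∧ p ≠ 2 ∧ orderOf c = p := by
  have hF := hy.frob Q hQ
  obtain ⟨g, hg, hgK⟩ := SetLike.exists_of_lt (lt_of_le_of_ne hF.le hF.ne)
  have h1 : orderOf g ≠ 1 := by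
    intro e
    rw [orderOf_eq_one_iff.1 e] at hgK
    exact hgK (Subgroup.one_mem _)
  obtain ⟨p, hp, hd⟩ := Nat.exists_prime_and_dvd h1
  have ho := orderOf_pow_orderOf_div (orderOf_pos g).ne' hd
  have hK : g ^ (orderOf g / p) ∉ Kn G Q := by
    refine hF.pow_notMem hg hgK fun e => ?_
    rw [e, orderOf_one] at ho
    exact hp.ne_one ho.symm
  refine ⟨_, Subgroup.pow_mem _ hg _, hK, p, hp, fun e => hK ?_, ho⟩
  refine hy.mem_Kn hQ (Subgroup.pow_mem _ hg _) ⟨1, ?_⟩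
  rw [pow_one, ← e, ← orderOf_dvd_iff_pow_eq_one, ho]

theorem Hyp2.Sy_eq (hy : Hyp2 G Ω) {Q Q' : Finset Ω} (hQ : Q.card = 4) (hQ' : Q'.card = 4)
    (h : Q' ⊆ Fx Ω (Sy G Q)) : Sy G Q' = Sy G Q :=
  (Subgroup.eq_of_le_of_card_ge (le_Sy (hy.pg hQ) (le_St_iff.2 h))
    (hy.toHyp.card_Sy hQ' hQ).le).symm

/-- Witt -/
theorem Hyp2.tr_Sy (hy : Hyp2 G Ω) {Q : Finset Ω} (hQ : Q.card = 4) :
    Tr4 (Subgroup.normalizer (Sy G Q : Set G)) (Fx Ω (Sy G Q)) := by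
  refine witt hy.tr hQ (Sy_le Q) fun g hg => ⟨1, Subgroup.one_mem _, ?_⟩
  rw [cj_one]
  exact (Subgroup.eq_of_le_of_card_ge (le_Sy (isPGroup_cj (hy.pg hQ)) hg) (card_cj _ _).ge).symm

theorem exists_pmax {f : ℕ} {R : Subgroup G} (hR : IsPGroup 2 R) (h : f < (Fx Ω R).card) :
    ∃ P : Subgroup G, PMax Ω f P ∧ R ≤ P := by
  obtain ⟨P, hle, hP⟩ := Finite.exists_le_maximal
    (p := fun P : Subgroup G => IsPGroup 2 P ∧ f < (Fx Ω P).card) ⟨hR, h⟩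
  exact ⟨P, ⟨hP.1.1, hP.1.2, fun S hS hPS hf => le_antisymm (hP.2 ⟨hS, hf⟩ hPS) hPS⟩, hle⟩

theorem PMax.cj {f : ℕ} {P : Subgroup G} (hP : PMax Ω f P) (g : G) : PMax Ω f (cj g P) := by
  refine ⟨isPGroup_cj hP.two, ?_, fun R hR hle hf => ?_⟩
  · rw [Fx_cj, Finset.card_smul_finset]
    exact hP.big
  · have h1 := cj_mono (g := g⁻¹) hle
    rw [cj_inv_cj] at h1
    have := hP.max _ (isPGroup_cj hR) h1 (by rwa [Fx_cj, Finset.card_smul_finset])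
    rw [← this, cj_cj_inv]

/-- `P < Sy Q` for `Q ⊆ Fx P` -/
theorem PMax.lt_Sy {f : ℕ} {P : Subgroup G} (hP : PMax Ω f P) {Q : Finset Ω}
    (hf : (Fx Ω (Sy G Q)).card = f) (h : Q ⊆ Fx Ω P) : P ≤ Sy G Q ∧ P ≠ Sy G Q := by
  refine ⟨le_Sy hP.two (le_St_iff.2 h), fun e => ?_⟩
  have := hP.big
  rw [e, hf] at this
  exact lt_irrefl _ this

/-- `x ∈ Sy Q \ P` fixes in `Fx P` exactly the block `Fx (Sy Q)` (`P ⊔ zpowers x ≤ Sy Q` is a bigger
2-group) -/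
theorem PMax.fix (hy : Hyp2 G Ω) {f : ℕ} {P : Subgroup G} (hP : PMax Ω f P) {Q : Finset Ω}
    (hQ : Q.card = 4) (hf : (Fx Ω (Sy G Q)).card = f) (h : Q ⊆ Fx Ω P) {x : G} (hx : x ∈ Sy G Q)
    (hxP : x ∉ P) : Fx Ω P ∩ fx Ω x = Fx Ω (Sy G Q) := by
  have hle : P ⊔ Subgroup.zpowers x ≤ Sy G Q :=
    sup_le (hP.lt_Sy hf h).1 (by rw [Subgroup.zpowers_le]; exact hx)
  have h1 : (Fx Ω (P ⊔ Subgroup.zpowers x)).card ≤ f := by
    by_contra hn
    have := hP.max _ ((hy.pg hQ).to_le hle) le_sup_left (not_le.1 hn)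
    exact hxP (this ▸ Subgroup.mem_sup_right (Subgroup.mem_zpowers x))
  rw [Fx_sup, Fx_zpowers] at h1
  refine (Finset.eq_of_subset_of_card_le ?_ (hf ▸ h1)).symm
  exact Finset.subset_inter (Fx_anti (hP.lt_Sy hf h).1) (Fx_sub_fx hx)

/-- two maximal ones with more than `f ≥ 4` common fixed points coincide -/
theorem PMax.eq (hy : Hyp2 G Ω) {f : ℕ} (h4 : 4 ≤ f) {P R : Subgroup G} (hP : PMax Ω f P)
    (hR : IsPGroup 2 R) (h : f < (Fx Ω P ∩ Fx Ω R).card) : R ≤ P := by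
  obtain ⟨Q, hQs, hQ⟩ := Finset.exists_subset_card_eq (h4.trans h.le)
  have hle : P ⊔ R ≤ Sy G Q :=
    sup_le (le_Sy hP.two (le_St_iff.2 (hQs.trans Finset.inter_subset_left)))
      (le_Sy hR (le_St_iff.2 (hQs.trans Finset.inter_subset_right)))
  have := hP.max _ ((hy.pg hQ).to_le hle) le_sup_left (by rwa [Fx_sup])
  exact this ▸ le_sup_right

end

/-- the induction hypothesis applied to the image of `N` on `F` (`Tr4.range`, `Frob.map`,
`hyp_of_one`; the stabiliser of `Q` in the image is the image of `St G Q`) -/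
theorem IH.app {G Ω : Type u} [Group G] [Finite G] [MulAction G Ω] [Fintype Ω] [DecidableEq Ω]
    (ih : IH Ω) (hy : Hyp G Ω) {N : Subgroup G} {F : Finset Ω} (h : Inv N F) (tr : Tr4 N F)
    {Q : Finset Ω} (hQF : Q ⊆ F) (hQ : Q.card = 4) (hN : St G Q ≤ N) (hK : ¬ Kn G Q ≤ St G F)
    (hF : F ≠ Finset.univ) : F.card = 7 ∨ F.card = 8 ∨ F.card = 23 := by
  have hFr := hy.frob Q hQ
  have hlt : F.card < Fintype.card Ω := Finset.card_lt_card (Finset.ssubset_univ_iff.2 hF)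
  have hK' : ¬ (Kn G Q).subgroupOf N ≤ (act h).rangeRestrict.ker := by
    intro hle
    refine hK fun k hk => ?_
    have h1 : (act h).rangeRestrict ⟨k, hN (hFr.le hk)⟩ = 1 := hle hk
    exact (act_eq_one h _).1 (congrArg Subtype.val h1)
  have h1 := hFr.map hN (act h).rangeRestrict hK'
  have h2 : ((St G Q).subgroupOf N).map (act h).rangeRestrict =
      St (act h).range (Q.subtype (· ∈ F)) := by
    ext τ
    constructor
    · rintro ⟨g, hg, rfl⟩ ω hω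
      exact Subtype.ext (hg _ (Finset.mem_subtype.1 hω))
    · intro hτ
      obtain ⟨g, rfl⟩ := (act h).rangeRestrict_surjective τ
      exact ⟨g, fun ω hω => congrArg Subtype.val (hτ ⟨ω, hQF hω⟩ (Finset.mem_subtype.2 hω)), rfl⟩
  rw [h2] at h1
  exact ih _ hlt (act h).range F (hyp_of_one (tr.range h)
    (by rw [Finset.card_subtype, Finset.filter_true_of_mem hQF, hQ]) h1) (Fintype.card_coe F)

end CL.F4
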