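import Cfsg.Agent.PERM.F4.Hy

/-!
S3404, Case I (odd kernel, even complement): basics.
-/

set_option autoImplicit false
set_option linter.unusedSectionVars false

namespace CL.F4

open scoped Pointwise

variable {G Ω : Type*} [Group G] [Finite G] [MulAction G Ω] [Fintype Ω] [DecidableEq Ω]

theorem I0.notMem {K : Subgroup G} (h : Odd (Nat.card K)) {z : G} (h1 : z ≠ 1) (h2 : z * z = 1) : z ∉ K :=
  fun m => by
    have := h.of_dvd_nat (K.orderOf_dvd_natCard m)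
    rw [orderOf_eq_prime (p := 2) (by rwa [pow_two]) h1] at this
    exact absurd this (by decide)

theorem I0.exists_four {z : G} (h4 : 4 ≤ (fx Ω z).card) {a : Ω} (ha : z • a = a) :
    ∃ b c d, D4 a b c d ∧ z ∈ St G ({a, b, c, d} : Finset Ω) := by
  obtain ⟨b, c, d, hb, hc, hd, e1, e2, e3⟩ := Finset.two_lt_card_iff.1 (show 2 < ((fx Ω z).erase a).card by
    rw [Finset.card_erase_of_mem (mem_fx.2 ha)]; omega)
  rw [Finset.mem_erase, mem_fx] at hb hc hd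
  exact ⟨b, c, d, ⟨hb.1.symm, hc.1.symm, hd.1.symm, e1, e2, e3⟩, by simp [mem_St, ha, hb.2, hc.2, hd.2]⟩

theorem Hyp1.exists_inv (hy : Hyp1 G Ω) {Q : Finset Ω} (hQ : Q.card = 4) :
    ∃ z ∈ St G Q, z ≠ 1 ∧ z * z = 1 := by
  obtain ⟨x, hx⟩ := exists_prime_orderOf_dvd_card' 2 (hy.ev Q hQ).two_dvd
  refine ⟨x, x.2, fun e => ?_, congrArg Subtype.val ((pow_two x).symm.trans (hx ▸ pow_orderOf_eq_one x))⟩
  rw [show x = 1 from Subtype.ext e, orderOf_one] at hx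
  omega

/-- `z ∉ K`; every `k = z b z⁻¹ b⁻¹` (`Frob.surj`) is inverted -/
theorem Hyp1.inverts (hy : Hyp1 G Ω) {Q : Finset Ω} (hQ : Q.card = 4) {z : G} (hz : z ∈ St G Q)
    (h1 : z ≠ 1) (h2 : z * z = 1) : ∀ k ∈ Kn G Q, z * k * z⁻¹ = k⁻¹ := by
  intro k hk
  obtain ⟨b, -, rfl⟩ := (hy.frob Q hQ).surj hz (I0.notMem (hy.od Q hQ) h1 h2) le_rfl ((hy.frob Q hQ).norm z hz) k hk
  calc _ = z * z * b * (z * z)⁻¹ * (z * b⁻¹ * z⁻¹) := by group
    _ = _ := by rw [h2]; group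

theorem Hyp1.comm (hy : Hyp1 G Ω) {Q : Finset Ω} (hQ : Q.card = 4) :
    ∀ a ∈ Kn G Q, ∀ b ∈ Kn G Q, Commute a b := by
  intro a ha b hb
  obtain ⟨z, hz, h1, h2⟩ := hy.exists_inv hQ
  have := hy.inverts hQ hz h1 h2 _ (mul_mem ha hb)
  rw [← conj_mul, hy.inverts hQ hz h1 h2 a ha, hy.inverts hQ hz h1 h2 b hb, ← mul_inv_rev, inv_inj] at this
  exact this.symm

/-- `z' z` centralises `K ≠ ⊥`, so lies in `K`; in the odd group `K` it is a square `k²` and
`z' = k² z = k z k⁻¹` -/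
theorem Hyp1.conj_inv (hy : Hyp1 G Ω) {Q : Finset Ω} (hQ : Q.card = 4) {z z' : G}
    (hz : z ∈ St G Q) (h1 : z ≠ 1) (h2 : z * z = 1) (hz' : z' ∈ St G Q) (h1' : z' ≠ 1)
    (h2' : z' * z' = 1) : ∃ k ∈ Kn G Q, z' = k * z * k⁻¹ := by
  have m : z' * z ∈ Kn G Q := by
    by_contra n
    refine (hy.frob Q hQ).ne_bot (eq_bot_iff.2 fun k hk => (hy.frob Q hQ).fpf _ (mul_mem hz' hz) n k hk ?_)
    refine mul_inv_eq_iff_eq_mul.1 ?_
    calc _ = z' * (z * k * z⁻¹) * z'⁻¹ := by group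
      _ = _ := by rw [hy.inverts hQ hz h1 h2 k hk, hy.inverts hQ hz' h1' h2' _ (inv_mem hk), inv_inv]
  obtain ⟨r, hr⟩ := (hy.od Q hQ).of_dvd_nat ((Kn G Q).orderOf_dvd_natCard m)
  refine ⟨_, pow_mem m (r + 1), ?_⟩
  have e := hy.inverts hQ hz h1 h2 _ (inv_mem (pow_mem m (r + 1)))
  calc _ = (z' * z) ^ (2 * r + 1) * (z' * (z * z)) := by rw [← hr, pow_orderOf_eq_one, h2]; group
    _ = (z' * z) ^ (r + 1) * ((z' * z) ^ (r + 1))⁻¹⁻¹ * z := by
      rw [inv_inv, ← pow_add, ← mul_assoc z', ← mul_assoc, ← pow_succ]; congr 2; ring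
    _ = _ := by rw [← e]; group

theorem I0.move (hy : Hyp1 G Ω) {z z' : G} (h1 : z ≠ 1) (h2 : z * z = 1) (h1' : z' ≠ 1) (h2' : z' * z' = 1)
    {a b c d a' b' c' d' : Ω} (hD : D4 a b c d) (hD' : D4 a' b' c' d') (hz : z ∈ St G ({a, b, c, d} : Finset Ω))
    (hz' : z' ∈ St G ({a', b', c', d'} : Finset Ω)) :
    ∃ g : G, (g • a = a' ∧ g • b = b' ∧ g • c = c' ∧ g • d = d') ∧ z' = g * z * g⁻¹ := by
  have u := Finset.mem_univ (α := Ω)
  obtain ⟨g, -, e1, e2, e3, e4⟩ := hy.tr a b c d a' b' c' d' (u _) (u _) (u _) (u _) (u _) (u _) (u _) (u _) hD hD'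
  obtain ⟨k, hk, e⟩ := hy.conj_inv hD'.card (z := g * z * g⁻¹) (by
    simp only [mem_St, Finset.mem_insert, Finset.mem_singleton, forall_eq_or_imp, forall_eq] at hz ⊢
    simp [← e1, ← e2, ← e3, ← e4, mul_smul, hz]) (by simpa using h1) (by rw [conj_mul, h2]; simp) hz' h1' h2'
  have := (hy.frob _ hD'.card).le hk
  simp only [mem_St, Finset.mem_insert, Finset.mem_singleton, forall_eq_or_imp, forall_eq] at this
  exact ⟨k * g, by simp [mul_smul, e1, e2, e3, e4, this], by rw [e]; group⟩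

/-- no four-group fixes four points -/
theorem Hyp1.eq_of_commute (hy : Hyp1 G Ω) {z z' : G} (h1 : z ≠ 1) (h2 : z * z = 1) (h1' : z' ≠ 1)
    (h2' : z' * z' = 1) (hc : Commute z z') (h4 : 4 ≤ (fx Ω z ∩ fx Ω z').card) : z = z' := by
  obtain ⟨Q, hs, hQ⟩ := Finset.exists_subset_card_eq h4
  have hz := mem_St_iff.2 (hs.trans Finset.inter_subset_left)
  obtain ⟨k, hk, e⟩ := hy.conj_inv hQ hz h1 h2 (mem_St_iff.2 (hs.trans Finset.inter_subset_right)) h1' h2'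
  by_contra n
  refine I0.notMem (hy.od Q hQ) (z := z' * z) (fun e => n (mul_left_cancel (e.trans h2'.symm))) (by
    rw [mul_assoc, ← mul_assoc z, hc.eq, mul_assoc, h2, mul_one, h2']) ?_
  have := mul_mem hk ((hy.frob Q hQ).norm z hz _ (inv_mem hk))
  rwa [inv_eq_of_mul_eq_one_right h2, ← mul_assoc, ← mul_assoc, ← e] at this

/-- `H = K C_H(z)` (`h z h⁻¹` is an involution of `H`) -/
theorem Hyp1.decomp (hy : Hyp1 G Ω) {Q : Finset Ω} (hQ : Q.card = 4) {z : G} (hz : z ∈ St G Q)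
    (h1 : z ≠ 1) (h2 : z * z = 1) {h : G} (hh : h ∈ St G Q) :
    ∃ k ∈ Kn G Q, Commute (k⁻¹ * h) z := by
  obtain ⟨k, hk, e⟩ := hy.conj_inv hQ hz h1 h2 (mul_mem (mul_mem hh hz) (inv_mem hh)) (by simpa using h1)
    (by rw [conj_mul, h2]; simp)
  refine ⟨k, hk, mul_inv_eq_iff_eq_mul.1 ?_⟩
  calc _ = k⁻¹ * (h * z * h⁻¹) * k := by group
    _ = _ := by rw [e]; group

/-- involutions with four fixed points including `a` are conjugate in the stabiliser of `a` -/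
theorem Hyp1.conj_fix (hy : Hyp1 G Ω) {z z' : G} (h1 : z ≠ 1) (h2 : z * z = 1) (h1' : z' ≠ 1)
    (h2' : z' * z' = 1) (h4 : 4 ≤ (fx Ω z).card) (h4' : 4 ≤ (fx Ω z').card) {a a' : Ω}
    (ha : z • a = a) (ha' : z' • a' = a') : ∃ g : G, g • a = a' ∧ z' = g * z * g⁻¹ := by
  obtain ⟨b, c, d, hD, hz⟩ := I0.exists_four h4 ha
  obtain ⟨b', c', d', hD', hz'⟩ := I0.exists_four h4' ha'
  obtain ⟨g, e, k⟩ := I0.move hy h1 h2 h1' h2' hD hD' hz hz'
  exact ⟨g, e.1, k⟩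

/-- `y` permutes the `|K|` (odd) involutions `k z` of `St Q` by conjugation (or: a maximal 2-subgroup
of `St Q ⊔ ⟨y⟩` containing `y` meets `St Q` non-trivially, `exists_cent_inv`) -/
theorem Hyp1.cent_inv (hy : Hyp1 G Ω) {Q : Finset Ω} (hQ : Q.card = 4) {y : G} (hy2 : y * y = 1)
    (hyQ : y • Q = Q) : ∃ z ∈ St G Q, z ≠ 1 ∧ z * z = 1 ∧ Commute y z := by
  obtain ⟨z, hz, h1, h2⟩ := hy.exists_inv hQ
  have hz' := (Subgroup.mem_normalizer_iff.1 (norm_St hyQ) z).1 hz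
  obtain ⟨k, hk, e⟩ := hy.conj_inv hQ hz h1 h2 hz' (by simpa using h1) (by rw [conj_mul, h2]; simp)
  have zi := inv_eq_of_mul_eq_one_right h2
  have m : y * z * y⁻¹ * z ∈ Kn G Q := by
    have := mul_mem hk ((hy.frob Q hQ).norm z hz _ (inv_mem hk))
    rwa [zi, ← mul_assoc, ← mul_assoc, ← e] at this
  have e1 : y * (y * z * y⁻¹ * z) * y⁻¹ = (y * z * y⁻¹ * z)⁻¹ := by
    calc _ = y * y * z * (y * y)⁻¹ * (y * z * y⁻¹) := by group
      _ = _ := by rw [hy2, mul_inv_rev (y * z * y⁻¹), _root_.conj_inv, zi]; group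
  have e2 : y * z * y⁻¹ = y * z * y⁻¹ * z * z := by rw [mul_assoc _ z z, h2, mul_one]
  generalize y * z * y⁻¹ * z = s at m e1 e2
  obtain ⟨r, hr⟩ := (hy.od Q hQ).of_dvd_nat ((Kn G Q).orderOf_dvd_natCard m)
  have i := hy.inverts hQ hz h1 h2 _ (pow_mem m (r + 1))
  refine ⟨s ^ (r + 1) * z, mul_mem ((hy.frob Q hQ).le (pow_mem m _)) hz, fun c => I0.notMem (hy.od Q hQ) h1 h2
    ((mul_mem_cancel_left (pow_mem m (r + 1))).1 (c ▸ one_mem _)), ?_, mul_inv_eq_iff_eq_mul.1 ?_⟩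
  · rw [mul_assoc, ← mul_assoc z, (zi ▸ i :), mul_inv_cancel]
  · rw [← conj_mul, ← conj_pow, e1, e2, ← mul_assoc, mul_left_inj, inv_pow, inv_mul_eq_iff_eq_mul, ← pow_add,
      show r + 1 + (r + 1) = 2 * r + 1 + 1 by ring, pow_succ, ← hr, pow_orderOf_eq_one, one_mul]

/-- `z` has a 2-cycle `(α β)`; it commutes with an involution `y ∈ St {α, β, c, d}` (`cent_inv`);
transport `(α, β, c, d)` to `(a, b, c, d)` and move `y` to `z` by an element of `Kn` (`conj_inv`) -/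
theorem Hyp1.exists_z1 [FaithfulSMul G Ω] (hy : Hyp1 G Ω) {a b c d : Ω} (hD : D4 a b c d) {z : G}
    (hz : z ∈ St G ({a, b, c, d} : Finset Ω)) (h1 : z ≠ 1) (h2 : z * z = 1) :
    ∃ z₁ : G, z₁ * z₁ = 1 ∧ z₁ • a = b ∧ z₁ • b = a ∧ z₁ • c = c ∧ z₁ • d = d ∧ Commute z z₁ ∧
      (fx Ω z₁).card = (fx Ω z).card := by
  obtain ⟨α, hα⟩ : ∃ α : Ω, z • α ≠ α := by
    by_contra! n
    exact h1 (eq_of_smul_eq_smul (α := Ω) fun x => by rw [n, one_smul])
  have zc := hz c (by simp)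
  have zd := hz d (by simp)
  have zz : z • z • α = α := by rw [← mul_smul, h2, one_smul]
  have hD' : D4 α (z • α) c d := ⟨hα.symm, fun e => hα (by rw [e, zc]), fun e => hα (by rw [e, zd]),
    fun e => hα (by rw [← zz, e, zc, zc]), fun e => hα (by rw [← zz, e, zd, zd]), hD.2.2.2.2.2⟩
  obtain ⟨y, hy', y1, y2, cy⟩ := hy.cent_inv hD'.card h2 (smul_eq_of_maps (by simp [zz, zc, zd]))
  obtain ⟨g, ⟨e1, e2, e3, e4⟩, e⟩ := I0.move hy y1 y2 h1 h2 hD' hD hy' hz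
  refine ⟨g * z * g⁻¹, by rw [conj_mul, h2]; simp, by simp [← e1, mul_smul, e2], by simp [← e2, mul_smul, zz, e1],
    by rw [← e3]; simp [mul_smul, zc], by rw [← e4]; simp [mul_smul, zd], ?_, by
      rw [fx_conj, Finset.card_smul_finset]⟩
  have := cy.symm.conj g
  rwa [← e] at this

/-- Witt for `zpowers z` -/
theorem Hyp1.tr_z (hy : Hyp1 G Ω) {z : G} (h1 : z ≠ 1) (h2 : z * z = 1)
    (h4 : 4 ≤ (fx Ω z).card) : Tr4 (Subgroup.centralizer ({z} : Set G)) (fx Ω z) := by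
  obtain ⟨Q, hs, hQ⟩ := Finset.exists_subset_card_eq h4
  have hz := mem_St_iff.2 hs
  have cz : ∀ g : G, cj g (Subgroup.zpowers z) = Subgroup.zpowers (g * z * g⁻¹) := fun g =>
    MonoidHom.map_zpowers ..
  have := witt hy.tr hQ (Subgroup.zpowers_le.2 hz) fun g hg => by
    obtain ⟨k, hk, e⟩ := hy.conj_inv hQ hz h1 h2 (hg (conj_mem_cj.2 (Subgroup.mem_zpowers z))) (by simpa using h1)
      (by rw [conj_mul, h2]; simp)
    exact ⟨k, (hy.frob Q hQ).le hk, by rw [cz, cz, e]⟩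
  rw [Fx_zpowers] at this
  intro a b c d a' b' c' d' h1' h2' h3 h4' h5 h6 h7 h8 hD hD'
  obtain ⟨g, hg, e⟩ := this a b c d a' b' c' d' h1' h2' h3 h4' h5 h6 h7 h8 hD hD'
  refine ⟨g, Subgroup.mem_centralizer_singleton_iff.2 ?_, e⟩
  obtain ⟨n, hn⟩ := (Subgroup.mem_normalizer_iff.1 hg z).1 (Subgroup.mem_zpowers z)
  have z2 : z ^ (2 : ℤ) = 1 := by rw [zpow_two, h2]
  rcases Int.emod_two_eq_zero_or_one n with r | r <;> simp only [zpow_eq_zpow_emod n z2, r] at hn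
  · exact absurd (by simpa using hn.symm) h1
  · exact mul_inv_eq_iff_eq_mul.1 (hn.symm.trans (zpow_one z))

/-- `|H| ≥ 2 |K| ≥ 6` -/
theorem Hyp1.six_le (hy : Hyp1 G Ω) {Q : Finset Ω} (hQ : Q.card = 4) :
    6 ≤ Nat.card (St G Q) := by
  have F := hy.frob Q hQ
  obtain ⟨m, hm⟩ := Subgroup.card_dvd_of_le F.le
  obtain ⟨r, hr⟩ := hy.od Q hQ
  have h1 : r ≠ 0 := fun e => F.ne_bot (Subgroup.card_eq_one.1 (by omega))
  have h2 : m ≠ 1 := fun e => F.ne (Subgroup.eq_of_le_of_card_ge F.le (by rw [hm, e, mul_one]))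
  have h3 : m ≠ 0 := fun e => (Nat.card_pos (α := St G Q)).ne' (by rw [hm, e, mul_zero])
  rw [hm]
  exact Nat.mul_le_mul (show 3 ≤ _ by omega) (show 2 ≤ m by omega)

/-- `St Q` embeds in the symmetric group of `univ \ Q` -/
theorem Hyp1.seven_le [FaithfulSMul G Ω] (hy : Hyp1 G Ω) : 7 ≤ Fintype.card Ω := by
  obtain ⟨Q, -, hQ⟩ := Finset.exists_subset_card_eq (s := (Finset.univ : Finset Ω)) hy.four
  have h : Inv (St G Q) (Finset.univ \ Q) := fun g hg ω hω => by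
    simp only [Finset.mem_sdiff, Finset.mem_univ, true_and] at hω ⊢
    exact fun e => hω (MulAction.injective g (hg _ e) ▸ e)
  have := (hy.six_le hQ).trans (Nat.card_le_card_of_injective (act h) ((injective_iff_map_eq_one _).2 fun g e =>
    Subtype.ext (eq_of_smul_eq_smul (α := Ω) fun x => by
      by_cases hx : x ∈ Q
      · simpa using g.2 x hx
      · simpa using (act_eq_one h g).1 e x (by simpa using hx))))
  rw [Nat.card_perm, Nat.card_eq_fintype_card, Fintype.card_coe, Finset.card_univ_sdiff, hQ] at this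
  by_contra n
  have := this.trans (Nat.factorial_le (show Fintype.card Ω - 4 ≤ 2 by omega))
  simp at this

/-- `|G| ≥ 840 · 6 = 7!` -/
theorem Hyp1.seven [FaithfulSMul G Ω] (hy : Hyp1 G Ω) (h7 : Fintype.card Ω = 7) :
    Nonempty (G ≃* Equiv.Perm (Fin 7)) := by
  obtain ⟨Q, -, hQ⟩ := Finset.exists_subset_card_eq (s := (Finset.univ : Finset Ω)) hy.four
  have h1 := hy.tr.card (fun _ _ _ _ => Finset.mem_univ _) (Finset.subset_univ Q) hQ
  rw [Subgroup.card_top, top_inf_eq, Finset.card_univ, h7] at h1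
  have h2 := hy.six_le hQ
  refine ⟨(MulEquiv.ofBijective (MulAction.toPermHom G Ω) (MulAction.toPerm_injective.bijective_of_nat_card_le
    ?_)).trans (Fintype.equivFinOfCardEq h7).permCongrHom⟩
  rw [Nat.card_perm, Nat.card_eq_fintype_card, h7, h1]
  simp only [Nat.factorial]
  omega

/-- with eight points, `G` does not induce the alternating group on the points off `s`, `|s| ≤ 4`...:
`liftV` gives commuting involutions `(a b)(c d)`, `(a c)(b d)` fixing all other points -/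
theorem Hyp1.not_alt [FaithfulSMul G Ω] (hy : Hyp1 G Ω) (h8 : 8 ≤ Fintype.card Ω) {s : Finset Ω}
    (hs : s.card ≤ 4) {N : Subgroup G} (hN : N ≤ St G s) (h : Inv N (Finset.univ \ s)) :
    ¬ alternatingGroup ↥(Finset.univ \ s) ≤ (act h).range := by
  intro hA
  obtain ⟨Q, hs', hQ⟩ := Finset.exists_subset_card_eq (s := Finset.univ \ s) (n := 4) (by
    rw [Finset.card_univ_sdiff]; omega)
  obtain ⟨a, b, c, d, hD, rfl⟩ := exists_D4 hQ
  have ha := hs' (show a ∈ _ by simp)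
  have hb := hs' (show b ∈ _ by simp)
  have hc := hs' (show c ∈ _ by simp)
  have hd := hs' (show d ∈ _ by simp)
  obtain ⟨h1, h2, h3, h4, h5, h6⟩ := id hD
  obtain ⟨g, hg, -, a1, a2, a3, a4, a5⟩ := liftV h hA ha hb hc hd hD
  obtain ⟨k, hk, -, b1, b2, b3, b4, b5⟩ := liftV h hA ha hc hb hd ⟨h2, h1, h3, h4.symm, h6, h5⟩
  have f : ∀ x, x ∉ ({a, b, c, d} : Finset Ω) → g • x = x ∧ k • x = x := fun x hx => by
    simp only [Finset.mem_insert, Finset.mem_singleton, not_or] at hx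
    by_cases m : x ∈ s
    · exact ⟨hN hg x m, hN hk x m⟩
    · exact ⟨a5 x (by simpa using m) hx.1 hx.2.1 hx.2.2.1 hx.2.2.2, b5 x (by simpa using m) hx.1 hx.2.2.1 hx.2.1 hx.2.2.2⟩
  have t : g * g = 1 ∧ k * k = 1 ∧ g * k = k * g := by
    refine ⟨?_, ?_, ?_⟩ <;> refine eq_of_smul_eq_smul (α := Ω) fun x => ?_ <;>
      by_cases hx : x ∈ ({a, b, c, d} : Finset Ω) <;>
      first
        | simp only [mul_smul, one_smul, f x hx]
        | (simp only [Finset.mem_insert, Finset.mem_singleton] at hx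
           rcases hx with rfl | rfl | rfl | rfl <;> simp only [mul_smul, one_smul, a1, a2, a3, a4, b1, b2, b3, b4])
  have := hy.eq_of_commute (fun e => h1 (by rw [← a1, e, one_smul])) t.1 (fun e => h2 (by rw [← b1, e, one_smul]))
    t.2.1 t.2.2 (le_trans (by rw [Finset.card_univ_sdiff, hQ]; omega) (Finset.card_le_card
      (s := Finset.univ \ {a, b, c, d}) fun x hx => by simpa using f x (Finset.mem_sdiff.1 hx).2))
  exact h4 (by rw [← a1, this, b1])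

end CL.F4
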