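import Cfsg.Agent.PERM.F4.I0
import Cfsg.Agent.S0679

/-!
S3404, Case I: degrees 11 and 13.
-/

set_option autoImplicit false

namespace CL.F4

open scoped Pointwise

variable {G Ω : Type*} [Group G] [Finite G] [MulAction G Ω] [Fintype Ω] [DecidableEq Ω]

omit [Finite G] in
theorem I13.inv (s : Finset Ω) : Inv (St G s) (Finset.univ \ s) := by
  intro g hg ω hω
  rw [Finset.mem_sdiff] at hω ⊢
  refine ⟨Finset.mem_univ _, fun h => hω.2 ?_⟩
  have := hg _ h
  rw [smul_left_cancel_iff] at this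
  rwa [this] at h

omit [Finite G] in
theorem I13.mem {u z : G} (h : Commute u z) {ω : Ω} (hω : ω ∈ Finset.univ \ fx Ω z) :
    u • ω ∈ Finset.univ \ fx Ω z := by
  rw [Finset.mem_sdiff] at hω ⊢
  refine ⟨Finset.mem_univ _, fun h' => hω.2 ?_⟩
  simpa using smul_mem_fx h.inv_left h'

theorem I13.step {s : Finset Ω} {x : Ω} (hx : x ∉ s) (ht : ∀ y ∉ s, ∃ g ∈ St G s, g • x = y) :
    Nat.card (St G s) = (Fintype.card Ω - s.card) * Nat.card (St G (insert x s)) := by
  have h1 : St G (insert x s) = St G s ⊓ St G ({x} : Finset Ω) := by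
    ext g
    simp [mem_St, and_comm]
  rw [h1, card_eq_of_trans (I13.inv s) (x := x) (by simpa using hx)
    (fun y hy => ht y (by simpa using hy)), Finset.card_univ_sdiff]

theorem I13.core [FaithfulSMul G Ω] (hy : Hyp1 G Ω) {s : Finset Ω} (h4 : s.card ≤ 4)
    (h11 : Fintype.card Ω - s.card = 11) (hs : ¬ Group.IsSolvable (St G s))
    (ht : ∀ x y : Ω, x ∉ s → y ∉ s → ∃ g ∈ St G s, g • x = y) :
    Nat.card (St G s) = 660 ∨ Nat.card (St G s) = 7920 := by
  have h := I13.inv (G := G) s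
  have hi : Function.Injective (act h) := by
    rw [injective_iff_map_eq_one]
    intro g hg
    rw [act_eq_one] at hg
    refine Subtype.ext (eq_of_smul_eq_smul fun ω : Ω => ?_)
    rw [OneMemClass.coe_one, one_smul]
    by_cases hω : ω ∈ s
    · exact g.2 ω hω
    · exact hg ω (by simpa using hω)
  let e := MonoidHom.ofInjective hi
  have hD : CL.PermMod.D11 (act h).range := by
    refine ⟨by rw [Fintype.card_coe, Finset.card_univ_sdiff, h11], ⟨fun x y => ?_⟩,
      fun h' => hs (Group.isSolvable_of_isSolvable_injective (f := e.toMonoidHom) e.injective),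
      hy.not_alt (by omega) h4 le_rfl h⟩
    obtain ⟨g, hg, e⟩ := ht x y (Finset.mem_sdiff.1 x.2).2 (Finset.mem_sdiff.1 y.2).2
    exact ⟨⟨_, ⟨g, hg⟩, rfl⟩, Subtype.ext e⟩
  rw [Nat.card_congr e.toEquiv]
  exact hD.card_cases hD.le_alt

/-- S0679 for the image of `G` in `Perm Ω` (`s = ∅` in `not_alt`, or directly): sharply 4-transitive
contradicts `six_le`; `|L₂(11)| = 660 < 7920 ≤ |G|` (`Tr4.card`). -/
theorem not11 [FaithfulSMul G Ω] (hy : Hyp1 G Ω) {s : Finset Ω}
    (hs : ¬ Group.IsSolvable (St G s)) : Fintype.card Ω ≠ 11 := by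
  intro h11
  have h0 : St G (∅ : Finset Ω) = ⊤ := eq_top_iff.2 fun g _ ω hω => absurd hω (by simp)
  have h1 := I13.core hy (s := ∅) (by simp) (by simpa using h11) (fun hsol => hs
    (Group.isSolvable_of_isSolvable_injective
      (Subgroup.inclusion_injective (St_mono (Finset.empty_subset s))))) (by
      intro x y _ _
      obtain ⟨g, -, e⟩ := hy.tr.one (by rw [Finset.card_univ]; omega) (Finset.mem_univ x)
        (Finset.mem_univ y)
      exact ⟨g, h0 ▸ Subgroup.mem_top g, e⟩)
  obtain ⟨Q, -, hQ⟩ := Finset.exists_subset_card_eq (s := (Finset.univ : Finset Ω)) (n := 4)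
    (by rw [Finset.card_univ]; omega)
  have h2 := hy.tr.card (fun _ _ _ _ => Finset.mem_univ _) (Finset.subset_univ Q) hQ
  rw [Finset.card_univ, h11, top_inf_eq] at h2
  have h3 := hy.six_le hQ
  rw [h0] at h1
  omega

/-- `X = St {a,b}` on `Δ = univ \ {a,b}` (11 points, faithful, 2-transitive): S0679 for
`(act h).range ≅ X` and `not_alt` give `|X| = 7920` (sharply 4-transitive on 11 points) or
`|X| = 660`; `|X| = 110 |H|`, so `|H| ∈ {72, 6}` and `5 ∤ |H|`, `7 ∤ |H|`: elements of order 5 or 7 fix at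
most three points.  `z ∈ H`, `m = |fx z|` is odd, `5 ≤ m ≤ 11`, `C(z)` is 4-transitive on `fx z`
(`tr_z`), `m (m-1)(m-2)(m-3)` divides `|C(z)|` (`Tr4.card`).  An element `u ∈ C(z)` of odd prime order
`r > (13 - m) / 2` fixes all `13 - m` points moved by `z` (`u` permutes the 2-cycles; concretely
`|fx u \ fx z| ≡ 13 - m (mod 2r)`-type count: a point `ω` moved by both has the `⟨u, z⟩`-orbit of
length `2r`).  `m = 5, 7`: `r = 5` fixes `≥ 6` points.  `m = 9`: `r = 7` fixes four points.  `m = 11`: `z` is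
a transposition `(α β)`; a conjugate `(γ δ)` disjoint from it commutes with it, nine common fixed
points (`eq_of_commute`). -/
theorem not13 [FaithfulSMul G Ω] (hy : Hyp1 G Ω) {a b : Ω} (hab : a ≠ b)
    (hs : ¬ Group.IsSolvable (St G ({a, b} : Finset Ω))) : Fintype.card Ω ≠ 13 := by
  intro h13
  have hu4 : 4 ≤ (Finset.univ : Finset Ω).card := by rw [Finset.card_univ]; omega
  obtain ⟨c, hc, d, hd, hcd⟩ := Finset.one_lt_card.1
    (show 1 < (Finset.univ \ ({a, b} : Finset Ω)).card by
      rw [Finset.card_univ_sdiff, Finset.card_pair hab]; omega)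
  simp only [Finset.mem_sdiff, Finset.mem_univ, Finset.mem_insert, Finset.mem_singleton, true_and,
    not_or] at hc hd
  have t3 : ∀ x y : Ω, x ∉ ({a, b} : Finset Ω) → y ∉ ({a, b} : Finset Ω) →
      ∃ g ∈ St G ({a, b} : Finset Ω), g • x = y := by
    intro x y hx hy'
    simp only [Finset.mem_insert, Finset.mem_singleton, not_or] at hx hy'
    obtain ⟨g, -, e1, e2, e3⟩ := hy.tr.three hu4 (Finset.mem_univ a) (Finset.mem_univ b)
      (Finset.mem_univ x) (Finset.mem_univ a) (Finset.mem_univ b) (Finset.mem_univ y) hab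
      (Ne.symm hx.1) (Ne.symm hx.2) hab (Ne.symm hy'.1) (Ne.symm hy'.2)
    exact ⟨g, by simp [mem_St, e1, e2], e3⟩
  have h1 := I13.core hy (s := {a, b}) (by rw [Finset.card_pair hab]; omega)
    (by rw [Finset.card_pair hab]; omega) hs t3
  have hc' : c ∉ ({a, b} : Finset Ω) := by simp [hc]
  have hd' : d ∉ insert c ({a, b} : Finset Ω) := by simp [hd, hcd.symm]
  have h2 := I13.step (G := G) hc' fun y hy' => t3 c y hc' hy'
  have h3 := I13.step (G := G) hd' (by
    intro y hy'
    simp only [Finset.mem_insert, Finset.mem_singleton, not_or] at hy'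
    obtain ⟨g, -, e1, e2, e3, e4⟩ := hy.tr a b c d a b c y (by simp) (by simp) (by simp) (by simp)
      (by simp) (by simp) (by simp) (by simp)
      ⟨hab, Ne.symm hc.1, Ne.symm hd.1, Ne.symm hc.2, Ne.symm hd.2, hcd⟩
      ⟨hab, Ne.symm hc.1, Ne.symm hy'.2.1, Ne.symm hc.2, Ne.symm hy'.2.2, Ne.symm hy'.1⟩
    exact ⟨g, by simp [mem_St, e1, e2, e3], e4⟩)
  have hQ : (insert d (insert c ({a, b} : Finset Ω))).card = 4 := by
    rw [Finset.card_insert_of_notMem hd', Finset.card_insert_of_notMem hc', Finset.card_pair hab]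
  rw [Finset.card_insert_of_notMem hc', Finset.card_pair hab, h13] at h3
  rw [Finset.card_pair hab, h13, h3] at h2
  generalize insert d (insert c ({a, b} : Finset Ω)) = Q at hQ h2
  have h57 : ∀ r, r = 5 ∨ r = 7 → ∀ u : G, orderOf u = r → (fx Ω u).card < 4 := by
    intro r hr u hu
    by_contra hn
    obtain ⟨Q', hQ', hc4⟩ := Finset.exists_subset_card_eq (not_lt.1 hn)
    have := (St G Q').orderOf_dvd_natCard (mem_St_iff.2 hQ')
    rw [hy.toHyp.card_St hc4 hQ, hu] at this
    rcases hr with rfl | rfl <;> omega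
  obtain ⟨z, hz, hz1, hz2⟩ := hy.exists_inv hQ
  have hQz : Q ⊆ fx Ω z := mem_St_iff.1 hz
  have h4 : 4 ≤ (fx Ω z).card := hQ ▸ Finset.card_le_card hQz
  have hzz : z ^ 2 ^ 1 = 1 := by rw [pow_one, pow_two, hz2]
  have hpar := card_fx_mod (F := (Finset.univ : Finset Ω)) Nat.prime_two
    (hzz ▸ Subgroup.one_mem _) fun _ _ => Finset.mem_univ _
  rw [Finset.univ_inter, Finset.card_univ, h13, Nat.ModEq] at hpar
  have hlt : (fx Ω z).card < 13 := by
    rw [← h13]
    refine Finset.card_lt_card (Finset.ssubset_univ_iff.2 fun e => hz1 ?_)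
    exact eq_of_smul_eq_smul fun ω : Ω => by rw [one_smul, ← mem_fx, e]; exact Finset.mem_univ _
  have hD : (Finset.univ \ fx Ω z).card = 13 - (fx Ω z).card := by
    rw [Finset.card_univ_sdiff, h13]
  have hC := (hy.tr_z hz1 hz2 h4).card (inv_fx z) hQz hQ
  have key : ∀ r, r = 5 ∨ r = 7 → r ∣ Nat.card (Subgroup.centralizer ({z} : Set G)) →
      13 - (fx Ω z).card < 2 * r → 13 - (fx Ω z).card < 4 := by
    intro r hr hd hlt
    have hp : r.Prime := by rcases hr with rfl | rfl <;> norm_num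
    have : Fact r.Prime := ⟨hp⟩
    obtain ⟨u, hu⟩ := exists_prime_orderOf_dvd_card' r hd
    have huz : Commute (u : G) z := Subgroup.mem_centralizer_singleton_iff.1 u.2
    have hu' : orderOf (u : G) = r := by rwa [Subgroup.orderOf_coe]
    have k1 := card_fx_mod (k := 1) (g := (u : G)) (F := Finset.univ \ fx Ω z) hp
      (by rw [pow_one, ← hu', pow_orderOf_eq_one]; exact Subgroup.one_mem _)
      fun ω hω => I13.mem huz hω
    have k2 := card_fx_mod (g := z) (F := (Finset.univ \ fx Ω z) \ fx Ω (u : G)) Nat.prime_two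
      (hzz ▸ Subgroup.one_mem _) fun ω hω => by
        rw [Finset.mem_sdiff] at hω ⊢
        exact ⟨I13.mem (Commute.refl z) hω.1,
          (Finset.mem_sdiff.1 (I13.mem huz.symm (by simpa using hω.2))).2⟩
    have k3 : ((Finset.univ \ fx Ω z) \ fx Ω (u : G)) ∩ fx Ω z = ∅ := by
      ext ω
      simp only [Finset.mem_inter, Finset.mem_sdiff, Finset.notMem_empty]
      tauto
    have k4 := Finset.card_inter_add_card_sdiff (Finset.univ \ fx Ω z) (fx Ω (u : G))
    have k5 := Finset.card_le_card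
      (Finset.inter_subset_right : (Finset.univ \ fx Ω z) ∩ fx Ω (u : G) ⊆ _)
    have k6 := h57 r hr u hu'
    rw [k3, Finset.card_empty, Nat.ModEq] at k2
    rw [Nat.ModEq] at k1
    rcases hr with rfl | rfl <;> omega
  have hm : (fx Ω z).card = 5 ∨ (fx Ω z).card = 7 ∨ (fx Ω z).card = 9 ∨ (fx Ω z).card = 11 := by
    omega
  rcases hm with e | e | e | e
  · rw [e] at hC key
    have := key 5 (Or.inl rfl) (by omega) (by omega)
    omega
  · rw [e] at hC key
    have := key 5 (Or.inl rfl) (by omega) (by omega)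
    omega
  · rw [e] at hC key
    have := key 7 (Or.inr rfl) (by omega) (by omega)
    omega
  rw [e] at hD
  obtain ⟨α, β, hαβ, hDe⟩ := Finset.card_eq_two.1 hD
  obtain ⟨γ, hγ, δ, hδ, hγδ⟩ := Finset.one_lt_card.1 (show 1 < (fx Ω z).card by omega)
  obtain ⟨g, -, e1, e2⟩ := hy.tr.two hu4 (Finset.mem_univ α) (Finset.mem_univ β)
    (Finset.mem_univ γ) (Finset.mem_univ δ) hαβ hγδ
  have hdis : ∀ ω : Ω, z • ω = ω ∨ (g * z * g⁻¹) • ω = ω := by
    intro ω
    by_cases h : g⁻¹ • ω ∈ fx Ω z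
    · right
      rw [mul_smul, mul_smul, mem_fx.1 h, smul_inv_smul]
    · left
      have : g⁻¹ • ω ∈ ({α, β} : Finset Ω) := hDe ▸ Finset.mem_sdiff.2 ⟨Finset.mem_univ _, h⟩
      simp only [Finset.mem_insert, Finset.mem_singleton, inv_smul_eq_iff] at this
      rcases this with rfl | rfl
      · rw [e1]; exact mem_fx.1 hγ
      · rw [e2]; exact mem_fx.1 hδ
  have hcom : Commute z (g * z * g⁻¹) := by
    have : Equiv.Perm.Disjoint (MulAction.toPermHom G Ω z)
        (MulAction.toPermHom G Ω (g * z * g⁻¹)) := hdis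
    have h := this.commute.eq
    rw [← map_mul, ← map_mul] at h
    exact MulAction.toPerm_injective h
  have hcard : (fx Ω (g * z * g⁻¹)).card = 11 := by rw [fx_conj, Finset.card_smul_finset, e]
  have heq := hy.eq_of_commute hz1 hz2 (fun h => hz1 (by simpa using h))
    (by rw [conj_mul, hz2]; simp) hcom (by
      have k1 := Finset.card_union_add_card_inter (fx Ω z) (fx Ω (g * z * g⁻¹))
      have k2 := Finset.card_le_univ (fx Ω z ∪ fx Ω (g * z * g⁻¹))
      omega)
  have hα : α ∈ Finset.univ \ fx Ω z := hDe ▸ Finset.mem_insert_self _ _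
  refine (Finset.mem_sdiff.1 hα).2 ?_
  rw [heq, fx_conj, ← e1] at hγ
  exact Finset.smul_mem_smul_finset_iff g |>.1 hγ

end CL.F4
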