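import Cfsg.Agent.PERM.F4.I0
import Cfsg.Agent.INV.ZStar
import Cfsg.Agent.SOLV.OddOrderCor

/-!
S3404, Case I, even degree: `C_K(z₁) = 1`.  
-/

set_option autoImplicit false
set_option linter.style.haveILetI false
set_option linter.unusedSectionVars false

namespace CL.F4

open scoped Pointwise

variable {G Ω : Type*} [Group G] [Finite G] [MulAction G Ω] [Fintype Ω] [DecidableEq Ω]

namespace IDZ

omit [Fintype Ω] [DecidableEq Ω] in
/-- the solvable end -/
theorem core {X : Type*} [Group X] [Finite X] [MulAction X Ω] {Ξ : Finset Ω} {d : Ω}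
    (hI : ∀ g : X, ∀ ω ∈ Ξ, g • ω ∈ Ξ) (hd : d ∈ Ξ) (htr : ∀ ω ∈ Ξ, ∃ g : X, g • d = ω)
    {e : Ω} (he : e ∈ Ξ) (hed : e ≠ d) {z k : X} (hz : z * z = 1) (hzk : z * k * (z * k) = 1)
    (zd : z • d = d) (kd : k • d = d) (fz : ∀ ω ∈ Ξ, z • ω = ω → ω = d)
    (fzk : ∀ ω ∈ Ξ, (z * k) • ω = ω → ω = d) (fk : ∀ ω ∈ Ξ, k • ω = ω → ω = d)
    (iso : Cfsg.IsIsolatedInvolution z) : False := by
  have step : ∀ M : Subgroup X, M.Normal → ⁅M, M⁆ ≤ St X Ξ → M ≤ St X Ξ := by
    intro M hM hc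
    have inv : ∀ s : X, s * s = 1 → s • d = d → (∀ ω ∈ Ξ, s • ω = ω → ω = d) →
        ∀ μ ∈ M, s • μ • d = μ⁻¹ • d := by
      intro s s2 sd fs μ hμ
      have si : s⁻¹ = s := inv_eq_of_mul_eq_one_right s2
      have hν : s * μ * s⁻¹ ∈ M := hM.conj_mem μ hμ s
      have h1 := hc (Subgroup.commutator_mem_commutator (M.inv_mem hν) (M.inv_mem hμ)) d hd
      have h2 : s • (μ * (s * μ * s⁻¹)) • d = (μ * (s * μ * s⁻¹)) • d := by
        conv_rhs => rw [← h1]
        conv_lhs => rw [← sd]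
        simp only [← mul_smul]
        congr 1
        rw [commutatorElement_def]
        calc s * (μ * (s * μ * s⁻¹) * s) = s * μ * s * μ := by group
          _ = s * μ * s⁻¹ * μ := by rw [si]
          _ = _ := by group
      have h3 := fs _ (hI _ d hd) h2
      rw [mul_smul, ← eq_inv_smul_iff, mul_smul, mul_smul, si, sd] at h3
      exact h3
    have fixd : ∀ μ ∈ M, μ • d = d := by
      intro μ hμ
      refine fk _ (hI μ d hd) ?_
      have h1 := inv _ hzk (by rw [mul_smul, kd, zd]) fzk μ hμ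
      have h2 := inv _ hz zd fz μ hμ
      rw [← h2, mul_smul] at h1
      exact smul_left_cancel z h1
    intro μ hμ ω hω
    obtain ⟨g, rfl⟩ := htr ω hω
    have := fixd _ (hM.conj_mem μ hμ g⁻¹)
    rw [inv_inv, mul_smul, mul_smul, inv_smul_eq_iff] at this
    exact this
  haveI : (Cfsg.oddCore X).Normal := Subgroup.sSup_normal _ fun _ h => h.1
  have hodd : Odd (Nat.card (Cfsg.oddCore X)) :=
    Nat.coprime_two_right.1 (CL.coprime_card_pPrimeCore 2 X)
  obtain ⟨n, hn⟩ := (CL.isSolvable_of_odd _ hodd).solvable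
  have key : ∀ n, (derivedSeries (Cfsg.oddCore X) n).map (Cfsg.oddCore X).subtype ≤ St X Ξ →
      Cfsg.oddCore X ≤ St X Ξ := by
    intro n
    induction n with
    | zero =>
      intro h x hx
      exact h ⟨⟨x, hx⟩, Subgroup.mem_top _, rfl⟩
    | succ n ih =>
      intro h
      refine ih (step _ inferInstance ?_)
      rwa [derivedSeries_succ, Subgroup.map_commutator] at h
  have hO := key n (by rw [hn, Subgroup.map_bot]; exact bot_le)
  obtain ⟨g, hg⟩ := htr e he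
  have h1 := hO (CL.BS.zstar iso g) e he
  rw [mul_smul, mul_smul, mul_smul, inv_smul_eq_iff.2 hg.symm, inv_smul_eq_iff.2 zd.symm, hg] at h1
  exact hed (fz e he h1)

/-- an involution of `St {a, b, c, x}` commuting with `z₁` fixes only `c, x` in `fx z₁` -/
theorem only (hy : Hyp1 G Ω) (hn : Even (Fintype.card Ω)) {a b c x : Ω} (hD : D4 a b c x)
    {z z₁ : G} (hz : z ∈ St G ({a, b, c, x} : Finset Ω)) (h1 : z ≠ 1) (h2 : z * z = 1)
    (h2' : z₁ * z₁ = 1) (ha : z₁ • a = b) (hc : z₁ • c = c) (hx : z₁ • x = x)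
    (hzz : Commute z z₁) {ω : Ω} (hω : ω ∈ (fx Ω z₁).erase c) (hzω : z • ω = ω) : ω = x := by
  by_contra hne
  obtain ⟨hωc, hω1⟩ := Finset.mem_erase.1 hω
  have h1' : z₁ ≠ 1 := fun e => hD.1 (by rw [← ha, e, one_smul])
  have e1 := card_fx_mod (k := 1) Nat.prime_two (g := z₁) (F := (Finset.univ : Finset Ω))
    (by rw [pow_one, pow_two, h2']; exact Subgroup.one_mem _) (fun _ _ => Finset.mem_univ _)
  have e2 := card_fx_mod (k := 1) Nat.prime_two (g := z) (F := fx Ω z₁)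
    (by rw [pow_one, pow_two, h2]; exact Subgroup.one_mem _) (fun _ h => smul_mem_fx hzz h)
  rw [Finset.univ_inter, Finset.card_univ] at e1
  have hs : ({c, x, ω} : Finset Ω) ⊆ fx Ω z₁ ∩ fx Ω z := by
    intro u hu
    simp only [Finset.mem_insert, Finset.mem_singleton] at hu
    rw [Finset.mem_inter, mem_fx, mem_fx]
    rcases hu with rfl | rfl | rfl
    · exact ⟨hc, hz _ (by simp)⟩
    · exact ⟨hx, hz _ (by simp)⟩
    · exact ⟨mem_fx.1 hω1, hzω⟩
  have h3 := Finset.card_le_card hs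
  rw [Finset.card_eq_three.2 ⟨c, x, ω, hD.2.2.2.2.2, hωc.symm, Ne.symm hne, rfl⟩] at h3
  obtain ⟨m, hm⟩ := hn
  have h4 : 4 ≤ (fx Ω z₁ ∩ fx Ω z).card := by
    unfold Nat.ModEq at e1 e2
    omega
  have := hy.eq_of_commute h1' h2' h1 h2 hzz.symm h4
  refine hD.1 ?_
  rw [← ha, this, hz a (by simp)]

end IDZ

/-- `n` even, so `m = |fx z₁| ≡ n` is even and `fx z' ∩ fx z₁` has even size `< 4` for every involution
`z' ≠ z₁` with `≥ 4` fixed points commuting with `z₁` (`eq_of_commute`, `card_fx_mod`).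
Suppose `k ≠ 1`; replace it by a power of prime order `r` (odd, dividing `|K|`).
`Γ = C(z₁) ⊓ St {a,b,c}` acts on `Ξ = fx z₁ \ {c}` (`≥ 3` points, odd).  For `λ ∈ Ξ`, `z₁` commutes with an
involution `z_λ ∈ St {a,b,c,λ}` (`cent_inv`), `z_λ ∈ Γ` fixes only `λ` in `Ξ`: `Γ` is transitive on `Ξ`
(`gleason`).  `z` is isolated in `Γ`: a conjugate `z'` of `z` in `Γ` commuting with `z` permutes
`Ξ ∩ fx z = {d}`, so `z, z' ∈ St {a,b,c,d}` and `z' = z`.  `CL.BS.zstar` in `↥Γ`: `[z, g] ∈ O = O(Γ)`.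
`O` is transitive on `Ξ`: if `g d = λ` then `z' = g z g⁻¹ ∈ z O` fixes only `λ`, `z z'` has odd order, so
`z' = o z o⁻¹` with `o ∈ ⟨z z'⟩ ≤ O`, and `o d = λ`.  `k ∈ Γ` fixes only `d` in `Ξ`: otherwise
`fx k ∩ fx z₁` is `z`-invariant (`z` inverts `k`) with exactly the two fixed points `c, d`, so has `≥ 4`
points `Q'`; `k ∈ Kn Q'` (`mem_of_dvd`, `card_Kn`) is inverted and centralised by `z₁ ∈ St Q'`.
`O` is solvable (`CL.isSolvable_of_odd`); let `M` be the last term of its derived series that does not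
fix `Ξ` pointwise (normal in `Γ`; `O` itself does not fix it).  `M` acts on `Ξ` as an abelian group and
does not fix `d` (it is normal in the transitive `Γ`).  For `μ ∈ M` and `s ∈ {z, z k}` (involutions of
`St {a,b,c,d}` in `Γ`, fixing only `d` in `Ξ`): `μ (s μ s⁻¹) d` is fixed by `s`, so equals `d`, i.e.
`s (μ d) = μ⁻¹ d`.  Hence `k (μ d) = z (z k) (μ d) = z (μ⁻¹ d) = μ d`, so `μ d = d`: contradiction. -/
theorem idz (hy : Hyp1 G Ω) (hn : Even (Fintype.card Ω)) {a b c d : Ω} (hD : D4 a b c d)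
    {z z₁ : G} (hz : z ∈ St G ({a, b, c, d} : Finset Ω)) (h1 : z ≠ 1) (h2 : z * z = 1)
    (h2' : z₁ * z₁ = 1) (ha : z₁ • a = b) (hb : z₁ • b = a) (hc : z₁ • c = c) (hd : z₁ • d = d)
    (hzz : Commute z z₁) (h4 : 4 ≤ (fx Ω z₁).card) {k : G}
    (hk : k ∈ Kn G ({a, b, c, d} : Finset Ω)) (hkz : Commute k z₁) : k = 1 := by
  by_contra hk1
  -- replace `k` by a power of prime order
  obtain ⟨r, hr, hrd⟩ := Nat.exists_prime_and_dvd (fun e => hk1 (orderOf_eq_one_iff.1 e))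
  have hko := orderOf_pow_orderOf_div (orderOf_pos k).ne' hrd
  replace hk := Subgroup.pow_mem _ hk (orderOf k / r)
  replace hkz := hkz.pow_left (orderOf k / r)
  generalize k ^ (orderOf k / r) = k' at hko hk hkz
  clear hk1 hrd k
  rename' k' => k
  have hk1 : k ≠ 1 := fun e => hr.one_lt.ne (by rw [← hko, e, orderOf_one])
  have hQ := hD.card
  have hkQ := (hy.frob _ hQ).le hk
  have h1' : z₁ ≠ 1 := fun e => hD.1 (by rw [← ha, e, one_smul])
  obtain ⟨hab, hac, had, hbc, hbd, hcd⟩ := id hD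
  have hzk := hy.inverts hQ hz h1 h2 k hk
  have zi : z⁻¹ = z := inv_eq_of_mul_eq_one_right h2
  have hzk2 : z * k * (z * k) = 1 := by
    calc z * k * (z * k) = z * k * z⁻¹ * k := by rw [zi]; group
      _ = 1 := by rw [hzk, inv_mul_cancel]
  have hzk1 : z * k ≠ 1 := fun e => by
    rw [eq_inv_of_mul_eq_one_right e, zi] at hk
    exact I0.notMem (hy.od _ hQ) h1 h2 hk
  set Ξ := (fx Ω z₁).erase c with hΞ
  set Γ := Subgroup.centralizer ({z₁} : Set G) ⊓ St G ({a, b, c} : Finset Ω) with hΓ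
  have mΓ : ∀ g : G, g ∈ Γ ↔ Commute g z₁ ∧ g ∈ St G ({a, b, c} : Finset Ω) := fun g => by
    rw [hΓ, Subgroup.mem_inf, Subgroup.mem_centralizer_singleton_iff]; rfl
  have sub : ∀ x : Ω, St G ({a, b, c, x} : Finset Ω) ≤ St G ({a, b, c} : Finset Ω) :=
    fun x => St_mono fun u hu => by
      simp only [Finset.mem_insert, Finset.mem_singleton] at hu ⊢; tauto
  have hI : Inv Γ Ξ := fun g hg ω hω => by
    obtain ⟨g1, g2⟩ := (mΓ g).1 hg
    obtain ⟨o1, o2⟩ := Finset.mem_erase.1 hω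
    refine Finset.mem_erase.2 ⟨fun e => o1 ?_, smul_mem_fx g1 o2⟩
    rw [← g2 c (by simp)] at e
    exact smul_left_cancel g e
  have hdΞ : d ∈ Ξ := Finset.mem_erase.2 ⟨hcd.symm, mem_fx.2 hd⟩
  have dist : ∀ x ∈ Ξ, D4 a b c x := fun x hx => by
    obtain ⟨o1, o2⟩ := Finset.mem_erase.1 hx
    rw [mem_fx] at o2
    refine ⟨hab, hac, fun e => hab ?_, hbc, fun e => hab ?_, o1.symm⟩
    · rw [← ha, e, o2]
    · rw [← hb, e, o2]
  have htr := gleason Nat.prime_two hI (fun x hx => by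
    have hDx := dist x hx
    have hx1 := mem_fx.1 (Finset.mem_erase.1 hx).2
    obtain ⟨y, y0, y1, y2, y3⟩ := hy.cent_inv hDx.card h2' (smul_eq_of_maps fun u hu => by
      simp only [Finset.mem_insert, Finset.mem_singleton] at hu ⊢
      rcases hu with rfl | rfl | rfl | rfl <;> simp [ha, hb, hc, hx1])
    refine ⟨Subgroup.zpowers y, (Subgroup.zpowers_le).2 ((mΓ y).2 ⟨y3.symm, sub x y0⟩),
      IsPGroup.of_card (n := 1) ?_, ?_⟩
    · rw [Nat.card_zpowers, orderOf_eq_prime (p := 2) (by rwa [pow_two]) y1, pow_one]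
    · rw [Fx_zpowers]
      ext u
      rw [Finset.mem_inter, mem_fx, Finset.mem_singleton]
      exact ⟨fun h => IDZ.only hy hn hDx y0 y1 y2 h2' ha hc hx1 y3.symm h.1 h.2,
        fun h => h ▸ ⟨hx, y0 x (by simp)⟩⟩)
  have fz : ∀ ω ∈ Ξ, z • ω = ω → ω = d := fun ω hω h =>
    IDZ.only hy hn hD hz h1 h2 h2' ha hc hd hzz hω h
  have fzk : ∀ ω ∈ Ξ, (z * k) • ω = ω → ω = d := fun ω hω h =>
    IDZ.only hy hn hD (Subgroup.mul_mem _ hz hkQ) hzk1 hzk2 h2' ha hc hd (hzz.mul_left hkz) hω h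
  have hzΓ : z ∈ Γ := (mΓ z).2 ⟨hzz, sub d hz⟩
  have hkΓ : k ∈ Γ := (mΓ k).2 ⟨hkz, sub d hkQ⟩
  have zd : z • d = d := hz d (by simp)
  have fk : ∀ ω ∈ Ξ, k • ω = ω → ω = d := by
    intro ω hω h
    by_contra hne
    have hω' := hI z hzΓ ω hω
    have n1 : z • ω ≠ ω := fun e => hne (fz ω hω e)
    have n2 : z • ω ≠ d := fun e => hne (smul_left_cancel z (e.trans zd.symm))
    have h' : k • z • ω = z • ω := by
      have e : k * z = z * k⁻¹ := by
        calc k * z = z * (z * k * z⁻¹) := by rw [zi, ← mul_assoc, ← mul_assoc, h2, one_mul]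
          _ = _ := by rw [hzk]
      rw [← mul_smul, e, mul_smul, inv_smul_eq_iff.2 h.symm]
    obtain ⟨o1, o2⟩ := Finset.mem_erase.1 hω
    obtain ⟨o3, o4⟩ := Finset.mem_erase.1 hω'
    have hQ' := D4.card (a := c) (b := d) (c := ω) (d := z • ω)
      ⟨hcd, o1.symm, o3.symm, Ne.symm hne, n2.symm, n1.symm⟩
    have k1 : k ∈ St G ({c, d, ω, z • ω} : Finset Ω) := fun u hu => by
      simp only [Finset.mem_insert, Finset.mem_singleton] at hu
      rcases hu with rfl | rfl | rfl | rfl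
      exacts [hkQ _ (by simp), hkQ _ (by simp), h, h']
    have k2 : z₁ ∈ St G ({c, d, ω, z • ω} : Finset Ω) := fun u hu => by
      simp only [Finset.mem_insert, Finset.mem_singleton] at hu
      rcases hu with rfl | rfl | rfl | rfl
      exacts [hc, hd, mem_fx.1 o2, mem_fx.1 o4]
    have k3 := (hy.frob _ hQ').mem_of_dvd (k := 1) hr (by
      rw [hy.toHyp.card_Kn hQ' hQ, ← hko]; exact Subgroup.orderOf_dvd_natCard _ hk) k1
      (by rw [pow_one, ← hko, pow_orderOf_eq_one])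
    have k4 := hy.inverts hQ' k2 h1' h2' k k3
    rw [← hkz.eq, mul_inv_cancel_right] at k4
    exact I0.notMem (hy.od _ hQ) hk1 (mul_eq_one_iff_eq_inv.2 k4) hk
  have h3 : 1 < Ξ.card := by
    rw [hΞ, Finset.card_erase_of_mem (mem_fx.2 hc)]; omega
  obtain ⟨e, he, hed⟩ := Finset.exists_mem_ne h3 d
  refine IDZ.core (X := Γ) (fun g => hI g g.2) hdΞ (fun ω hω => ?_) he hed (z := ⟨z, hzΓ⟩)
    (k := ⟨k, hkΓ⟩) (Subtype.ext h2) (Subtype.ext hzk2) zd (hkQ d (by simp)) fz fzk fk ⟨?_, ?_⟩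
  · obtain ⟨g, hg, e⟩ := htr d hdΞ ω hω
    exact ⟨⟨g, hg⟩, e⟩
  · exact orderOf_eq_prime (Subtype.ext (by rw [pow_two]; exact h2))
      fun e => h1 (congrArg Subtype.val e)
  · intro g hg
    have hg' : Commute z ((g : G) * z * (g : G)⁻¹) := congrArg Subtype.val hg.eq
    have m := (g * ⟨z, hzΓ⟩ * g⁻¹).2
    change (g : G) * z * (g : G)⁻¹ ∈ Γ at m
    have hd' : ((g : G) * z * (g : G)⁻¹) • d = d := fz _ (hI _ m d hdΞ) (by
      rw [← mul_smul, hg'.eq, mul_smul, zd])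
    refine Subtype.ext (hy.eq_of_commute h1 h2 (fun e => h1 (conj_eq_one_iff.1 e))
      (by rw [conj_mul, h2, mul_one, mul_inv_cancel]) hg' ?_).symm
    rw [← hQ]
    refine Finset.card_le_card fun u hu => ?_
    rw [Finset.mem_inter, mem_fx, mem_fx]
    refine ⟨hz u hu, ?_⟩
    simp only [Finset.mem_insert, Finset.mem_singleton] at hu
    rcases hu with rfl | rfl | rfl | rfl
    exacts [((mΓ _).1 m).2 _ (by simp), ((mΓ _).1 m).2 _ (by simp), ((mΓ _).1 m).2 _ (by simp), hd']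

end CL.F4
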