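import Cfsg.Agent.PERM.F4.IDZ

/-!
S3404, Case I, even degree: the involutions with two fixed points.
-/

set_option autoImplicit false

namespace CL.F4

open scoped Pointwise

variable {G Ω : Type*} [Group G] [Finite G] [MulAction G Ω] [Fintype Ω] [DecidableEq Ω]

omit [Finite G] [Fintype Ω] in
theorem E1.fix4 {a b c d : Ω} {g : G} (h : g ∈ St G ({a, b, c, d} : Finset Ω)) :
    g • a = a ∧ g • b = b ∧ g • c = c ∧ g • d = d :=
  ⟨h a (by simp), h b (by simp), h c (by simp), h d (by simp)⟩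

omit [Finite G] [Fintype Ω] in
theorem E1.mem4 {a b c d : Ω} {g : G} (ha : g • a = a) (hb : g • b = b) (hc : g • c = c)
    (hd : g • d = d) : g ∈ St G ({a, b, c, d} : Finset Ω) := by
  intro ω hω
  simp only [Finset.mem_insert, Finset.mem_singleton] at hω
  rcases hω with rfl | rfl | rfl | rfl <;> assumption

theorem E1.exists_ab (h7 : 7 ≤ Fintype.card Ω) {c d : Ω} (hcd : c ≠ d) : ∃ a b : Ω, D4 a b c d := by
  obtain ⟨a, -, ha⟩ := Finset.exists_mem_notMem_of_card_lt_card
    (show ({c, d} : Finset Ω).card < (Finset.univ : Finset Ω).card by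
      rw [Finset.card_pair hcd, Finset.card_univ]; omega)
  obtain ⟨b, -, hb⟩ := Finset.exists_mem_notMem_of_card_lt_card
    (show ({a, c, d} : Finset Ω).card < (Finset.univ : Finset Ω).card by
      have := Finset.card_le_three (a := a) (b := c) (c := d)
      rw [Finset.card_univ]; omega)
  simp only [Finset.mem_insert, Finset.mem_singleton, not_or] at ha hb
  exact ⟨a, b, fun e => hb.1 e.symm, ha.1, ha.2, hb.2.1, hb.2.2, hcd⟩

/-- `w = z z₁` centralises the four-point stabiliser -/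
theorem E1.ev_cent (hy : Hyp1 G Ω) (hn : Even (Fintype.card Ω)) {a b c d : Ω} (hD : D4 a b c d)
    {z z₁ : G} (hz : z ∈ St G ({a, b, c, d} : Finset Ω)) (h1 : z ≠ 1) (h2 : z * z = 1)
    (h2' : z₁ * z₁ = 1) (ha : z₁ • a = b) (hb : z₁ • b = a) (hc : z₁ • c = c) (hd : z₁ • d = d)
    (hzz : Commute z z₁) (h4 : 4 ≤ (fx Ω z₁).card) :
    ∀ h ∈ St G ({a, b, c, d} : Finset Ω), Commute (z * z₁) h := by
  have hQ := hD.card
  have hF := hy.frob _ hQ
  have hs : z₁ • ({a, b, c, d} : Finset Ω) = {a, b, c, d} := smul_eq_of_maps (by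
    intro ω hω
    simp only [Finset.mem_insert, Finset.mem_singleton] at hω ⊢
    rcases hω with rfl | rfl | rfl | rfl <;> simp [*])
  have nK := Subgroup.mem_normalizer_iff.1 (norm_Kn (G := G) hs)
  have nH := Subgroup.mem_normalizer_iff.1 (norm_St (G := G) hs)
  have i1 : z₁⁻¹ = z₁ := inv_eq_of_mul_eq_one_right h2'
  have iz : z⁻¹ = z := inv_eq_of_mul_eq_one_right h2
  have inv1 : ∀ k ∈ Kn G ({a, b, c, d} : Finset Ω), z₁ * k * z₁⁻¹ = k⁻¹ := by
    intro k hk
    have hk' := (nK k).1 hk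
    have := idz hy hn hD hz h1 h2 h2' ha hb hc hd hzz h4 (mul_mem hk hk') (by
      have e := (hy.comm hQ k hk _ hk').eq
      change k * (z₁ * k * z₁⁻¹) * z₁ = z₁ * (k * (z₁ * k * z₁⁻¹))
      calc k * (z₁ * k * z₁⁻¹) * z₁ = k * z₁ * k := by group
        _ = (z₁ * z₁) * k * z₁⁻¹ * k := by rw [h2', i1]; group
        _ = z₁ * (z₁ * k * z₁⁻¹ * k) := by group
        _ = _ := by rw [e])
    exact eq_inv_of_mul_eq_one_right this
  have cK : ∀ k ∈ Kn G ({a, b, c, d} : Finset Ω), Commute (z * z₁) k := by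
    intro k hk
    have e : z * z₁ * k * (z * z₁)⁻¹ = k := by
      calc z * z₁ * k * (z * z₁)⁻¹ = z * (z₁ * k * z₁⁻¹) * z⁻¹ := by group
        _ = k := by rw [inv1 k hk, hy.inverts hQ hz h1 h2 _ (inv_mem hk), inv_inv]
    exact mul_inv_eq_iff_eq_mul.1 e
  intro h hh
  obtain ⟨k, hk, hkz⟩ := hy.decomp hQ hz h1 h2 hh
  set u := k⁻¹ * h with hu
  have huH : u ∈ St G ({a, b, c, d} : Finset Ω) := mul_mem (inv_mem (hF.le hk)) hh
  have hwz : Commute (z * z₁) z := Commute.mul_left (Commute.refl z) hzz.symm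
  set w := z * z₁ with hw
  have hv : w * u * w⁻¹ * u⁻¹ ∈ St G ({a, b, c, d} : Finset Ω) := by
    refine mul_mem ?_ (inv_mem huH)
    have := mul_mem (mul_mem hz ((nH u).1 huH)) (inv_mem hz)
    convert this using 1
    rw [hw]; group
  have hvz : Commute (w * u * w⁻¹ * u⁻¹) z :=
    ((hwz.mul_left hkz).mul_left hwz.inv_left).mul_left hkz.inv_left
  have hvK : w * u * w⁻¹ * u⁻¹ ∈ Kn G ({a, b, c, d} : Finset Ω) := by
    by_contra hno
    apply hF.ne_bot
    rw [eq_bot_iff]
    intro k' hk'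
    refine hF.fpf _ hv hno k' hk' ?_
    have e1 : u⁻¹ * k' * u ∈ Kn G ({a, b, c, d} : Finset Ω) := by
      simpa using hF.norm _ (inv_mem huH) _ hk'
    have e2 := (cK _ e1).inv_left.eq
    have e3 := (cK _ hk').eq
    change _ * _ = _ * _
    calc w * u * w⁻¹ * u⁻¹ * k' = w * u * (w⁻¹ * (u⁻¹ * k' * u)) * u⁻¹ := by group
      _ = (w * k') * (u * w⁻¹ * u⁻¹) := by rw [e2]; group
      _ = _ := by rw [e3]; group
  have hv1 : w * u * w⁻¹ * u⁻¹ = 1 :=
    hF.fpf z hz (I0.notMem (hy.od _ hQ) h1 h2) _ hvK hvz.symm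
  have hwu : Commute w u := by
    rw [mul_inv_eq_one, mul_inv_eq_iff_eq_mul] at hv1
    exact hv1
  have : h = k * u := by rw [hu]; group
  rw [this]
  exact (cK k hk).mul_right hwu

/-- Take `a, b` with `D4 a b c d` (`seven_le`), `Q = {a,b,c,d}`, `H`, `K`, `z ∈ H`, `z₁` (`exists_z1`),
`w = z z₁` (swaps `a, b`, fixes `c, d`, commutes with `z`).  `z₁` normalises the abelian odd group `K`
and `C_K(z₁) = 1` (`idz`), so `k · z₁ k z₁⁻¹ = 1`: `z₁` inverts `K`, `w` centralises `K`.  For `h ∈ C_H(z)`,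
`[w, h] ∈ H` centralises `z` and `K`, so lies in `K` (`fpf`) and is `1`; by `decomp`, `w` centralises `H`.
`fx w = {c, d}`: its size is even; if `≥ 4`, `idz` for `(z, w)` gives `K = C_K(w) = 1`.
An involution `y` swapping `a, b` and fixing `c, d` is `w h` with `h ∈ H`, `h² = 1`: `y = w` or
`y = w k z k⁻¹ = k z₁ k⁻¹` (`conj_inv`) has `≥ 4` fixed points.  Any involution `y` fixing `c, d` has a
2-cycle `(α β)` (faithful); move `(α, β, c, d)` to `(a, b, c, d)`.
Index: `C = C(w) ⊓ stabilizer c` fixes `d`, `C ⊓ St {a} = H`, and `C` is transitive on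
`univ \ {c, d}`: if `g` fixes `c, d` and maps `(α, wα)` to `(a, b)` then `g w g⁻¹` swaps `a, b` and has two
fixed points, so equals `w`.  `|C| = (n - 2) |H|` (`card_eq_of_trans`), `|stabilizer c| =
(n-1)(n-2)(n-3)|H|` (`Tr4.card`, `card_eq_of_trans`): index `(n - 1)(n - 3)`. -/
theorem ev1 [FaithfulSMul G Ω] (hy : Hyp1 G Ω) (hn : Even (Fintype.card Ω)) {c d : Ω}
    (hcd : c ≠ d) :
    ∃ w z z₁ : G, w = z * z₁ ∧ z ≠ 1 ∧ z * z = 1 ∧ z₁ ≠ 1 ∧ z₁ * z₁ = 1 ∧ w * w = 1 ∧
      z • c = c ∧ z₁ • c = c ∧ 4 ≤ (fx Ω z).card ∧ 4 ≤ (fx Ω z₁).card ∧ fx Ω w = {c, d} ∧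
      (∀ y : G, y ≠ 1 → y * y = 1 → y • c = c → y • d = d →
        4 ≤ (fx Ω y).card ∨ ∃ g : G, g • c = c ∧ y = g * w * g⁻¹) ∧
      Odd ((Subgroup.centralizer ({w} : Set G)).relIndex (MulAction.stabilizer G c)) := by
  have h7 := hy.seven_le
  obtain ⟨a, b, hD⟩ := E1.exists_ab h7 hcd
  have hQ := hD.card
  have hF := hy.frob _ hQ
  obtain ⟨z, hz, h1, h2⟩ := hy.exists_inv hQ
  obtain ⟨z₁, h2', ha, hb, hc, hd, hzz, hcard⟩ := hy.exists_z1 hD hz h1 h2
  obtain ⟨za, zb, zc, zd⟩ := E1.fix4 hz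
  have h4 : 4 ≤ (fx Ω z).card := hQ ▸ Finset.card_le_card (mem_St_iff.1 hz)
  have h4' : 4 ≤ (fx Ω z₁).card := hcard ▸ h4
  have cen := E1.ev_cent hy hn hD hz h1 h2 h2' ha hb hc hd hzz h4'
  set w := z * z₁ with hw
  have ww : w * w = 1 := by
    calc w * w = z * (z₁ * z) * z₁ := by rw [hw]; group
      _ = (z * z) * (z₁ * z₁) := by rw [← hzz.eq]; group
      _ = 1 := by rw [h2, h2', one_mul]
  have wa : w • a = b := by rw [hw, mul_smul, ha, zb]
  have wb : w • b = a := by rw [hw, mul_smul, hb, za]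
  have wc : w • c = c := by rw [hw, mul_smul, hc, zc]
  have wd : w • d = d := by rw [hw, mul_smul, hd, zd]
  have w4 : ¬ 4 ≤ (fx Ω w).card := by
    intro h
    apply hF.ne_bot
    rw [eq_bot_iff]
    intro k hk
    exact idz hy hn hD hz h1 h2 ww wa wb wc wd (cen z hz).symm h hk (cen k (hF.le hk)).symm
  have fw : fx Ω w = {c, d} := by
    symm
    refine Finset.eq_of_subset_of_card_le (Finset.insert_subset (mem_fx.2 wc)
      (Finset.singleton_subset_iff.2 (mem_fx.2 wd))) ?_
    have hm := card_fx_mod (Ω := Ω) (k := 1) Nat.prime_two (g := w) (F := Finset.univ)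
      (by rw [pow_one, pow_two, ww]; exact one_mem _) (fun _ _ => Finset.mem_univ _)
    rw [Finset.univ_inter, Finset.card_univ] at hm
    rw [Finset.card_pair hcd]
    obtain ⟨m, hm'⟩ := hn
    unfold Nat.ModEq at hm
    omega
  have uniq : ∀ y : G, y * y = 1 → y • a = b → y • b = a → y • c = c → y • d = d →
      4 ≤ (fx Ω y).card ∨ y = w := by
    intro y yy ya yb yc yd
    have hh : w * y ∈ St G ({a, b, c, d} : Finset Ω) :=
      E1.mem4 (by rw [mul_smul, ya, wb]) (by rw [mul_smul, yb, wa]) (by rw [mul_smul, yc, wc])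
        (by rw [mul_smul, yd, wd])
    have e : y = w * (w * y) := by rw [← mul_assoc, ww, one_mul]
    by_cases h0 : w * y = 1
    · right; rw [e, h0, mul_one]
    left
    have hsq : (w * y) * (w * y) = 1 := by
      have e1 := (cen _ hh).eq
      calc (w * y) * (w * y) = (w * y * w) * y := by group
        _ = (w * w) * (y * y) := by rw [← e1]; group
        _ = 1 := by rw [ww, yy, one_mul]
    obtain ⟨k, hk, hk'⟩ := hy.conj_inv hQ hz h1 h2 hh h0 hsq
    have e2 : y = k * z₁ * k⁻¹ := by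
      have e3 := (cen k (hF.le hk)).eq
      have e4 : w * z = z₁ := by
        rw [hw, mul_assoc, ← hzz.eq, ← mul_assoc, h2, one_mul]
      calc y = (w * k) * z * k⁻¹ := by rw [e, hk']; group
        _ = k * (w * z) * k⁻¹ := by rw [e3]; group
        _ = _ := by rw [e4]
    rw [e2, fx_conj, Finset.card_smul_finset]
    exact h4'
  have move : ∀ y : G, y * y = 1 → y • c = c → y • d = d → ∀ α : Ω, y • α ≠ α →
      4 ≤ (fx Ω y).card ∨ ∃ g : G, g • α = a ∧ g • c = c ∧ g • d = d ∧ g * y * g⁻¹ = w := by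
    intro y yy yc yd α hα
    have yα : y • y • α = α := by rw [← mul_smul, yy, one_smul]
    have D' : D4 α (y • α) c d := by
      refine ⟨hα.symm, fun e => hα (by rw [e, yc]), fun e => hα (by rw [e, yd]), fun e => hα ?_,
        fun e => hα ?_, hcd⟩
      · rw [e, yc] at yα; rw [e, yα]
      · rw [e, yd] at yα; rw [e, yα]
    obtain ⟨g, -, g1, g2, g3, g4⟩ := hy.tr α (y • α) c d a b c d (Finset.mem_univ _)
      (Finset.mem_univ _) (Finset.mem_univ _) (Finset.mem_univ _) (Finset.mem_univ _)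
      (Finset.mem_univ _) (Finset.mem_univ _) (Finset.mem_univ _) D' hD
    have app : ∀ ω : Ω, (g * y * g⁻¹) • g • ω = g • y • ω := fun ω => by
      rw [mul_smul, mul_smul, inv_smul_smul]
    rcases uniq (g * y * g⁻¹) (by
        calc g * y * g⁻¹ * (g * y * g⁻¹) = g * (y * y) * g⁻¹ := by group
          _ = 1 := by rw [yy]; group)
      (by rw [← g1, app, g2]) (by rw [← g2, app, yα, g1]) (by conv_lhs => rw [← g3, app, yc, g3])
      (by conv_lhs => rw [← g4, app, yd, g4]) with h | h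
    · left
      rwa [fx_conj, Finset.card_smul_finset] at h
    · exact Or.inr ⟨g, g1, g3, g4, h⟩
  refine ⟨w, z, z₁, rfl, h1, h2, fun e => hD.1 (by rw [← ha, e, one_smul]), h2', ww, zc, hc, h4,
    h4', fw, fun y y1 yy yc yd => ?_, ?_⟩
  · obtain ⟨α, hα⟩ : ∃ α : Ω, y • α ≠ α := by
      by_contra h
      push Not at h
      exact y1 (eq_of_smul_eq_smul (α := Ω) fun ω => by rw [h, one_smul])
    rcases move y yy yc yd α hα with h | ⟨g, -, g3, -, h⟩
    · exact Or.inl h
    · exact Or.inr ⟨g⁻¹, by rw [inv_smul_eq_iff, g3], by rw [← h]; group⟩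
  · set C := Subgroup.centralizer ({w} : Set G) ⊓ MulAction.stabilizer G c with hC
    have Cd : ∀ g ∈ C, g • d = d := by
      intro g hg
      have h5 := inv_fx (Ω := Ω) w g hg.1 d (mem_fx.2 wd)
      rw [fw, Finset.mem_insert, Finset.mem_singleton] at h5
      refine h5.resolve_left fun e => hcd ?_
      exact MulAction.injective g ((show g • c = c from hg.2).trans e.symm)
    have hinv : Inv C (Finset.univ \ {c, d}) := by
      intro g hg ω hω
      simp only [Finset.mem_sdiff, Finset.mem_univ, true_and, Finset.mem_insert,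
        Finset.mem_singleton, not_or] at hω ⊢
      exact ⟨fun e => hω.1 (MulAction.injective g (e.trans (show g • c = c from hg.2).symm)),
        fun e => hω.2 (MulAction.injective g (e.trans (Cd g hg).symm))⟩
    have e1 := card_eq_of_trans hinv (x := a) (by simp [hD.2.1, hD.2.2.1]) (by
      intro α hα
      have hα' : w • α ≠ α := fun e => (Finset.mem_sdiff.1 hα).2 (fw ▸ mem_fx.2 e)
      obtain ⟨g, g1, g3, -, h⟩ := (move w ww wc wd α hα').resolve_left w4
      refine ⟨g⁻¹, inv_mem ⟨Subgroup.mem_centralizer_singleton_iff.2 ?_, g3⟩,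
        by rw [inv_smul_eq_iff, g1]⟩
      exact mul_inv_eq_iff_eq_mul.1 h)
    have e2 : C ⊓ St G ({a} : Finset Ω) = St G ({a, b, c, d} : Finset Ω) := by
      ext g
      constructor
      · rintro ⟨hg, hga⟩
        have ga : g • a = a := hga a (by simp)
        refine E1.mem4 ga ?_ hg.2 (Cd g hg)
        rw [← wa, ← mul_smul, Subgroup.mem_centralizer_singleton_iff.1 hg.1, mul_smul, ga]
      · intro hg
        exact ⟨⟨Subgroup.mem_centralizer_singleton_iff.2 (cen g hg).symm.eq, (E1.fix4 hg).2.2.1⟩,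
          St_mono (by simp) hg⟩
    rw [e2, Finset.card_sdiff_of_subset (Finset.subset_univ _), Finset.card_pair hcd,
      Finset.card_univ] at e1
    have e3 := hy.tr.card (fun _ _ _ _ => Finset.mem_univ _) (Finset.subset_univ _) hQ
    have e4 := card_eq_of_trans (N := (⊤ : Subgroup G)) (F := Finset.univ)
      (fun _ _ _ _ => Finset.mem_univ _) (x := c) (Finset.mem_univ _)
      (fun y _ => hy.tr.one (by rw [Finset.card_univ]; omega) (Finset.mem_univ _)
        (Finset.mem_univ _))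
    have e5 : St G ({c} : Finset Ω) = MulAction.stabilizer G c := by
      ext g; simp [mem_St]
    rw [top_inf_eq, Finset.card_univ] at e3 e4
    rw [e5] at e4
    have e6 := Subgroup.card_mul_index (C.subgroupOf (MulAction.stabilizer G c))
    rw [Nat.card_congr (Subgroup.subgroupOfEquivOfLe inf_le_right).toEquiv, e1] at e6
    have e7 : (Subgroup.centralizer ({w} : Set G)).relIndex (MulAction.stabilizer G c) =
        (C.subgroupOf (MulAction.stabilizer G c)).index := by
      rw [hC, Subgroup.inf_subgroupOf_right]; rfl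
    rw [e7]
    obtain ⟨m, hm⟩ : ∃ m, Fintype.card Ω = m + 3 := ⟨Fintype.card Ω - 3, by omega⟩
    have hpos : 0 < Nat.card (St G ({a, b, c, d} : Finset Ω)) := Nat.card_pos
    rw [hm] at e3 e4 e6 hn
    simp only [Nat.add_sub_cancel, show m + 3 - 1 = m + 2 from rfl,
      show m + 3 - 2 = m + 1 from rfl] at e3 e6
    have e8 : (C.subgroupOf (MulAction.stabilizer G c)).index = (m + 2) * m := by
      rw [e3, ← e6] at e4
      have : 0 < (m + 3) * ((m + 1) * Nat.card (St G ({a, b, c, d} : Finset Ω))) := by positivity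
      refine Nat.eq_of_mul_eq_mul_left this ?_
      linarith
    rw [e8]
    have hmo : Odd m := by
      rcases Nat.even_or_odd m with h | h
      · exact absurd hn (Nat.not_even_iff_odd.2 (h.add_odd (by decide)))
      · exact h
    exact (hmo.add_even (by decide)).mul hmo

end CL.F4
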