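import Cfsg.Agent.PERM.F4.I0

/-!
S3404, Case I, odd degree: no regular normal subgroup in a two-point stabiliser.
-/

set_option autoImplicit false

namespace CL.F4

open scoped Pointwise

variable {G Ω : Type*} [Group G] [Finite G] [MulAction G Ω] [Fintype Ω] [DecidableEq Ω]

/-- `X = St {a,b}`, `Δ = univ \ {a,b}` (odd, `≥ 5` points), `c ≠ d ∈ Δ`, `ν ↦ ν c` is a bijection `N → Δ`,
equivariant for everything that normalises `N` and fixes `c`.  `X ⊓ St {c}` is transitive on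
`Δ \ {c}`, so all `ν ≠ 1` are conjugate, of one prime order `p` (odd, `|N|` odd); `N` is a `p`-group
and abelian (its centre is non-trivial and `X`-invariant).  (Or S0054.)
`z ∈ St {a,b,c,d}`, `z₁` from `exists_z1`; `z₁` normalises `X` (`norm_St`) and `N`: `N' = cj z₁ N` has the
same properties; `N ⊓ N'` is normalised by `X`; if it contains `ν ≠ 1` it contains `N`; otherwise
`N, N'` commute elementwise, and for `ν' ∈ N'`, `ν ∈ N` with `ν c = ν' c`, `ν⁻¹ ν'` fixes `c`, commutes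
with `N`, so fixes `Δ`, `ν = ν'`; `N' ≤ N ⊓ N' = ⊥`, absurd.  Now `|fx z| - 2 = |C_N(z)|` and
`|fx z₁| = |C_N(z₁)|` (`fx z₁ ⊆ Δ`) are orders of non-trivial `p`-groups (`c, d` are fixed) and
`|fx z₁| = |fx z|`: `p ∣ 2`. -/
theorem odR [FaithfulSMul G Ω] (hy : Hyp1 G Ω) (hn : Odd (Fintype.card Ω)) {a b : Ω} (hab : a ≠ b)
    {N : Subgroup G} (hN : N ≤ St G ({a, b} : Finset Ω))
    (hnm : ∀ g ∈ St G ({a, b} : Finset Ω), ∀ ν ∈ N, g * ν * g⁻¹ ∈ N)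
    (ht : ∀ x y : Ω, x ≠ a → x ≠ b → y ≠ a → y ≠ b → ∃ ν ∈ N, ν • x = y)
    (hs : ∀ x : Ω, x ≠ a → x ≠ b → ∀ ν ∈ N, ν • x = x → ν = 1) : False := by
  have h7 := hy.seven_le
  have mem2 : ∀ x : Ω, x ∈ Finset.univ \ ({a, b} : Finset Ω) ↔ x ≠ a ∧ x ≠ b := by simp
  have mX : ∀ g : G, g ∈ St G ({a, b} : Finset Ω) ↔ g • a = a ∧ g • b = b := by simp [mem_St]
  have hc2 : (Finset.univ \ ({a, b} : Finset Ω)).card = Fintype.card Ω - 2 := by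
    rw [Finset.card_univ_sdiff, Finset.card_pair hab]
  obtain ⟨c, hc, d, hd, hcd⟩ := Finset.one_lt_card.1
    (show 1 < (Finset.univ \ ({a, b} : Finset Ω)).card by omega)
  rw [mem2] at hc hd
  have hD : D4 a b c d := ⟨hab, hc.1.symm, hd.1.symm, hc.2.symm, hd.2.symm, hcd⟩
  have mv : ∀ g ∈ St G ({a, b} : Finset Ω), ∀ x : Ω, x ≠ a ∧ x ≠ b → g • x ≠ a ∧ g • x ≠ b := by
    intro g hg x hx
    obtain ⟨h1, h2⟩ := (mX g).1 hg
    exact ⟨fun e => hx.1 ((smul_left_cancel_iff g).1 (e.trans h1.symm)),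
      fun e => hx.2 ((smul_left_cancel_iff g).1 (e.trans h2.symm))⟩
  have inj : ∀ ν ∈ N, ∀ μ ∈ N, ν • c = μ • c → ν = μ := by
    intro ν hν μ hμ e
    have := hs c hc.1 hc.2 (μ⁻¹ * ν) (N.mul_mem (N.inv_mem hμ) hν)
      (by rw [mul_smul, e, inv_smul_smul])
    exact (inv_mul_eq_one.1 this).symm
  have cnj : ∀ ν ∈ N, ν ≠ 1 → ∀ μ ∈ N, μ ≠ 1 →
      ∃ g ∈ St G ({a, b} : Finset Ω), μ = g * ν * g⁻¹ := by
    intro ν hν h1 μ hμ h2
    obtain ⟨g, -, e1, e2, e3, e4⟩ := hy.tr a b c (ν • c) a b c (μ • c) (by simp) (by simp) (by simp)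
      (by simp) (by simp) (by simp) (by simp) (by simp)
      ⟨hab, hc.1.symm, (mv ν (hN hν) c hc).1.symm, hc.2.symm, (mv ν (hN hν) c hc).2.symm,
        fun e => h1 (hs c hc.1 hc.2 ν hν e.symm)⟩
      ⟨hab, hc.1.symm, (mv μ (hN hμ) c hc).1.symm, hc.2.symm, (mv μ (hN hμ) c hc).2.symm,
        fun e => h2 (hs c hc.1 hc.2 μ hμ e.symm)⟩
    have hg := (mX g).2 ⟨e1, e2⟩
    refine ⟨g, hg, inj μ hμ _ (hnm g hg ν hν) ?_⟩
    rw [mul_smul, mul_smul, inv_smul_eq_iff.2 e3.symm, e4]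
  obtain ⟨ν₀, hν₀, e₀⟩ := ht c d hc.1 hc.2 hd.1 hd.2
  have hν₀1 : ν₀ ≠ 1 := fun e => hcd (by rw [← e₀, e, one_smul])
  obtain ⟨p, hp, hpd⟩ := Nat.exists_prime_and_dvd (fun e => hν₀1 (orderOf_eq_one_iff.1 e))
  have : Fact p.Prime := ⟨hp⟩
  have hpN : IsPGroup p N := by
    have ho := orderOf_pow_orderOf_div (orderOf_pos ν₀).ne' hpd
    have h1 : ν₀ ^ (orderOf ν₀ / p) ≠ 1 := fun e => hp.ne_one (by rw [← ho, e, orderOf_one])
    intro μ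
    refine ⟨1, Subtype.ext ?_⟩
    change (μ : G) ^ p ^ 1 = 1
    by_cases h2 : (μ : G) = 1
    · rw [h2, one_pow]
    obtain ⟨g, -, e⟩ := cnj _ (N.pow_mem hν₀ _) h1 μ μ.2 h2
    rw [e, conj_pow, pow_one, orderOf_dvd_iff_pow_eq_one.1 ho.dvd]
    simp
  have ab : ∀ ν ∈ N, ∀ μ ∈ N, Commute ν μ := by
    have : Nontrivial N := ⟨⟨⟨ν₀, hν₀⟩, 1, fun e => hν₀1 (congrArg Subtype.val e)⟩⟩
    obtain ⟨ζ, hζ⟩ := @exists_ne _ hpN.center_nontrivial 1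
    have h1 : ((ζ : N) : G) ≠ 1 := fun e => hζ (Subtype.ext (Subtype.ext e))
    intro ν hν μ hμ
    by_cases h2 : ν = 1
    · rw [h2]; exact Commute.one_left μ
    obtain ⟨g, hg, rfl⟩ := cnj _ (ζ : N).2 h1 ν hν h2
    have h3 : g⁻¹ * μ * g⁻¹⁻¹ * ((ζ : N) : G) = ((ζ : N) : G) * (g⁻¹ * μ * g⁻¹⁻¹) :=
      congrArg Subtype.val
        (Subgroup.mem_center_iff.1 ζ.2 ⟨_, hnm _ (Subgroup.inv_mem _ hg) μ hμ⟩)
    calc g * ((ζ : N) : G) * g⁻¹ * μ = g * (((ζ : N) : G) * (g⁻¹ * μ * g⁻¹⁻¹)) * g⁻¹ := by group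
      _ = μ * (g * ((ζ : N) : G) * g⁻¹) := by rw [← h3]; group
  have cnt : ∀ y : G, (∀ ν ∈ N, y * ν * y⁻¹ ∈ N) → y • c = c → y • d = d →
      p ∣ ((Finset.univ \ ({a, b} : Finset Ω)) ∩ fx Ω y).card := by
    intro y hyN hyc hyd
    have h1 : Nat.card ↥(N ⊓ Subgroup.centralizer ({y} : Set G)) =
        ((Finset.univ \ ({a, b} : Finset Ω)) ∩ fx Ω y).card := by
      rw [← Nat.card_eq_finsetCard]
      refine Nat.card_eq_of_bijective (fun ν => ⟨(ν : G) • c, Finset.mem_inter.2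
        ⟨(mem2 _).2 (mv _ (hN (Subgroup.mem_inf.1 ν.2).1) c hc), smul_mem_fx
          (Subgroup.mem_centralizer_singleton_iff.1 (Subgroup.mem_inf.1 ν.2).2) (mem_fx.2 hyc)⟩⟩)
        ⟨fun ν μ e => Subtype.ext (inj _ (Subgroup.mem_inf.1 ν.2).1 _ (Subgroup.mem_inf.1 μ.2).1
          (congrArg Subtype.val e)), fun x => ?_⟩
      obtain ⟨h2, h3⟩ := Finset.mem_inter.1 x.2
      obtain ⟨ν, hν, e⟩ := ht c x hc.1 hc.2 ((mem2 _).1 h2).1 ((mem2 _).1 h2).2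
      refine ⟨⟨ν, Subgroup.mem_inf.2 ⟨hν, Subgroup.mem_centralizer_singleton_iff.2 ?_⟩⟩,
        Subtype.ext e⟩
      have := inj _ (hyN ν hν) ν hν (by
        rw [mul_smul, mul_smul, inv_smul_eq_iff.2 hyc.symm, e, mem_fx.1 h3])
      exact (mul_inv_eq_iff_eq_mul.1 this).symm
    obtain ⟨k, hk⟩ := (hpN.to_le (inf_le_left :
      N ⊓ Subgroup.centralizer ({y} : Set G) ≤ N)).exists_card_eq
    have h2 : 1 < ((Finset.univ \ ({a, b} : Finset Ω)) ∩ fx Ω y).card :=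
      Finset.one_lt_card.2 ⟨c, Finset.mem_inter.2 ⟨(mem2 c).2 hc, mem_fx.2 hyc⟩, d,
        Finset.mem_inter.2 ⟨(mem2 d).2 hd, mem_fx.2 hyd⟩, hcd⟩
    rw [← h1, hk] at h2 ⊢
    exact dvd_pow_self p (by rintro rfl; simp at h2)
  obtain ⟨z, hz, hz1, hz2⟩ := hy.exists_inv hD.card
  obtain ⟨z₁, h2, ha, hb, h1c, h1d, -, hcard⟩ := hy.exists_z1 hD hz hz1 hz2
  have hi : z₁⁻¹ = z₁ := (eq_inv_of_mul_eq_one_left h2).symm
  have hzX : ∀ g ∈ St G ({a, b} : Finset Ω), z₁ * g * z₁⁻¹ ∈ St G ({a, b} : Finset Ω) := by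
    intro g hg
    obtain ⟨e1, e2⟩ := (mX g).1 hg
    rw [mX, hi]
    simp [mul_smul, ha, hb, e1, e2]
  have hzN : ∀ ν ∈ N, z₁ * ν * z₁⁻¹ ∈ N := by
    have hex : ∃ ν ∈ N, ν ≠ 1 ∧ z₁ * ν * z₁⁻¹ ∈ N := by
      by_contra hne
      push Not at hne
      have hcm : ∀ μ ∈ N, Commute μ (z₁ * ν₀ * z₁⁻¹) := by
        intro μ hμ
        have k1 : μ * (z₁ * ν₀ * z₁⁻¹) * μ⁻¹ * (z₁ * ν₀ * z₁⁻¹)⁻¹ ∈ N := by
          have := N.mul_mem hμ (hnm _ (hzX _ (hN hν₀)) _ (N.inv_mem hμ))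
          convert this using 1
          group
        have k2 : z₁ * (μ * (z₁ * ν₀ * z₁⁻¹) * μ⁻¹ * (z₁ * ν₀ * z₁⁻¹)⁻¹) * z₁⁻¹ ∈ N := by
          have := N.mul_mem (hnm _ (hzX _ (hN hμ)) _ hν₀) (N.inv_mem hν₀)
          convert this using 1
          calc _ = z₁ * μ * z₁ * ν₀ * z₁⁻¹ * μ⁻¹ * z₁ * ν₀⁻¹ * (z₁ * z₁)⁻¹ := by group
            _ = z₁ * μ * z₁⁻¹ * ν₀ * z₁ * μ⁻¹ * z₁⁻¹ * ν₀⁻¹ := by rw [h2, hi]; group
            _ = _ := by group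
        by_contra hcm
        refine hne _ k1 (fun e => hcm ?_) k2
        rw [mul_inv_eq_one, mul_inv_eq_iff_eq_mul] at e
        exact e
      have hX' := hzX _ (hN hν₀)
      obtain ⟨ν, hν, e⟩ := ht c _ hc.1 hc.2 (mv _ hX' c hc).1 (mv _ hX' c hc).2
      have k3 : ν = z₁ * ν₀ * z₁⁻¹ := by
        refine eq_of_smul_eq_smul fun ω : Ω => ?_
        by_cases h3 : ω = a
        · rw [h3, ((mX _).1 (hN hν)).1, ((mX _).1 hX').1]
        by_cases h4 : ω = b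
        · rw [h4, ((mX _).1 (hN hν)).2, ((mX _).1 hX').2]
        obtain ⟨μ, hμ, rfl⟩ := ht c ω hc.1 hc.2 h3 h4
        rw [← mul_smul, (ab ν hν μ hμ).eq, mul_smul, e, ← mul_smul, (hcm μ hμ).eq, mul_smul]
      exact hne ν₀ hν₀ hν₀1 (k3 ▸ hν)
    obtain ⟨ν, hν, h1, h3⟩ := hex
    intro μ hμ
    by_cases h4 : μ = 1
    · rw [h4, mul_one, mul_inv_cancel]
      exact N.one_mem
    obtain ⟨g, hg, rfl⟩ := cnj ν hν h1 μ hμ h4
    have := hnm _ (hzX g hg) _ h3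
    convert this using 1
    group
  have hzab : z ∈ St G ({a, b} : Finset Ω) := St_mono (by intro x; simp; tauto) hz
  have k1 := cnt 1 (by simp) (one_smul _ _) (one_smul _ _)
  have k2 := cnt z (hnm z hzab) (hz c (by simp)) (hz d (by simp))
  have k3 := cnt z₁ hzN h1c h1d
  have e1 : (Finset.univ \ ({a, b} : Finset Ω)) ∩ fx Ω (1 : G) = Finset.univ \ {a, b} :=
    Finset.inter_eq_left.2 fun x _ => mem_fx.2 (one_smul _ _)
  have e2 : ((Finset.univ \ ({a, b} : Finset Ω)) ∩ fx Ω z).card + 2 = (fx Ω z).card := by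
    rw [Finset.inter_comm, ← Finset.inter_sdiff_assoc, Finset.inter_univ,
      ← Finset.card_pair hab, Finset.card_sdiff_add_card_eq_card (mem_St_iff.1 hzab)]
  have e3 : (Finset.univ \ ({a, b} : Finset Ω)) ∩ fx Ω z₁ = fx Ω z₁ := by
    refine Finset.inter_eq_right.2 fun x hx => (mem2 x).2 ⟨?_, ?_⟩
    · rintro rfl
      exact hab ((mem_fx.1 hx).symm.trans ha)
    · rintro rfl
      exact hab (hb.symm.trans (mem_fx.1 hx))
  rw [e1, hc2] at k1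
  rw [e3, hcard, ← e2, Nat.dvd_add_right k2, Nat.prime_dvd_prime_iff_eq hp Nat.prime_two] at k3
  subst k3
  obtain ⟨k, hk⟩ := hn
  omega

end CL.F4
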