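import Cfsg.Agent.PERM.F4.Hy

/-!
S3404, Lemma E.
-/

set_option autoImplicit false

namespace CL.F4

open scoped commutatorElement

namespace LE

variable {G : Type*} [Group G]

theorem cj_zpowers (g c : G) : cj g (Subgroup.zpowers c) = Subgroup.zpowers (g * c * g⁻¹) :=
  MonoidHom.map_zpowers _ _

theorem mem_norm {g c : G} (h : Commute g c) :
    g ∈ Subgroup.normalizer (Subgroup.zpowers c : Set G) :=
  cj_eq_iff.1 (by rw [cj_zpowers, h.eq, mul_inv_cancel_right])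

theorem comm_mem {a b c : G} (ha : a ∈ Subgroup.normalizer (Subgroup.zpowers c : Set G))
    (hb : b ∈ Subgroup.normalizer (Subgroup.zpowers c : Set G)) :
    a * b * a⁻¹ * b⁻¹ ∈ Subgroup.centralizer ({c} : Set G) := by
  obtain ⟨i, hi⟩ :=
    (Subgroup.mem_normalizer_iff.1 (Subgroup.inv_mem _ ha) c).1 (Subgroup.mem_zpowers c)
  obtain ⟨j, hj⟩ :=
    (Subgroup.mem_normalizer_iff.1 (Subgroup.inv_mem _ hb) c).1 (Subgroup.mem_zpowers c)
  simp only at hi hj
  have h1 : a⁻¹ * (b⁻¹ * c * b⁻¹⁻¹) * a⁻¹⁻¹ = b⁻¹ * (a⁻¹ * c * a⁻¹⁻¹) * b⁻¹⁻¹ := by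
    rw [← hi, ← hj, ← conj_zpow, ← conj_zpow, ← hi, ← hj, ← zpow_mul, ← zpow_mul, mul_comm]
  rw [Subgroup.mem_centralizer_singleton_iff]
  calc a * b * a⁻¹ * b⁻¹ * c = a * b * (a⁻¹ * (b⁻¹ * c * b⁻¹⁻¹) * a⁻¹⁻¹) * a⁻¹ * b⁻¹ := by group
    _ = c * (a * b * a⁻¹ * b⁻¹) := by rw [h1]; group

theorem alt_le {α : Type*} [Fintype α] [DecidableEq α] :
    alternatingGroup α ≤ ⁅(⊤ : Subgroup (Equiv.Perm α)), ⊤⁆ := by
  rw [← Equiv.Perm.closure_three_cycles_eq_alternating, Subgroup.closure_le]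
  intro σ hσ
  have h3 : σ ^ 3 = 1 := by
    rw [← Equiv.Perm.IsThreeCycle.orderOf hσ, pow_orderOf_eq_one]
  obtain ⟨τ, hτ⟩ := isConj_iff.1
    (Equiv.Perm.isConj_iff_cycleType_eq.2 (Equiv.Perm.cycleType_inv σ).symm)
  have : σ = ⁅τ, σ⁆ := by
    rw [commutatorElement_def, hτ, ← mul_inv_rev, eq_inv_iff_mul_eq_one, ← h3, pow_three]
  rw [this]
  exact Subgroup.commutator_mem_commutator (Subgroup.mem_top _) (Subgroup.mem_top _)

end LE

variable {G Ω : Type*} [Group G] [Finite G] [MulAction G Ω] [Fintype Ω] [DecidableEq Ω]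

/-- `c` of prime order `p` fixing `Q`, outside the kernel `K`; `F = fx c`, `N = N(⟨c⟩)`, `C = C(c)`.
`p` is odd (`mem_Kn`) and prime to `|K|` (`Frob.mem_of_dvd`).  `witt` with `Frob.conj_zpowers`: `N` is
4-transitive on `F` (`Fx_zpowers`).  A 2-element `t ∈ N ⊓ St Q` lies in `K`, so
`[t, c] ∈ K ⊓ ⟨c⟩ = 1` and `t = 1` (`fpf`): `T4` applies, and `Y = N ⊓ St F` has odd order.
`N / C` is abelian (conjugation is a hom of `N` to `Aut ⟨c⟩`, commutative): `C` contains all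
commutators of `N`, so the image of `C` contains the commutator subgroup of the image of `N`, which
is `≥ A_e` for `e ≤ 7` (`commutator (Perm) = alternatingGroup`; `A_6`, `A_7` perfect) and all of it
for `e = 11` (simple, non-abelian as 4-transitive).  If `e ≥ 6` the images of `C` and `N` agree, so
`t` inverting `c` is `t = k y` with `k ∈ C`, `y ∈ Y` of odd order inverting `c`; `y²` centralises `c`,
so `y` does, `c = c⁻¹`, contradiction. -/
theorem lemE (hy : Hyp2 G Ω) {c : G} {p : ℕ} (hp : p.Prime) (hc : orderOf c = p) {Q : Finset Ω}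
    (hQ : Q.card = 4) (hcQ : c ∈ St G Q) (hcK : c ∉ Kn G Q) :
    ((fx Ω c).card = 4 ∨ (fx Ω c).card = 5 ∨ (fx Ω c).card = 6 ∨ (fx Ω c).card = 7 ∨
        (fx Ω c).card = 11) ∧
      ((∃ t : G, t * c * t⁻¹ = c⁻¹) → (fx Ω c).card ≤ 5) ∧
      ((fx Ω c).card ≤ 7 → alternatingGroup (fx Ω c) ≤ (act (inv_fx (Ω := Ω) c)).range) ∧
      ((fx Ω c).card = 11 → Tr4 (Subgroup.centralizer ({c} : Set G)) (fx Ω c) ∧
        ∀ g : G, Commute g c → 4 ≤ (fx Ω c ∩ fx Ω g).card → g ∈ St G (fx Ω c)) := by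
  have hF := hy.frob Q hQ
  have hcp : c ^ p = 1 := hc ▸ pow_orderOf_eq_one c
  have hd : ¬ p ∣ Nat.card (Kn G Q) := fun h =>
    hcK (hF.mem_of_dvd (k := 1) hp h hcQ (by rwa [pow_one]))
  have h2 : p ≠ 2 := fun e => hd (e ▸ even_iff_two_dvd.1 (hy.ev Q hQ))
  have hN : Inv (Subgroup.normalizer (Subgroup.zpowers c : Set G)) (fx Ω c) :=
    Fx_zpowers (Ω := Ω) c ▸ inv_Fx (Ω := Ω) (Subgroup.zpowers c)
  have tr : Tr4 (Subgroup.normalizer (Subgroup.zpowers c : Set G)) (fx Ω c) := by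
    rw [← Fx_zpowers]
    refine witt hy.tr hQ (by rwa [Subgroup.zpowers_le]) fun g hg => ?_
    rw [LE.cj_zpowers] at hg ⊢
    refine hF.conj_zpowers hp h2 hd hcQ (hg (Subgroup.mem_zpowers _)) hc ?_
    rw [← hc]
    exact (SemiconjBy.orderOf_eq g (by simp [SemiconjBy])).symm
  have hone : ∀ g ∈ Subgroup.normalizer (Subgroup.zpowers c : Set G), g ∈ St G Q → Two g →
      g = 1 := by
    intro g hg hgQ hg2
    have hgK := hy.mem_Kn hQ hgQ hg2
    have h3 : g * c * g⁻¹ * c⁻¹ ∈ Subgroup.zpowers c :=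
      Subgroup.mul_mem _ ((Subgroup.mem_normalizer_iff.1 hg c).1 (Subgroup.mem_zpowers c))
        (Subgroup.inv_mem _ (Subgroup.mem_zpowers c))
    have h4 : g * c * g⁻¹ * c⁻¹ ∈ Kn G Q := by
      have := Subgroup.mul_mem _ hgK (hF.norm c hcQ _ (Subgroup.inv_mem _ hgK))
      simpa [mul_assoc] using this
    obtain ⟨j, hj⟩ := mem_powers_iff_mem_zpowers.2 h3
    have h5 : g * c * g⁻¹ * c⁻¹ = 1 := by
      by_contra hn
      rw [← hj] at hn h4
      exact hF.pow_notMem hcQ hcK hn h4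
    refine hF.fpf c hcQ hcK g hgK ?_
    rw [mul_inv_eq_one, mul_inv_eq_iff_eq_mul] at h5
    exact h5.symm
  have hQF : Q ⊆ fx Ω c := mem_St_iff.1 hcQ
  have hT := T4 hN tr hQF hQ fun g hg hgQ hg2 => by
    rw [hone g hg hgQ hg2]
    exact Subgroup.one_mem _
  have hcomm : ⁅(act hN).range, (act hN).range⁆ ≤ (act (inv_fx (Ω := Ω) c)).range := by
    rw [Subgroup.commutator_le]
    rintro _ ⟨a, rfl⟩ _ ⟨b, rfl⟩
    refine ⟨⟨(⁅a, b⁆ : Subgroup.normalizer (Subgroup.zpowers c : Set G)), LE.comm_mem a.2 b.2⟩, ?_⟩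
    rw [← map_commutatorElement]
    ext x
    rfl
  have hle : 6 ≤ (fx Ω c).card → (act hN).range ≤ (act (inv_fx (Ω := Ω) c)).range := by
    intro h6
    refine le_trans (le_of_eq ?_) hcomm
    rcases hT with ⟨h, -⟩ | ⟨-, h⟩ | ⟨-, h, hs, -⟩
    · omega
    · rw [h, commutator_alternatingGroup_eq_self (by rw [Nat.card_eq_fintype_card, Fintype.card_coe]; omega)]
    · rw [← Subgroup.map_subtype_commutator]
      rcases hs.eq_bot_or_eq_top_of_normal (commutator (act hN).range) inferInstance with e | e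
      · have : IsMulCommutative (act hN).range := by
          rw [commutator_def] at e
          exact ⟨⟨fun x y => commutatorElement_eq_one_iff_mul_comm.1 (Subgroup.mem_bot.1 (e ▸
            Subgroup.commutator_mem_commutator (Subgroup.mem_top x) (Subgroup.mem_top y)))⟩⟩
        let _ : CommGroup (act hN).range := { mul_comm := this.is_comm.comm }
        have := IsSimpleGroup.prime_card (α := (act hN).range)
        rw [h] at this
        exact absurd this (by norm_num)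
      · rw [e, ← MonoidHom.range_eq_map, Subgroup.range_subtype]
  have hsame : 6 ≤ (fx Ω c).card → ∀ g ∈ Subgroup.normalizer (Subgroup.zpowers c : Set G),
      ∃ k ∈ Subgroup.centralizer ({c} : Set G), ∀ ω ∈ fx Ω c, k • ω = g • ω := by
    intro h6 g hg
    obtain ⟨k, hk⟩ := hle h6 ⟨⟨g, hg⟩, rfl⟩
    exact ⟨k, k.2, fun ω hω =>
      congrArg (fun σ : Equiv.Perm (fx Ω c) => ((σ ⟨ω, hω⟩ : fx Ω c) : Ω)) hk⟩
  refine ⟨by omega, ?_, fun h7 => ?_, fun h11 => ⟨?_, fun g hg h4 => ?_⟩⟩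
  · rintro ⟨t, ht⟩
    by_contra hn
    have htN : t ∈ Subgroup.normalizer (Subgroup.zpowers c : Set G) :=
      cj_eq_iff.1 (by rw [LE.cj_zpowers, ht, Subgroup.zpowers_inv])
    obtain ⟨k, hk, hkt⟩ := hsame (by omega) t htN
    have hkc : Commute k c := Subgroup.mem_centralizer_singleton_iff.1 hk
    have hyN : k⁻¹ * t ∈ Subgroup.normalizer (Subgroup.zpowers c : Set G) :=
      Subgroup.mul_mem _ (Subgroup.inv_mem _ (LE.mem_norm hkc)) htN
    have hyQ : k⁻¹ * t ∈ St G Q := by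
      intro ω hω
      rw [mul_smul, ← hkt ω (hQF hω), inv_smul_smul]
    have hyc : (k⁻¹ * t) * c * (k⁻¹ * t)⁻¹ = c⁻¹ := by
      calc (k⁻¹ * t) * c * (k⁻¹ * t)⁻¹ = k⁻¹ * (t * c * t⁻¹) * k := by group
        _ = c⁻¹ := by rw [ht, hkc.inv_inv.eq, inv_mul_cancel_right]
    generalize k⁻¹ * t = y at hyN hyQ hyc
    have hodd : Odd (orderOf y) := by
      by_contra he
      have ho := orderOf_pow_orderOf_div (orderOf_pos y).ne'
        (even_iff_two_dvd.1 (Nat.not_odd_iff_even.1 he))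
      have := hone _ (Subgroup.pow_mem _ hyN (orderOf y / 2)) (Subgroup.pow_mem _ hyQ _)
        ⟨1, by rw [pow_one, ← orderOf_dvd_iff_pow_eq_one, ho]⟩
      rw [this, orderOf_one] at ho
      exact absurd ho (by norm_num)
    have h3 : Commute (y ^ 2) c := by
      have : y ^ 2 * c * (y ^ 2)⁻¹ = c := by
        calc y ^ 2 * c * (y ^ 2)⁻¹ = y * (y * c * y⁻¹) * y⁻¹ := by rw [pow_two]; group
          _ = (y * c * y⁻¹)⁻¹ := by rw [hyc]; nth_rewrite 2 [← hyc]; group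
          _ = c := by rw [hyc, inv_inv]
      exact mul_inv_eq_iff_eq_mul.1 this
    obtain ⟨m, hm⟩ := hodd
    have h4 : Commute y c := by
      have := h3.pow_left (m + 1)
      rwa [← pow_mul, show 2 * (m + 1) = orderOf y + 1 by omega, pow_succ, pow_orderOf_eq_one,
        one_mul] at this
    rw [h4.eq, mul_inv_cancel_right, eq_inv_iff_mul_eq_one, ← pow_two,
      ← orderOf_dvd_iff_pow_eq_one, hc] at hyc
    exact h2 ((Nat.prime_dvd_prime_iff_eq hp Nat.prime_two).1 hyc)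
  · rcases hT with ⟨-, h⟩ | ⟨h, h'⟩ | ⟨h, -⟩
    · refine le_trans ?_ hcomm
      rw [h]
      exact LE.alt_le
    · exact h' ▸ hle (by omega)
    · omega
  · intro a b d e a' b' d' e' ha hb hd he ha' hb' hd' he' hD hD'
    obtain ⟨g, hg, e1, e2, e3, e4⟩ := tr a b d e a' b' d' e' ha hb hd he ha' hb' hd' he' hD hD'
    obtain ⟨k, hk, hkg⟩ := hsame (by omega) g hg
    exact ⟨k, hk, (hkg a ha).trans e1, (hkg b hb).trans e2, (hkg d hd).trans e3,
      (hkg e he).trans e4⟩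
  · rcases hT with ⟨h, -⟩ | ⟨h, -⟩ | ⟨-, -, -, h⟩
    · omega
    · omega
    · exact h g (LE.mem_norm hg) h4

end CL.F4
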