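import Cfsg.Agent.PERM.F4.Perm
import Cfsg.Agent.S4221
import Cfsg.Agent.S0418

/-!
S3404: lifting elements from `act`, the wrapper `T4` of S4221, and small group lemmas.
-/

set_option autoImplicit false

namespace CL.F4

open scoped Pointwise

section grp

variable {G : Type*} [Group G] [Finite G]

theorem pow_prime_aux {p k : ℕ} (hp : p.Prime) {g : G} (hg : g ^ p ^ k = 1) (h1 : g ≠ 1) :
    ∃ j : ℕ, orderOf (g ^ j) = p := by
  obtain ⟨m, -, hm⟩ := (Nat.dvd_prime_pow hp).1 (orderOf_dvd_of_pow_eq_one hg)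
  have hd : p ∣ orderOf g := by
    rw [hm]
    refine dvd_pow_self p fun e => h1 ?_
    rw [e, pow_zero] at hm
    exact orderOf_eq_one_iff.1 hm
  exact ⟨_, orderOf_pow_orderOf_div (orderOf_pos g).ne' hd⟩

/-- a 2-element normalising a nontrivial 2-group centralises a central involution of it
(`⟨x⟩` acts on the involutions of the centre, or: centre of the 2-group `T ⊔ zpowers x` meets the
normal subgroup `T`) -/
theorem exists_cent_inv {T : Subgroup G} (hT : IsPGroup 2 T) (h1 : T ≠ ⊥) {x : G} (hx : Two x)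
    (hn : x ∈ Subgroup.normalizer (T : Set G)) :
    ∃ y ∈ T, y ≠ 1 ∧ y * y = 1 ∧ Commute x y ∧ ∀ t ∈ T, Commute t y := by
  have : Fact (Nat.Prime 2) := ⟨Nat.prime_two⟩
  obtain ⟨k, hk⟩ := hx
  have hz : IsPGroup 2 (Subgroup.zpowers x) := by
    rintro ⟨_, i, rfl⟩
    refine ⟨k, Subtype.ext ?_⟩
    change (x ^ i) ^ 2 ^ k = 1
    rw [← zpow_natCast, ← zpow_mul, mul_comm, zpow_mul, zpow_natCast, hk, one_zpow]
  have hle : Subgroup.zpowers x ≤ Subgroup.normalizer (T : Set G) := by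
    rw [Subgroup.zpowers_le]; exact hn
  have hS : IsPGroup 2 ↥(T ⊔ Subgroup.zpowers x) := hT.to_sup_of_normal_left' hz hle
  have hSn : T ⊔ Subgroup.zpowers x ≤ Subgroup.normalizer (T : Set G) :=
    sup_le Subgroup.le_normalizer hle
  let : MulAction ↥(T ⊔ Subgroup.zpowers x) T :=
    { smul := fun s t => ⟨(s : G) * t * (s : G)⁻¹,
        (Subgroup.mem_normalizer_iff.1 (hSn s.2) _).1 t.2⟩
      one_smul := fun t => Subtype.ext (by
        change ((1 : ↥(T ⊔ Subgroup.zpowers x)) : G) * t *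
          ((1 : ↥(T ⊔ Subgroup.zpowers x)) : G)⁻¹ = t
        simp)
      mul_smul := fun a b t => Subtype.ext (by
        change ((a * b : ↥(T ⊔ Subgroup.zpowers x)) : G) * t *
          ((a * b : ↥(T ⊔ Subgroup.zpowers x)) : G)⁻¹ =
            (a : G) * ((b : G) * t * (b : G)⁻¹) * (a : G)⁻¹
        simp [mul_assoc]) }
  have hsm : ∀ (s : ↥(T ⊔ Subgroup.zpowers x)) (t : T),
      ((s • t : T) : G) = (s : G) * t * (s : G)⁻¹ := fun _ _ => rfl
  have hd : 2 ∣ Nat.card T := by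
    obtain ⟨n, hn'⟩ := hT.exists_card_eq
    rw [hn']
    rcases n with _ | n
    · exact absurd (Subgroup.card_eq_one.1 (by simpa using hn')) h1
    · exact dvd_pow_self 2 (Nat.succ_ne_zero n)
  have h0 : (1 : T) ∈ MulAction.fixedPoints ↥(T ⊔ Subgroup.zpowers x) T := by
    intro s
    apply Subtype.ext
    rw [hsm]
    simp
  obtain ⟨b, hb, hb1⟩ := hS.exists_fixed_point_of_prime_dvd_card_of_fixed_point T hd h0
  have hc : ∀ s ∈ T ⊔ Subgroup.zpowers x, Commute s (b : G) := by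
    intro s hs
    have := congrArg Subtype.val (hb ⟨s, hs⟩)
    rw [hsm] at this
    exact mul_inv_eq_iff_eq_mul.1 this
  obtain ⟨m, hm⟩ := hT b
  have hm' : (b : G) ^ 2 ^ m = 1 := by exact_mod_cast congrArg Subtype.val hm
  have hb2 : (b : G) ≠ 1 := fun e => hb1 (Subtype.ext e.symm)
  obtain ⟨j, hj⟩ := pow_prime_aux Nat.prime_two hm' hb2
  refine ⟨(b : G) ^ j, T.pow_mem b.2 j, fun e => ?_, ?_, ?_, fun t ht => ?_⟩
  · rw [e, orderOf_one] at hj
    exact absurd hj (by norm_num)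
  · rw [← pow_two, ← hj, pow_orderOf_eq_one]
  · exact (hc x (Subgroup.mem_sup_right (Subgroup.mem_zpowers x))).pow_right j
  · exact (hc t (Subgroup.mem_sup_left ht)).pow_right j

/-- normalisers grow in 2-groups -/
theorem exists_norm_two {S P : Subgroup G} (hS : IsPGroup 2 S) (hP : P ≤ S) (hne : P ≠ S) :
    ∃ x ∈ S, x ∉ P ∧ x ∈ Subgroup.normalizer (P : Set G) ∧ x * x ∈ P := by
  classical
  have : Fact (Nat.Prime 2) := ⟨Nat.prime_two⟩
  have := hS.isNilpotent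
  have hlt : P.subgroupOf S < ⊤ := by
    rw [lt_top_iff_ne_top, Ne, Subgroup.subgroupOf_eq_top]
    exact fun h => hne (le_antisymm hP h)
  obtain ⟨y, hy, hyP⟩ := SetLike.exists_of_lt (Group.normalizerCondition_of_isNilpotent _ hlt)
  have hyn : (y : G) ∈ Subgroup.normalizer (P : Set G) := by
    rw [Subgroup.mem_normalizer_iff] at hy ⊢
    intro a
    constructor
    · intro ha
      exact (hy ⟨a, hP ha⟩).1 ha
    · intro ha
      have haS : a ∈ S := by
        have := S.mul_mem (S.mul_mem (S.inv_mem y.2) (hP ha)) y.2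
        simpa [mul_assoc] using this
      exact (hy ⟨a, haS⟩).2 ha
  have hex : ∃ k : ℕ, (y : G) ^ 2 ^ k ∈ P := by
    obtain ⟨k, hk⟩ := hS y
    refine ⟨k, ?_⟩
    have : (y : G) ^ 2 ^ k = 1 := by exact_mod_cast congrArg Subtype.val hk
    rw [this]
    exact P.one_mem
  have h0 : Nat.find hex ≠ 0 := by
    intro e
    have := Nat.find_spec hex
    rw [e] at this
    exact hyP (by simpa [Subgroup.mem_subgroupOf] using this)
  obtain ⟨k, hk⟩ := Nat.exists_eq_succ_of_ne_zero h0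
  refine ⟨(y : G) ^ 2 ^ k, S.pow_mem y.2 _, Nat.find_min hex (by omega),
    Subgroup.pow_mem _ hyn _, ?_⟩
  have := Nat.find_spec hex
  rwa [hk, pow_succ, pow_mul, pow_two] at this

/-- every `p`-subgroup `R` of `X` is conjugate in `X` into a maximal `p`-subgroup `A` of `X` -/
theorem conj_into_max {p : ℕ} (hp : p.Prime) {X A R : Subgroup G} (hAX : A ≤ X)
    (hA : IsPGroup p A) (hmax : ∀ B : Subgroup G, B ≤ X → IsPGroup p B → A ≤ B → B ≤ A)
    (hRX : R ≤ X) (hR : IsPGroup p R) : ∃ g ∈ X, cj g R ≤ A := by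
  have : Fact p.Prime := ⟨hp⟩
  obtain ⟨Q, hQ⟩ := (hR.comap_subtype (K := X)).exists_le_sylow
  obtain ⟨Q', hQ'⟩ := (hA.comap_subtype (K := X)).exists_le_sylow
  have hQA : (Q' : Subgroup X).map X.subtype ≤ A := by
    refine hmax _ (Subgroup.map_subtype_le _) (Q'.isPGroup'.map _) fun a ha => ?_
    exact ⟨⟨a, hAX ha⟩, hQ' ha, rfl⟩
  obtain ⟨g, hg⟩ := MulAction.exists_smul_eq X Q Q'
  refine ⟨g, g.2, ?_⟩
  rintro _ ⟨r, hr, rfl⟩
  apply hQA
  refine ⟨g * ⟨r, hRX hr⟩ * g⁻¹, ?_, rfl⟩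
  rw [← hg]
  exact Subgroup.smul_mem_pointwise_smul (⟨r, hRX hr⟩ : X) (MulAut.conj g) _ (hQ hr)

/-- every `p`-subgroup of `X` lies in a maximal one, whose index in `X` is prime to `p` -/
theorem exists_max_pgroup {p : ℕ} (hp : p.Prime) {X R : Subgroup G} (hRX : R ≤ X)
    (hR : IsPGroup p R) : ∃ A : Subgroup G, R ≤ A ∧ A ≤ X ∧ IsPGroup p A ∧
      (∀ B : Subgroup G, B ≤ X → IsPGroup p B → A ≤ B → B ≤ A) ∧ ¬ p ∣ A.relIndex X := by
  have : Fact p.Prime := ⟨hp⟩
  obtain ⟨Q, hQ⟩ := (hR.comap_subtype (K := X)).exists_le_sylow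
  refine ⟨(Q : Subgroup X).map X.subtype, fun r hr => ⟨⟨r, hRX hr⟩, hQ hr, rfl⟩,
    Subgroup.map_subtype_le _, Q.isPGroup'.map _, fun B hBX hB hle => ?_, ?_⟩
  · have h1 : (Q : Subgroup X) ≤ B.comap X.subtype := Subgroup.map_le_iff_le_comap.1 hle
    have h2 := Q.is_maximal' (hB.comap_subtype (K := X)) h1
    intro b hb
    refine ⟨⟨b, hBX hb⟩, ?_, rfl⟩
    change (⟨b, hBX hb⟩ : X) ∈ Q.toSubgroup
    rw [← h2]
    exact hb
  · have : ((Q : Subgroup X).map X.subtype).subgroupOf X = Q :=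
      Subgroup.comap_map_eq_self_of_injective X.subtype_injective _
    rw [Subgroup.relIndex, this]
    exact Q.not_dvd_index

/-- a nontrivial `p`-element has a power of order `p` -/
theorem exists_pow_prime {p k : ℕ} (hp : p.Prime) {g : G} (hg : g ^ p ^ k = 1) (h1 : g ≠ 1) :
    ∃ j : ℕ, orderOf (g ^ j) = p :=
  pow_prime_aux hp hg h1

/-- reality lifts through a normal `p'`-subgroup `Y`.  In `M = zpowers c ⊔ Y` (order `p |Y|`) the
element `c' = g c g⁻¹ ∈ c⁻¹ Y` of order `p` is conjugate into `zpowers c` (`conj_into_max`), by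
`m ∈ M`; `m c' m⁻¹ ≡ c' ≡ c⁻¹` modulo `Y` (`M / Y` is cyclic) and `zpowers c ⊓ Y = ⊥`. -/
theorem real_lift {N Y : Subgroup G} (hY : Y ≤ N) (hn : ∀ g ∈ N, ∀ y ∈ Y, g * y * g⁻¹ ∈ Y)
    {p : ℕ} (hp : p.Prime) (hpY : ¬ p ∣ Nat.card Y) {c g : G} (hc : c ∈ N) (ho : orderOf c = p)
    (hg : g ∈ N) (h : g * c * g⁻¹ * c ∈ Y) : ∃ t ∈ N, t * c * t⁻¹ = c⁻¹ := by
  have hYp : ∀ y ∈ Y, ∀ k : ℕ, y ^ p ^ k = 1 → y = 1 := by
    intro y hy k hk
    have h1 : orderOf y ∣ p ^ k := orderOf_dvd_of_pow_eq_one hk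
    have h2 : orderOf y ∣ Nat.card Y := Y.orderOf_dvd_natCard hy
    have h3 : (p ^ k).Coprime (Nat.card Y) := ((Nat.Prime.coprime_iff_not_dvd hp).2 hpY).pow_left k
    exact orderOf_eq_one_iff.1 (Nat.eq_one_of_dvd_coprimes h3 h1 h2)
  have hcp : ∀ a ∈ Subgroup.zpowers c, a ^ p ^ 1 = 1 := by
    rintro _ ⟨i, rfl⟩
    change (c ^ i) ^ p ^ 1 = 1
    rw [pow_one, ← zpow_natCast, ← zpow_mul, mul_comm, zpow_mul, zpow_natCast, ← ho,
      pow_orderOf_eq_one, one_zpow]
  let M : Subgroup G :=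
    { carrier := {m | ∃ i : ℤ, (c ^ i)⁻¹ * m ∈ Y}
      one_mem' := ⟨0, by simp⟩
      mul_mem' := by
        rintro a b ⟨i, hi⟩ ⟨j, hj⟩
        refine ⟨i + j, ?_⟩
        have := Y.mul_mem (hn _ (N.inv_mem (N.zpow_mem hc j)) _ hi) hj
        convert this using 1
        rw [zpow_add]
        group
      inv_mem' := by
        rintro a ⟨i, hi⟩
        refine ⟨-i, ?_⟩
        have := hn _ (N.zpow_mem hc i) _ (Y.inv_mem hi)
        convert this using 1
        group }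
  have hMN : M ≤ N := by
    rintro m ⟨i, hi⟩
    have := N.mul_mem (N.zpow_mem hc i) (hY hi)
    simpa using this
  have hcM : Subgroup.zpowers c ≤ M := by
    rintro _ ⟨i, rfl⟩
    exact ⟨i, by simp⟩
  have hpc : IsPGroup p (Subgroup.zpowers c) := fun a => ⟨1, Subtype.ext (hcp a a.2)⟩
  have hmax : ∀ B : Subgroup G, B ≤ M → IsPGroup p B → Subgroup.zpowers c ≤ B →
      B ≤ Subgroup.zpowers c := by
    intro B hB hpB hle b hb
    obtain ⟨i, hi⟩ := hB hb
    have hm : (c ^ i)⁻¹ * b ∈ B := B.mul_mem (B.inv_mem (hle ⟨i, rfl⟩)) hb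
    obtain ⟨k, hk⟩ := hpB ⟨_, hm⟩
    have := hYp _ hi k (congrArg Subtype.val hk)
    exact ⟨i, inv_mul_eq_one.1 this⟩
  have hc'M : Subgroup.zpowers (g * c * g⁻¹) ≤ M := by
    rw [Subgroup.zpowers_le]
    refine ⟨-1, ?_⟩
    have := hn _ hc _ h
    convert this using 1
    group
  have hpc' : IsPGroup p (Subgroup.zpowers (g * c * g⁻¹)) := by
    rintro ⟨_, i, rfl⟩
    refine ⟨1, Subtype.ext ?_⟩
    change ((g * c * g⁻¹) ^ i) ^ p ^ 1 = 1
    rw [conj_zpow, conj_pow, hcp _ ⟨i, rfl⟩]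
    simp
  obtain ⟨m, hm, hle⟩ := conj_into_max hp hcM hpc hmax hc'M hpc'
  have h1 : m * (g * c * g⁻¹) * m⁻¹ ∈ Subgroup.zpowers c :=
    hle (conj_mem_cj.2 (Subgroup.mem_zpowers _))
  obtain ⟨i, hi⟩ := hm
  have h2 : m * (g * c * g⁻¹) * m⁻¹ * c ∈ Y := by
    have := hn _ (N.zpow_mem hc i) _ (Y.mul_mem (Y.mul_mem hi h)
      (hn _ (N.inv_mem hc) _ (Y.inv_mem hi)))
    convert this using 1
    group
  have h3 := hYp _ h2 1 (hcp _ (Subgroup.mul_mem _ h1 (Subgroup.mem_zpowers c)))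
  refine ⟨m * g, N.mul_mem (hMN ⟨i, hi⟩) hg, ?_⟩
  rw [← mul_eq_one_iff_eq_inv, ← h3]
  group

end grp

variable {G Ω : Type*} [Group G] [Finite G] [MulAction G Ω] [DecidableEq Ω]

/-- a `p`-element of the image lifts to a `p`-element (take a power prime to `p` of any lift) -/
theorem lift_p {p k : ℕ} (hp : p.Prime) {N : Subgroup G} {F : Finset Ω} (h : Inv N F)
    {σ : Equiv.Perm F} (hσ : σ ∈ (act h).range) (hk : σ ^ p ^ k = 1) :
    ∃ g : N, act h g = σ ∧ ∃ j : ℕ, (g : G) ^ p ^ j = 1 := by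
  obtain ⟨g, rfl⟩ := hσ
  obtain ⟨a, m, hm, e⟩ := Nat.exists_eq_pow_mul_and_not_dvd (orderOf_pos g).ne' p hp.ne_one
  have hco : (p ^ k).Coprime m := ((Nat.Prime.coprime_iff_not_dvd hp).2 hm).pow_left k
  obtain ⟨n, hn1, hn2⟩ := Nat.chineseRemainder hco 1 0
  refine ⟨g ^ n, ?_, a, ?_⟩
  · rw [map_pow]
    have : n ≡ 1 [MOD orderOf (act h g)] := hn1.of_dvd (orderOf_dvd_of_pow_eq_one hk)
    rw [pow_eq_pow_iff_modEq.2 this, pow_one]
  · have : (g ^ n) ^ p ^ a = 1 := by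
      rw [← pow_mul, ← orderOf_dvd_iff_pow_eq_one, e, mul_comm]
      exact Nat.mul_dvd_mul_right (Nat.modEq_zero_iff_dvd.1 hn2) _
    exact_mod_cast congrArg Subtype.val this

/-- a 3-element acting as a given 3-cycle -/
theorem lift3 {N : Subgroup G} {F : Finset Ω} (h : Inv N F)
    (hA : alternatingGroup F ≤ (act h).range) {a b c : Ω} (ha : a ∈ F) (hb : b ∈ F) (hc : c ∈ F)
    (hab : a ≠ b) (hac : a ≠ c) (hbc : b ≠ c) :
    ∃ g ∈ N, (∃ j : ℕ, g ^ 3 ^ j = 1) ∧ g • a = b ∧ g • b = c ∧ g • c = a ∧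
      ∀ ω ∈ F, ω ≠ a → ω ≠ b → ω ≠ c → g • ω = ω := by
  set a' : F := ⟨a, ha⟩
  set b' : F := ⟨b, hb⟩
  set c' : F := ⟨c, hc⟩
  have hab' : a' ≠ b' := fun e => hab (congrArg Subtype.val e)
  have hac' : a' ≠ c' := fun e => hac (congrArg Subtype.val e)
  have hbc' : b' ≠ c' := fun e => hbc (congrArg Subtype.val e)
  set σ : Equiv.Perm F := Equiv.swap a' b' * Equiv.swap b' c' with hσ
  have e1 : σ a' = b' := by simp [hσ, Equiv.swap_apply_def, hab', hac']
  have e2 : σ b' = c' := by simp [hσ, Equiv.swap_apply_def, hac'.symm, hbc'.symm]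
  have e3 : σ c' = a' := by simp [hσ]
  have e4 : ∀ x, x ≠ a' → x ≠ b' → x ≠ c' → σ x = x := by
    intro x h1 h2 h3
    simp [hσ, Equiv.swap_apply_def, h1, h2, h3]
  have hs : σ ∈ alternatingGroup F := by
    simp [hσ, Equiv.Perm.mem_alternatingGroup, hab', hbc']
  have h3 : σ ^ 3 ^ 1 = 1 := by
    ext x
    by_cases h1 : x = a'
    · simp [pow_succ, h1, e1, e2, e3]
    by_cases h2 : x = b'
    · simp [pow_succ, h2, e1, e2, e3]
    by_cases h3 : x = c'
    · simp [pow_succ, h3, e1, e2, e3]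
    simp [pow_succ, e4 x h1 h2 h3]
  obtain ⟨g, hg, hj⟩ := lift_p Nat.prime_three h (hA hs) h3
  have key : ∀ x : F, (g : G) • (x : Ω) = (σ x : Ω) := fun x => by rw [← hg, act_apply]
  refine ⟨g, g.2, hj, (key a').trans (by rw [e1]), (key b').trans (by rw [e2]),
    (key c').trans (by rw [e3]), fun ω hω h1 h2 h3 => (key ⟨ω, hω⟩).trans ?_⟩
  rw [e4 _ (fun e => h1 (congrArg Subtype.val e)) (fun e => h2 (congrArg Subtype.val e))
    (fun e => h3 (congrArg Subtype.val e))]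

/-- a 2-element acting as a given double transposition -/
theorem liftV {N : Subgroup G} {F : Finset Ω} (h : Inv N F)
    (hA : alternatingGroup F ≤ (act h).range) {a b c d : Ω} (ha : a ∈ F) (hb : b ∈ F) (hc : c ∈ F)
    (hd : d ∈ F) (hD : D4 a b c d) :
    ∃ g ∈ N, Two g ∧ g • a = b ∧ g • b = a ∧ g • c = d ∧ g • d = c ∧
      ∀ ω ∈ F, ω ≠ a → ω ≠ b → ω ≠ c → ω ≠ d → g • ω = ω := by
  obtain ⟨hab, hac, had, hbc, hbd, hcd⟩ := hD
  set a' : F := ⟨a, ha⟩
  set b' : F := ⟨b, hb⟩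
  set c' : F := ⟨c, hc⟩
  set d' : F := ⟨d, hd⟩
  have hab' : a' ≠ b' := fun e => hab (congrArg Subtype.val e)
  have hac' : a' ≠ c' := fun e => hac (congrArg Subtype.val e)
  have had' : a' ≠ d' := fun e => had (congrArg Subtype.val e)
  have hbc' : b' ≠ c' := fun e => hbc (congrArg Subtype.val e)
  have hbd' : b' ≠ d' := fun e => hbd (congrArg Subtype.val e)
  have hcd' : c' ≠ d' := fun e => hcd (congrArg Subtype.val e)
  set σ : Equiv.Perm F := Equiv.swap a' b' * Equiv.swap c' d' with hσ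
  have e1 : σ a' = b' := by simp [hσ, Equiv.swap_apply_def, hac', had']
  have e2 : σ b' = a' := by simp [hσ, Equiv.swap_apply_def, hbc', hbd']
  have e3 : σ c' = d' := by simp [hσ, Equiv.swap_apply_def, had'.symm, hbd'.symm]
  have e4 : σ d' = c' := by simp [hσ, Equiv.swap_apply_def, hac'.symm, hbc'.symm]
  have e5 : ∀ x, x ≠ a' → x ≠ b' → x ≠ c' → x ≠ d' → σ x = x := by
    intro x h1 h2 h3 h4
    simp [hσ, Equiv.swap_apply_def, h1, h2, h3, h4]
  have hs : σ ∈ alternatingGroup F := by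
    simp [hσ, Equiv.Perm.mem_alternatingGroup, hab', hcd']
  have h3 : σ ^ 2 ^ 1 = 1 := by
    ext x
    by_cases h1 : x = a'
    · simp [pow_succ, h1, e1, e2]
    by_cases h2 : x = b'
    · simp [pow_succ, h2, e1, e2]
    by_cases h3 : x = c'
    · simp [pow_succ, h3, e3, e4]
    by_cases h4 : x = d'
    · simp [pow_succ, h4, e3, e4]
    simp [pow_succ, e5 x h1 h2 h3 h4]
  obtain ⟨g, hg, hj⟩ := lift_p Nat.prime_two h (hA hs) h3
  have key : ∀ x : F, (g : G) • (x : Ω) = (σ x : Ω) := fun x => by rw [← hg, act_apply]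
  refine ⟨g, g.2, hj, (key a').trans (by rw [e1]), (key b').trans (by rw [e2]),
    (key c').trans (by rw [e3]), (key d').trans (by rw [e4]),
    fun ω hω h1 h2 h3 h4 => (key ⟨ω, hω⟩).trans ?_⟩
  rw [e5 _ (fun e => h1 (congrArg Subtype.val e)) (fun e => h2 (congrArg Subtype.val e))
    (fun e => h3 (congrArg Subtype.val e)) (fun e => h4 (congrArg Subtype.val e))]

/-- a 5-element acting as a given 5-cycle -/
theorem lift5 {N : Subgroup G} {F : Finset Ω} (h : Inv N F)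
    (hA : alternatingGroup F ≤ (act h).range) {a b c d e : Ω} (ha : a ∈ F) (hb : b ∈ F)
    (hc : c ∈ F) (hd : d ∈ F) (he : e ∈ F) (hD : D4 a b c d) (hea : e ≠ a) (heb : e ≠ b)
    (hec : e ≠ c) (hed : e ≠ d) :
    ∃ g ∈ N, (∃ j : ℕ, g ^ 5 ^ j = 1) ∧ g • a = b ∧ g • b = c ∧ g • c = d ∧ g • d = e ∧ g • e = a ∧
      ∀ ω ∈ F, ω ≠ a → ω ≠ b → ω ≠ c → ω ≠ d → ω ≠ e → g • ω = ω := by
  obtain ⟨hab, hac, had, hbc, hbd, hcd⟩ := hD
  set a' : F := ⟨a, ha⟩
  set b' : F := ⟨b, hb⟩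
  set c' : F := ⟨c, hc⟩
  set d' : F := ⟨d, hd⟩
  set e' : F := ⟨e, he⟩
  have hab' : a' ≠ b' := fun e => hab (congrArg Subtype.val e)
  have hac' : a' ≠ c' := fun e => hac (congrArg Subtype.val e)
  have had' : a' ≠ d' := fun e => had (congrArg Subtype.val e)
  have hbc' : b' ≠ c' := fun e => hbc (congrArg Subtype.val e)
  have hbd' : b' ≠ d' := fun e => hbd (congrArg Subtype.val e)
  have hcd' : c' ≠ d' := fun e => hcd (congrArg Subtype.val e)
  have hea' : e' ≠ a' := fun e => hea (congrArg Subtype.val e)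
  have heb' : e' ≠ b' := fun e => heb (congrArg Subtype.val e)
  have hec' : e' ≠ c' := fun e => hec (congrArg Subtype.val e)
  have hed' : e' ≠ d' := fun e => hed (congrArg Subtype.val e)
  set σ : Equiv.Perm F :=
    Equiv.swap a' b' * Equiv.swap b' c' * Equiv.swap c' d' * Equiv.swap d' e' with hσ
  have e1 : σ a' = b' := by simp [hσ, Equiv.swap_apply_def, hab', hac', had', hea'.symm]
  have e2 : σ b' = c' := by
    simp [hσ, Equiv.swap_apply_def, hbc', hbd', heb'.symm, hac'.symm, hbc'.symm]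
  have e3 : σ c' = d' := by
    simp [hσ, Equiv.swap_apply_def, hcd', hec'.symm, had'.symm, hbd'.symm, hcd'.symm]
  have e4 : σ d' = e' := by simp [hσ, Equiv.swap_apply_def, hea', heb', hec', hed']
  have e5 : σ e' = a' := by simp [hσ]
  have e6 : ∀ x, x ≠ a' → x ≠ b' → x ≠ c' → x ≠ d' → x ≠ e' → σ x = x := by
    intro x h1 h2 h3 h4 h5
    simp [hσ, Equiv.swap_apply_def, h1, h2, h3, h4, h5]
  have hs : σ ∈ alternatingGroup F := by
    simp [hσ, Equiv.Perm.mem_alternatingGroup, hab', hbc', hcd', hed'.symm]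
  have h3 : σ ^ 5 ^ 1 = 1 := by
    ext x
    by_cases h1 : x = a'
    · simp [pow_succ, h1, e1, e2, e3, e4, e5]
    by_cases h2 : x = b'
    · simp [pow_succ, h2, e1, e2, e3, e4, e5]
    by_cases h3 : x = c'
    · simp [pow_succ, h3, e1, e2, e3, e4, e5]
    by_cases h4 : x = d'
    · simp [pow_succ, h4, e1, e2, e3, e4, e5]
    by_cases h5 : x = e'
    · simp [pow_succ, h5, e1, e2, e3, e4, e5]
    simp [pow_succ, e6 x h1 h2 h3 h4 h5]
  obtain ⟨g, hg, hj⟩ := lift_p Nat.prime_five h (hA hs) h3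
  have key : ∀ x : F, (g : G) • (x : Ω) = (σ x : Ω) := fun x => by rw [← hg, act_apply]
  refine ⟨g, g.2, hj, (key a').trans (by rw [e1]), (key b').trans (by rw [e2]),
    (key c').trans (by rw [e3]), (key d').trans (by rw [e4]), (key e').trans (by rw [e5]),
    fun ω hω h1 h2 h3 h4 h5 => (key ⟨ω, hω⟩).trans ?_⟩
  rw [e6 _ (fun e => h1 (congrArg Subtype.val e)) (fun e => h2 (congrArg Subtype.val e))
    (fun e => h3 (congrArg Subtype.val e)) (fun e => h4 (congrArg Subtype.val e))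
    (fun e => h5 (congrArg Subtype.val e))]

/-- an even involution moves a multiple of four points (`Equiv.Perm.sign_of_pow_two_eq_one` or
cycle types) -/
theorem four_dvd [Fintype Ω] {N : Subgroup G} {F : Finset Ω} (h : Inv N F)
    (hA : (act h).range ≤ alternatingGroup F) {g : G} (hg : g ∈ N) (h2 : g * g ∈ St G F) :
    4 ∣ (F \ fx Ω g).card := by
  set σ : Equiv.Perm F := act h ⟨g, hg⟩ with hσ
  have hs : σ ^ 2 = 1 := by
    rw [hσ, ← map_pow, act_eq_one, pow_two]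
    exact h2
  have hc : σ.support.card = (F \ fx Ω g).card := by
    refine Finset.card_bij (fun x _ => (x : Ω)) (fun x hx => ?_) (fun _ _ _ _ e => Subtype.ext e)
      (fun ω hω => ?_)
    · rw [Finset.mem_sdiff, mem_fx]
      exact ⟨x.2, fun e => Equiv.Perm.mem_support.1 hx (Subtype.ext e)⟩
    · rw [Finset.mem_sdiff, mem_fx] at hω
      exact ⟨⟨ω, hω.1⟩, Equiv.Perm.mem_support.2 fun e => hω.2 (congrArg Subtype.val e), rfl⟩
  have h1 : Equiv.Perm.sign σ = 1 := Equiv.Perm.mem_alternatingGroup.1 (hA ⟨_, rfl⟩)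
  rw [Equiv.Perm.sign_of_pow_two_eq_one hs, Equiv.Perm.card_fixedPoints,
    Equiv.Perm.sum_cycleType, Nat.sub_sub_self (Finset.card_le_univ _)] at h1
  have h3 : Even (σ.support.card / 2) := by
    by_contra hn
    rw [(Nat.not_even_iff_odd.1 hn).neg_one_pow] at h1
    exact absurd h1 (by decide)
  have h4 := Equiv.Perm.two_dvd_card_support hs
  rw [← hc]
  obtain ⟨r, hr⟩ := h3
  omega

/-- S4221 (and S0418) for `N` on `F`.  The stabiliser in the range of an embedding listing `Q` has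
odd order: an involution of it lifts to a 2-element (`lift_p`) which fixes `F`.  In the last case
`Tr4.card` for `Tr4.range` shows that all four-point stabilisers of the range are trivial. -/
theorem T4 [Fintype Ω] {N : Subgroup G} {F : Finset Ω} (h : Inv N F) (tr : Tr4 N F)
    {Q : Finset Ω} (hQF : Q ⊆ F) (hQ : Q.card = 4)
    (hodd : ∀ g ∈ N, g ∈ St G Q → Two g → g ∈ St G F) :
    ((F.card = 4 ∨ F.card = 5) ∧ (act h).range = ⊤) ∨
      ((F.card = 6 ∨ F.card = 7) ∧ (act h).range = alternatingGroup F) ∨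
      (F.card = 11 ∧ Nat.card (act h).range = 7920 ∧ IsSimpleGroup (act h).range ∧
        ∀ g ∈ N, 4 ≤ (F ∩ fx Ω g).card → g ∈ St G F) := by
  have trR := tr.range h
  have mpt := mpt_of_tr4 trR
  obtain ⟨x, hx⟩ : ∃ x : Fin 4 ↪ F, ∀ ω ∈ Q, ∃ i, (x i : Ω) = ω := by
    let e : Q ≃ Fin 4 := Fintype.equivFinOfCardEq (by simpa using hQ)
    refine ⟨⟨fun i => ⟨e.symm i, hQF (e.symm i).2⟩, fun i j hij => ?_⟩, fun ω hω =>
      ⟨e ⟨ω, hω⟩, congrArg Subtype.val (e.symm_apply_apply ⟨ω, hω⟩)⟩⟩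
    exact e.symm.injective (Subtype.ext (congrArg Subtype.val hij :))
  have hfix : ∀ (y : Fin 4 ↪ F) (τ : (act h).range), τ ∈ MulAction.stabilizer (act h).range y →
      ∀ i, (τ : Equiv.Perm F) (y i) = y i := by
    intro y τ hτ i
    exact congrArg (fun z : Fin 4 ↪ F => z i) (MulAction.mem_stabilizer_iff.1 hτ)
  have hod : Odd (Nat.card (MulAction.stabilizer (act h).range x)) := by
    by_contra hn
    have : Fact (Nat.Prime 2) := ⟨Nat.prime_two⟩
    obtain ⟨τ, hτ⟩ := exists_prime_orderOf_dvd_card' 2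
      (even_iff_two_dvd.1 (Nat.not_odd_iff_even.1 hn))
    have h2 : ((τ : (act h).range) : Equiv.Perm F) ^ 2 ^ 1 = 1 := by
      have : τ ^ 2 ^ 1 = 1 := by rw [pow_one, ← hτ, pow_orderOf_eq_one]
      exact_mod_cast congrArg (fun z : MulAction.stabilizer (act h).range x =>
        ((z : (act h).range) : Equiv.Perm F)) this
    obtain ⟨g, hg, hj⟩ := lift_p Nat.prime_two h (τ : (act h).range).2 h2
    have hgQ : (g : G) ∈ St G Q := by
      intro ω hω
      obtain ⟨i, rfl⟩ := hx ω hω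
      rw [← act_apply h g, hg, hfix x _ τ.2 i]
    have h1 := (act_eq_one h g).2 (hodd g g.2 hgQ hj)
    have : τ = 1 := Subtype.ext (Subtype.ext (hg.symm.trans h1))
    rw [this, orderOf_one] at hτ
    exact absurd hτ (by norm_num)
  have hcF : Fintype.card F = F.card := Fintype.card_coe F
  rcases Cfsg.Agent.S4221.result (act h).range mpt x hod with h1 | h1 | ⟨h1, h2⟩
  · exact Or.inl (hcF ▸ h1)
  · exact Or.inr (Or.inl (hcF ▸ h1))
  have hsharp : ∀ Q' : Finset F, Q'.card = 4 → ∀ τ : (act h).range,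
      τ ∈ St (act h).range Q' → τ = 1 := by
    intro Q' hQ' τ hτ
    have hi : Inv (⊤ : Subgroup (act h).range) (Finset.univ : Finset F) :=
      fun _ _ _ _ => Finset.mem_univ _
    have := trR.card hi (Finset.subset_univ Q') hQ'
    rw [Subgroup.card_top, h2, Finset.card_univ, h1, top_inf_eq] at this
    have h3 : St (act h).range Q' = ⊥ := Subgroup.card_eq_one.1 (by omega)
    rw [h3] at hτ
    exact Subgroup.mem_bot.1 hτ
  refine Or.inr (Or.inr ⟨hcF ▸ h1, h2, ?_, fun g hg h4 => ?_⟩)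
  · refine (Cfsg.Agent.S0418.result h1 (act h).range fun y => ?_).1
    rw [eq_bot_iff]
    intro τ hτ
    refine Subgroup.mem_bot.2 (hsharp (Finset.univ.map y) (by simp) τ fun ω hω => ?_)
    obtain ⟨i, -, rfl⟩ := Finset.mem_map.1 hω
    exact hfix y τ hτ i
  · obtain ⟨Q', hQ', hc⟩ := Finset.exists_subset_card_eq h4
    have hsub : Q' ⊆ F := hQ'.trans Finset.inter_subset_left
    have h5 := hsharp (Q'.subtype (· ∈ F))
      (by rw [Finset.card_subtype, Finset.filter_true_of_mem hsub, hc])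
      ⟨act h ⟨g, hg⟩, ⟨g, hg⟩, rfl⟩ fun ω hω => Subtype.ext
        (mem_fx.1 (Finset.mem_inter.1 (hQ' (Finset.mem_subtype.1 hω))).2)
    exact (act_eq_one h ⟨g, hg⟩).1 (congrArg Subtype.val h5)

end CL.F4
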