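import Cfsg.Agent.PERM.F4.Lift
import Cfsg.Agent.S3779

/-!
S3404: a 2-group with a fixed-point-free automorphism of order three.
-/

set_option autoImplicit false

namespace CL.F4

open scoped commutatorElement

variable {G : Type*} [Group G] [Finite G]

namespace QD

omit [Finite G] in
theorem conj3 {c : G} (hc3 : c ^ 3 = 1) (t : G) : c * (c * (c * t * c⁻¹) * c⁻¹) * c⁻¹ = t := by
  calc c * (c * (c * t * c⁻¹) * c⁻¹) * c⁻¹ = c ^ 3 * t * (c ^ 3)⁻¹ := by rw [pow_three]; group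
    _ = t := by rw [hc3]; group

theorem surj {T : Subgroup G} {c : G} (hcT : c ∈ Subgroup.normalizer (T : Set G))
    (hcf : ∀ t ∈ T, Commute c t → t = 1) {x : G} (hx : x ∈ T) :
    ∃ b ∈ T, b⁻¹ * (c * b * c⁻¹) = x := by
  let f : T → T := fun b => ⟨(b : G)⁻¹ * (c * b * c⁻¹),
    T.mul_mem (T.inv_mem b.2) ((Subgroup.mem_normalizer_iff.1 hcT _).1 b.2)⟩
  have hf : Function.Injective f := by
    intro b d h
    have h1 : (b : G)⁻¹ * (c * b * c⁻¹) = (d : G)⁻¹ * (c * d * c⁻¹) := congrArg Subtype.val h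
    have h2 : (d : G) * (b : G)⁻¹ = 1 := by
      refine hcf _ (d * b⁻¹).2 ?_
      calc c * ((d : G) * (b : G)⁻¹)
          = d * ((d : G)⁻¹ * (c * d * c⁻¹)) * (c * (b : G)⁻¹) := by group
        _ = (d : G) * (b : G)⁻¹ * c := by rw [← h1]; group
    exact Subtype.ext (mul_inv_eq_one.1 h2).symm
  obtain ⟨b, hb⟩ := Finite.surjective_of_injective hf ⟨x, hx⟩
  exact ⟨b, b.2, congrArg Subtype.val hb⟩

theorem prod {T : Subgroup G} {c : G} (hc3 : c ^ 3 = 1) (hcT : c ∈ Subgroup.normalizer (T : Set G))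
    (hcf : ∀ t ∈ T, Commute c t → t = 1) {x : G} (hx : x ∈ T) :
    x * (c * x * c⁻¹) * (c * (c * x * c⁻¹) * c⁻¹) = 1 := by
  obtain ⟨b, -, rfl⟩ := surj hcT hcf hx
  calc _ = b⁻¹ * (c * (c * (c * b * c⁻¹) * c⁻¹) * c⁻¹) := by group
    _ = 1 := by rw [conj3 hc3, inv_mul_cancel]

theorem comm {T : Subgroup G} {c : G} (hc3 : c ^ 3 = 1) (hcT : c ∈ Subgroup.normalizer (T : Set G))
    (hcf : ∀ t ∈ T, Commute c t → t = 1) {x : G} (hx : x ∈ T) : Commute x (c * x * c⁻¹) := by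
  have h1 := prod hc3 hcT hcf hx
  have h2 := prod hc3 hcT hcf (T.inv_mem hx)
  have h3 : (c * (c * x * c⁻¹) * c⁻¹) * ((c * x * c⁻¹) * x) = 1 := by
    rw [← inv_eq_one, ← h2]
    group
  exact (eq_inv_of_mul_eq_one_left h1).trans (eq_inv_of_mul_eq_one_right h3).symm

theorem cover {W T : Subgroup G} {c : G} (hWT : W ≤ T) (hi : W.relIndex T = 4) (hc3 : c ^ 3 = 1)
    (hcT : c ∈ Subgroup.normalizer (T : Set G)) (hcW : c ∈ Subgroup.normalizer (W : Set G))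
    (hcf : ∀ t ∈ T, Commute c t → t = 1) (x : G) (hx : x ∈ T) (hxW : x ∉ W) (t : G) (ht : t ∈ T) :
    t ∈ W ∨ x⁻¹ * t ∈ W ∨ (c * x * c⁻¹)⁻¹ * t ∈ W ∨ (c * (c * x * c⁻¹) * c⁻¹)⁻¹ * t ∈ W := by
  classical
  have cT : ∀ t ∈ T, c * t * c⁻¹ ∈ T := fun t ht => (Subgroup.mem_normalizer_iff.1 hcT t).1 ht
  have cW : ∀ t, t ∈ W ↔ c * t * c⁻¹ ∈ W := Subgroup.mem_normalizer_iff.1 hcW
  have nw : ∀ y ∈ T, y ∉ W → y⁻¹ * (c * y * c⁻¹) ∉ W := by
    intro y hy hyW h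
    obtain ⟨b, hb, e⟩ := surj hcW (fun t ht => hcf t (hWT ht)) h
    have h2 : y * b⁻¹ = 1 := by
      refine hcf _ (T.mul_mem hy (T.inv_mem (hWT hb))) ?_
      calc c * (y * b⁻¹) = y * (y⁻¹ * (c * y * c⁻¹)) * (c * b⁻¹) := by group
        _ = y * b⁻¹ * c := by rw [← e]; group
    exact hyW (mul_inv_eq_one.1 h2 ▸ hb)
  have h1 : c * x * c⁻¹ ∉ W := fun h => hxW ((cW _).2 h)
  have h2 : c * (c * x * c⁻¹) * c⁻¹ ∉ W := fun h => h1 ((cW _).2 h)
  have h01 := nw x hx hxW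
  have h12 := nw _ (cT x hx) h1
  have h20 := nw _ (cT _ (cT x hx)) h2
  rw [conj3 hc3] at h20
  let q : T → T ⧸ W.subgroupOf T := QuotientGroup.mk
  have hq : ∀ a b : T, q a = q b ↔ (a : G)⁻¹ * b ∈ W := fun a b => QuotientGroup.eq
  let x0 : T := ⟨x, hx⟩
  let x1 : T := ⟨_, cT x hx⟩
  let x2 : T := ⟨_, cT _ (cT x hx)⟩
  have hD : D4 (q 1) (q x0) (q x1) (q x2) := by
    refine ⟨fun h => hxW ?_, fun h => h1 ?_, fun h => h2 ?_, fun h => h01 ((hq _ _).1 h),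
      fun h => h20 ((hq _ _).1 h.symm), fun h => h12 ((hq _ _).1 h)⟩ <;>
    simpa using (hq _ _).1 h
  let _ : Fintype (T ⧸ W.subgroupOf T) := Fintype.ofFinite _
  have hc : ({q 1, q x0, q x1, q x2} : Finset (T ⧸ W.subgroupOf T)) = Finset.univ := by
    apply Finset.eq_univ_of_card
    rw [hD.card, ← Nat.card_eq_fintype_card]
    exact hi.symm
  have := hc ▸ Finset.mem_univ (q ⟨t, ht⟩)
  simp only [Finset.mem_insert, Finset.mem_singleton] at this
  rcases this with h | h | h | h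
  · exact Or.inl (by simpa using (hq _ _).1 h.symm)
  · exact Or.inr (Or.inl ((hq _ _).1 h.symm))
  · exact Or.inr (Or.inr (Or.inl ((hq _ _).1 h.symm)))
  · exact Or.inr (Or.inr (Or.inr ((hq _ _).1 h.symm)))

omit [Finite G] in
theorem right {T : Subgroup G}
    (cl2 : ∀ a ∈ T, ∀ b ∈ T, ∀ t ∈ T, Commute (a * b * a⁻¹ * b⁻¹) t) {x a b : G} (hx : x ∈ T)
    (ha : a ∈ T) (hb : b ∈ T) :
    x * (a * b) * x⁻¹ * (a * b)⁻¹ = (x * a * x⁻¹ * a⁻¹) * (x * b * x⁻¹ * b⁻¹) := by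
  calc x * (a * b) * x⁻¹ * (a * b)⁻¹
      = (x * a * x⁻¹ * a⁻¹) * (a * (x * b * x⁻¹ * b⁻¹)) * a⁻¹ := by group
    _ = _ := by rw [← (cl2 x hx b hb a ha).eq]; group

omit [Finite G] in
theorem left {T : Subgroup G}
    (cl2 : ∀ a ∈ T, ∀ b ∈ T, ∀ t ∈ T, Commute (a * b * a⁻¹ * b⁻¹) t) {x y b : G} (hx : x ∈ T)
    (hy : y ∈ T) (hb : b ∈ T) :
    (x * y) * b * (x * y)⁻¹ * b⁻¹ = (y * b * y⁻¹ * b⁻¹) * (x * b * x⁻¹ * b⁻¹) := by
  calc (x * y) * b * (x * y)⁻¹ * b⁻¹ = (x * (y * b * y⁻¹ * b⁻¹)) * b * x⁻¹ * b⁻¹ := by group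
    _ = _ := by rw [← (cl2 y hy b hb x hx).eq]; group

theorem key {T : Subgroup G} {c : G} (hc3 : c ^ 3 = 1) (hcT : c ∈ Subgroup.normalizer (T : Set G))
    (hcf : ∀ t ∈ T, Commute c t → t = 1)
    (cl2 : ∀ a ∈ T, ∀ b ∈ T, ∀ t ∈ T, Commute (a * b * a⁻¹ * b⁻¹) t) {x a : G} (hx : x ∈ T)
    (ha : a ∈ T) (h : Commute x a) :
    Commute (c * x * c⁻¹) a ∧ Commute (c * (c * x * c⁻¹) * c⁻¹) a := by
  have cT : ∀ t ∈ T, c * t * c⁻¹ ∈ T := fun t ht => (Subgroup.mem_normalizer_iff.1 hcT t).1 ht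
  let f : G → G → G := fun u v => u * v * u⁻¹ * v⁻¹
  let s : G → G := fun u => c * u * c⁻¹
  have fs : ∀ u v, f (s u) (s v) = s (f u v) := fun u v => by simp only [f, s]; group
  have s3 : ∀ u, s (s (s u)) = u := conj3 hc3
  have f1 : ∀ u v, f u v = 1 ↔ Commute u v := fun u v => by
    simp only [f]
    rw [mul_inv_eq_one, mul_inv_eq_iff_eq_mul]
    rfl
  have s1 : s 1 = 1 := by simp [s]
  have h00 : f x a = 1 := (f1 _ _).2 h
  have h11 : f (s x) (s a) = 1 := by rw [fs, h00, s1]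
  have px : x * s x * s (s x) = 1 := prod hc3 hcT hcf hx
  have pa : a * s a * s (s a) = 1 := prod hc3 hcT hcf ha
  have fr : ∀ u ∈ T, f u a * f u (s a) * f u (s (s a)) = 1 := by
    intro u hu
    have e1 : f u (a * s a * s (s a)) = f u (a * s a) * f u (s (s a)) :=
      right cl2 hu (T.mul_mem ha (cT a ha)) (cT _ (cT a ha))
    have e2 : f u (a * s a) = f u a * f u (s a) := right cl2 hu ha (cT a ha)
    rw [← e2, ← e1, pa]
    simp [f]
  have fl : f (s (s x)) a * (f (s x) a * f x a) = 1 := by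
    have e1 : f (x * s x * s (s x)) a = f (s (s x)) a * f (x * s x) a :=
      left cl2 (T.mul_mem hx (cT x hx)) (cT _ (cT x hx)) ha
    have e2 : f (x * s x) a = f (s x) a * f x a := left cl2 hx (cT x hx) ha
    rw [← e2, ← e1, px]
    simp [f]
  have hz : f x (s a) ∈ T :=
    T.mul_mem (T.mul_mem (T.mul_mem hx (cT a ha)) (T.inv_mem hx)) (T.inv_mem (cT a ha))
  have h12 : f (s x) (s (s a)) = s (f x (s a)) := fs _ _
  have h20 : f (s (s x)) a = s (s (f x (s a))) := by rw [← fs, ← fs, s3]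
  generalize f x (s a) = z at hz h12 h20
  have h10 : f (s x) a = (s z)⁻¹ := by
    have := fr _ (cT x hx)
    rw [h11, mul_one, h12] at this
    exact eq_inv_of_mul_eq_one_left this
  rw [h20, h10, h00, mul_one, mul_inv_eq_one] at fl
  have h3 : s z = 1 := hcf _ (cT z hz) (mul_inv_eq_iff_eq_mul.1 fl)
  refine ⟨(f1 _ _).1 ?_, (f1 _ _).1 ?_⟩
  · rw [← inv_one, ← h3]
    exact h10
  · rw [← h3, ← fl]
    exact h20

end QD

/-- S3779 for conjugation by `c` on `T` (if `T ≠ ⊥` this automorphism has order three) -/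
theorem class_two {T : Subgroup G} {c : G} (hc3 : c ^ 3 = 1)
    (hcT : c ∈ Subgroup.normalizer (T : Set G)) (hcf : ∀ t ∈ T, Commute c t → t = 1) :
    ∀ a ∈ T, ∀ b ∈ T, ∀ t ∈ T, Commute (a * b * a⁻¹ * b⁻¹) t := by
  intro a ha b hb t ht
  let α : MulAut T := T.normalizerMonoidHom ⟨c, hcT⟩
  have hα : ∀ s : T, ((α s : T) : G) = c * s * c⁻¹ := fun _ => rfl
  have hf : ∀ s : T, α s = s → s = 1 := by
    intro s hs
    have := congrArg Subtype.val hs
    rw [hα] at this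
    exact Subtype.ext (hcf s s.2 (mul_inv_eq_iff_eq_mul.1 this))
  by_cases h1 : α = 1
  · have : (⟨t, ht⟩ : T) = 1 := hf _ (by rw [h1]; rfl)
    rw [show t = 1 from congrArg Subtype.val this]
    exact Commute.one_right _
  have h3 : α ^ 3 = 1 := by
    have : (⟨c, hcT⟩ : Subgroup.normalizer (T : Set G)) ^ 3 = 1 := Subtype.ext hc3
    rw [← map_pow, this, map_one]
  have : Fact (Nat.Prime 3) := ⟨Nat.prime_three⟩
  have h4 := (Cfsg.Agent.S3779.result Nat.prime_three α (orderOf_eq_prime h3 h1) hf).2.1 rfl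
  have h5 : ⁅⁅(⟨a, ha⟩ : T), (⟨b, hb⟩ : T)⁆, (⟨t, ht⟩ : T)⁆ ∈
      (⊤ : Subgroup T).lowerCentralSeries 2 :=
    Subgroup.commutator_mem_commutator
      (Subgroup.commutator_mem_commutator (Subgroup.mem_top _) (Subgroup.mem_top _))
      (Subgroup.mem_top _)
  rw [h4, Subgroup.mem_bot, commutatorElement_eq_one_iff_mul_comm] at h5
  exact congrArg Subtype.val h5

/-- Write `x^ = c x c⁻¹`, `x^^ = c² x c⁻²`, `Z = W ⊓ C(T)`.
(0) `x · x^ · x^^ = 1` for all `x ∈ T` (`b ↦ b⁻¹ b^` is injective, so onto; or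
`MonoidHom.FixedPointFree.prod_pow_eq_one`); applied to `x⁻¹` too: `x` commutes with `x^`.
`c` is fixed-point-free on `T / W` (same bijection on `W`), so for `x ∉ W` the cosets of `x, x^, x^^` are
the three non-trivial cosets, `T / W` is a four-group, `x² ∈ W`, `T = W ∪ xW ∪ x^W ∪ x^^W`.
(1) If a `g`-invariant subset of `W` is centralised by `x₀`, it is centralised by `g x₀ g⁻¹`, so it is
trivial by `hd`.  Commutators of elements of `W` are central in `T` (`class_two`): `W` is abelian.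
`[x, a]² = [x², a] = 1 = [x, a²]`: squares of `W` are centralised by `x₀`: exponent two.
(2) `a ∈ W` commuting with `x ∉ W`: `f_i(b) = [x_i, b]` (`x_i` the three conjugates) are homs
`W → Z`, `f₀ f₁ f₂ = 1`, `a₀ a₁ a₂ = 1`, `f_i(a_i) = 1`, `f_{i+1}(b^) = f_i(b)^`.  Put `z = f₀(a₁)`; then
`f₀(a₂) = z`, `f₁(a₀) = f₁(a₂) = z^`, `f₂(a₀) = f₀(a₁)^^ = z^^`, so `z^ z^^ = 1`, `z = z^`, `z = 1`; `a₁`
commutes with `x₀`, `x₁`, `W`, so `a₁ ∈ Z`, `a ∈ Z`.
(3) `Z ⊓ g Z g⁻¹ = ⊥` by `hd`, so `|Z|² ≤ |W|`; `a ↦ [x, a]` is a hom `W → Z` with kernel `Z`, so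
`|W| ≤ |Z|²` and it is onto.
(4) `x² ∈ Z` is a commutator `[x⁻¹, a]`, so some `x a` is an involution; take `x` an involution,
`A = Z ⊔ ⟨x, x^⟩`.  An involution `y = x_i a` has `a` commuting with `x_i`, so `y ∈ A`;
`C_T(y) ⊓ W = Z` gives `|C_T(y)| ≤ 4 |Z|`. -/
theorem quad {W T : Subgroup G} {c x₀ g : G} (hT : IsPGroup 2 T) (hWT : W ≤ T)
    (hi : W.relIndex T = 4) (nT : T ≤ Subgroup.normalizer (W : Set G)) (hc3 : c ^ 3 = 1)
    (hcT : c ∈ Subgroup.normalizer (T : Set G)) (hcW : c ∈ Subgroup.normalizer (W : Set G))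
    (hcf : ∀ t ∈ T, Commute c t → t = 1) (hx₀ : x₀ ∈ T)
    (hg : g ∈ Subgroup.normalizer (W : Set G))
    (hd : ∀ w ∈ W, Commute (x₀ * (g * x₀ * g⁻¹)) w → w = 1) :
    (∀ a ∈ W, ∀ b ∈ W, Commute a b) ∧ (∀ a ∈ W, a * a = 1) ∧
      (∀ x ∈ T, x ∉ W → ∀ a ∈ W, Commute x a → ∀ t ∈ T, Commute t a) ∧
      Nat.card W = Nat.card ↥(W ⊓ Subgroup.centralizer (T : Set G)) ^ 2 ∧
      (∀ x ∈ T, ∀ a ∈ W, x * a * x⁻¹ * a⁻¹ ∈ W ⊓ Subgroup.centralizer (T : Set G)) ∧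
      ∃ A : Subgroup G, A ≤ T ∧ A ⊓ W = W ⊓ Subgroup.centralizer (T : Set G) ∧
        Nat.card A = 4 * Nat.card ↥(W ⊓ Subgroup.centralizer (T : Set G)) ∧
        (∀ a ∈ A, a * a = 1) ∧ (∀ a ∈ A, ∀ b ∈ A, Commute a b) ∧
        ∀ y ∈ T, y ∉ W → y * y = 1 → T ⊓ Subgroup.centralizer ({y} : Set G) = A := by
  have cT : ∀ t ∈ T, c * t * c⁻¹ ∈ T := fun t ht => (Subgroup.mem_normalizer_iff.1 hcT t).1 ht
  have cW : ∀ t, t ∈ W ↔ c * t * c⁻¹ ∈ W := Subgroup.mem_normalizer_iff.1 hcW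
  have tW : ∀ t ∈ T, ∀ w ∈ W, t * w * t⁻¹ ∈ W := fun t ht w hw =>
    (Subgroup.mem_normalizer_iff.1 (nT ht) w).1 hw
  have gW : ∀ w ∈ W, g⁻¹ * w * g ∈ W := fun w hw => by
    simpa using (Subgroup.mem_normalizer_iff.1 (Subgroup.inv_mem _ hg) w).1 hw
  have cl2 := class_two hc3 hcT hcf
  have c3 : ∀ t : G, c * (c * (c * t * c⁻¹) * c⁻¹) * c⁻¹ = t := QD.conj3 hc3
  have cov := QD.cover hWT hi hc3 hcT hcW hcf
  have hd' : ∀ w ∈ W, Commute x₀ w → Commute x₀ (g⁻¹ * w * g) → w = 1 := by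
    intro w hw h1 h2
    refine hd w hw (h1.mul_left ?_)
    have := h2.map (MulAut.conj g)
    simpa [mul_assoc] using this
  have ab : ∀ a ∈ W, ∀ b ∈ W, Commute a b := by
    intro a ha b hb
    have h1 : a * b * a⁻¹ * b⁻¹ = 1 := by
      refine hd' _ (W.mul_mem (W.mul_mem (W.mul_mem ha hb) (W.inv_mem ha)) (W.inv_mem hb))
        (cl2 a (hWT ha) b (hWT hb) _ hx₀).symm ?_
      have := (cl2 _ (hWT (gW a ha)) _ (hWT (gW b hb)) _ hx₀).symm
      convert this using 1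
      group
    rw [mul_inv_eq_one, mul_inv_eq_iff_eq_mul] at h1
    exact h1
  obtain ⟨y, hyT, hyW, -, hy2⟩ := exists_norm_two hT hWT (by
    rintro rfl
    simp at hi)
  have sqW : ∀ t ∈ T, t * t ∈ W := by
    have key : ∀ e ∈ T, e * e ∈ W → ∀ t : G, e⁻¹ * t ∈ W → t * t ∈ W := by
      intro e he h2 t ht
      have := W.mul_mem (W.mul_mem h2 (tW _ (T.inv_mem he) _ ht)) ht
      convert this using 1
      group
    have k2 : ∀ e : G, e * e ∈ W → (c * e * c⁻¹) * (c * e * c⁻¹) ∈ W := by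
      intro e he
      have := (cW _).1 he
      convert this using 1
      group
    intro t ht
    rcases cov y hyT hyW t ht with h | h | h | h
    · exact W.mul_mem h h
    · exact key y hyT hy2 t h
    · exact key _ (cT y hyT) (k2 y hy2) t h
    · exact key _ (cT _ (cT y hyT)) (k2 _ (k2 y hy2)) t h
  have sqc : ∀ x ∈ T, ∀ a ∈ W, Commute x (a * a) := by
    intro x hx a ha
    have hz := cl2 x hx a (hWT ha)
    have h1 := (ab _ (sqW x hx) a ha).eq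
    generalize hzz : x * a * x⁻¹ * a⁻¹ = z at hz
    have e : x * a = z * a * x := by rw [← hzz]; group
    have h2 : z * z * (a * x * x) = a * x * x := by
      calc z * z * (a * x * x) = z * (z * a * x) * x := by group
        _ = (z * x) * a * x := by rw [← e]; group
        _ = x * (z * a * x) := by rw [(hz x hx).eq]; group
        _ = a * x * x := by rw [← e, ← mul_assoc, h1, mul_assoc]
    have h3 : z * z = 1 := mul_eq_right.1 h2
    calc x * (a * a) = (x * a) * a := by group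
      _ = z * a * x * a := by rw [e]
      _ = z * a * (x * a) := mul_assoc _ _ _
      _ = z * (a * z) * a * x := by rw [e]; group
      _ = (z * z) * a * a * x := by rw [← (hz a (hWT ha)).eq]; group
      _ = a * a * x := by rw [h3, one_mul]
  have ex2 : ∀ a ∈ W, a * a = 1 := by
    intro a ha
    refine hd' _ (W.mul_mem ha ha) (sqc _ hx₀ a ha) ?_
    have := sqc _ hx₀ _ (gW a ha)
    convert this using 1
    group
  have cen : ∀ x ∈ T, x ∉ W → ∀ a ∈ W, Commute x a → ∀ t ∈ T, Commute t a := by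
    intro x hx hxW a ha hxa t ht
    obtain ⟨h1, h2⟩ := QD.key hc3 hcT hcf cl2 hx (hWT ha) hxa
    have k : ∀ e : G, Commute e a → e⁻¹ * t ∈ W → Commute t a := by
      intro e he h
      have := he.mul_left (ab _ h a ha)
      rwa [mul_inv_cancel_left] at this
    rcases cov x hx hxW t ht with h | h | h | h
    · exact ab t h a ha
    · exact k _ hxa h
    · exact k _ h1 h
    · exact k _ h2 h
  have mZ : ∀ z : G, z ∈ W ⊓ Subgroup.centralizer (T : Set G) ↔ z ∈ W ∧ ∀ t ∈ T, Commute t z :=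
    fun z => Iff.rfl
  have cZ : ∀ x ∈ T, ∀ a ∈ W, x * a * x⁻¹ * a⁻¹ ∈ W ⊓ Subgroup.centralizer (T : Set G) :=
    fun x hx a ha => (mZ _).2 ⟨W.mul_mem (tW x hx a ha) (W.inv_mem ha),
      fun t ht => (cl2 x hx a (hWT ha) t ht).symm⟩
  set Z := W ⊓ Subgroup.centralizer (T : Set G) with hZ
  have hZW : Z ≤ W := inf_le_left
  have lo : Nat.card Z ^ 2 ≤ Nat.card W := by
    rw [pow_two, ← Nat.card_prod]
    refine Nat.card_le_card_of_injective (fun u : Z × Z => (⟨u.1 * (g * u.2 * g⁻¹),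
      W.mul_mem (hZW u.1.2) ((Subgroup.mem_normalizer_iff.1 hg _).1 (hZW u.2.2))⟩ : W)) ?_
    rintro ⟨z, z'⟩ ⟨u, u'⟩ h
    have h1 : (z : G) * (g * z' * g⁻¹) = u * (g * u' * g⁻¹) := congrArg Subtype.val h
    have h2 : g⁻¹ * ((u : G)⁻¹ * z) * g = u' * (z' : G)⁻¹ := by
      calc g⁻¹ * ((u : G)⁻¹ * z) * g
          = g⁻¹ * (u : G)⁻¹ * (z * (g * z' * g⁻¹)) * g * (z' : G)⁻¹ := by group
        _ = u' * (z' : G)⁻¹ := by rw [h1]; group
    have h3 : (u : G)⁻¹ * z = 1 := by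
      refine hd' _ (hZW (u⁻¹ * z).2) (((mZ _).1 (u⁻¹ * z).2).2 _ hx₀) ?_
      rw [h2]
      exact ((mZ _).1 (u' * z'⁻¹).2).2 _ hx₀
    rw [h3, mul_one, inv_mul_cancel, eq_comm, mul_inv_eq_one] at h2
    rw [inv_mul_eq_one] at h3
    exact Prod.ext (Subtype.ext h3.symm) (Subtype.ext h2.symm)
  have hi' : ∀ x ∈ T, x ∉ W → Nat.card W = Nat.card Z ^ 2 ∧
      ∀ z ∈ Z, ∃ a ∈ W, x * a * x⁻¹ * a⁻¹ = z := by
    intro x hx hxW
    let φ : W →* Z := MonoidHom.mk' (fun a => ⟨x * a * x⁻¹ * (a : G)⁻¹, cZ x hx a a.2⟩)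
      fun a b => Subtype.ext (QD.right cl2 hx (hWT a.2) (hWT b.2))
    have hk : φ.ker = Z.subgroupOf W := by
      ext a
      rw [MonoidHom.mem_ker, Subgroup.mem_subgroupOf, Subtype.ext_iff]
      change x * a * x⁻¹ * (a : G)⁻¹ = 1 ↔ _
      rw [mul_inv_eq_one, mul_inv_eq_iff_eq_mul, mZ]
      exact ⟨fun h => ⟨a.2, cen x hx hxW a a.2 h⟩, fun h => h.2 x hx⟩
    have h1 : Nat.card Z * Nat.card φ.range = Nat.card W := by
      rw [← φ.ker.card_mul_index, Subgroup.index_ker, hk,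
        Nat.card_congr (Subgroup.subgroupOfEquivOfLe hZW).toEquiv]
    have h2 : Nat.card φ.range ≤ Nat.card Z := Subgroup.card_le_card_group _
    have h3 : Nat.card Z ≤ Nat.card φ.range := by
      rw [← h1, pow_two] at lo
      exact Nat.le_of_mul_le_mul_left lo Nat.card_pos
    refine ⟨by rw [← h1, le_antisymm h2 h3, pow_two], fun z hz => ?_⟩
    have h4 : φ.range = ⊤ := Subgroup.eq_top_of_card_eq _ (le_antisymm h2 h3)
    obtain ⟨a, ha⟩ := MonoidHom.range_eq_top.1 h4 ⟨z, hz⟩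
    exact ⟨a, a.2, congrArg Subtype.val ha⟩
  refine ⟨ab, ex2, cen, (hi' y hyT hyW).1, cZ, ?_⟩
  obtain ⟨x, hxT, hxW, hx2⟩ : ∃ x ∈ T, x ∉ W ∧ x * x = 1 := by
    have h1 : y * y ∈ Z := (mZ _).2 ⟨hy2, cen y hyT hyW _ hy2 ((Commute.refl y).mul_right
      (Commute.refl y))⟩
    obtain ⟨a, ha, e⟩ := (hi' y⁻¹ (T.inv_mem hyT) (fun h => hyW (by simpa using W.inv_mem h))).2 _
      (Z.inv_mem h1)
    refine ⟨y * a, T.mul_mem hyT (hWT ha), fun h => hyW ((W.mul_mem_cancel_right ha).1 h), ?_⟩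
    calc y * a * (y * a) = y * y * (y⁻¹ * a * y⁻¹⁻¹ * a⁻¹) * (a * a) := by group
      _ = 1 := by rw [e, ex2 a ha]; group
  have mA : ∀ u t : G, t ∈ T ⊓ Subgroup.centralizer ({u} : Set G) ↔ t ∈ T ∧ Commute t u :=
    fun u t => by rw [Subgroup.mem_inf, Subgroup.mem_centralizer_singleton_iff]; rfl
  set A := T ⊓ Subgroup.centralizer ({x} : Set G) with hA
  have ZA : Z ≤ A := fun z hz => (mA _ _).2 ⟨hWT (hZW hz), (((mZ _).1 hz).2 x hxT).symm⟩
  have cov' : ∀ t ∈ T, ∃ e ∈ A, e * e = 1 ∧ e⁻¹ * t ∈ W := by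
    intro t ht
    have k2 : ∀ e : G, e * e = 1 → (c * e * c⁻¹) * (c * e * c⁻¹) = 1 := by
      intro e he
      calc (c * e * c⁻¹) * (c * e * c⁻¹) = c * (e * e) * c⁻¹ := by group
        _ = 1 := by rw [he]; group
    have h1 := QD.comm hc3 hcT hcf hxT
    have h2 := QD.comm hc3 hcT hcf (cT _ (cT x hxT))
    rw [c3] at h2
    rcases cov x hxT hxW t ht with h | h | h | h
    · exact ⟨1, A.one_mem, one_mul _, by simpa using h⟩
    · exact ⟨x, (mA _ _).2 ⟨hxT, Commute.refl x⟩, hx2, h⟩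
    · exact ⟨_, (mA _ _).2 ⟨cT x hxT, h1.symm⟩, k2 x hx2, h⟩
    · exact ⟨_, (mA _ _).2 ⟨cT _ (cT x hxT), h2⟩, k2 _ (k2 x hx2), h⟩
  have AW : A ⊓ W = Z := by
    refine le_antisymm (fun a ha => ?_) (le_inf ZA hZW)
    obtain ⟨h1, h2⟩ := Subgroup.mem_inf.1 ha
    exact (mZ _).2 ⟨h2, cen x hxT hxW a h2 ((mA _ _).1 h1).2.symm⟩
  have A2 : ∀ a ∈ A, a * a = 1 := by
    intro a ha
    obtain ⟨e, he, h2, h⟩ := cov' a ((mA _ _).1 ha).1
    have h3 : e⁻¹ * a ∈ Z := AW ▸ Subgroup.mem_inf.2 ⟨A.mul_mem (A.inv_mem he) ha, h⟩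
    have h4 := (((mZ _).1 h3).2 e ((mA _ _).1 he).1).eq
    calc a * a = e * ((e⁻¹ * a) * e) * (e⁻¹ * a) := by group
      _ = (e * e) * ((e⁻¹ * a) * (e⁻¹ * a)) := by rw [← h4]; group
      _ = 1 := by rw [h2, ex2 _ h, one_mul]
  have Aab : ∀ a ∈ A, ∀ b ∈ A, Commute a b := by
    intro a ha b hb
    have h1 := A2 _ (A.mul_mem ha hb)
    calc a * b = (a * b)⁻¹ := (eq_inv_of_mul_eq_one_left h1)
      _ = b * a := by
        rw [mul_inv_rev, ← eq_inv_of_mul_eq_one_left (A2 a ha), ← eq_inv_of_mul_eq_one_left (A2 b hb)]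
  refine ⟨A, inf_le_left, AW, ?_, A2, Aab, fun u hu huW hu2 => ?_⟩
  · have : (W.subgroupOf T).Normal := Subgroup.normal_subgroupOf_of_le_normalizer nT
    have h1 : A.subgroupOf T ⊔ W.subgroupOf T = ⊤ := by
      rw [eq_top_iff]
      intro t _
      obtain ⟨e, he, -, h⟩ := cov' t t.2
      have heT := ((mA _ _).1 he).1
      have : t = ⟨e, heT⟩ * ((⟨e, heT⟩ : T)⁻¹ * t) := by group
      rw [this]
      exact Subgroup.mul_mem_sup he h
    have h2 : W.relIndex A = 4 := by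
      rw [← Subgroup.relIndex_subgroupOf (inf_le_left : A ≤ T), ← Subgroup.relIndex_sup_right, h1,
        Subgroup.relIndex_top_right]
      exact hi
    rw [← (W.subgroupOf A).index_mul_card, ← AW, ← Subgroup.inf_subgroupOf_left,
      Nat.card_congr (Subgroup.subgroupOfEquivOfLe (inf_le_left : A ⊓ W ≤ A)).toEquiv,
      Subgroup.inf_subgroupOf_left]
    exact congrArg (· * _) h2
  · have huA : u ∈ A := by
      obtain ⟨e, he, h2, h⟩ := cov' u hu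
      have heT := ((mA _ _).1 he).1
      have heW : e ∉ W := fun h' => huW (by simpa using W.mul_mem h' h)
      have h3 : Commute e (e⁻¹ * u) := by
        have e1 := eq_inv_of_mul_eq_one_left h2
        have e2 := eq_inv_of_mul_eq_one_left hu2
        have e3 := eq_inv_of_mul_eq_one_left (ex2 _ h)
        change e * (e⁻¹ * u) = e⁻¹ * u * e
        rw [mul_inv_rev, inv_inv, ← e2] at e3
        rw [mul_inv_cancel_left, mul_assoc, ← e3, ← e1, ← mul_assoc, h2, one_mul]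
      have := A.mul_mem he (ZA ((mZ _).2 ⟨h, cen e heT heW _ h h3⟩))
      rwa [mul_inv_cancel_left] at this
    refine le_antisymm (fun t ht => ?_) fun a ha => (mA _ _).2 ⟨((mA _ _).1 ha).1, Aab a ha u huA⟩
    obtain ⟨ht1, ht2⟩ := (mA _ _).1 ht
    obtain ⟨e, he, -, h⟩ := cov' t ht1
    have h3 : Commute u (e⁻¹ * t) := (Aab u huA _ (A.inv_mem he)).mul_right ht2.symm
    have := A.mul_mem he (ZA ((mZ _).2 ⟨h, cen u hu huW _ h h3⟩))
    rwa [mul_inv_cancel_left] at this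

end CL.F4
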