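import Cfsg.Agent.PERM.F4.Four0
import Cfsg.Agent.PERM.F4.Quad
import Cfsg.Agent.PERM.F4.Hex2

/-!
S3404, Case II, `Fx (Sy Q) = Q`: octads, local structure.
-/

set_option autoImplicit false
set_option linter.unusedSectionVars false
set_option maxHeartbeats 400000

namespace CL.F4

open scoped Pointwise
open Subgroup Equiv

variable {G Ω : Type*} [Group G] [Finite G] [MulAction G Ω] [Fintype Ω] [DecidableEq Ω]

namespace O1

/-- `g` acts on the points `e i` as `σ` -/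
def Ac {n : ℕ} (e : Fin n → Ω) (g : G) (σ : Perm (Fin n)) : Prop := ∀ i, g • e i = e (σ i)

variable {n : ℕ} {e : Fin n → Ω} {g h : G} {σ τ : Perm (Fin n)}

theorem Ac.mul (a : Ac e g σ) (b : Ac e h τ) : Ac e (g * h) (σ * τ) := fun i => by
  rw [mul_smul, b, a]; rfl

theorem Ac.inv (a : Ac e g σ) : Ac e g⁻¹ σ⁻¹ := fun i => by
  rw [inv_smul_eq_iff, a]; simp

theorem Ac.pow (a : Ac e g σ) (k : ℕ) : Ac e (g ^ k) (σ ^ k) := by
  induction k with
  | zero => intro i; simp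
  | succ k ih => rw [pow_succ, pow_succ]; exact ih.mul a

theorem Ac.st (a : Ac e g σ) {Q : Finset Ω} (h : ∀ ω ∈ Q, ∃ i, e i = ω ∧ σ i = i) : g ∈ St G Q := fun ω hω => by
  obtain ⟨i, rfl, k⟩ := h ω hω
  rw [a, k]

theorem lift {N : Subgroup G} {F : Finset Ω} (hI : Inv N F) (hA : alternatingGroup F ≤ (act hI).range)
    (he : Function.Injective e) (hF : ∀ ω, ω ∈ F ↔ ∃ i, e i = ω) {p k : ℕ} (hp : p.Prime)
    (hs : Perm.sign σ = 1) (hk : σ ^ p ^ k = 1) : ∃ g ∈ N, Ac e g σ ∧ ∃ j, g ^ p ^ j = 1 := by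
  let ε : Fin n ≃ F := Equiv.ofBijective (fun i => ⟨e i, (hF _).2 ⟨i, rfl⟩⟩)
    ⟨fun i j h => he (congrArg Subtype.val h), fun ω => ((hF _).1 ω.2).imp fun i h => Subtype.ext h⟩
  obtain ⟨g, h1, h2⟩ := lift_p (k := k) hp hI (σ := ε.permCongrHom σ)
    (hA (Perm.mem_alternatingGroup.2 ((Perm.sign_permCongr ε σ).trans hs))) (by rw [← map_pow, hk, map_one])
  refine ⟨g, g.2, fun i => ?_, h2⟩
  have := act_apply hI g (ε i)
  rw [h1] at this
  refine this.symm.trans ?_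
  show ((ε.permCongr σ (ε i) : F) : Ω) = _
  rw [Equiv.permCongr_apply, Equiv.symm_apply_apply]
  rfl

theorem exists_e {F Q : Finset Ω} (h8 : F.card = 8) (hQF : Q ⊆ F) (hQ : Q.card = 4) :
    ∃ e : Fin 8 → Ω, Function.Injective e ∧ (∀ ω, ω ∈ F ↔ ∃ i, e i = ω) ∧
      (∀ ω, ω ∈ Q ↔ ∃ i < 4, e i = ω) ∧ ∀ ω, ω ∈ F \ Q ↔ ∃ i, 4 ≤ i ∧ e i = ω := by
  obtain ⟨a, b, c, d, -, e1⟩ := exists_D4 hQ
  obtain ⟨a', b', c', d', -, e2⟩ := exists_D4 (Q := F \ Q) (by rw [Finset.card_sdiff_of_subset hQF, h8, hQ])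
  have h1 : ∀ ω, ω ∈ Q ↔ ∃ i < 4, (![a, b, c, d, a', b', c', d'] : Fin 8 → Ω) i = ω := fun ω => by
    rw [e1]; simp [Fin.exists_fin_succ, eq_comm]
  have h2 : ∀ ω, ω ∈ F \ Q ↔ ∃ i, 4 ≤ i ∧ (![a, b, c, d, a', b', c', d'] : Fin 8 → Ω) i = ω := fun ω => by
    rw [e2]; simp [Fin.exists_fin_succ, eq_comm]
  have h3 : ∀ ω, ω ∈ F ↔ ∃ i, (![a, b, c, d, a', b', c', d'] : Fin 8 → Ω) i = ω := fun ω => by
    refine ⟨fun h => ?_, fun ⟨i, h⟩ => ?_⟩
    · by_cases k : ω ∈ Q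
      · exact ((h1 ω).1 k).imp fun _ => And.right
      · exact ((h2 ω).1 (Finset.mem_sdiff.2 ⟨h, k⟩)).imp fun _ => And.right
    · rcases lt_or_ge i 4 with k | k
      · exact hQF ((h1 ω).2 ⟨i, k, h⟩)
      · exact (Finset.mem_sdiff.1 ((h2 ω).2 ⟨i, k, h⟩)).1
  refine ⟨_, ?_, h3, h1, h2⟩
  have : (Finset.univ.image (![a, b, c, d, a', b', c', d'] : Fin 8 → Ω)).card = (Finset.univ : Finset (Fin 8)).card := by
    rw [Finset.card_univ, Fintype.card_fin, ← h8]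
    congr 1
    ext ω
    simp only [h3, Finset.mem_image, Finset.mem_univ, true_and]
  exact fun i j h => Finset.card_image_iff.1 this (by simp) (by simp) h

end O1

open O1

/-- `F = Fx P` (8 points), `N = N(P)` induces the alternating group (`four0`); `quad`, `class_two`. -/
theorem oct1 (hy : Hyp2 G Ω) (hf : ∀ Q : Finset Ω, Q.card = 4 → Fx Ω (Sy G Q) = Q)
    {P : Subgroup G} (hP : PMax Ω 4 P) (h8 : (Fx Ω P).card = 8) (h1 : P ≠ ⊥) {Q : Finset Ω}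
    (hQF : Q ⊆ Fx Ω P) (hQ : Q.card = 4) :
    Sy G Q ≤ Subgroup.normalizer (P : Set G) ∧ P.relIndex (Sy G Q) = 4 ∧
      Sy G Q ⊓ Subgroup.centralizer (Sy G Q : Set G) ≤ P ∧
      (∃ c ∈ St G Q, c ∉ Kn G Q ∧ orderOf c = 3 ∧ c ∈ Subgroup.normalizer (P : Set G) ∧
        fx Ω c ⊆ Fx Ω P) ∧
      ∃ x₀ ∈ Sy G Q, ∃ g ∈ Subgroup.normalizer (P : Set G),
        ∀ w ∈ P, Commute (x₀ * (g * x₀ * g⁻¹)) w → w = 1 := by
  haveI : Fact (Nat.Prime 3) := ⟨Nat.prime_three⟩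
  have hA : alternatingGroup (Fx Ω P) ≤ (act (inv_Fx (Ω := Ω) P)).range := by
    rcases (four0 hy hf hP).2 with h | h | h
    · omega
    · exact h.2.ge
    · omega
  obtain ⟨e, he, eF, eQ, eR⟩ := exists_e h8 hQF hQ
  set N := normalizer (P : Set G) with hN
  have hF := hy.frob Q hQ
  have L := fun (σ : Perm (Fin 8)) (p : ℕ) => lift (σ := σ) (p := p) (k := 1) (inv_Fx P) hA he eF
  have stQ : ∀ {g : G} {σ}, Ac e g σ → (∀ i < 4, σ i = i) → g ∈ St G Q := fun a h => a.st fun ω hω => by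
    obtain ⟨i, k, rfl⟩ := (eQ ω).1 hω
    exact ⟨i, rfl, h i k⟩
  have stF : ∀ {g : G} {σ}, Ac e g σ → σ = 1 → g ∈ St G (Fx Ω P) := fun a h => a.st fun ω hω => by
    obtain ⟨i, rfl⟩ := (eF ω).1 hω
    exact ⟨i, rfl, by rw [h]; rfl⟩
  have eP : ∀ i, e i ∈ Fx Ω P := fun i => (eF _).2 ⟨i, rfl⟩
  obtain ⟨c, cN, ac, j, cj3⟩ := L (swap 4 6 * swap 4 5) 3 Nat.prime_three (by decide) (by decide)
  obtain ⟨x₀, xN, ax, x2⟩ := L (swap 4 5 * swap 6 7) 2 Nat.prime_two (by decide) (by decide)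
  have cQ := stQ ac (by decide)
  have xS := mem_Sy_of (stQ ax (by decide)) x2
  have cF : c ∉ St G (Fx Ω P) := fun h => absurd (he ((ac 4).symm.trans (h _ (eP 4)))) (by decide)
  have cK : c ∉ Kn G Q := fun h => by
    have := hy.commute_of_odd hQ h (Odd.of_dvd_nat (Odd.pow (by decide)) (orderOf_dvd_of_pow_eq_one cj3)) xS
    exact absurd (he (((ac.mul ax) 4).symm.trans (this.eq ▸ (ax.mul ac) 4))) (by decide)
  have K3 : ¬ 3 ∣ Nat.card (Kn G Q) := fun d => cK (hF.mem_of_dvd Nat.prime_three d cQ cj3)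
  have c3 : c ^ 3 = 1 := by
    by_contra n
    obtain ⟨i, hi⟩ := exists_pow_prime (k := j) Nat.prime_three (g := c ^ 3)
      (by rw [← pow_mul, mul_comm, pow_mul, cj3, one_pow]) n
    have s : (c ^ 3) ^ i ∈ St G (Fx Ω P) := pow_mem (stF (ac.pow 3) (by decide)) i
    have s8 := Finset.card_le_card (mem_St_iff.1 s)
    obtain ⟨k1, -, -, k4⟩ := lemE hy Nat.prime_three hi hQ (St_mono hQF s) (by
      rw [← pow_mul] at hi ⊢
      exact hF.pow_notMem cQ cK fun e => by rw [e, orderOf_one] at hi; omega)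
    exact cF (St_mono (mem_St_iff.1 s) ((k4 (by omega)).2 c (((Commute.refl c).pow_right 3).pow_right i)
      (hQ ▸ Finset.card_le_card (Finset.subset_inter (mem_St_iff.1 (St_mono hQF s)) (mem_St_iff.1 cQ)))))
  have co : orderOf c = 3 := orderOf_eq_prime c3 fun e => cF (e ▸ one_mem _)
  have nY : ∀ g ∈ N, ∀ y ∈ N ⊓ St G (Fx Ω P), g * y * g⁻¹ ∈ N ⊓ St G (Fx Ω P) := fun g hg y hy =>
    mem_inf.2 ⟨mul_mem (mul_mem hg (mem_inf.1 hy).1) (inv_mem hg), fun ω hω => by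
      rw [mul_smul, mul_smul, (mem_inf.1 hy).2 _ (inv_Fx P _ (inv_mem hg) ω hω), smul_inv_smul]⟩
  have Y3 : ¬ 3 ∣ Nat.card (N ⊓ St G (Fx Ω P) : Subgroup G) := fun d => by
    obtain ⟨y, yo⟩ := exists_prime_orderOf_dvd_card' 3 d
    rw [← orderOf_coe] at yo
    have pz : ∀ {z : G}, orderOf z = 3 → IsPGroup 3 (zpowers z) := fun h =>
      IsPGroup.of_card (n := 1) (by rw [Nat.card_zpowers, h, pow_one])
    obtain ⟨T, t1, t2, t3, t4, -⟩ := exists_max_pgroup Nat.prime_three (X := N ⊓ St G Q)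
      (zpowers_le.2 ⟨cN, cQ⟩) (pz co)
    obtain ⟨g, hg, k⟩ := conj_into_max Nat.prime_three t2 t3 t4
      (zpowers_le.2 (mem_inf.2 ⟨y.2.1, St_mono hQF y.2.2⟩)) (pz yo)
    have := zpowers_eq_of_cyclic (hF.cyclic Nat.prime_three (by decide) K3 (t2.trans inf_le_right) t3)
      (t1 (mem_zpowers c)) (k (conj_mem_cj.2 (mem_zpowers y.1)))
      (by rw [co, ← yo]; exact ((MulAut.conj g).orderOf_eq y.1).symm)
    exact cF ((zpowers_le.2 (nY g hg.1 y.1 y.2).2) (this.le (mem_zpowers c)))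
  obtain ⟨g₁, g1N, a1, -⟩ := L (swap 4 5 * swap 0 1) 2 Nat.prime_two (by decide) (by decide)
  obtain ⟨t, -, ht⟩ := real_lift inf_le_left nY Nat.prime_three Y3 cN co g1N
    (mem_inf.2 ⟨mul_mem (mul_mem (mul_mem g1N cN) (inv_mem g1N)) cN,
      stF (((a1.mul ac).mul a1.inv).mul ac) (by decide)⟩)
  have c5 := (lemE hy Nat.prime_three co hQ cQ cK).2.1 ⟨t, ht⟩
  have fc : fx Ω c ⊆ Fx Ω P := by
    have n7 : e 7 ∉ Q := (Finset.mem_sdiff.1 ((eR _).2 ⟨7, by decide, rfl⟩)).2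
    rw [← Finset.eq_of_subset_of_card_le (s := insert (e 7) Q) (Finset.insert_subset
      (mem_fx.2 ((ac 7).trans (congrArg e (by decide)))) (mem_St_iff.1 cQ))
      (by rw [Finset.card_insert_of_notMem n7]; omega)]
    exact Finset.insert_subset (eP 7) hQF
  have h4 : (Fx Ω (Sy G Q)).card = 4 := by rw [hf Q hQ, hQ]
  have PS := (hP.lt_Sy h4 hQF).1
  set E := Sy G Q ⊓ N with hE
  have PE : P ≤ E := le_inf PS le_normalizer
  have cR : (Fx Ω P \ Q).card = 4 := by rw [Finset.card_sdiff_of_subset hQF, h8, hQ]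
  have i4 : P.relIndex E = 4 := by
    have d := H2.rel_dvd hy hf hP hQF hQ
    have t := card_eq_of_trans (N := E) (F := Fx Ω P \ Q) (x := e 4) (fun g hg ω hω => by
        rw [Finset.mem_sdiff] at hω ⊢
        refine ⟨inv_Fx P g hg.2 ω hω.1, fun e => hω.2 ?_⟩
        have := Sy_le Q (inv_mem (mem_inf.1 hg).1) _ e
        rw [inv_smul_smul] at this
        rwa [this]) ((eR _).2 ⟨4, le_rfl, rfl⟩) fun y hy => by
      obtain ⟨i, hi, rfl⟩ := (eR y).1 hy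
      obtain ⟨σ, s1, s2, s3, s4⟩ : ∃ σ : Perm (Fin 8), Perm.sign σ = 1 ∧ σ ^ 2 ^ 1 = 1 ∧ (∀ i < 4, σ i = i) ∧
          σ 4 = i := by
        obtain rfl | rfl | rfl | rfl := (by decide : ∀ i : Fin 8, 4 ≤ i → i = 4 ∨ i = 5 ∨ i = 6 ∨ i = 7) i hi
        · exact ⟨1, by decide⟩
        · exact ⟨swap 4 5 * swap 6 7, by decide⟩
        · exact ⟨swap 4 6 * swap 5 7, by decide⟩
        · exact ⟨swap 4 7 * swap 5 6, by decide⟩
      obtain ⟨g, gN, a, g2⟩ := L σ 2 Nat.prime_two s1 s2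
      exact ⟨g, ⟨mem_Sy_of (stQ a s3) g2, gN⟩, by rw [a, s4]⟩
    have l := card_le_of_le (le_inf PE (le_St_iff.2 (Finset.singleton_subset_iff.2 (eP 4))))
    have r := H2.card_rel PE
    have := Nat.card_pos (α := P)
    rw [cR] at d t
    have := Nat.le_of_dvd (by norm_num) d
    refine le_antisymm this ?_
    nlinarith
  obtain ⟨g, gN, ag, -⟩ := L (swap 4 3 * swap 0 1) 2 Nat.prime_two (by decide) (by decide)
  have hd : ∀ w ∈ P, Commute (x₀ * (g * x₀ * g⁻¹)) w → w = 1 := fun w hw cm => by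
    have au := ax.mul ((ag.mul ax).mul ag.inv)
    have c0 : ({e 0, e 1, e 2, e 6} : Finset Ω).card = 4 :=
      D4.card ⟨he.ne (by decide), he.ne (by decide), he.ne (by decide), he.ne (by decide),
        he.ne (by decide), he.ne (by decide)⟩
    refine (hy.frob _ c0).fpf _ (au.st fun ω hω => ?_) (notMem_of_cyc3 (a := e 3) (b := e 4) (c := e 5)
      (hy.toHyp.card_Kn hQ c0 ▸ K3) (he.ne (by decide)) ((au 3).trans (congrArg e (by decide)))
      ((au 4).trans (congrArg e (by decide))) ((au 5).trans (congrArg e (by decide)))) w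
      (hy.Sy_le_Kn c0 (le_Sy hP.two (le_St_iff.2 fun ω hω => ?_) hw)) cm <;>
    simp only [Finset.mem_insert, Finset.mem_singleton] at hω <;> rcases hω with rfl | rfl | rfl | rfl
    exacts [⟨_, rfl, by decide⟩, ⟨_, rfl, by decide⟩, ⟨_, rfl, by decide⟩, ⟨_, rfl, by decide⟩, eP _, eP _, eP _,
      eP _]
  have cS := norm_Sy (smul_eq_of_mem_St cQ)
  have fp : ∀ t ∈ Sy G Q, Commute c t → t = 1 := fun t ht => hF.fpf c cQ cK t (hy.Sy_le_Kn hQ ht)
  obtain ⟨-, -, q3, q4, -⟩ := quad ((hy.pg hQ).to_inf_left (K := N)) PE i4 inf_le_right c3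
    (mem_normalizer_fintype fun y hy => mem_inf.2 ⟨(mem_normalizer_iff.1 cS y).1 hy.1,
      mul_mem (mul_mem cN (mem_inf.1 hy).2) (inv_mem cN)⟩) cN (fun t ht => fp t ht.1) ⟨xS, xN⟩ gN hd
  have ZP : Sy G Q ⊓ centralizer (Sy G Q : Set G) ≤ P := fun z hz => by
    by_contra zP
    have zc : ∀ a ∈ P, a * z = z * a := fun a ha => hz.2 a (PS ha)
    rw [inf_eq_left.2 fun a ha t ht => (q3 z ⟨hz.1, centralizer_le_normalizer _ zc⟩ zP a ha (zc a ha).symm t ht).eq]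
      at q4
    have := (one_lt_card_iff_ne_bot P).2 h1
    nlinarith
  have SN : Sy G Q ≤ N := fun a ha => mem_normalizer_fintype fun b hb => by
    have := ZP (mem_inf.2 ⟨mul_mem (mul_mem (mul_mem ha (PS hb)) (inv_mem ha)) (inv_mem (PS hb)), fun t ht =>
      (class_two c3 cS fp a ha b (PS hb) t ht).eq.symm⟩)
    exact (mul_mem_cancel_right (inv_mem hb)).1 this
  exact ⟨SN, by rw [← i4, hE, inf_eq_left.2 SN], ZP, ⟨c, cQ, cK, co, cN, fc⟩, x₀, xS, g, gN, hd⟩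

end CL.F4
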