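import Cfsg.Agent.PERM.F4.Oct1

/-!
S3404, Case II, `Fx (Sy Q) = Q`: no octads.
-/

set_option autoImplicit false

namespace CL.F4

open scoped Pointwise

universe u

namespace O2

section
variable {G Ω : Type*} [Group G] [Finite G] [MulAction G Ω] [Fintype Ω] [DecidableEq Ω]

variable (Ω) in
/-- octad groups -/
structure Oc (W : Subgroup G) : Prop where
  pm : PMax Ω 4 W
  h8 : (Fx Ω W).card = 8
  ne : W ≠ ⊥

/-- the local data at `Q` -/
structure Dat (Q : Finset Ω) (W A : Subgroup G) : Prop where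
  hQ : Q.card = 4
  oc : Oc Ω W
  sub : Q ⊆ Fx Ω W
  ab : ∀ a ∈ W, ∀ b ∈ W, Commute a b
  sq : ∀ a ∈ W, a * a = 1
  Ale : A ≤ Sy G Q
  Aab : ∀ a ∈ A, ∀ b ∈ A, Commute a b
  Asq : ∀ a ∈ A, a * a = 1
  cent : ∀ y ∈ Sy G Q, y ∉ W → y * y = 1 → Sy G Q ⊓ Subgroup.centralizer ({y} : Set G) = A
  cW : Nat.card (Sy G Q) = 4 * Nat.card W
  cA : Nat.card A ^ 2 = 16 * Nat.card W
  big : 16 ≤ Nat.card W
  nle : ¬ A ≤ W
  mod3 : (Fx Ω A).card % 3 = 1

theorem Oc.cj {W : Subgroup G} (h : Oc Ω W) (g : G) : Oc Ω (cj g W) := by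
  refine ⟨h.pm.cj g, by rw [Fx_cj, Finset.card_smul_finset, h.h8], fun e => h.ne ?_⟩
  rw [← Subgroup.card_eq_one, ← card_cj g W, e, Subgroup.card_bot]

theorem normA {S W A : Subgroup G} (Ale : A ≤ S) (Aab : ∀ a ∈ A, ∀ b ∈ A, Commute a b)
    (Asq : ∀ a ∈ A, a * a = 1)
    (cent : ∀ y ∈ S, y ∉ W → y * y = 1 → S ⊓ Subgroup.centralizer ({y} : Set G) = A)
    (nle : ¬ A ≤ W) {g : G} (hS : g ∈ Subgroup.normalizer (S : Set G))
    (hW : g ∈ Subgroup.normalizer (W : Set G)) : g ∈ Subgroup.normalizer (A : Set G) := by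
  obtain ⟨y, hyA, hyW⟩ := SetLike.not_le_iff_exists.1 nle
  rw [Subgroup.mem_normalizer_iff] at hS hW
  have e := cent (g * y * g⁻¹) ((hS y).1 (Ale hyA)) (fun h => hyW ((hW y).2 h))
    (by rw [conj_mul, Asq y hyA, mul_one, mul_inv_cancel])
  refine cj_eq_iff.1 (Subgroup.eq_of_le_of_card_ge ?_ (card_cj g A).ge)
  rintro _ ⟨a, ha, rfl⟩
  rw [← e]
  refine Subgroup.mem_inf.2 ⟨(hS a).1 (Ale ha), Subgroup.mem_centralizer_singleton_iff.2 ?_⟩
  change g * a * g⁻¹ * (g * y * g⁻¹) = g * y * g⁻¹ * (g * a * g⁻¹)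
  rw [conj_mul, conj_mul, (Aab a ha y hyA).eq]

theorem exists_dat (hy : Hyp2 G Ω) (hf : ∀ Q : Finset Ω, Q.card = 4 → Fx Ω (Sy G Q) = Q)
    {W : Subgroup G} (h : Oc Ω W) {Q : Finset Ω} (hQ : Q.card = 4) (hs : Q ⊆ Fx Ω W) :
    ∃ A : Subgroup G, Dat Q W A := by
  obtain ⟨nT, hi, -, ⟨c, hcQ, hcK, hc3, hcW, hcF⟩, x₀, hx₀, g, hg, hd⟩ :=
    oct1 hy hf h.pm h.h8 h.ne hs hQ
  have hWS : W ≤ Sy G Q := le_Sy h.pm.two (le_St_iff.2 hs)
  have hcS : c ∈ Subgroup.normalizer (Sy G Q : Set G) := norm_Sy (smul_eq_of_mem_St hcQ)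
  have c3 : c ^ 3 = 1 := by rw [← hc3, pow_orderOf_eq_one]
  obtain ⟨ab, sq, -, cW, -, A, Ale, AW, cA, Asq, Aab, cent⟩ :=
    quad (hy.pg hQ) hWS hi nT c3 hcS hcW
      (fun t ht => (hy.frob Q hQ).fpf c hcQ hcK t (hy.Sy_le_Kn hQ ht)) hx₀ hg hd
  set z := Nat.card ↥(W ⊓ Subgroup.centralizer (Sy G Q : Set G)) with hz
  have z0 : 0 < z := Nat.card_pos
  have nle : ¬ A ≤ W := by
    intro hle
    rw [inf_eq_left.2 hle] at AW
    rw [AW, ← hz] at cA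
    omega
  have hcA := normA Ale Aab Asq cent nle hcS hcW
  have m1 := (hy.frob Q hQ).card_mod (k := 1) Nat.prime_three hcQ hcK (by rw [pow_one, c3])
    (Ale.trans (hy.Sy_le_Kn hQ)) (fun a ha => (Subgroup.mem_normalizer_iff.1 hcA a).1 ha)
  have z1 : z ≠ 1 := by
    intro e
    rw [e, one_pow, Subgroup.card_eq_one] at cW
    exact h.ne cW
  have z4 : 4 ≤ z := by
    rw [cA] at m1
    unfold Nat.ModEq at m1
    omega
  refine ⟨A, hQ, h, hs, ab, sq, Ale, Aab, Asq, cent, ?_, ?_, ?_, nle, ?_⟩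
  · rw [← Subgroup.relIndex_bot_left, ← Subgroup.relIndex_mul_relIndex ⊥ W _ bot_le hWS, hi,
      Subgroup.relIndex_bot_left, mul_comm]
  · rw [cA, cW]; ring
  · rw [cW]; nlinarith
  · obtain ⟨y, hyA, hyW⟩ := SetLike.not_le_iff_exists.1 nle
    have e1 := h.pm.fix hy hQ (by rw [hf Q hQ, hQ]) hs (Ale hyA) hyW
    rw [hf Q hQ] at e1
    have e2 : Fx Ω A ∩ fx Ω c = Q := by
      apply Finset.Subset.antisymm
      · intro ω hω
        rw [Finset.mem_inter] at hω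
        rw [← e1, Finset.mem_inter]
        exact ⟨hcF hω.2, Fx_sub_fx hyA hω.1⟩
      · exact Finset.subset_inter (le_St_iff.1 (Ale.trans (Sy_le Q))) (mem_St_iff.1 hcQ)
    have m2 := card_fx_mod (k := 1) Nat.prime_three (g := c) (F := Fx Ω A)
      (by rw [pow_one, c3]; exact one_mem _) (inv_Fx A c hcA)
    rw [e2, hQ] at m2
    unfold Nat.ModEq at m2
    omega

theorem exists_oc (hy : Hyp2 G Ω) {P : Subgroup G} (h : Oc Ω P) {Q : Finset Ω} (hQ : Q.card = 4) :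
    ∃ W : Subgroup G, Oc Ω W ∧ Q ⊆ Fx Ω W := by
  obtain ⟨Q₀, h0, hQ₀⟩ := Finset.exists_subset_card_eq (show 4 ≤ (Fx Ω P).card by rw [h.h8]; omega)
  obtain ⟨g, rfl⟩ := hy.toHyp.exists_smul hQ₀ hQ
  exact ⟨cj g P, h.cj g, by rw [Fx_cj]; exact Finset.smul_finset_subset_smul_finset h0⟩

theorem card_W (hy : Hyp2 G Ω) {Q Q' : Finset Ω} {W A W' A' : Subgroup G} (D : Dat Q W A)
    (D' : Dat Q' W' A') : Nat.card W = Nat.card W' := by
  have := hy.toHyp.card_Sy D.hQ D'.hQ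
  rw [D.cW, D'.cW] at this
  omega

theorem card_A (hy : Hyp2 G Ω) {Q Q' : Finset Ω} {W A W' A' : Subgroup G} (D : Dat Q W A)
    (D' : Dat Q' W' A') : Nat.card A = Nat.card A' := by
  apply Nat.pow_left_injective (n := 2) (by norm_num)
  change Nat.card A ^ 2 = Nat.card A' ^ 2
  rw [D.cA, D'.cA, card_W hy D D']

theorem not_le_A (hy : Hyp2 G Ω) (hf : ∀ Q : Finset Ω, Q.card = 4 → Fx Ω (Sy G Q) = Q)
    {Q : Finset Ω} {W A W' : Subgroup G} (D : Dat Q W A) (h : Oc Ω W') : ¬ W' ≤ A := by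
  intro hle
  obtain ⟨Q', h0, hQ'⟩ := Finset.exists_subset_card_eq (show 4 ≤ (Fx Ω W').card by rw [h.h8]; omega)
  obtain ⟨A', D'⟩ := exists_dat hy hf h hQ' h0
  have e := card_W hy D D'
  have h1 : Nat.card A ≤ Nat.card W' := by
    rw [← e]
    have h2 := D.cA
    have h3 := D.big
    by_contra h4
    nlinarith
  have h2 := Subgroup.eq_of_le_of_card_ge hle h1
  have h3 := D.mod3
  rw [← h2, h.h8] at h3
  omega

theorem uniqW (hy : Hyp2 G Ω) (hf : ∀ Q : Finset Ω, Q.card = 4 → Fx Ω (Sy G Q) = Q)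
    {Q : Finset Ω} {W A W' : Subgroup G} (D : Dat Q W A) (h : Oc Ω W') (hs : Q ⊆ Fx Ω W') :
    W' = W := by
  by_cases hle : W' ≤ W
  · exact (h.pm.max W D.oc.pm.two hle D.oc.pm.big).symm
  exfalso
  obtain ⟨y, hy', hyW⟩ := SetLike.not_le_iff_exists.1 hle
  obtain ⟨A', D'⟩ := exists_dat hy hf h D.hQ hs
  have hWS : W' ≤ Sy G Q := le_Sy h.pm.two (le_St_iff.2 hs)
  refine not_le_A hy hf D h fun w hw => ?_
  rw [← D.cent y (hWS hy') hyW (D'.sq y hy')]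
  exact Subgroup.mem_inf.2 ⟨hWS hw, Subgroup.mem_centralizer_singleton_iff.2 (D'.ab w hw y hy').eq⟩

theorem normW (hy : Hyp2 G Ω) (hf : ∀ Q : Finset Ω, Q.card = 4 → Fx Ω (Sy G Q) = Q)
    {Q : Finset Ω} {W A : Subgroup G} (D : Dat Q W A) {g : G} (hg : g • Q = Q) :
    g ∈ Subgroup.normalizer (W : Set G) := by
  refine cj_eq_iff.1 (uniqW hy hf D (D.oc.cj g) ?_)
  rw [Fx_cj, ← hg]
  exact Finset.smul_finset_subset_smul_finset D.sub

theorem St_le_norm (hy : Hyp2 G Ω) (hf : ∀ Q : Finset Ω, Q.card = 4 → Fx Ω (Sy G Q) = Q)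
    {Q : Finset Ω} {W A : Subgroup G} (D : Dat Q W A) :
    St G Q ≤ Subgroup.normalizer (A : Set G) := fun _ hg =>
  normA D.Ale D.Aab D.Asq D.cent D.nle (norm_Sy (smul_eq_of_mem_St hg))
    (normW hy hf D (smul_eq_of_mem_St hg))

theorem max2 (hy : Hyp2 G Ω) (hf : ∀ Q : Finset Ω, Q.card = 4 → Fx Ω (Sy G Q) = Q)
    {t : Finset Ω} (ht : t.card = 3) {x : Ω} (hx : x ∉ t) {U B : Subgroup G}
    (hU : Fx Ω U = insert x t) (hB : IsPGroup 2 B) (hBt : B ≤ St G t) (hUB : U ≤ B) :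
    B ≤ Sy G (insert x t) := by
  have hQ : (insert x t).card = 4 := by rw [Finset.card_insert_of_notMem hx, ht]
  have c1 := card_Fx_mod (Ω := Ω) Nat.prime_two (hy.pg hQ) (F := Finset.univ)
    (fun _ _ _ _ => Finset.mem_univ _)
  have c2 := card_Fx_mod (Ω := Ω) Nat.prime_two hB (F := Finset.univ)
    (fun _ _ _ _ => Finset.mem_univ _)
  rw [Finset.univ_inter] at c1 c2
  rw [hf _ hQ, hQ] at c1
  have s1 : t ⊆ Fx Ω B := le_St_iff.1 hBt
  have s2 : Fx Ω B ⊆ insert x t := hU ▸ Fx_anti hUB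
  have c3 := Finset.card_le_card s1
  refine le_Sy hB (le_St_iff.2 (Finset.eq_of_subset_of_card_le s2 ?_).ge)
  unfold Nat.ModEq at c1 c2
  omega

theorem step2 [FaithfulSMul G Ω] (hy : Hyp2 G Ω)
    (hf : ∀ Q : Finset Ω, Q.card = 4 → Fx Ω (Sy G Q) = Q) {P : Subgroup G} (hP : Oc Ω P) {z : G}
    (z1 : z ≠ 1) (zz : z * z = 1) (h2 : 1 < (fx Ω z).card) :
    ∃ (Q : Finset Ω) (W : Subgroup G), Q.card = 4 ∧ Q ⊆ fx Ω z ∧ Oc Ω W ∧ Q ⊆ Fx Ω W ∧ z ∉ W := by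
  obtain ⟨α, hα⟩ : ∃ α : Ω, z • α ≠ α := by
    by_contra h
    push Not at h
    exact z1 (FaithfulSMul.eq_of_smul_eq_smul (α := Ω) fun ω => by rw [h, one_smul])
  obtain ⟨a, ha, b, hb, hab⟩ := Finset.one_lt_card.1 h2
  rw [mem_fx] at ha hb
  have zα : z • z • α = α := by rw [← mul_smul, zz, one_smul]
  have hD : D4 a b α (z • α) := by
    refine ⟨hab, ?_, ?_, ?_, ?_, hα.symm⟩
    · rintro rfl; exact hα ha
    · intro e; exact hα (by rw [← e]; rw [← ha] at e; exact smul_left_cancel z e)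
    · rintro rfl; exact hα hb
    · intro e; exact hα (by rw [← e]; rw [← hb] at e; exact smul_left_cancel z e)
  obtain ⟨W, hW, hs⟩ := exists_oc hy hP hD.card
  obtain ⟨A, D⟩ := exists_dat hy hf hW hD.card hs
  have hN := normW hy hf D (g := z) (smul_eq_of_maps fun ω hω => by
    simp only [Finset.mem_insert, Finset.mem_singleton] at hω ⊢
    rcases hω with rfl | rfl | rfl | rfl
    · exact Or.inl ha
    · exact Or.inr (Or.inl hb)
    · exact Or.inr (Or.inr (Or.inr rfl))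
    · exact Or.inr (Or.inr (Or.inl zα)))
  have h8 := hW.h8
  obtain ⟨-, h | ⟨-, hA⟩ | ⟨h, -⟩⟩ := four0 hy hf hW.pm
  · omega
  swap
  · omega
  have d4 := four_dvd (inv_Fx (Ω := Ω) W) hA.le hN (by rw [zz]; exact one_mem _)
  have c1 := Finset.card_sdiff_add_card_inter (Fx Ω W) (fx Ω z)
  have c2 : 0 < (Fx Ω W \ fx Ω z).card :=
    Finset.card_pos.2 ⟨α, Finset.mem_sdiff.2 ⟨hs (by simp), fun h => hα (mem_fx.1 h)⟩⟩
  have c3 : 0 < (Fx Ω W ∩ fx Ω z).card :=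
    Finset.card_pos.2 ⟨a, Finset.mem_inter.2 ⟨hs (by simp), mem_fx.2 ha⟩⟩
  refine ⟨Fx Ω W ∩ fx Ω z, W, by omega, Finset.inter_subset_right, hW, Finset.inter_subset_left,
    fun h => hα (mem_Fx.1 (hs (by simp)) z h)⟩

theorem step3 [FaithfulSMul G Ω] (hy : Hyp2 G Ω)
    (hf : ∀ Q : Finset Ω, Q.card = 4 → Fx Ω (Sy G Q) = Q) {P : Subgroup G} (hP : Oc Ω P)
    (h : ∀ (Q : Finset Ω) (W A : Subgroup G), Dat Q W A → Fx Ω A = Q) : False := by
  obtain ⟨z, hz, z1⟩ := (Subgroup.bot_or_exists_ne_one P).resolve_left hP.ne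
  obtain ⟨Q, hQP, hQ⟩ := Finset.exists_subset_card_eq (show 4 ≤ (Fx Ω P).card by rw [hP.h8]; omega)
  obtain ⟨A, D⟩ := exists_dat hy hf hP hQ hQP
  have zz := D.sq z hz
  have hQz : Q ⊆ fx Ω z := hQP.trans (Fx_sub_fx hz)
  have c1 := Finset.card_le_card hQz
  obtain ⟨Q₀, W₀, hQ₀, s0, o0, t0, n0⟩ := step2 hy hf hP z1 zz (by omega)
  obtain ⟨A₀, D₀⟩ := exists_dat hy hf o0 hQ₀ t0
  refine exch (F := fx Ω z) (fun Q' => ∀ W : Subgroup G, Oc Ω W → Q' ⊆ Fx Ω W → z ∉ W)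
    (fun W hW hs => by rw [uniqW hy hf D₀ hW hs]; exact n0) s0 hQ₀ ?_ hQz hQ P hP hQP hz
  intro t htz ht x hx y hy' hxt hyt H W₂ o2 s2 hz2
  have hQ1 : (insert x t).card = 4 := by rw [Finset.card_insert_of_notMem hxt, ht]
  have hQ2 : (insert y t).card = 4 := by rw [Finset.card_insert_of_notMem hyt, ht]
  obtain ⟨W₁, o1, s1⟩ := exists_oc hy hP hQ1
  obtain ⟨A₁, D₁⟩ := exists_dat hy hf o1 hQ1 s1
  obtain ⟨A₂, D₂⟩ := exists_dat hy hf o2 hQ2 s2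
  have zS : z ∈ Sy G (insert x t) :=
    mem_Sy_of (mem_St_iff.2 (Finset.insert_subset hx htz)) ⟨1, by rw [pow_one, pow_two, zz]⟩
  have e := D₁.cent z zS (H W₁ o1 s1) zz
  obtain ⟨g, -, hg⟩ := conj_into_max Nat.prime_two
    (X := Subgroup.centralizer ({z} : Set G) ⊓ St G t) (A := A₁) (R := W₂)
    (le_inf (e ▸ inf_le_right)
      ((D₁.Ale.trans (Sy_le _)).trans (St_mono (Finset.subset_insert _ _))))
    ((hy.pg hQ1).to_le D₁.Ale)
    (fun B hBX hB hAB => by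
      rw [← e]
      exact le_inf (max2 hy hf ht hxt (h _ _ _ D₁) hB (hBX.trans inf_le_right) hAB)
        (hBX.trans inf_le_left))
    (le_inf (fun w hw => Subgroup.mem_centralizer_singleton_iff.2 (D₂.ab w hw z hz2).eq)
      (le_St_iff.2 ((Finset.subset_insert _ _).trans s2))) o2.pm.two
  exact not_le_A hy hf D₁ (o2.cj g) hg

theorem step4 (hy : Hyp2 G Ω) (hf : ∀ Q : Finset Ω, Q.card = 4 → Fx Ω (Sy G Q) = Q)
    {Q : Finset Ω} {W A : Subgroup G} (D : Dat Q W A) {Q' : Finset Ω} (hs : Q' ⊆ Fx Ω A)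
    (hQ' : Q'.card = 4) : ∃ W' : Subgroup G, Dat Q' W' A := by
  refine exch (F := Fx Ω A) (fun Q' => ∃ W' : Subgroup G, Dat Q' W' A) ⟨W, D⟩
    (le_St_iff.1 (D.Ale.trans (Sy_le _))) D.hQ ?_ hs hQ'
  rintro t htA ht x hx y hy' hxt hyt ⟨W₁, D₁⟩
  have hQ2 : (insert y t).card = 4 := by rw [Finset.card_insert_of_notMem hyt, ht]
  obtain ⟨W₂, o2, s2⟩ := exists_oc hy D.oc hQ2
  obtain ⟨A₂, D₂⟩ := exists_dat hy hf o2 hQ2 s2
  have hA2 : IsPGroup 2 A := (hy.pg D.hQ).to_le D.Ale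
  have AS : A ≤ Sy G (insert y t) := le_Sy hA2 (le_St_iff.2 (Finset.insert_subset hy' htA))
  by_cases hle : A ≤ W₂
  · exfalso
    obtain ⟨g, hgX, hg⟩ := conj_into_max Nat.prime_two
      (X := Subgroup.normalizer (A : Set G) ⊓ St G t) (A := Sy G (insert x t)) (R := W₂)
      (le_inf ((Sy_le _).trans (St_le_norm hy hf D₁))
        ((Sy_le _).trans (St_mono (Finset.subset_insert _ _))))
      (hy.pg D₁.hQ)
      (fun B hBX hB hAB => max2 hy hf ht hxt (hf _ D₁.hQ) hB (hBX.trans inf_le_right) hAB)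
      (le_inf (fun w hw => Subgroup.centralizer_le_normalizer _
          (Subgroup.mem_centralizer_iff.2 fun a ha => (D₂.ab a (hle ha) w hw).eq))
        (le_St_iff.2 ((Finset.subset_insert _ _).trans s2))) o2.pm.two
    have e := uniqW hy hf D₁ (o2.cj g) (le_St_iff.1 (hg.trans (Sy_le _)))
    apply D₁.nle
    rw [← e, ← cj_eq_iff.2 (Subgroup.mem_inf.1 hgX).1]
    exact cj_mono hle
  obtain ⟨v, hvA, hvW⟩ := SetLike.not_le_iff_exists.1 hle
  have e : A = A₂ := by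
    refine Subgroup.eq_of_le_of_card_ge (fun a ha => ?_) (card_A hy D₂ D).le
    rw [← D₂.cent v (AS hvA) hvW (D.Asq v hvA)]
    exact Subgroup.mem_inf.2 ⟨AS ha, Subgroup.mem_centralizer_singleton_iff.2 (D.Aab a ha v hvA).eq⟩
  exact ⟨W₂, e ▸ D₂⟩

end

end O2

variable {G Ω : Type u} [Group G] [Finite G] [MulAction G Ω] [Fintype Ω] [DecidableEq Ω]

open O2 in
/-- Every 4-set `Q` has a unique octad group `W`, with the subgroup `A` of `quad`; if `Fx A = Q` always,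
an exchange argument gives a contradiction; otherwise `N(A)` is 4-transitive on `Fx A`. -/
theorem oct2 [FaithfulSMul G Ω] (hy : Hyp2 G Ω) (ih : IH Ω)
    (hf : ∀ Q : Finset Ω, Q.card = 4 → Fx Ω (Sy G Q) = Q) {P : Subgroup G} (hP : PMax Ω 4 P)
    (h8 : (Fx Ω P).card = 8) : P = ⊥ := by
  by_contra h1
  have oP : Oc Ω P := ⟨hP, h8, h1⟩
  apply step3 hy hf oP
  intro Q W A D
  by_contra hne
  have hQ := D.hQ
  have hs : Q ⊆ Fx Ω A := le_St_iff.1 (D.Ale.trans (Sy_le _))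
  have h5 : 4 < (Fx Ω A).card := hQ ▸ Finset.card_lt_card ⟨hs, fun h => hne (h.antisymm hs)⟩
  have tr : Tr4 (Subgroup.normalizer (A : Set G)) (Fx Ω A) := by
    refine tr4_of_pgroup Nat.prime_two (inv_Fx A) h5 fun Q' hs' hQ' => ?_
    obtain ⟨W', D'⟩ := step4 hy hf D hs' hQ'
    exact ⟨Sy G Q', (Sy_le _).trans (St_le_norm hy hf D'), hy.pg hQ', by
      rw [hf Q' hQ', Finset.inter_eq_right.2 hs']⟩
  have hN := St_le_norm hy hf D
  have h23 := IH.app ih hy.toHyp (inv_Fx A) tr hs hQ hN (fun h => by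
    have := Finset.card_le_card (le_St_iff.1 ((hy.Sy_le_Kn hQ).trans h))
    rw [hf Q hQ] at this
    omega) (fun h => D.nle fun a ha => by
      have : a = 1 := FaithfulSMul.eq_of_smul_eq_smul (α := Ω) fun ω => by
        rw [one_smul]
        exact mem_Fx.1 (h ▸ Finset.mem_univ ω) a ha
      rw [this]
      exact one_mem _)
  have c1 := card_Fx_mod Nat.prime_two (hy.pg hQ) ((inv_Fx (Ω := Ω) A).mono ((Sy_le Q).trans hN))
  rw [hf Q hQ, Finset.inter_eq_right.2 hs, hQ] at c1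
  have c2 := D.mod3
  unfold Nat.ModEq at c1
  omega

end CL.F4
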