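import Cfsg.Agent.PERM.F4.Defs

/-!
S3404, permutation basics (no Frobenius groups).  
-/

set_option autoImplicit false

namespace CL.F4

open scoped Pointwise

variable {G Ω : Type*} [Group G] [MulAction G Ω] [DecidableEq Ω]

theorem D4.card {a b c d : Ω} (h : D4 a b c d) : ({a, b, c, d} : Finset Ω).card = 4 := by
  obtain ⟨h1, h2, h3, h4, h5, h6⟩ := h
  rw [Finset.card_insert_of_notMem (by simp [h1, h2, h3]),
    Finset.card_insert_of_notMem (by simp [h4, h5]), Finset.card_pair h6]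

theorem exists_D4 {Q : Finset Ω} (hQ : Q.card = 4) :
    ∃ a b c d : Ω, D4 a b c d ∧ Q = {a, b, c, d} := by
  obtain ⟨a, t, hat, rfl, ht⟩ := Finset.card_eq_succ.1 hQ
  obtain ⟨b, c, d, h1, h2, h3, rfl⟩ := Finset.card_eq_three.1 ht
  simp only [Finset.mem_insert, Finset.mem_singleton, not_or] at hat
  exact ⟨a, b, c, d, ⟨hat.1, hat.2.1, hat.2.2, h1, h2, h3⟩, rfl⟩

/-- classes of equal size `r` -/
theorem part_dvd {D : Finset Ω} {r : ℕ} (b : Ω → Finset Ω) (h1 : ∀ x ∈ D, x ∈ b x)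
    (h2 : ∀ x ∈ D, b x ⊆ D) (h3 : ∀ x ∈ D, (b x).card = r)
    (h4 : ∀ x ∈ D, ∀ y ∈ b x, b y = b x) : r ∣ D.card := by
  induction hn : D.card using Nat.strong_induction_on generalizing D with
  | _ n ih =>
    rcases D.eq_empty_or_nonempty with rfl | ⟨x, hx⟩
    · subst hn; simp
    · have hsub := h2 x hx
      have hc : (D \ b x).card + (b x).card = D.card := Finset.card_sdiff_add_card_eq_card hsub
      have hpos : 0 < (b x).card := Finset.card_pos.2 ⟨x, h1 x hx⟩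
      have key : r ∣ (D \ b x).card := by
        refine ih _ (by omega) (fun y hy => h1 y (Finset.mem_sdiff.1 hy).1) ?_
          (fun y hy => h3 y (Finset.mem_sdiff.1 hy).1)
          (fun y hy => h4 y (Finset.mem_sdiff.1 hy).1) rfl
        intro y hy z hz
        obtain ⟨hyD, hyx⟩ := Finset.mem_sdiff.1 hy
        refine Finset.mem_sdiff.2 ⟨h2 y hyD hz, fun hzx => hyx ?_⟩
        have e1 := h4 y hyD z hz
        have e2 := h4 x hx z hzx
        rw [← e2, e1]; exact h1 y hyD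
      rw [← hn, ← hc, h3 x hx]
      exact dvd_add key dvd_rfl

/-- a property of 4-subsets of `F` that survives the exchange of one point holds for all of them
(induction on `(Q \ Q₀).card`) -/
theorem exch {F Q₀ : Finset Ω} (P : Finset Ω → Prop) (h0 : P Q₀) (hF : Q₀ ⊆ F) (hc : Q₀.card = 4)
    (h : ∀ t : Finset Ω, t ⊆ F → t.card = 3 → ∀ x ∈ F, ∀ y ∈ F, x ∉ t → y ∉ t →
      P (insert x t) → P (insert y t)) {Q : Finset Ω} (hQF : Q ⊆ F) (hQ : Q.card = 4) : P Q := by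
  induction hn : (Q \ Q₀).card generalizing Q with
  | zero =>
    have : Q ⊆ Q₀ := Finset.sdiff_eq_empty_iff_subset.1 (Finset.card_eq_zero.1 hn)
    rw [Finset.eq_of_subset_of_card_le this (by omega)]
    exact h0
  | succ n ih =>
    obtain ⟨y, hy⟩ : (Q \ Q₀).Nonempty := Finset.card_pos.1 (by omega)
    obtain ⟨hyQ, hy0⟩ := Finset.mem_sdiff.1 hy
    obtain ⟨x, hx⟩ : (Q₀ \ Q).Nonempty := by
      rw [← Finset.card_pos, Finset.card_sdiff_comm (by omega)]; omega
    obtain ⟨hx0, hxQ⟩ := Finset.mem_sdiff.1 hx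
    have ht : (Q.erase y).card = 3 := by rw [Finset.card_erase_of_mem hyQ, hQ]
    have hxt : x ∉ Q.erase y := fun e => hxQ (Finset.mem_of_mem_erase e)
    have htF : Q.erase y ⊆ F := (Finset.erase_subset _ _).trans hQF
    have := h (Q.erase y) htF ht x (hF hx0) y (hQF hyQ) hxt (Finset.notMem_erase _ _) (ih
      (Finset.insert_subset (hF hx0) htF) (by rw [Finset.card_insert_of_notMem hxt, ht]) (by
        have e : insert x (Q.erase y) \ Q₀ = (Q \ Q₀).erase y := by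
          ext z
          simp only [Finset.mem_sdiff, Finset.mem_insert, Finset.mem_erase]
          constructor
          · rintro ⟨rfl | ⟨h1, h2⟩, h3⟩
            · exact absurd hx0 h3
            · exact ⟨h1, h2, h3⟩
          · rintro ⟨h1, h2, h3⟩
            exact ⟨Or.inr ⟨h1, h2⟩, h3⟩
        rw [e, Finset.card_erase_of_mem hy, hn]; rfl))
    rwa [Finset.insert_erase hyQ] at this

/-- `IsPGroup.card_modEq_card_fixedPoints` for `h.mulAction` -/
theorem card_Fx_mod [Fintype Ω] {p : ℕ} (hp : p.Prime) {T : Subgroup G} (hT : IsPGroup p T)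
    {F : Finset Ω} (h : Inv T F) : (F ∩ Fx Ω T).card ≡ F.card [MOD p] := by
  haveI := Fact.mk hp
  letI := h.mulAction
  have h1 := hT.card_modEq_card_fixedPoints F
  have e : Nat.card (MulAction.fixedPoints T F) = (F ∩ Fx Ω T).card := by
    rw [← Nat.card_eq_finsetCard]
    refine Nat.card_congr ⟨fun x => ⟨x.1.1, Finset.mem_inter.2 ⟨x.1.2, mem_Fx.2 fun g hg =>
      congrArg Subtype.val (x.2 ⟨g, hg⟩)⟩⟩, fun y => ⟨⟨y.1, (Finset.mem_inter.1 y.2).1⟩,
        fun g => Subtype.ext (mem_Fx.1 (Finset.mem_inter.1 y.2).2 g g.2)⟩, fun _ => rfl,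
          fun _ => rfl⟩
  rw [e, Nat.card_eq_finsetCard] at h1
  exact h1.symm

/-- an element whose `p^k`-th power fixes `F` pointwise (use the permutation of `F`, e.g.
`Equiv.Perm.card_fixedPoints_modEq` / `Function.card_fixedPoints_modEq`) -/
theorem card_fx_mod [Fintype Ω] {p k : ℕ} (hp : p.Prime) {g : G} {F : Finset Ω}
    (hg : g ^ p ^ k ∈ St G F) (h : ∀ ω ∈ F, g • ω ∈ F) :
    (F ∩ fx Ω g).card ≡ F.card [MOD p] := by
  haveI := Fact.mk hp
  let f : Function.End F := fun x => ⟨g • x.1, h x.1 x.2⟩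
  have hf : ∀ (m : ℕ) (x : F), (((f ^ m) x : F) : Ω) = g ^ m • (x : Ω) := by
    intro m
    induction m with
    | zero => intro x; rw [pow_zero, pow_zero, one_smul]; rfl
    | succ m ih =>
      intro x
      rw [pow_succ, pow_succ, mul_smul]
      exact ih (f x)
  have h1 : f ^ p ^ k = 1 := by
    funext x
    exact Subtype.ext ((hf _ x).trans (hg x x.2))
  have h2 := Equiv.Perm.card_fixedPoints_modEq h1
  have e : Fintype.card (Function.fixedPoints f) = (F ∩ fx Ω g).card := by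
    rw [← Nat.card_eq_finsetCard, ← Nat.card_eq_fintype_card]
    refine Nat.card_congr ⟨fun x => ⟨x.1.1, Finset.mem_inter.2 ⟨x.1.2, mem_fx.2
      (congrArg Subtype.val x.2)⟩⟩, fun y => ⟨⟨y.1, (Finset.mem_inter.1 y.2).1⟩,
        Subtype.ext (mem_fx.1 (Finset.mem_inter.1 y.2).2)⟩, fun _ => rfl, fun _ => rfl⟩
  rw [e, Fintype.card_coe] at h2
  exact h2.symm

open Classical in
/-- the part in `F` of the `N`-orbit of `x` -/
noncomputable def orb (N : Subgroup G) (F : Finset Ω) (x : Ω) : Finset Ω :=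
  F.filter fun y => ∃ g ∈ N, g • x = y

omit [DecidableEq Ω] in
theorem mem_orb {N : Subgroup G} {F : Finset Ω} {x y : Ω} :
    y ∈ orb N F x ↔ y ∈ F ∧ ∃ g ∈ N, g • x = y := by
  simp only [orb, Finset.mem_filter]

omit [DecidableEq Ω] in
theorem orb_inv {N : Subgroup G} {F : Finset Ω} (h : Inv N F) (x : Ω) : Inv N (orb N F x) := by
  intro g hg y hy
  obtain ⟨hyF, k, hk, rfl⟩ := mem_orb.1 hy
  exact mem_orb.2 ⟨h g hg _ hyF, g * k, N.mul_mem hg hk, mul_smul _ _ _⟩

omit [DecidableEq Ω] in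
private theorem card_trans_aux [Finite G] {N : Subgroup G} {F : Finset Ω} (h : Inv N F) {x : Ω}
    (hx : x ∈ F) (ht : ∀ y ∈ F, ∃ g ∈ N, g • x = y) :
    Nat.card N = F.card * Nat.card ↥(N ⊓ St G ({x} : Finset Ω)) := by
  have h1 := (MulAction.stabilizer N x).index_mul_card
  have h2 : (MulAction.stabilizer N x).index = F.card := by
    rw [MulAction.index_stabilizer]
    have : MulAction.orbit N x = (F : Set Ω) := by
      ext y
      constructor
      · rintro ⟨g, rfl⟩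
        exact h g g.2 x hx
      · intro hy
        obtain ⟨g, hg, rfl⟩ := ht y hy
        exact ⟨⟨g, hg⟩, rfl⟩
    rw [this, Set.ncard_coe_finset]
  have h3 : Nat.card (MulAction.stabilizer N x) = Nat.card ↥(N ⊓ St G ({x} : Finset Ω)) := by
    refine Nat.card_congr ⟨fun g => ⟨g.1.1, g.1.2, fun ω hω => ?_⟩,
      fun g => ⟨⟨g.1, g.2.1⟩, g.2.2 x (Finset.mem_singleton_self x)⟩, fun _ => rfl, fun _ => rfl⟩
    rw [Finset.mem_singleton.1 hω]; exact g.2
  rw [← h1, h2, h3]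

/-- `T` acts semiregularly modulo `P`: all orbits have length `|T : P|` -/
theorem dvd_of_semireg [Finite G] {T P : Subgroup G} {F : Finset Ω} (h : Inv T F) (hP : P ≤ T)
    (hPF : P ≤ St G F) (hs : ∀ t ∈ T, ∀ ω ∈ F, t • ω = ω → t ∈ P) : P.relIndex T ∣ F.card := by
  classical
  refine part_dvd (fun x => orb T F x) (fun x hx => mem_orb.2 ⟨hx, 1, T.one_mem, one_smul _ _⟩)
    (fun x _ y hy => (mem_orb.1 hy).1) ?_ ?_
  · intro x hx
    have h1 := card_trans_aux (orb_inv h x) (mem_orb.2 ⟨hx, 1, T.one_mem, one_smul _ _⟩)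
      (fun y hy => (mem_orb.1 hy).2)
    have e : T ⊓ St G ({x} : Finset Ω) = P := by
      refine le_antisymm (fun t ht => hs t ht.1 x hx (ht.2 x (Finset.mem_singleton_self x))) ?_
      refine le_inf hP fun t ht ω hω => ?_
      rw [Finset.mem_singleton.1 hω]; exact hPF ht x hx
    rw [e] at h1
    have h2 : P.relIndex T * Nat.card P = Nat.card T := by
      have := (P.subgroupOf T).index_mul_card
      rwa [Nat.card_congr (Subgroup.subgroupOfEquivOfLe hP).toEquiv] at this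
    have hpos : 0 < Nat.card P := Nat.card_pos
    exact Nat.eq_of_mul_eq_mul_right hpos (h1.symm.trans h2.symm)
  · intro x _ y hy
    obtain ⟨_, g, hg, rfl⟩ := mem_orb.1 hy
    ext z
    rw [mem_orb, mem_orb]
    refine and_congr_right fun _ => ⟨?_, ?_⟩
    · rintro ⟨k, hk, rfl⟩
      exact ⟨k * g, T.mul_mem hk hg, mul_smul _ _ _⟩
    · rintro ⟨k, hk, rfl⟩
      exact ⟨k * g⁻¹, T.mul_mem hk (T.inv_mem hg), by rw [mul_smul, inv_smul_smul]⟩

/-- Gleason: if every point of `F` is the only fixed point in `F` of some `p`-subgroup of `N`, then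
`N` is transitive on `F`.  (The `N`-orbit `O ⊆ F` of `x` has length `≡ 1`; if `y ∉ O`, the group
belonging to `y` has no fixed point on `O`, so the length is `≡ 0`.) -/
theorem gleason [Fintype Ω] {p : ℕ} (hp : p.Prime) {N : Subgroup G} {F : Finset Ω} (h : Inv N F)
    (hT : ∀ x ∈ F, ∃ T : Subgroup G, T ≤ N ∧ IsPGroup p T ∧ F ∩ Fx Ω T = {x}) :
    ∀ x ∈ F, ∀ y ∈ F, ∃ g ∈ N, g • x = y := by
  intro x hx y hy
  by_contra hne
  obtain ⟨T, hTN, hTp, hTx⟩ := hT x hx
  obtain ⟨S, hSN, hSp, hSy⟩ := hT y hy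
  have h1 := card_Fx_mod hp hTp ((orb_inv h x).mono hTN)
  have h2 := card_Fx_mod hp hSp ((orb_inv h x).mono hSN)
  have e1 : orb N F x ∩ Fx Ω T = {x} := by
    ext z
    rw [Finset.mem_inter, Finset.mem_singleton]
    constructor
    · rintro ⟨ha, hb⟩
      have : z ∈ F ∩ Fx Ω T := Finset.mem_inter.2 ⟨(mem_orb.1 ha).1, hb⟩
      rwa [hTx, Finset.mem_singleton] at this
    · rintro rfl
      have : z ∈ F ∩ Fx Ω T := by rw [hTx]; exact Finset.mem_singleton_self z
      exact ⟨mem_orb.2 ⟨hx, 1, N.one_mem, one_smul _ _⟩, (Finset.mem_inter.1 this).2⟩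
  have e2 : orb N F x ∩ Fx Ω S = ∅ := by
    refine Finset.eq_empty_of_forall_notMem fun z hz => hne ?_
    obtain ⟨ha, hb⟩ := Finset.mem_inter.1 hz
    have : z ∈ F ∩ Fx Ω S := Finset.mem_inter.2 ⟨(mem_orb.1 ha).1, hb⟩
    rw [hSy, Finset.mem_singleton] at this
    subst this
    exact (mem_orb.1 ha).2
  rw [e1, Finset.card_singleton] at h1
  rw [e2, Finset.card_empty] at h2
  have h3 : 0 ≡ 1 [MOD p] := h2.trans h1.symm
  have h4 := (Nat.modEq_zero_iff_dvd.1 h3.symm)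
  exact hp.one_lt.ne' (Nat.dvd_one.1 h4)

/-- one coordinate at a time; with at least five points there is always a free point -/
theorem slide {N : Subgroup G} {F : Finset Ω} (h5 : 5 ≤ F.card)
    (h : ∀ a b c d d' : Ω, a ∈ F → b ∈ F → c ∈ F → d ∈ F → d' ∈ F → D4 a b c d → D4 a b c d' →
      ∃ g ∈ N, g • a = a ∧ g • b = b ∧ g • c = c ∧ g • d = d') : Tr4 N F := by
  let R : (Fin 4 → Ω) → (Fin 4 → Ω) → Prop := fun x y => ∃ g ∈ N, ∀ i, g • x i = y i
  have Rt : ∀ x y z, R x y → R y z → R x z := by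
    rintro x y z ⟨g, hg, h1⟩ ⟨k, hk, h2⟩
    exact ⟨k * g, N.mul_mem hk hg, fun i => by rw [mul_smul, h1, h2]⟩
  let ok : (Fin 4 → Ω) → Prop := fun x => Function.Injective x ∧ ∀ i, x i ∈ F
  have okup : ∀ x i e, ok x → e ∈ F → (∀ j, j ≠ i → x j ≠ e) → ok (Function.update x i e) := by
    intro x i e hx he hj
    refine ⟨fun a b hab => ?_, fun a => ?_⟩
    · by_cases ha : a = i <;> by_cases hb : b = i
      · rw [ha, hb]
      · subst ha
        rw [Function.update_self, Function.update_of_ne hb] at hab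
        exact absurd hab.symm (hj b hb)
      · subst hb
        rw [Function.update_self, Function.update_of_ne ha] at hab
        exact absurd hab (hj a ha)
      · rw [Function.update_of_ne ha, Function.update_of_ne hb] at hab
        exact hx.1 hab
    · by_cases ha : a = i
      · subst ha; rw [Function.update_self]; exact he
      · rw [Function.update_of_ne ha]; exact hx.2 a
  have mv : ∀ x i e, ok x → e ∈ F → (∀ j, j ≠ i → x j ≠ e) → R x (Function.update x i e) := by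
    intro x i e hx he hj
    have hne : ∀ a b : Fin 4, a ≠ b → x a ≠ x b := fun a b hab e => hab (hx.1 e)
    have gen : ∀ a b c : Fin 4, a ≠ b → a ≠ c → b ≠ c → a ≠ i → b ≠ i → c ≠ i →
        (∀ j, j = a ∨ j = b ∨ j = c ∨ j = i) → R x (Function.update x i e) := by
      intro a b c hab hac hbc hai hbi hci hall
      obtain ⟨g, hg, e1, e2, e3, e4⟩ := h (x a) (x b) (x c) (x i) e (hx.2 _) (hx.2 _) (hx.2 _)
        (hx.2 _) he ⟨hne _ _ hab, hne _ _ hac, hne _ _ hai, hne _ _ hbc, hne _ _ hbi, hne _ _ hci⟩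
        ⟨hne _ _ hab, hne _ _ hac, hj _ hai, hne _ _ hbc, hj _ hbi, hj _ hci⟩
      refine ⟨g, hg, fun j => ?_⟩
      rcases hall j with rfl | rfl | rfl | rfl
      · rw [Function.update_of_ne hai]; exact e1
      · rw [Function.update_of_ne hbi]; exact e2
      · rw [Function.update_of_ne hci]; exact e3
      · rw [Function.update_self]; exact e4
    have hall : ∀ i : Fin 4, ∃ a b c : Fin 4, a ≠ b ∧ a ≠ c ∧ b ≠ c ∧ a ≠ i ∧ b ≠ i ∧ c ≠ i ∧
        (∀ j, j = a ∨ j = b ∨ j = c ∨ j = i) := by decide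
    obtain ⟨a, b, c, h1, h2, h3, h4, h5, h6, h7⟩ := hall i
    exact gen a b c h1 h2 h3 h4 h5 h6 h7
  have step : ∀ x i e, ok x → e ∈ F → ∃ z, ok z ∧ R x z ∧ z i = e ∧
      ∀ j, j ≠ i → x j ≠ e → z j = x j := by
    intro x i e hx he
    by_cases hj : ∀ j, j ≠ i → x j ≠ e
    · exact ⟨_, okup x i e hx he hj, mv x i e hx he hj, Function.update_self _ _ _,
        fun j hji _ => Function.update_of_ne hji _ _⟩
    · push Not at hj
      obtain ⟨j, hji, hje⟩ := hj
      obtain ⟨f, hfF, hf⟩ : ∃ f ∈ F, f ∉ Finset.univ.image x := by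
        refine Finset.exists_mem_notMem_of_card_lt_card ?_
        have := Finset.card_image_le (s := (Finset.univ : Finset (Fin 4))) (f := x)
        rw [Finset.card_univ, Fintype.card_fin] at this
        omega
      have hf' : ∀ k, x k ≠ f := fun k e => hf (Finset.mem_image.2 ⟨k, Finset.mem_univ _, e⟩)
      have o1 := okup x j f hx hfF fun k _ => hf' k
      have r1 := mv x j f hx hfF fun k _ => hf' k
      have hk : ∀ k, k ≠ i → Function.update x j f k ≠ e := by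
        intro k _
        by_cases hkj : k = j
        · subst hkj; rw [Function.update_self, ← hje]; exact (hf' k).symm
        · rw [Function.update_of_ne hkj, ← hje]; exact fun e => hkj (hx.1 e)
      refine ⟨_, okup _ i e o1 he hk, Rt _ _ _ r1 (mv _ i e o1 he hk), Function.update_self _ _ _,
        fun k hki hke => ?_⟩
      rw [Function.update_of_ne hki, Function.update_of_ne]
      rintro rfl; exact hke hje
  intro a b c d a' b' c' d' ha hb hc hd ha' hb' hc' hd' D D'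
  obtain ⟨h1, h2, h3, h4, h5, h6⟩ := D
  obtain ⟨k1, k2, k3, k4, k5, k6⟩ := D'
  have o0 : ok ![a, b, c, d] := by
    refine ⟨fun i j hij => ?_, fun i => ?_⟩
    · fin_cases i <;> fin_cases j <;> simp_all
    · fin_cases i <;> simpa
  obtain ⟨z1, o1, r1, e1, -⟩ := step _ 0 a' o0 ha'
  obtain ⟨z2, o2, r2, e2, f2⟩ := step _ 1 b' o1 hb'
  obtain ⟨z3, o3, r3, e3, f3⟩ := step _ 2 c' o2 hc'
  obtain ⟨z4, -, r4, e4, f4⟩ := step _ 3 d' o3 hd'
  have u20 : z2 0 = a' := by rw [f2 0 (by decide) (by rw [e1]; exact k1), e1]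
  have u30 : z3 0 = a' := by rw [f3 0 (by decide) (by rw [u20]; exact k2), u20]
  have u31 : z3 1 = b' := by rw [f3 1 (by decide) (by rw [e2]; exact k4), e2]
  have u40 : z4 0 = a' := by rw [f4 0 (by decide) (by rw [u30]; exact k3), u30]
  have u41 : z4 1 = b' := by rw [f4 1 (by decide) (by rw [u31]; exact k5), u31]
  have u42 : z4 2 = c' := by rw [f4 2 (by decide) (by rw [e3]; exact k6), e3]
  obtain ⟨g, hg, hh⟩ := Rt _ _ _ (Rt _ _ _ (Rt _ _ _ r1 r2) r3) r4
  exact ⟨g, hg, (hh 0).trans u40, (hh 1).trans u41, (hh 2).trans u42, (hh 3).trans e4⟩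

/-- `gleason` (for `N ⊓ St G t` on `F \ t`) and `slide` -/
theorem tr4_of_pgroup [Fintype Ω] {p : ℕ} (hp : p.Prime) {N : Subgroup G} {F : Finset Ω}
    (h : Inv N F) (h5 : 5 ≤ F.card)
    (hT : ∀ Q : Finset Ω, Q ⊆ F → Q.card = 4 →
      ∃ T : Subgroup G, T ≤ N ∧ IsPGroup p T ∧ F ∩ Fx Ω T = Q) : Tr4 N F := by
  refine slide h5 fun a b c d d' ha hb hc hd hd' D D' => ?_
  have hinv : Inv (N ⊓ St G ({a, b, c} : Finset Ω)) (F \ {a, b, c}) := by
    intro g hg ω hω
    obtain ⟨h1, h2⟩ := Finset.mem_sdiff.1 hω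
    refine Finset.mem_sdiff.2 ⟨h g hg.1 ω h1, fun e => h2 ?_⟩
    have := hg.2 _ e
    rw [smul_left_cancel_iff] at this
    rwa [this] at e
  have hmem : ∀ {x}, x ∈ F → D4 a b c x → x ∈ F \ {a, b, c} := by
    intro x hx D
    refine Finset.mem_sdiff.2 ⟨hx, ?_⟩
    simp only [Finset.mem_insert, Finset.mem_singleton, not_or]
    exact ⟨D.2.2.1.symm, D.2.2.2.2.1.symm, D.2.2.2.2.2.symm⟩
  obtain ⟨g, hg, e⟩ := gleason hp hinv (fun x hx => by
    obtain ⟨h1, h2⟩ := Finset.mem_sdiff.1 hx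
    have h2' := h2
    simp only [Finset.mem_insert, Finset.mem_singleton, not_or] at h2'
    have Dx : D4 a b c x := ⟨D.1, D.2.1, Ne.symm h2'.1, D.2.2.2.1, Ne.symm h2'.2.1, Ne.symm h2'.2.2⟩
    obtain ⟨T, hTN, hTp, hTQ⟩ := hT {a, b, c, x} (by
      intro y hy
      simp only [Finset.mem_insert, Finset.mem_singleton] at hy
      rcases hy with rfl | rfl | rfl | rfl <;> assumption) Dx.card
    refine ⟨T, le_inf hTN (le_St_iff.2 fun y hy => ?_), hTp, ?_⟩
    · have : y ∈ F ∩ Fx Ω T := by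
        rw [hTQ]
        simp only [Finset.mem_insert, Finset.mem_singleton] at hy ⊢
        tauto
      exact (Finset.mem_inter.1 this).2
    · rw [Finset.sdiff_inter_right_comm, hTQ]
      ext y
      simp only [Finset.mem_sdiff, Finset.mem_insert, Finset.mem_singleton]
      constructor
      · tauto
      · rintro rfl; tauto) d (hmem hd D) d' (hmem hd' D')
  exact ⟨g, hg.1, hg.2 a (by simp), hg.2 b (by simp), hg.2 c (by simp), e⟩

theorem Tr4.set {N : Subgroup G} {F : Finset Ω} (tr : Tr4 N F) {Q Q' : Finset Ω} (h : Q ⊆ F)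
    (h' : Q' ⊆ F) (hQ : Q.card = 4) (hQ' : Q'.card = 4) : ∃ g ∈ N, g • Q = Q' := by
  obtain ⟨a, b, c, d, D, rfl⟩ := exists_D4 hQ
  obtain ⟨a', b', c', d', D', rfl⟩ := exists_D4 hQ'
  obtain ⟨g, hg, e1, e2, e3, e4⟩ := tr a b c d a' b' c' d' (h (by simp)) (h (by simp))
    (h (by simp)) (h (by simp)) (h' (by simp)) (h' (by simp)) (h' (by simp)) (h' (by simp)) D D'
  refine ⟨g, hg, ?_⟩
  rw [Finset.smul_finset_insert, Finset.smul_finset_insert, Finset.smul_finset_insert,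
    Finset.smul_finset_singleton, e1, e2, e3, e4]

private theorem free3 {F : Finset Ω} (h4 : 4 ≤ F.card) (a b c : Ω) :
    ∃ d ∈ F, a ≠ d ∧ b ≠ d ∧ c ≠ d := by
  obtain ⟨d, hd, hn⟩ : ∃ d ∈ F, d ∉ ({a, b, c} : Finset Ω) :=
    Finset.exists_mem_notMem_of_card_lt_card (lt_of_le_of_lt Finset.card_le_three (by omega))
  simp only [Finset.mem_insert, Finset.mem_singleton, not_or] at hn
  exact ⟨d, hd, Ne.symm hn.1, Ne.symm hn.2.1, Ne.symm hn.2.2⟩

theorem Tr4.three {N : Subgroup G} {F : Finset Ω} (tr : Tr4 N F) (h4 : 4 ≤ F.card)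
    {a b c a' b' c' : Ω} (ha : a ∈ F) (hb : b ∈ F) (hc : c ∈ F) (ha' : a' ∈ F) (hb' : b' ∈ F)
    (hc' : c' ∈ F) (hab : a ≠ b) (hac : a ≠ c) (hbc : b ≠ c) (hab' : a' ≠ b') (hac' : a' ≠ c')
    (hbc' : b' ≠ c') : ∃ g ∈ N, g • a = a' ∧ g • b = b' ∧ g • c = c' := by
  obtain ⟨d, hd, h1, h2, h3⟩ := free3 h4 a b c
  obtain ⟨d', hd', h1', h2', h3'⟩ := free3 h4 a' b' c'
  obtain ⟨g, hg, e1, e2, e3, -⟩ := tr a b c d a' b' c' d' ha hb hc hd ha' hb' hc' hd'
    ⟨hab, hac, h1, hbc, h2, h3⟩ ⟨hab', hac', h1', hbc', h2', h3'⟩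
  exact ⟨g, hg, e1, e2, e3⟩

theorem Tr4.two {N : Subgroup G} {F : Finset Ω} (tr : Tr4 N F) (h4 : 4 ≤ F.card)
    {a b a' b' : Ω} (ha : a ∈ F) (hb : b ∈ F) (ha' : a' ∈ F) (hb' : b' ∈ F) (hab : a ≠ b)
    (hab' : a' ≠ b') : ∃ g ∈ N, g • a = a' ∧ g • b = b' := by
  obtain ⟨d, hd, h1, h2, -⟩ := free3 h4 a b b
  obtain ⟨d', hd', h1', h2', -⟩ := free3 h4 a' b' b'
  obtain ⟨g, hg, e1, e2, -⟩ := tr.three h4 ha hb hd ha' hb' hd' hab h1 h2 hab' h1' h2'
  exact ⟨g, hg, e1, e2⟩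

theorem Tr4.one {N : Subgroup G} {F : Finset Ω} (tr : Tr4 N F) (h4 : 4 ≤ F.card)
    {a a' : Ω} (ha : a ∈ F) (ha' : a' ∈ F) : ∃ g ∈ N, g • a = a' := by
  obtain ⟨d, hd, h1, -⟩ := free3 h4 a a a
  obtain ⟨d', hd', h1', -⟩ := free3 h4 a' a' a'
  obtain ⟨g, hg, e1, -⟩ := tr.two h4 ha hd ha' hd' h1 h1'
  exact ⟨g, hg, e1⟩

/-- orbit-stabiliser for one point: `N` transitive on the invariant finset `F` -/
theorem card_eq_of_trans [Finite G] {N : Subgroup G} {F : Finset Ω} (h : Inv N F) {x : Ω}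
    (hx : x ∈ F) (ht : ∀ y ∈ F, ∃ g ∈ N, g • x = y) :
    Nat.card N = F.card * Nat.card ↥(N ⊓ St G ({x} : Finset Ω)) := by
  exact card_trans_aux h hx ht

private theorem card_step [Finite G] {N : Subgroup G} {F : Finset Ω} (h : Inv N F) {t : Finset Ω}
    {x : Ω} (hx : x ∈ F) (hxt : x ∉ t) (ht : ∀ y ∈ F, y ∉ t → ∃ g ∈ N ⊓ St G t, g • x = y) :
    Nat.card ↥(N ⊓ St G t) = (F \ t).card * Nat.card ↥(N ⊓ St G (insert x t)) := by
  have hinv : Inv (N ⊓ St G t) (F \ t) := by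
    intro g hg ω hω
    obtain ⟨h1, h2⟩ := Finset.mem_sdiff.1 hω
    refine Finset.mem_sdiff.2 ⟨h g hg.1 ω h1, fun e => h2 ?_⟩
    have := hg.2 _ e
    rw [smul_left_cancel_iff] at this
    rwa [this] at e
  have := card_trans_aux hinv (Finset.mem_sdiff.2 ⟨hx, hxt⟩)
    (fun y hy => ht y (Finset.mem_sdiff.1 hy).1 (Finset.mem_sdiff.1 hy).2)
  have e : N ⊓ St G t ⊓ St G ({x} : Finset Ω) = N ⊓ St G (insert x t) := by
    ext g
    simp only [Subgroup.mem_inf, mem_St, Finset.mem_singleton, Finset.mem_insert, forall_eq,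
      forall_eq_or_imp]
    tauto
  rwa [e] at this

theorem Tr4.card [Finite G] {N : Subgroup G} {F : Finset Ω} (tr : Tr4 N F) (h : Inv N F)
    {Q : Finset Ω} (hQF : Q ⊆ F) (hQ : Q.card = 4) :
    Nat.card N = F.card * (F.card - 1) * (F.card - 2) * (F.card - 3) * Nat.card ↥(N ⊓ St G Q) := by
  have h4 : 4 ≤ F.card := hQ ▸ Finset.card_le_card hQF
  obtain ⟨a, b, c, d, D, rfl⟩ := exists_D4 hQ
  have ha : a ∈ F := hQF (by simp)
  have hb : b ∈ F := hQF (by simp)
  have hc : c ∈ F := hQF (by simp)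
  have hd : d ∈ F := hQF (by simp)
  obtain ⟨hab, hac, had, hbc, hbd, hcd⟩ := D
  have s0 := card_step h (t := ∅) (x := a) ha (by simp) (fun y hy _ => by
    obtain ⟨g, hg, e⟩ := tr.one h4 ha hy
    exact ⟨g, ⟨hg, by simp [mem_St]⟩, e⟩)
  have s1 := card_step h (t := {a}) (x := b) hb (by simp [hab.symm]) (fun y hy hy' => by
    obtain ⟨g, hg, e1, e⟩ := tr.two h4 ha hb ha hy hab (fun e => hy' (by simp [e]))
    exact ⟨g, ⟨hg, by simp [mem_St, e1]⟩, e⟩)
  have s2 := card_step h (t := {b, a}) (x := c) hc (by simp [hac.symm, hbc.symm])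
    (fun y hy hy' => by
      obtain ⟨g, hg, e1, e2, e⟩ := tr.three h4 ha hb hc ha hb hy hab hac hbc hab
        (fun e => hy' (by simp [e])) (fun e => hy' (by simp [e]))
      exact ⟨g, ⟨hg, by simp [mem_St, e1, e2]⟩, e⟩)
  have s3 := card_step h (t := {c, b, a}) (x := d) hd (by simp [had.symm, hbd.symm, hcd.symm])
    (fun y hy hy' => by
      obtain ⟨g, hg, e1, e2, e3, e⟩ := tr a b c d a b c y ha hb hc hd ha hb hc hy
        ⟨hab, hac, had, hbc, hbd, hcd⟩ ⟨hab, hac, fun e => hy' (by simp [e]), hbc,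
          fun e => hy' (by simp [e]), fun e => hy' (by simp [e])⟩
      exact ⟨g, ⟨hg, by simp [mem_St, e1, e2, e3]⟩, e⟩)
  have c0 : (F \ ∅).card = F.card := by simp
  have c1 : (F \ {a}).card = F.card - 1 := by
    rw [Finset.card_sdiff_of_subset (by simpa using ha), Finset.card_singleton]
  have c2 : (F \ {b, a}).card = F.card - 2 := by
    rw [Finset.card_sdiff_of_subset (by simp [Finset.insert_subset_iff, ha, hb]),
      Finset.card_pair hab.symm]
  have c3 : (F \ {c, b, a}).card = F.card - 3 := by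
    rw [Finset.card_sdiff_of_subset (by simp [Finset.insert_subset_iff, ha, hb, hc]),
      Finset.card_insert_of_notMem (by simp [hac.symm, hbc.symm]), Finset.card_pair hab.symm]
  have e0 : N ⊓ St G (∅ : Finset Ω) = N := by
    refine inf_eq_left.2 fun g _ => by simp [mem_St]
  have e4 : ({d, c, b, a} : Finset Ω) = {a, b, c, d} := by
    ext y; simp only [Finset.mem_insert, Finset.mem_singleton]; tauto
  rw [e0, c0] at s0
  rw [c1] at s1
  rw [c2] at s2
  rw [c3, e4] at s3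
  have s0' : Nat.card N = F.card * Nat.card ↥(N ⊓ St G ({a} : Finset Ω)) := s0
  rw [s0', s1, s2, s3]
  ring

/-- Witt's lemma.  For 4-tuples `x`, `x'` in `Fx U` take `g` with `g x = q`, `g' x' = q` (`q` listing
`Q`); `cj g U`, `cj g' U ≤ St Q` are both `St Q`-conjugate to `U`. -/
theorem witt [Fintype Ω] (tr : Tr4 (⊤ : Subgroup G) (Finset.univ : Finset Ω)) {Q : Finset Ω}
    (hQ : Q.card = 4) {U : Subgroup G} (hU : U ≤ St G Q)
    (hw : ∀ g : G, cj g U ≤ St G Q → ∃ h ∈ St G Q, cj h U = cj g U) :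
    Tr4 (Subgroup.normalizer (U : Set G)) (Fx Ω U) := by
  obtain ⟨q1, q2, q3, q4, Dq, rfl⟩ := exists_D4 hQ
  have key : ∀ a b c d : Ω, a ∈ Fx Ω U → b ∈ Fx Ω U → c ∈ Fx Ω U → d ∈ Fx Ω U → D4 a b c d →
      ∃ g ∈ Subgroup.normalizer (U : Set G), g • a = q1 ∧ g • b = q2 ∧ g • c = q3 ∧ g • d = q4 := by
    intro a b c d ha hb hc hd D
    obtain ⟨g, -, e1, e2, e3, e4⟩ := tr a b c d q1 q2 q3 q4 (Finset.mem_univ _) (Finset.mem_univ _)
      (Finset.mem_univ _) (Finset.mem_univ _) (Finset.mem_univ _) (Finset.mem_univ _)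
      (Finset.mem_univ _) (Finset.mem_univ _) D Dq
    have hle : cj g U ≤ St G ({q1, q2, q3, q4} : Finset Ω) := by
      rw [le_St_iff, Fx_cj]
      intro y hy
      simp only [Finset.mem_insert, Finset.mem_singleton] at hy
      rcases hy with rfl | rfl | rfl | rfl
      · rw [← e1]; exact Finset.smul_mem_smul_finset ha
      · rw [← e2]; exact Finset.smul_mem_smul_finset hb
      · rw [← e3]; exact Finset.smul_mem_smul_finset hc
      · rw [← e4]; exact Finset.smul_mem_smul_finset hd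
    obtain ⟨k, hk, e⟩ := hw g hle
    have hk' := (St G ({q1, q2, q3, q4} : Finset Ω)).inv_mem hk
    refine ⟨k⁻¹ * g, cj_eq_iff.1 (by rw [cj_mul, ← e, cj_inv_cj]), ?_, ?_, ?_, ?_⟩
    · rw [mul_smul, e1]; exact hk' _ (by simp)
    · rw [mul_smul, e2]; exact hk' _ (by simp)
    · rw [mul_smul, e3]; exact hk' _ (by simp)
    · rw [mul_smul, e4]; exact hk' _ (by simp)
  intro a b c d a' b' c' d' ha hb hc hd ha' hb' hc' hd' D D'
  obtain ⟨g, hg, e1, e2, e3, e4⟩ := key a b c d ha hb hc hd D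
  obtain ⟨k, hk, f1, f2, f3, f4⟩ := key a' b' c' d' ha' hb' hc' hd' D'
  refine ⟨k⁻¹ * g, Subgroup.mul_mem _ (Subgroup.inv_mem _ hk) hg, ?_, ?_, ?_, ?_⟩
  · rw [mul_smul, e1, ← f1, inv_smul_smul]
  · rw [mul_smul, e2, ← f2, inv_smul_smul]
  · rw [mul_smul, e3, ← f3, inv_smul_smul]
  · rw [mul_smul, e4, ← f4, inv_smul_smul]

omit [DecidableEq Ω] in
theorem D4.inj {a b c d : Ω} (h : D4 a b c d) : Function.Injective ![a, b, c, d] := by
  obtain ⟨h1, h2, h3, h4, h5, h6⟩ := h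
  intro i j hij
  fin_cases i <;> fin_cases j <;> simp_all

theorem tr4_of_mpt [Fintype Ω] (h : MulAction.IsMultiplyPretransitive G Ω 4) :
    Tr4 (⊤ : Subgroup G) (Finset.univ : Finset Ω) := by
  intro a b c d a' b' c' d' _ _ _ _ _ _ _ _ D D'
  obtain ⟨g, hg⟩ := MulAction.exists_smul_eq G (⟨![a, b, c, d], D.inj⟩ : Fin 4 ↪ Ω)
    (⟨![a', b', c', d'], D'.inj⟩ : Fin 4 ↪ Ω)
  exact ⟨g, trivial, congrArg (fun f : Fin 4 ↪ Ω => f 0) hg, congrArg (fun f : Fin 4 ↪ Ω => f 1) hg,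
    congrArg (fun f : Fin 4 ↪ Ω => f 2) hg, congrArg (fun f : Fin 4 ↪ Ω => f 3) hg⟩

theorem mpt_of_tr4 [Fintype Ω] (h : Tr4 (⊤ : Subgroup G) (Finset.univ : Finset Ω)) :
    MulAction.IsMultiplyPretransitive G Ω 4 := by
  refine ⟨fun x y => ?_⟩
  have hD : ∀ z : Fin 4 ↪ Ω, D4 (z 0) (z 1) (z 2) (z 3) := fun z =>
    ⟨z.injective.ne (by decide), z.injective.ne (by decide), z.injective.ne (by decide),
      z.injective.ne (by decide), z.injective.ne (by decide), z.injective.ne (by decide)⟩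
  obtain ⟨g, -, e1, e2, e3, e4⟩ := h _ _ _ _ _ _ _ _ (Finset.mem_univ _) (Finset.mem_univ _)
    (Finset.mem_univ _) (Finset.mem_univ _) (Finset.mem_univ _) (Finset.mem_univ _)
    (Finset.mem_univ _) (Finset.mem_univ _) (hD x) (hD y)
  refine ⟨g, ?_⟩
  ext i
  fin_cases i
  · exact e1
  · exact e2
  · exact e3
  · exact e4

theorem Tr4.range {N : Subgroup G} {F : Finset Ω} (tr : Tr4 N F) (h : Inv N F) :
    Tr4 (⊤ : Subgroup (act h).range) (Finset.univ : Finset F) := by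
  intro a b c d a' b' c' d' _ _ _ _ _ _ _ _ D D'
  have hD : ∀ {a b c d : F}, D4 a b c d → D4 (a : Ω) b c d := fun D =>
    ⟨Subtype.val_injective.ne D.1, Subtype.val_injective.ne D.2.1, Subtype.val_injective.ne D.2.2.1,
      Subtype.val_injective.ne D.2.2.2.1, Subtype.val_injective.ne D.2.2.2.2.1,
      Subtype.val_injective.ne D.2.2.2.2.2⟩
  obtain ⟨g, hg, e1, e2, e3, e4⟩ := tr a b c d a' b' c' d' a.2 b.2 c.2 d.2 a'.2 b'.2 c'.2 d'.2
    (hD D) (hD D')
  exact ⟨⟨act h ⟨g, hg⟩, ⟨g, hg⟩, rfl⟩, trivial, Subtype.ext e1, Subtype.ext e2, Subtype.ext e3,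
    Subtype.ext e4⟩

end CL.F4
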