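import Cfsg.Agent.PERM.F4.Sev0a

/-!
S3404, Case II, blocks of size seven: the second half of `F4/Sev0`.
-/

set_option autoImplicit false
set_option linter.unusedSimpArgs false
set_option linter.style.haveILetI false

namespace CL.F4.S0

open scoped Pointwise
open Equiv

/-- the Klein four-group -/
def V4 : Subgroup (Perm (Fin 4)) where
  carrier := {σ | Perm.sign σ = 1 ∧ σ * σ = 1}
  one_mem' := ⟨by simp, by simp⟩
  mul_mem' := fun {a b} ha hb => by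
    have : ∀ a b : Perm (Fin 4), (Perm.sign a = 1 ∧ a * a = 1) → (Perm.sign b = 1 ∧ b * b = 1) →
        (Perm.sign (a * b) = 1 ∧ a * b * (a * b) = 1) := by decide +kernel
    exact this a b ha hb
  inv_mem' := fun {a} ha => ⟨by simpa using ha.1, by rw [← mul_inv_rev, ha.2, inv_one]⟩

theorem mem_V4 {σ : Perm (Fin 4)} : σ ∈ V4 ↔ Perm.sign σ = 1 ∧ σ * σ = 1 := Iff.rfl

theorem card_V4 : Nat.card V4 = 4 := by
  have : Nat.card V4 = (Finset.univ.filter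
      fun σ : Perm (Fin 4) => Perm.sign σ = 1 ∧ σ * σ = 1).card := by
    rw [← Fintype.card_subtype, ← Nat.card_eq_fintype_card]; rfl
  rw [this]; decide +kernel

theorem a4_four : ∀ σ : Perm (Fin 4), Perm.sign σ = 1 → σ ^ 4 = 1 → σ * σ = 1 := by
  decide +kernel

theorem a4_three : ∃ σ : Perm (Fin 4), Perm.sign σ = 1 ∧ ∀ τ : Perm (Fin 4),
    (Perm.sign τ = 1 ∧ τ * τ = 1) → (τ * σ) ^ 3 = 1 ∧ τ * σ ≠ 1 :=
  ⟨swap 0 1 * swap 1 2, by decide +kernel⟩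

theorem a4_fix : ∀ ρ : Perm (Fin 4), ρ ^ 3 = 1 → ρ ≠ 1 → (∃ i, ρ i = i) ∧
    ∀ τ : Perm (Fin 4), (Perm.sign τ = 1 ∧ τ * τ = 1) → ρ * τ = τ * ρ → τ = 1 := by
  decide +kernel

variable {G Ω : Type*} [Group G] [MulAction G Ω] [DecidableEq Ω]

theorem exists_phi {N : Subgroup G} {F t : Finset Ω} (h : Inv N F)
    (hA : (act h).range = alternatingGroup F) (htF : t ⊆ F) (v : Fin 4 → Ω)
    (hv : Function.Injective v) (hF : ∀ ω, ω ∈ F \ t ↔ ∃ i, v i = ω) :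
    ∃ φ : ↥(N ⊓ St G t) →* Perm (Fin 4), (∀ (g : ↥(N ⊓ St G t)) i, (g : G) • v i = v (φ g i)) ∧
      φ.range = alternatingGroup (Fin 4) ∧ φ.ker = (St G F).subgroupOf (N ⊓ St G t) := by
  have hL : Inv (N ⊓ St G t) (F \ t) := fun g hg ω hω => maps h hg.1 hg.2 hω
  have hm : ∀ i, v i ∈ F \ t := fun i => (hF _).2 ⟨i, rfl⟩
  let e : Fin 4 ≃ ↥(F \ t) := Equiv.ofBijective (fun i => ⟨v i, hm i⟩)
    ⟨fun i j e => hv (congrArg Subtype.val e), fun ω => by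
      obtain ⟨i, hi⟩ := (hF ω).1 ω.2
      exact ⟨i, Subtype.ext hi⟩⟩
  let φ : ↥(N ⊓ St G t) →* Perm (Fin 4) := e.symm.permCongrHom.toMonoidHom.comp (act hL)
  have h1 : ∀ (g : ↥(N ⊓ St G t)) i, (g : G) • v i = v (φ g i) := fun g i => by
    have : φ g i = e.symm (act hL g (e i)) := rfl
    rw [this]
    exact (congrArg Subtype.val (e.apply_symm_apply (act hL g (e i)))).symm
  let ι : Fin 4 ↪ F := ⟨fun i => ⟨v i, (Finset.mem_sdiff.1 (hm i)).1⟩,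
    fun i j e => hv (congrArg Subtype.val e)⟩
  have hι : ∀ ω : F, ω ∉ Set.range ι ↔ (ω : Ω) ∈ t := fun ω => by
    constructor
    · intro hn
      by_contra ht
      obtain ⟨i, hi⟩ := (hF ω).1 (Finset.mem_sdiff.2 ⟨ω.2, ht⟩)
      exact hn ⟨i, Subtype.ext hi⟩
    · rintro ht ⟨i, rfl⟩
      exact (Finset.mem_sdiff.1 (hm i)).2 ht
  have hs : ∀ σ : Perm (Fin 4), Perm.sign (σ.viaEmbedding ι) = Perm.sign σ := fun σ => by
    unfold Perm.viaEmbedding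
    convert Perm.sign_extendDomain σ _
  have h2 : ∀ g : ↥(N ⊓ St G t), act h ⟨g, g.2.1⟩ = (φ g).viaEmbedding ι := fun g => by
    ext ω
    by_cases hω : ω ∈ Set.range ι
    · obtain ⟨i, rfl⟩ := hω
      rw [Perm.viaEmbedding_apply]
      exact h1 g i
    · rw [Perm.viaEmbedding_apply_of_notMem _ _ _ hω]
      exact g.2.2 _ ((hι ω).1 hω)
  refine ⟨φ, h1, le_antisymm ?_ fun σ hσ => ?_, ?_⟩
  · rintro _ ⟨g, rfl⟩
    rw [Perm.mem_alternatingGroup, ← hs, ← h2, ← Perm.mem_alternatingGroup, ← hA]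
    exact ⟨_, rfl⟩
  · have : σ.viaEmbedding ι ∈ (act h).range := by
      rw [hA, Perm.mem_alternatingGroup, hs]; exact hσ
    obtain ⟨g, hg⟩ := this
    have key : ∀ ω : F, (g : G) • (ω : Ω) = (σ.viaEmbedding ι ω : Ω) := fun ω => by
      rw [← hg, act_apply]
    have hgt : (g : G) ∈ St G t := fun ω hω => by
      have := key ⟨ω, htF hω⟩
      rwa [Perm.viaEmbedding_apply_of_notMem _ _ _ ((hι _).2 hω)] at this
    refine ⟨⟨g, g.2, hgt⟩, Equiv.ext fun i => hv ?_⟩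
    rw [← h1]
    have := key (ι i)
    rwa [Perm.viaEmbedding_apply] at this
  · ext g
    rw [MonoidHom.mem_ker, Subgroup.mem_subgroupOf]
    constructor
    · intro hg ω hω
      by_cases ht : ω ∈ t
      · exact g.2.2 ω ht
      · obtain ⟨i, rfl⟩ := (hF ω).1 (Finset.mem_sdiff.2 ⟨hω, ht⟩)
        rw [h1, hg]; rfl
    · intro hg
      refine Equiv.ext fun i => hv ?_
      rw [← h1]
      exact hg _ (Finset.mem_sdiff.1 (hm i)).1

theorem image_eq {L : Type*} [Group L] [Finite L] (φ : L →* Perm (Fin 4))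
    (hφ : φ.range = alternatingGroup (Fin 4)) {T : Subgroup L} (hT : IsPGroup 2 T)
    (hi : ¬ 2 ∣ T.index) : T.map φ = V4 := by
  haveI : Fact (Nat.Prime 2) := ⟨Nat.prime_two⟩
  obtain ⟨k, hk⟩ := (hT.map φ).exists_card_eq
  have h1 := (T.map φ).card_mul_index
  rw [Subgroup.index_map, hφ, alternatingGroup.index_eq_two, hk, Nat.card_perm] at h1
  have h2 : ¬ 2 ∣ (T ⊔ φ.ker).index := fun h => hi (h.trans (Subgroup.index_dvd_of_le le_sup_left))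
  generalize (T ⊔ φ.ker).index = m at h1 h2
  simp only [Nat.card_eq_fintype_card, Fintype.card_fin, Nat.factorial] at h1
  have h4 : 2 ^ k = 4 := by
    have hk3 : k ≤ 3 := by
      by_contra hlt
      have : 2 ^ 4 ∣ 2 ^ k := pow_dvd_pow 2 (by omega)
      obtain ⟨c, hc⟩ := this
      rw [hc, mul_assoc] at h1
      omega
    interval_cases k <;> omega
  rw [h4] at hk
  refine Subgroup.eq_of_le_of_card_ge (fun σ hσ => ?_) (by rw [card_V4, hk])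
  have hs : Perm.sign σ = 1 := by
    rw [← Perm.mem_alternatingGroup, ← hφ]; exact T.map_le_range φ hσ
  refine ⟨hs, a4_four σ hs ?_⟩
  have h5 := congrArg Subtype.val (pow_card_eq_one' (G := T.map φ) (x := ⟨σ, hσ⟩))
  rw [hk] at h5
  exact h5

theorem pg_zpowers {p k : ℕ} (hp : p.Prime) {g : G} (hg : g ^ p ^ k = 1) :
    IsPGroup p (Subgroup.zpowers g) := by
  obtain ⟨m, -, hm⟩ := (Nat.dvd_prime_pow hp).1 (orderOf_dvd_of_pow_eq_one hg)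
  exact IsPGroup.of_card (by rw [Nat.card_zpowers, hm])

theorem sev1 [Finite G] [Fintype Ω] (hy : Hyp2 G Ω) {Q : Finset Ω} (hQ : Q.card = 4)
    (h7 : (Fx Ω (Sy G Q)).card = 7)
    (hA : (act (inv_Fx (Ω := Ω) (Sy G Q))).range = alternatingGroup (Fx Ω (Sy G Q)))
    {t : Finset Ω} (htB : t ⊆ Fx Ω (Sy G Q)) (ht : t.card = 3) {y : G}
    (hyN : y ∈ Subgroup.normalizer (Sy G Q : Set G)) (hyt : y ∈ St G t) (hy2 : Two y) :
    ∃ (T : Subgroup G) (c x₀ g : G), IsPGroup 2 T ∧ Sy G Q ≤ T ∧ y ∈ T ∧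
      T ≤ Subgroup.normalizer (Sy G Q : Set G) ∧ T ≤ St G t ∧ (Sy G Q).relIndex T = 4 ∧
      (∀ a b d e : Ω, D4 a b d e → Fx Ω (Sy G Q) \ t = {a, b, d, e} →
        ∃ τ ∈ T, τ • a = b ∧ τ • b = a ∧ τ • d = e ∧ τ • e = d) ∧
      orderOf c = 3 ∧ c ∈ St G t ∧ c ∉ St G (Fx Ω (Sy G Q)) ∧
      c ∈ Subgroup.normalizer (Sy G Q : Set G) ∧ c ∈ Subgroup.normalizer (T : Set G) ∧
      (∀ τ ∈ T, Commute c τ → τ = 1) ∧ x₀ ∈ T ∧ g ∈ Subgroup.normalizer (Sy G Q : Set G) ∧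
      ∀ w ∈ Sy G Q, Commute (x₀ * (g * x₀ * g⁻¹)) w → w = 1 := by
  obtain ⟨hK3, -, hB3⟩ := sev0 hy hQ h7 hA
  have hI := inv_Fx (Ω := Ω) (Sy G Q)
  have hQB : Q ⊆ Fx Ω (Sy G Q) := sub_Fx_Sy Q
  have hSB : Sy G Q ≤ St G (Fx Ω (Sy G Q)) := le_St_iff.2 (Finset.Subset.refl _)
  -- a 3-element or a 3-cycle fixing four points of the block is fixed-point-free on `S`
  have hfpf : ∀ Q' : Finset Ω, Q' ⊆ Fx Ω (Sy G Q) → Q'.card = 4 → ∀ u ∈ St G Q',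
      (¬ 3 ∣ Nat.card (Kn G Q') → u ∉ Kn G Q') → ∀ w ∈ Sy G Q, Commute u w → w = 1 := by
    intro Q' h1 h2 u hu hk w hw hc
    refine (hy.frob Q' h2).fpf u hu (hk ?_) w (hy.Sy_le_Kn h2 ?_) hc
    · rwa [hy.toHyp.card_Kn h2 hQ]
    · rwa [hy.Sy_eq hQ h2 h1]
  have hS2 := hy.pg hQ
  have hmax2 : ∀ P : Subgroup G, IsPGroup 2 P → P ≤ St G (Fx Ω (Sy G Q)) → P ≤ Sy G Q :=
    fun P h1 h2 => le_Sy h1 (h2.trans (St_mono hQB))
  generalize Sy G Q = S at *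
  set B := Fx Ω S with hB
  set N := Subgroup.normalizer (S : Set G) with hN
  have h4 : (B \ t).card = 4 := by rw [Finset.card_sdiff_of_subset htB, h7, ht]
  obtain ⟨p0, p1, p2, p3, hD, hp⟩ := exists_D4 h4
  have hv : ∀ ω, ω ∈ B \ t ↔ ∃ i, ![p0, p1, p2, p3] i = ω := fun ω => by
    rw [hp]
    simp only [Finset.mem_insert, Finset.mem_singleton, Fin.exists_fin_succ, Matrix.cons_val_zero,
      Matrix.cons_val_succ, IsEmpty.exists_iff, or_false, eq_comm (a := ω)]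
  obtain ⟨φ, hφ1, hφ2, hφ3⟩ := exists_phi hI hA htB _ hD.inj hv
  have hker : ∀ g : ↥(N ⊓ St G t), φ g = 1 ↔ (g : G) ∈ St G B := fun g => by
    rw [← MonoidHom.mem_ker, hφ3, Subgroup.mem_subgroupOf]
  have hsg : ∀ g, Perm.sign (φ g) = 1 := fun g => by
    rw [← Perm.mem_alternatingGroup, ← hφ2]; exact ⟨g, rfl⟩
  obtain ⟨k, hk⟩ := hy2
  have hR : IsPGroup 2 ↥(S ⊔ Subgroup.zpowers y) :=
    hS2.to_sup_of_normal_left' (pg_zpowers Nat.prime_two hk) ((Subgroup.zpowers_le).2 hyN)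
  have hRL : S ⊔ Subgroup.zpowers y ≤ N ⊓ St G t :=
    sup_le (le_inf Subgroup.le_normalizer (hSB.trans (St_mono htB)))
      ((Subgroup.zpowers_le).2 ⟨hyN, hyt⟩)
  obtain ⟨T, hRT, hTL, hT, hmax, hidx⟩ := exists_max_pgroup Nat.prime_two hRL hR
  have hST : S ≤ T := le_sup_left.trans hRT
  have hTB : St G B ⊓ T = S :=
    le_antisymm (hmax2 _ (hT.to_le inf_le_right) inf_le_left) (le_inf hSB hST)
  have himg : (T.subgroupOf (N ⊓ St G t)).map φ = V4 :=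
    image_eq φ hφ2 (hT.comap_subtype) hidx
  have hTV : ∀ τ (h : τ ∈ T), φ ⟨τ, hTL h⟩ ∈ V4 := fun τ h => by
    rw [← himg]; exact ⟨⟨τ, hTL h⟩, h, rfl⟩
  have hV : ∀ g ∈ N, g ∈ St G t → g * g ∈ St G B → ∃ τ ∈ T, ∀ ω ∈ B, τ • ω = g • ω := by
    intro g h1 h2 h3
    have : φ ⟨g, h1, h2⟩ ∈ V4 := ⟨hsg _, by rw [← map_mul, hker]; exact h3⟩
    rw [← himg] at this
    obtain ⟨τ, hτ, e⟩ := this
    have h5 : (τ : G)⁻¹ * g ∈ St G B := (hker (τ⁻¹ * ⟨g, h1, h2⟩)).1 (by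
      rw [map_mul, map_inv, e, inv_mul_cancel])
    refine ⟨τ, hτ, fun ω hω => ?_⟩
    have := h5 ω hω
    rw [mul_smul, inv_smul_eq_iff] at this
    exact this.symm
  have hdbl : ∀ a b d e : Ω, D4 a b d e → B \ t = {a, b, d, e} →
      ∃ τ ∈ T, τ • a = b ∧ τ • b = a ∧ τ • d = e ∧ τ • e = d := by
    intro a b d e hD' h
    have hm : ∀ ω ∈ ({a, b, d, e} : Finset Ω), ω ∈ B ∧ ω ∉ t := fun ω hω => by
      rw [← h] at hω; exact Finset.mem_sdiff.1 hω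
    obtain ⟨a1, a2⟩ := hm a (by simp)
    obtain ⟨b1, b2⟩ := hm b (by simp)
    obtain ⟨d1, d2⟩ := hm d (by simp)
    obtain ⟨e1, e2⟩ := hm e (by simp)
    obtain ⟨g, hg, -, g1, g2, g3, g4, g5⟩ := liftV hI hA.ge a1 b1 d1 e1 hD'
    have hgt : g ∈ St G t := fun ω hω => g5 ω (htB hω) (fun x => a2 (x ▸ hω))
      (fun x => b2 (x ▸ hω)) (fun x => d2 (x ▸ hω)) (fun x => e2 (x ▸ hω))
    have hgg : g * g ∈ St G B := fun ω hω => by
      rw [mul_smul]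
      by_cases x1 : ω = a
      · rw [x1, g1, g2]
      by_cases x2 : ω = b
      · rw [x2, g2, g1]
      by_cases x3 : ω = d
      · rw [x3, g3, g4]
      by_cases x4 : ω = e
      · rw [x4, g4, g3]
      rw [g5 ω hω x1 x2 x3 x4, g5 ω hω x1 x2 x3 x4]
    obtain ⟨τ, hτ, hτg⟩ := hV g hg hgt hgg
    exact ⟨τ, hτ, (hτg a a1).trans g1, (hτg b b1).trans g2, (hτg d d1).trans g3,
      (hτg e e1).trans g4⟩
  -- the element of order three
  obtain ⟨σ, hσ, hσ3⟩ := a4_three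
  obtain ⟨c₀, hc₀⟩ : σ ∈ φ.range := by rw [hφ2]; exact hσ
  let X : Subgroup G := (V4.comap φ).map (N ⊓ St G t).subtype
  have hTX : T ≤ X := fun τ h => ⟨⟨τ, hTL h⟩, hTV τ h, rfl⟩
  have hXL : X ≤ N ⊓ St G t := Subgroup.map_subtype_le _
  have hcX : cj (c₀ : G) T ≤ X := by
    rintro _ ⟨τ, h, rfl⟩
    refine ⟨c₀ * ⟨τ, hTL h⟩ * c₀⁻¹, ?_, rfl⟩
    refine ⟨hsg _, ?_⟩
    rw [map_mul, map_mul, map_inv, conj_mul, (hTV τ h).2, mul_one, mul_inv_cancel]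
  obtain ⟨_, ⟨ξ, hξ, rfl⟩, hξT⟩ := conj_into_max Nat.prime_two hTX hT
    (fun P h1 h2 h3 => hmax P (h1.trans hXL) h2 h3) hcX (isPGroup_cj hT)
  rw [← cj_mul] at hξT
  have hgT : ((ξ * c₀ : ↥(N ⊓ St G t)) : G) ∈ Subgroup.normalizer (T : Set G) :=
    cj_eq_iff.1 (Subgroup.eq_of_le_of_card_ge hξT (card_cj _ _).ge)
  obtain ⟨g3, g1⟩ := hσ3 (φ ξ) hξ
  rw [← hc₀, ← map_mul] at g3 g1
  generalize ξ * c₀ = g at hgT g3 g1
  have hg3 : ((g ^ 3 : ↥(N ⊓ St G t)) : G) ∈ St G B := (hker _).1 (by rw [map_pow, g3])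
  have hn : ¬ 3 ∣ orderOf (g ^ 3) := fun h => hB3 (h.trans (by
    rw [← Subgroup.orderOf_coe]; exact (St G B).orderOf_dvd_natCard hg3))
  haveI : Fact (Nat.Prime 3) := ⟨Nat.prime_three⟩
  have hc1 : φ (g ^ orderOf (g ^ 3)) ≠ 1 := fun h => hn (by
    rw [map_pow, ← orderOf_dvd_iff_pow_eq_one, orderOf_eq_prime g3 g1] at h; exact h)
  have hc3 : (g ^ orderOf (g ^ 3)) ^ 3 = 1 := by
    rw [← pow_mul, mul_comm, pow_mul, pow_orderOf_eq_one]
  have hcT : ((g ^ orderOf (g ^ 3) : ↥(N ⊓ St G t)) : G) ∈ Subgroup.normalizer (T : Set G) :=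
    Subgroup.pow_mem _ hgT _
  generalize g ^ orderOf (g ^ 3) = c at hc1 hc3 hcT
  have hco : orderOf (c : G) = 3 := by
    rw [Subgroup.orderOf_coe]
    exact orderOf_eq_prime hc3 fun h => hc1 (by rw [h, map_one])
  obtain ⟨⟨i₀, hi₀⟩, hcom⟩ := a4_fix (φ c) (by rw [← map_pow, hc3, map_one]) hc1
  have hvi := Finset.mem_sdiff.1 ((hv _).2 ⟨i₀, rfl⟩)
  have hcf : ∀ τ ∈ T, Commute (c : G) τ → τ = 1 := by
    intro τ hτ hc
    have h1 : φ ⟨τ, hTL hτ⟩ = 1 := hcom _ (hTV τ hτ) (by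
      rw [← map_mul, ← map_mul]; exact congrArg φ (Subtype.ext hc.eq))
    have h2 : τ ∈ S := by rw [← hTB]; exact ⟨(hker _).1 h1, hτ⟩
    refine hfpf (insert (![p0, p1, p2, p3] i₀) t) (Finset.insert_subset hvi.1 htB)
      (by rw [Finset.card_insert_of_notMem hvi.2, ht]) c (fun ω hω => ?_)
      (fun h3 h4 => h3 (hco ▸ Subgroup.orderOf_dvd_natCard _ h4)) τ h2 hc
    rcases Finset.mem_insert.1 hω with rfl | hω
    · rw [hφ1, hi₀]
    · exact c.2.2 ω hω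
  -- the last clause
  obtain ⟨x₀, hx₀, x1, x2, x3, x4⟩ := hdbl p0 p1 p2 p3 hD hp
  obtain ⟨u1, u2, u3, h12, h13, h23, rfl⟩ := Finset.card_eq_three.1 ht
  have hm : ∀ ω ∈ ({p0, p1, p2, p3} : Finset Ω), ω ∈ B ∧ ω ≠ u1 ∧ ω ≠ u2 ∧ ω ≠ u3 := fun ω hω => by
    rw [← hp] at hω
    simpa [not_or] using hω
  obtain ⟨a0, a1, a2, a3⟩ := hm p0 (by simp)
  obtain ⟨b0, b1, b2, b3⟩ := hm p1 (by simp)
  obtain ⟨d0, d1, d2, d3⟩ := hm p2 (by simp)
  obtain ⟨e0, e1, e2, e3⟩ := hm p3 (by simp)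
  have m1 : u1 ∈ B := htB (by simp)
  have m2 : u2 ∈ B := htB (by simp)
  have m3 : u3 ∈ B := htB (by simp)
  obtain ⟨q01, q02, q03, q12, q13, q23⟩ := hD
  obtain ⟨g', hg', -, f1, f2, f3, f4, f5⟩ := liftV hI hA.ge a0 m3 m1 m2
    ⟨a3, a1, a2, h13.symm, h23.symm, h12⟩
  have f6 : g' • p1 = p1 := f5 p1 b0 q01.symm b3 b1 b2
  have f7 : g' • p2 = p2 := f5 p2 d0 q02.symm d3 d1 d2
  have f8 : g' • p3 = p3 := f5 p3 e0 q03.symm e3 e1 e2
  have y1 : x₀ • u1 = u1 := (hTL hx₀).2 u1 (by simp)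
  have y2 : x₀ • u2 = u2 := (hTL hx₀).2 u2 (by simp)
  have y3 : x₀ • u3 = u3 := (hTL hx₀).2 u3 (by simp)
  have inv : ∀ {a b : Ω}, g' • a = b → g'⁻¹ • b = a := fun h => by rw [inv_smul_eq_iff, h]
  refine ⟨T, c, x₀, g', hT, hST, hRT (Subgroup.mem_sup_right (Subgroup.mem_zpowers y)),
    hTL.trans inf_le_left, hTL.trans inf_le_right, ?_, hdbl, hco, c.2.2,
    fun h => hc1 ((hker c).2 h), c.2.1, hcT, hcf, hx₀, hg', ?_⟩
  · rw [← hTB, Subgroup.inf_relIndex_right, ← Subgroup.relIndex_subgroupOf hTL, ← hφ3,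
      Subgroup.relIndex_ker, himg, card_V4]
  · refine hfpf {u1, u2, p2, p3} (fun ω hω => ?_)
      (D4.card ⟨h12, d1.symm, e1.symm, d2.symm, e2.symm, q23⟩) _ (fun ω hω => ?_)
      fun h3 => notMem_of_cyc3 h3 (a := u3) (b := p0) (c := p1) a3.symm ?_ ?_ ?_
    · simp only [Finset.mem_insert, Finset.mem_singleton] at hω
      rcases hω with rfl | rfl | rfl | rfl <;> assumption
    · simp only [Finset.mem_insert, Finset.mem_singleton] at hω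
      rcases hω with rfl | rfl | rfl | rfl
      · simp only [mul_smul]; rw [inv f4, y2, f4, y1]
      · simp only [mul_smul]; rw [inv f3, y1, f3, y2]
      · simp only [mul_smul]; rw [inv f7, x3, f8, x4]
      · simp only [mul_smul]; rw [inv f8, x4, f7, x3]
    · simp only [mul_smul]; rw [inv f1, x1, f6, x2]
    · simp only [mul_smul]; rw [inv f2, y3, f2, x1]
    · simp only [mul_smul]; rw [inv f6, x2, f1, y3]

end CL.F4.S0
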