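import Cfsg.Agent.PERM.F4.LemE
import Cfsg.Agent.PERM.F4.Quad
import Cfsg.Agent.PERM.F4.Sev0b

/-!
S3404, Case II, blocks of size seven: local structure.  Proofs in `F4/Sev0a`, `F4/Sev0b`.
-/

set_option autoImplicit false

namespace CL.F4

open scoped Pointwise

variable {G Ω : Type*} [Group G] [Finite G] [MulAction G Ω] [Fintype Ω] [DecidableEq Ω]

/-- `S = Sy Q`, `B = Fx S`, `H = St Q ≤ N(S)`, `K = Kn Q`, `H_B = St B ≤ H` (normal in `H`),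
`B \ Q = {5,6,7}`.  Elements of `H` act on `{5,6,7}` as even permutations.
`K ≤ H_B`: `Frob.le_or_le`; if `H_B ≤ K` and some `k ∈ K` is a 3-cycle on `{5,6,7}`, then `H ≤ ⟨k⟩ H_B ≤ K`.
`c₀` from `lift3` for `(5 6 7)` is a 3-element of `H` outside `K`: `3 ∤ |K|` (`mem_of_dvd`), `3 ∣ |H|`.
`T ∋ c₀` a maximal 3-subgroup of `H` is cyclic, `= ⟨γ⟩`, `γ` a 3-cycle on `{5,6,7}`.  `τ` from `liftV` for
`(1 2)(5 6)` normalises `H` (`norm_St`); `cj τ T` is conjugate into `T` by `h ∈ H`; `s = h τ` normalises `T`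
and is a transposition on `{5,6,7}`, so `s γ s⁻¹ = γ^j` with `j ≡ 2 (mod 3)`, and `s` inverts the power
`c` of `γ` of order three.  `lemE`: `e(c) ≤ 5`, so `c ∉ H_B`.  An element of order three of `H_B` is
conjugate in `H` into `T`, so generates `⟨c⟩`: `3 ∤ |H_B|`. -/
theorem sev0 (hy : Hyp2 G Ω) {Q : Finset Ω} (hQ : Q.card = 4) (h7 : (Fx Ω (Sy G Q)).card = 7)
    (hA : (act (inv_Fx (Ω := Ω) (Sy G Q))).range = alternatingGroup (Fx Ω (Sy G Q))) :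
    ¬ 3 ∣ Nat.card (Kn G Q) ∧ 3 ∣ Nat.card (St G Q) ∧
      ¬ 3 ∣ Nat.card (St G (Fx Ω (Sy G Q))) :=
  S0.sev0 hy hQ h7 hA

/-- `L = N(S) ⊓ St t` acts on the four points `B \ t` as `A₄` with kernel `H_B` (`H_B ≤ St Q ≤ N(S)`).
`T` = a maximal 2-subgroup of `L` containing `y`; it contains the normal 2-subgroup `S`,
`T ⊓ H_B = S`.  The image of `T` in `A₄` has odd index, so is the Klein group: `|T : S| = 4` and `T`
induces all double transpositions of `B \ t`.  `X = T ⊔ H_B` = preimage of the Klein group is normal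
in `L` of order `4 |H_B|`, prime to 3.  `c₀` from `lift3` for three points of `B \ t`; `cj c₀ T ≤ X` is
conjugate to `T` in `X`, so `g = ξ c₀` (`ξ ∈ X`) normalises `T` and acts on `B \ t` as an element of `A₄`
outside the Klein group, of order 3; a power `c` of `g` with exponent prime to 3 is a 3-element, and
`c³ ∈ H_B` is trivial.  `c` fixes a 4-set `Q₀ ⊆ B` (`card_fx_mod`), `Sy Q₀ = S` (`Sy_eq`), `c ∉ Kn Q₀`
(order 3), so `c` is fixed-point-free on `S`; `τ ∈ T` commuting with `c` fixes the fixed point of `c`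
in `B \ t`, so acts trivially on `B`, `τ ∈ S`, `τ = 1`.  With `B \ t = {4,5,6,7}`, `t = {1,2,3}`:
`x₀ ∈ T` acting as `(4 5)(6 7)`, `g'` from `liftV` for `(4 3)(1 2)`: `x₀ (g' x₀ g'⁻¹)` is a 3-cycle on
`{3,4,5}`, fixes `Q₁ = {1,2,6,7}`, `notMem_of_cyc3`, `fpf`. -/
theorem sev1 (hy : Hyp2 G Ω) {Q : Finset Ω} (hQ : Q.card = 4) (h7 : (Fx Ω (Sy G Q)).card = 7)
    (hA : (act (inv_Fx (Ω := Ω) (Sy G Q))).range = alternatingGroup (Fx Ω (Sy G Q)))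
    {t : Finset Ω} (htB : t ⊆ Fx Ω (Sy G Q)) (ht : t.card = 3) {y : G}
    (hyN : y ∈ Subgroup.normalizer (Sy G Q : Set G)) (hyt : y ∈ St G t) (hy2 : Two y) :
    ∃ (T : Subgroup G) (c x₀ g : G), IsPGroup 2 T ∧ Sy G Q ≤ T ∧ y ∈ T ∧
      T ≤ Subgroup.normalizer (Sy G Q : Set G) ∧ T ≤ St G t ∧ (Sy G Q).relIndex T = 4 ∧
      (∀ a b d e : Ω, D4 a b d e → Fx Ω (Sy G Q) \ t = {a, b, d, e} →
        ∃ τ ∈ T, τ • a = b ∧ τ • b = a ∧ τ • d = e ∧ τ • e = d) ∧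
      orderOf c = 3 ∧ c ∈ St G t ∧ c ∉ St G (Fx Ω (Sy G Q)) ∧
      c ∈ Subgroup.normalizer (Sy G Q : Set G) ∧ c ∈ Subgroup.normalizer (T : Set G) ∧
      (∀ τ ∈ T, Commute c τ → τ = 1) ∧ x₀ ∈ T ∧ g ∈ Subgroup.normalizer (Sy G Q : Set G) ∧
      ∀ w ∈ Sy G Q, Commute (x₀ * (g * x₀ * g⁻¹)) w → w = 1 :=
  S0.sev1 hy hQ h7 hA htB ht hyN hyt hy2

end CL.F4
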