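import Cfsg.Agent.PERM.F4.LemE

/-!
S3404, Case II, blocks of size seven: helpers and the first half of `F4/Sev0`.
-/

set_option autoImplicit false
set_option linter.unusedSimpArgs false
set_option linter.style.haveILetI false

namespace CL.F4.S0

open scoped Pointwise

variable {G Ω : Type*} [Group G] [MulAction G Ω] [DecidableEq Ω]

omit [DecidableEq Ω] in
theorem conj_St {N : Subgroup G} {F : Finset Ω} (h : Inv N F) {g m : G} (hg : g ∈ N)
    (hm : m ∈ St G F) : g * m * g⁻¹ ∈ St G F := by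
  intro ω hω
  rw [mul_smul, mul_smul, hm _ (h _ (N.inv_mem hg) ω hω), smul_inv_smul]

theorem maps {N : Subgroup G} {F Q : Finset Ω} (h : Inv N F) {g : G} (hg : g ∈ N)
    (hgQ : g ∈ St G Q) {ω : Ω} (hω : ω ∈ F \ Q) : g • ω ∈ F \ Q := by
  rw [Finset.mem_sdiff] at hω ⊢
  refine ⟨h g hg ω hω.1, fun hq => hω.2 ?_⟩
  have := hgQ _ hq
  rw [smul_left_cancel_iff] at this
  rwa [this] at hq

theorem mem_St3 {F Q : Finset Ω} {x y z : Ω} (hF : F \ Q = {x, y, z}) {g : G} (hgQ : g ∈ St G Q)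
    (hx : g • x = x) (hy : g • y = y) (hz : g • z = z) : g ∈ St G F := by
  intro ω hω
  by_cases hq : ω ∈ Q
  · exact hgQ ω hq
  · have : ω ∈ F \ Q := Finset.mem_sdiff.2 ⟨hω, hq⟩
    rw [hF] at this
    simp only [Finset.mem_insert, Finset.mem_singleton] at this
    rcases this with rfl | rfl | rfl <;> assumption

/-- an even permutation of three points -/
theorem tri [Finite G] [Fintype Ω] {N : Subgroup G} {F Q : Finset Ω} (h : Inv N F)
    (hA : (act h).range ≤ alternatingGroup F) {x y z : Ω} (hxy : x ≠ y) (hxz : x ≠ z)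
    (hyz : y ≠ z) (hF : F \ Q = {x, y, z}) {g : G} (hg : g ∈ N) (hgQ : g ∈ St G Q) :
    g ∈ St G F ∨ (g • x = y ∧ g • y = z ∧ g • z = x) ∨ (g • x = z ∧ g • y = x ∧ g • z = y) := by
  have key : g • g • x = x → g • g • y = y → g • g • z = z → g ∈ St G F := by
    intro h1 h2 h3
    have h4 := four_dvd h hA hg (mem_St3 hF ((St G Q).mul_mem hgQ hgQ) (by rwa [mul_smul])
      (by rwa [mul_smul]) (by rwa [mul_smul]))
    have h5 : F \ fx Ω g ⊆ F \ Q := Finset.sdiff_subset_sdiff (Finset.Subset.refl _)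
      (mem_St_iff.1 hgQ)
    have h6 : (F \ Q).card ≤ 3 := by rw [hF]; exact Finset.card_le_three
    have h7 := Finset.card_le_card h5
    have h8 : (F \ fx Ω g).card = 0 := by omega
    rw [Finset.card_eq_zero, Finset.sdiff_eq_empty_iff_subset] at h8
    exact mem_St_iff.2 h8
  have hm : ∀ ω ∈ ({x, y, z} : Finset Ω), g • ω = x ∨ g • ω = y ∨ g • ω = z := by
    intro ω hω
    rw [← hF] at hω
    have := maps h hg hgQ hω
    rw [hF] at this
    simpa using this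
  have i1 : g • x ≠ g • y := fun e => hxy (smul_left_cancel g e)
  have i2 : g • x ≠ g • z := fun e => hxz (smul_left_cancel g e)
  have i3 : g • y ≠ g • z := fun e => hyz (smul_left_cancel g e)
  rcases hm x (by simp) with a | a | a <;> rcases hm y (by simp) with b | b | b <;>
    rcases hm z (by simp) with c | c | c <;>
    first
    | exact absurd (a.trans b.symm) i1
    | exact absurd (a.trans c.symm) i2
    | exact absurd (b.trans c.symm) i3
    | exact Or.inr (Or.inl ⟨a, b, c⟩)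
    | exact Or.inr (Or.inr ⟨a, b, c⟩)
    | exact Or.inl (key (by simp only [a, b, c]) (by simp only [a, b, c]) (by simp only [a, b, c]))

theorem sev0 [Finite G] [Fintype Ω] (hy : Hyp2 G Ω) {Q : Finset Ω} (hQ : Q.card = 4)
    (h7 : (Fx Ω (Sy G Q)).card = 7)
    (hA : (act (inv_Fx (Ω := Ω) (Sy G Q))).range = alternatingGroup (Fx Ω (Sy G Q))) :
    ¬ 3 ∣ Nat.card (Kn G Q) ∧ 3 ∣ Nat.card (St G Q) ∧
      ¬ 3 ∣ Nat.card (St G (Fx Ω (Sy G Q))) := by
  have hI := inv_Fx (Ω := Ω) (Sy G Q)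
  have hF := hy.frob Q hQ
  have hQB : Q ⊆ Fx Ω (Sy G Q) := sub_Fx_Sy Q
  have hHN : St G Q ≤ Subgroup.normalizer (Sy G Q : Set G) :=
    fun g hg => norm_Sy (smul_eq_of_mem_St hg)
  set B := Fx Ω (Sy G Q) with hB
  set N := Subgroup.normalizer (Sy G Q : Set G) with hN
  have hBH : St G B ≤ St G Q := St_mono hQB
  have h3 : (B \ Q).card = 3 := by rw [Finset.card_sdiff_of_subset hQB, h7, hQ]
  obtain ⟨x, y, z, hxy, hxz, hyz, hxyz⟩ := Finset.card_eq_three.1 h3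
  have hm : ∀ ω ∈ ({x, y, z} : Finset Ω), ω ∈ B ∧ ω ∉ Q := fun ω hω => by
    rw [← hxyz] at hω; exact Finset.mem_sdiff.1 hω
  obtain ⟨hxB, hxQ⟩ := hm x (by simp)
  obtain ⟨hyB, hyQ⟩ := hm y (by simp)
  obtain ⟨hzB, hzQ⟩ := hm z (by simp)
  have htri : ∀ g ∈ St G Q, g ∈ St G B ∨ (g • x = y ∧ g • y = z ∧ g • z = x) ∨
      (g • x = z ∧ g • y = x ∧ g • z = y) := fun g hg =>
    tri hI hA.le hxy hxz hyz hxyz (hHN hg) hg
  obtain ⟨c₀, -, ⟨j₀, hj₀⟩, c1, c2, c3, c4⟩ := lift3 hI hA.ge hxB hyB hzB hxy hxz hyz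
  have hcH : c₀ ∈ St G Q := fun ω hω => c4 ω (hQB hω) (fun e => hxQ (e ▸ hω))
    (fun e => hyQ (e ▸ hω)) (fun e => hzQ (e ▸ hω))
  have hcB : c₀ ∉ St G B := fun h => hxy ((h x hxB).symm.trans c1)
  have hK : ¬ 3 ∣ Nat.card (Kn G Q) := by
    intro hd
    have hcK := hF.mem_of_dvd Nat.prime_three hd hcH hj₀
    rcases hF.le_or_le hBH (fun h hh m hm => conj_St hI (hHN hh) hm) with hl | hl
    · refine hF.ne (le_antisymm hF.le fun g hg => ?_)
      rcases htri g hg with h1 | ⟨a, b, c⟩ | ⟨a, b, c⟩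
      · exact hl h1
      · have : c₀ * c₀ * g ∈ St G B := mem_St3 hxyz
          ((St G Q).mul_mem ((St G Q).mul_mem hcH hcH) hg)
          (by simp only [mul_smul, a, b, c, c1, c2, c3]) (by simp only [mul_smul, a, b, c, c1, c2, c3])
          (by simp only [mul_smul, a, b, c, c1, c2, c3])
        exact ((Kn G Q).mul_mem_cancel_left ((Kn G Q).mul_mem hcK hcK)).1 (hl this)
      · have : c₀ * g ∈ St G B := mem_St3 hxyz ((St G Q).mul_mem hcH hg)
          (by simp only [mul_smul, a, b, c, c1, c2, c3]) (by simp only [mul_smul, a, b, c, c1, c2, c3])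
          (by simp only [mul_smul, a, b, c, c1, c2, c3])
        exact ((Kn G Q).mul_mem_cancel_left hcK).1 (hl this)
    · exact hcB (hl hcK)
  have hc1 : c₀ ≠ 1 := fun e => hcB (e ▸ (St G B).one_mem)
  refine ⟨hK, ?_, fun hd => ?_⟩
  · obtain ⟨j, hj⟩ := exists_pow_prime Nat.prime_three hj₀ hc1
    rw [← hj]
    exact (St G Q).orderOf_dvd_natCard ((St G Q).pow_mem hcH j)
  haveI : Fact (Nat.Prime 3) := ⟨Nat.prime_three⟩
  obtain ⟨d, hdo⟩ := exists_prime_orderOf_dvd_card' 3 hd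
  have hdo' : orderOf (d : G) = 3 := by rw [Subgroup.orderOf_coe, hdo]
  have pz : ∀ {g : G} {k : ℕ}, g ^ 3 ^ k = 1 → IsPGroup 3 (Subgroup.zpowers g) := by
    intro g k hg
    obtain ⟨m, -, hm⟩ := (Nat.dvd_prime_pow Nat.prime_three).1 (orderOf_dvd_of_pow_eq_one hg)
    exact IsPGroup.of_card (by rw [Nat.card_zpowers, hm])
  obtain ⟨T, hcT, hTH, hT, hmax, -⟩ := exists_max_pgroup Nat.prime_three
    ((Subgroup.zpowers_le).2 hcH) (pz hj₀)
  have hcyc := hF.cyclic Nat.prime_three (by norm_num) hK hTH hT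
  obtain ⟨γ, hγ⟩ := hcyc.exists_monoid_generator
  have hγ' : ∀ t ∈ T, ∃ n : ℕ, (γ : G) ^ n = t := fun t ht => by
    obtain ⟨n, hn⟩ := hγ ⟨t, ht⟩
    exact ⟨n, by simpa using congrArg Subtype.val hn⟩
  have hγB : (γ : G) ∉ St G B := fun h => by
    obtain ⟨n, hn⟩ := hγ' c₀ (hcT (Subgroup.mem_zpowers c₀))
    exact hcB (hn ▸ (St G B).pow_mem h n)
  obtain ⟨a, b, c, e, hD, rfl⟩ := exists_D4 hQ
  obtain ⟨hab, hac, hae, hbc, hbe, hce⟩ := hD
  have haB : a ∈ B := hQB (by simp)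
  have hbB : b ∈ B := hQB (by simp)
  simp only [Finset.mem_insert, Finset.mem_singleton, not_or] at hxQ hyQ hzQ
  obtain ⟨τ, hτN, -, t1, t2, t3, t4, t5⟩ := liftV hI hA.ge haB hbB hxB hyB
    ⟨hab, Ne.symm hxQ.1, Ne.symm hyQ.1, Ne.symm hxQ.2.1, Ne.symm hyQ.2.1, hxy⟩
  have tz : τ • z = z := t5 z hzB hzQ.1 hzQ.2.1 hxz.symm hyz.symm
  have hτH : τ ∈ Subgroup.normalizer (St G ({a, b, c, e} : Finset Ω) : Set G) := by
    refine norm_St (smul_eq_of_maps fun ω hω => ?_)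
    have hωB := hQB hω
    simp only [Finset.mem_insert, Finset.mem_singleton] at hω ⊢
    rcases hω with rfl | rfl | rfl | rfl
    · simp [t1]
    · simp [t2]
    · rw [t5 _ hωB hac.symm hbc.symm (Ne.symm hxQ.2.2.1) (Ne.symm hyQ.2.2.1)]; simp
    · rw [t5 _ hωB hae.symm hbe.symm (Ne.symm hxQ.2.2.2) (Ne.symm hyQ.2.2.2)]; simp
  have hτT : cj τ T ≤ St G ({a, b, c, e} : Finset Ω) := by
    rw [← cj_eq_iff.2 hτH]; exact cj_mono hTH
  obtain ⟨h, hh, hhT⟩ := conj_into_max Nat.prime_three hTH hT hmax hτT (isPGroup_cj hT)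
  rw [← cj_mul] at hhT
  obtain ⟨j, hj⟩ := hγ' _ (hhT (conj_mem_cj.2 γ.2))
  obtain ⟨h', hh', hh'T⟩ := conj_into_max Nat.prime_three hTH hT hmax
    ((Subgroup.zpowers_le).2 (hBH d.2)) (pz (k := 1) (by rw [pow_one, ← hdo', pow_orderOf_eq_one]))
  have huT : h' * d * h'⁻¹ ∈ T := hh'T (conj_mem_cj.2 (Subgroup.mem_zpowers _))
  have huB : h' * d * h'⁻¹ ∈ St G B := conj_St hI (hHN hh') d.2
  have huo : orderOf (h' * d * h'⁻¹) = 3 := by
    rw [← hdo']; exact orderOf_injective (MulAut.conj h').toMonoidHom (MulAut.conj h').injective _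
  obtain ⟨m, hm'⟩ := hγ' _ huT
  generalize h' * d * h'⁻¹ = u at huT huB huo hm'
  have hu3 : u ^ 3 = 1 := by rw [← huo, pow_orderOf_eq_one]
  have hsu : h * τ * u * (h * τ)⁻¹ = u ^ (j % 3) := by
    rw [← huo, pow_mod_orderOf, ← hm', ← pow_mul, mul_comm m j, pow_mul, hj, conj_pow]
  have hj3 : j % 3 = 0 ∨ j % 3 = 1 ∨ j % 3 = 2 := by omega
  rcases hj3 with h0 | h1 | h2
  · rw [h0, pow_zero, conj_eq_one_iff] at hsu
    rw [hsu, orderOf_one] at huo
    omega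
  · have hγ3 : (γ : G) ^ 3 ∈ St G B := by
      refine mem_St3 hxyz ((St G _).pow_mem (hTH γ.2) 3) ?_ ?_ ?_ <;>
      rcases htri γ (hTH γ.2) with g0 | ⟨g1, g2, g3⟩ | ⟨g1, g2, g3⟩ <;>
      first
      | exact absurd g0 hγB
      | simp only [pow_succ, pow_zero, one_mul, mul_smul, g1, g2, g3]
    have e1 : h * τ * γ = γ * ((γ : G) ^ 3) ^ (j / 3) * (h * τ) := by
      rw [← pow_mul, ← pow_succ', show 3 * (j / 3) + 1 = j by omega, hj]; group
    have e2 := congrArg (· • z) e1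
    simp only [mul_smul, tz] at e2
    rw [(St G B).pow_mem hγ3 (j / 3) _ (hI h (hHN hh) z hzB)] at e2
    rcases htri γ (hTH γ.2) with g0 | ⟨g1, g2, g3⟩ | ⟨g1, g2, g3⟩
    · exact hγB g0
    · rcases htri h hh with f0 | ⟨f1, f2, f3⟩ | ⟨f1, f2, f3⟩
      · rw [g3, t3, f0 y hyB, f0 z hzB, g3] at e2; exact hxy e2.symm
      · rw [g3, t3, f2, f3, g1] at e2; exact hyz e2.symm
      · rw [g3, t3, f2, f3, g2] at e2; exact hxz e2
    · rcases htri h hh with f0 | ⟨f1, f2, f3⟩ | ⟨f1, f2, f3⟩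
      · rw [g3, t4, f0 x hxB, f0 z hzB, g3] at e2; exact hxy e2
      · rw [g3, t4, f1, f3, g1] at e2; exact hyz e2
      · rw [g3, t4, f1, f3, g2] at e2; exact hxz e2.symm
  · have huK : u ∉ Kn G ({a, b, c, e} : Finset Ω) := fun hk =>
      hK (huo ▸ (Kn G _).orderOf_dvd_natCard hk)
    have hE := (lemE hy Nat.prime_three huo hQ (hBH huB) huK).2.1 ⟨h * τ, by
      rw [hsu, h2, eq_inv_iff_mul_eq_one, ← pow_succ, hu3]⟩
    have := Finset.card_le_card (mem_St_iff.1 huB)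
    omega

end CL.F4.S0
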