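import Cfsg.Agent.PERM.F4.Sev0
import Cfsg.Agent.PERM.F4.Semi

/-!
S3404, Case II, blocks of size seven: `sev1` and `quad` packaged.
-/

set_option autoImplicit false

namespace CL.F4

open scoped Pointwise

variable {G Ω : Type*} [Group G] [Finite G] [MulAction G Ω] [Fintype Ω] [DecidableEq Ω]

variable (Ω) in
/-- the data of `sev1` together with the conclusions of `quad` -/
structure Pk (Q t : Finset Ω) (T : Subgroup G) (c : G) : Prop where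
  pT : IsPGroup 2 T
  ST : Sy G Q ≤ T
  TN : T ≤ Subgroup.normalizer (Sy G Q : Set G)
  Tt : T ≤ St G t
  idx : (Sy G Q).relIndex T = 4
  V : ∀ a b d e : Ω, D4 a b d e → Fx Ω (Sy G Q) \ t = {a, b, d, e} →
    ∃ τ ∈ T, τ • a = b ∧ τ • b = a ∧ τ • d = e ∧ τ • e = d
  c3 : orderOf c = 3
  ct : c ∈ St G t
  cB : c ∉ St G (Fx Ω (Sy G Q))
  cS : c ∈ Subgroup.normalizer (Sy G Q : Set G)
  cT : c ∈ Subgroup.normalizer (T : Set G)
  ab : ∀ a ∈ Sy G Q, ∀ b ∈ Sy G Q, Commute a b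
  ex : ∀ a ∈ Sy G Q, a * a = 1
  cz : ∀ x ∈ T, x ∉ Sy G Q → ∀ a ∈ Sy G Q, Commute x a → ∀ τ ∈ T, Commute τ a
  cardS : Nat.card (Sy G Q) = Nat.card ↥(Sy G Q ⊓ Subgroup.centralizer (T : Set G)) ^ 2
  comm : ∀ x ∈ T, ∀ a ∈ Sy G Q, x * a * x⁻¹ * a⁻¹ ∈ Sy G Q ⊓ Subgroup.centralizer (T : Set G)
  four : 4 ∣ Nat.card ↥(Sy G Q ⊓ Subgroup.centralizer (T : Set G))

theorem pack (hy : Hyp2 G Ω) {Q : Finset Ω} (hQ : Q.card = 4) (h7 : (Fx Ω (Sy G Q)).card = 7)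
    (hA : (act (inv_Fx (Ω := Ω) (Sy G Q))).range = alternatingGroup (Fx Ω (Sy G Q)))
    {t : Finset Ω} (htB : t ⊆ Fx Ω (Sy G Q)) (ht : t.card = 3) {y : G}
    (hyN : y ∈ Subgroup.normalizer (Sy G Q : Set G)) (hyt : y ∈ St G t) (hy2 : Two y) :
    ∃ (T : Subgroup G) (c : G), y ∈ T ∧ Pk Ω Q t T c := by
  obtain ⟨T, c, x₀, g, pT, ST, yT, TN, Tt, idx, V, c3, ct, cB, cS, cT, cf, hx₀, hg, hd⟩ :=
    sev1 hy hQ h7 hA htB ht hyN hyt hy2
  have hc3 : c ^ 3 = 1 := by rw [← c3]; exact pow_orderOf_eq_one c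
  obtain ⟨ab, ex, cz, cardS, comm, -⟩ := quad pT ST idx TN hc3 cT cS cf hx₀ hg hd
  refine ⟨T, c, yT, pT, ST, TN, Tt, idx, V, c3, ct, cB, cS, cT, ab, ex, cz, cardS, comm, ?_⟩
  set Z := Sy G Q ⊓ Subgroup.centralizer (T : Set G) with hZ
  have hn : ∀ a ∈ Z, c * a * c⁻¹ ∈ Z := by
    intro a ha
    refine ⟨(Subgroup.mem_normalizer_iff.1 cS a).1 ha.1, ?_⟩
    refine Subgroup.mem_centralizer_iff.2 fun τ hτ => ?_
    have h1 : c⁻¹ * τ * c ∈ T := by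
      rw [Subgroup.mem_normalizer_iff.1 cT]; simpa [mul_assoc] using hτ
    have h2 := Subgroup.mem_centralizer_iff.1 ha.2 _ h1
    calc τ * (c * a * c⁻¹) = c * (c⁻¹ * τ * c * a) * c⁻¹ := by group
      _ = c * (a * (c⁻¹ * τ * c)) * c⁻¹ := by rw [h2]
      _ = c * a * c⁻¹ * τ := by group
  have hm := card_cent_mod (k := 1) Nat.prime_three (by simpa using hc3) hn
  have hb : Z ⊓ Subgroup.centralizer ({c} : Set G) = ⊥ := by
    rw [eq_bot_iff]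
    intro a ha
    exact cf a (ST ha.1.1) (Subgroup.mem_centralizer_singleton_iff.1 ha.2).symm
  rw [hb, Subgroup.card_bot] at hm
  have hZ2 : IsPGroup 2 Z := (hy.pg hQ).to_le inf_le_left
  obtain ⟨j, hj⟩ := (IsPGroup.iff_card (p := 2)).1 hZ2
  have h1 : Nat.card Z ≠ 1 := by
    intro h
    rw [h] at cardS
    exact hy.Sy_ne_bot hQ (Subgroup.eq_bot_of_card_eq _ (by simpa using cardS))
  rw [hj] at hm h1 ⊢
  match j, hm, h1 with
  | 0, _, h1 => exact absurd rfl h1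
  | 1, hm, _ => exact absurd hm (by decide)
  | j + 2, _, _ => exact ⟨2 ^ j, by ring⟩

theorem pack₀ (hy : Hyp2 G Ω) {Q : Finset Ω} (hQ : Q.card = 4) (h7 : (Fx Ω (Sy G Q)).card = 7)
    (hA : (act (inv_Fx (Ω := Ω) (Sy G Q))).range = alternatingGroup (Fx Ω (Sy G Q))) :
    ∃ (t : Finset Ω) (T : Subgroup G) (c : G), Pk Ω Q t T c := by
  obtain ⟨t, htB, ht⟩ := Finset.exists_subset_card_eq
    (show 3 ≤ (Fx Ω (Sy G Q)).card by omega)
  obtain ⟨T, c, -, h⟩ := pack hy hQ h7 hA htB ht (one_mem _) (one_mem _) ⟨0, by simp⟩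
  exact ⟨t, T, c, h⟩

/-- an element mapping `Q` into the block normalises `Sy Q` -/
theorem norm_of_sub (hy : Hyp2 G Ω) {Q : Finset Ω} (hQ : Q.card = 4) {ρ : G}
    (h : ∀ ω ∈ Q, ρ • ω ∈ Fx Ω (Sy G Q)) : ρ ∈ Subgroup.normalizer (Sy G Q : Set G) := by
  rw [← cj_eq_iff, ← Sy_smul]
  refine hy.Sy_eq hQ (by rw [Finset.card_smul_finset, hQ]) fun ω hω => ?_
  obtain ⟨y, hy', rfl⟩ := Finset.mem_smul_finset.1 hω
  exact h y hy'

end CL.F4
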