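import Cfsg.Agent.PERM.F4.Sev2
import Cfsg.Agent.PERM.F4.Blk
import Cfsg.Agent.S0413
import Cfsg.Agent.S1664

/-!
S3404, Case II, blocks of size seven: `M₂₃`.
-/

set_option autoImplicit false

namespace CL.F4

open scoped Pointwise

variable {G Ω : Type*} [Group G] [Finite G] [MulAction G Ω] [Fintype Ω] [DecidableEq Ω]

/-- `Sy Q ≠ ⊥` is faithful, so `7 < |Ω|`; `exists_pmax` from `⊥` and `sev2`: `PMax Ω 7 ⊥`, `|Ω| = 23`.
`sev1` + `quad` (with `y = 1`): `|Sy Q| = q²`, `q ≡ 1 (mod 3)`, `q > 1`, a power of two: `16 ∣ |St Q|`;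
`sev0`: `3 ∣ |St Q|`; `Tr4.card`: `|G| ≥ 23 · 22 · 21 · 20 · 48 = 10200960`.  The blocks
`{Fx (Sy Q) | Q.card = 4}` form an `S(4,7,23)` (`Sy_eq`) preserved by `G` (`Sy_smul`, `Fx_cj`), so
`MulAction.toPermHom` maps `G` injectively into `Cfsg.setSystemAut`, of order 10200960 (S0413): an
isomorphism; S1664. -/
theorem sev3 [FaithfulSMul G Ω] (hy : Hyp2 G Ω)
    (h7 : ∀ Q : Finset Ω, Q.card = 4 → (Fx Ω (Sy G Q)).card = 7 ∧
      (act (inv_Fx (Ω := Ω) (Sy G Q))).range = alternatingGroup (Fx Ω (Sy G Q)))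
    (h23 : ∀ P : Subgroup G, PMax Ω 7 P → (Fx Ω P).card = 23) :
    Fintype.card Ω = 23 ∧ Cfsg.Spor.IsoM23 G := by
  obtain ⟨Q, -, hQ⟩ := Finset.exists_subset_card_eq
    (show 4 ≤ (Finset.univ : Finset Ω).card by rw [Finset.card_univ]; exact hy.four)
  have hu : Fx Ω (⊥ : Subgroup G) = Finset.univ := by ext ω; simp
  have hne : Fx Ω (Sy G Q) ≠ Finset.univ := by
    intro h
    apply hy.Sy_ne_bot hQ
    rw [eq_bot_iff]
    intro g hg
    apply eq_of_smul_eq_smul (α := Ω)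
    intro ω
    rw [one_smul]
    exact mem_Fx.1 (h ▸ Finset.mem_univ ω) g hg
  have h8 : 7 < (Fx Ω (⊥ : Subgroup G)).card := by
    rw [hu, ← (h7 Q hQ).1]
    exact Finset.card_lt_card (Finset.ssubset_univ_iff.2 hne)
  obtain ⟨P, hP, -⟩ := exists_pmax IsPGroup.of_bot h8
  have hb := sev2 hy h7 hP (h23 P hP)
  have hn : Fintype.card Ω = 23 := by rw [← h23 P hP, hb, hu, Finset.card_univ]
  refine ⟨hn, ?_⟩
  obtain ⟨t, T, c, hT⟩ := pack₀ hy hQ (h7 Q hQ).1 (h7 Q hQ).2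
  have h16 : 16 ∣ Nat.card (St G Q) := by
    refine Dvd.dvd.trans ?_ (Subgroup.card_dvd_of_le (Sy_le Q))
    rw [hT.cardS]
    exact pow_dvd_pow_of_dvd hT.four 2
  have h3 : 3 ∣ Nat.card (St G Q) := (sev0 hy hQ (h7 Q hQ).1 (h7 Q hQ).2).2.1
  have h48 : 48 ≤ Nat.card (St G Q) :=
    Nat.le_of_dvd Nat.card_pos (Nat.Coprime.mul_dvd_of_dvd_of_dvd (by norm_num) h16 h3)
  have hc := hy.tr.card (fun _ _ _ _ => Finset.mem_univ _) (Finset.subset_univ Q) hQ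
  rw [top_inf_eq, Subgroup.card_top, Finset.card_univ, hn] at hc
  let B : Set (Finset Ω) := {b | ∃ Q : Finset Ω, Q.card = 4 ∧ b = Fx Ω (Sy G Q)}
  have hB : Cfsg.IsSteinerSystem 4 7 B := by
    refine ⟨?_, fun s hs => ⟨Fx Ω (Sy G s), ⟨⟨s, hs, rfl⟩, sub_Fx_Sy s⟩, ?_⟩⟩
    · rintro b ⟨Q', hQ', rfl⟩
      exact (h7 Q' hQ').1
    · rintro b ⟨⟨Q', hQ', rfl⟩, hsub⟩
      rw [hy.Sy_eq hQ' hs hsub]
  obtain ⟨hM, -⟩ := Cfsg.Agent.S0413.result hn hB
  have hsm : ∀ (g : G) (b : Finset Ω), MulAction.toPermHom G Ω g • b = g • b := fun g b => rfl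
  have hmem : ∀ (g : G), ∀ b ∈ B, g • b ∈ B := by
    rintro g b ⟨Q', hQ', rfl⟩
    exact ⟨g • Q', by rw [Finset.card_smul_finset, hQ'], by rw [Sy_smul, Fx_cj]⟩
  have hin : ∀ g : G, MulAction.toPermHom G Ω g ∈ Cfsg.setSystemAut B := by
    intro g
    rw [MulAction.mem_stabilizer_iff]
    ext b
    constructor
    · rintro ⟨b', hb', rfl⟩
      exact hmem g b' hb'
    · intro hb'
      refine ⟨g⁻¹ • b, hmem _ _ hb', ?_⟩
      change MulAction.toPermHom G Ω g • g⁻¹ • b = b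
      rw [hsm, smul_inv_smul]
  let φ : G →* Cfsg.setSystemAut B := (MulAction.toPermHom G Ω).codRestrict _ hin
  have hinj : Function.Injective φ := fun a b h =>
    MulAction.toPerm_injective (β := Ω) (congrArg Subtype.val h)
  have hbij : Function.Bijective φ :=
    hinj.bijective_of_nat_card_le (by rw [hM.2, hc]; omega)
  obtain ⟨e⟩ := Cfsg.Agent.S1664.result hM
  exact ⟨(MulEquiv.ofBijective φ hbij).trans e⟩

end CL.F4
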